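import Mathlib
import Cfsg.Agent.H27.Layer

/-!
# Groups generated by 3-cycles and quasisimple normal subgroups (helper54)
-/

set_option autoImplicit false

namespace Cfsg.Agent.H54.TC

open Equiv Equiv.Perm
open scoped commutatorElement

section quasi

variable {G : Type*} [Group G]

/-- A quasisimple subgroup is perfect. -/
theorem qs_perfect {L : Subgroup G} (hL : Cfsg.IsQuasisimple ↥L) : ⁅L, L⁆ = L := by
  have h1 : commutator ↥L = ⊤ := hL.1.commutator_eq_top
  apply le_antisymm (Cfsg.Agent.H27.commutator_self_le L)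
  intro l hl
  have h2 : (⟨l, hl⟩ : ↥L) ∈ commutator ↥L := by rw [h1]; trivial
  rw [commutator_def] at h2
  have h3 : (⁅(⊤ : Subgroup ↥L), (⊤ : Subgroup ↥L)⁆).map L.subtype ≤ ⁅L, L⁆ := by
    rw [Subgroup.map_commutator]
    exact Subgroup.commutator_mono (Subgroup.map_subtype_le _) (Subgroup.map_subtype_le _)
  exact h3 ⟨⟨l, hl⟩, h2, rfl⟩

/-- A subgroup of a quasisimple subgroup `L` normalized by `L` is central in `L` or all of `L`. -/
theorem qs_normal {L : Subgroup G} (hL : Cfsg.IsQuasisimple ↥L) (M : Subgroup G) (hML : M ≤ L)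
    (hn : ∀ l ∈ L, ∀ m ∈ M, l * m * l⁻¹ ∈ M) :
    (∀ m ∈ M, ∀ l ∈ L, m * l = l * m) ∨ M = L := by
  have : (M.subgroupOf L).Normal := by
    constructor
    intro m hm l
    rw [Subgroup.mem_subgroupOf] at hm ⊢
    exact hn l l.2 m hm
  rcases Cfsg.Agent.H27.quasisimple_normal hL (M.subgroupOf L) with h | h
  · left
    intro m hm l hl
    have h1 : (⟨m, hML hm⟩ : ↥L) ∈ Subgroup.center ↥L := h (Subgroup.mem_subgroupOf.mpr hm)
    have h2 := Subgroup.mem_center_iff.mp h1 ⟨l, hl⟩
    exact (congrArg Subtype.val h2).symm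
  · right
    apply le_antisymm hML
    intro l hl
    have : (⟨l, hl⟩ : ↥L) ∈ M.subgroupOf L := by rw [h]; trivial
    exact Subgroup.mem_subgroupOf.mp this

/-- If `x` normalizes a quasisimple `L` and all commutators `[x, l]` are central in `L`, then `x`
centralizes `L`. -/
theorem qs_central {L : Subgroup G} (hL : Cfsg.IsQuasisimple ↥L) (x : G)
    (hx : ∀ l ∈ L, x * l * x⁻¹ ∈ L)
    (hc : ∀ l ∈ L, ∀ l' ∈ L, ⁅x, l⁆ * l' = l' * ⁅x, l⁆) : ∀ l ∈ L, x * l = l * x := by
  have hmem : ∀ l ∈ L, ⁅x, l⁆ ∈ L := by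
    intro l hl
    rw [commutatorElement_def]
    exact L.mul_mem (hx l hl) (L.inv_mem hl)
  have hconj : ∀ l ∈ L, x * l * x⁻¹ = l * ⁅x, l⁆ := by
    intro l hl
    rw [← hc l hl l hl, commutatorElement_def]
    group
  have hle : ⁅L, L⁆ ≤ Subgroup.centralizer ({x} : Set G) := by
    rw [Subgroup.commutator_le]
    intro a ha b hb
    rw [Subgroup.mem_centralizer_iff]
    intro y hy
    rw [Set.mem_singleton_iff] at hy
    subst hy
    have h1 : y * ⁅a, b⁆ * y⁻¹ = ⁅y * a * y⁻¹, y * b * y⁻¹⁆ := by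
      simp only [commutatorElement_def]; group
    have h2 : ⁅a * ⁅y, a⁆, b * ⁅y, b⁆⁆ = ⁅a, b⁆ := by
      rw [Cfsg.Agent.H27.commElem_mul_left_of_comm a (b * ⁅y, b⁆) ⁅y, a⁆
        (hc a ha _ (L.mul_mem hb (hmem b hb))),
        Cfsg.Agent.H27.commElem_mul_right_of_comm a b ⁅y, b⁆ (hc b hb a ha)]
    rw [hconj a ha, hconj b hb, h2] at h1
    calc y * ⁅a, b⁆ = y * ⁅a, b⁆ * y⁻¹ * y := by group
      _ = ⁅a, b⁆ * y := by rw [h1]
  rw [qs_perfect hL] at hle
  intro l hl
  have := Subgroup.mem_centralizer_iff.mp (hle hl) x rfl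
  exact this

end quasi

section perm

variable {α : Type*} [Fintype α] [DecidableEq α]

theorem three_cube {c : Perm α} (hc : c.IsThreeCycle) (x : α) : c (c (c x)) = x := by
  have h3 : c ^ 3 = 1 := by rw [← hc.orderOf]; exact pow_orderOf_eq_one c
  have h := congrArg (fun f : Perm α => f x) h3
  simpa [pow_succ, Perm.mul_apply] using h

/-- The support of a 3-cycle is `{x, c x, c (c x)}` for any moved point `x`. -/
theorem three_support {c : Perm α} (hc : c.IsThreeCycle) {x : α} (hx : c x ≠ x) {y : α}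
    (hy : c y ≠ y) : y = x ∨ y = c x ∨ y = c (c x) := by
  have h3 : c.support.card = 3 := hc.card_support
  have hcube := three_cube hc x
  have h01 : x ≠ c x := fun h => hx h.symm
  have h12 : c x ≠ c (c x) := fun h => hx (c.injective h.symm)
  have h02 : x ≠ c (c x) := by
    intro h
    apply hx
    have : c x = c (c (c x)) := congrArg c h
    rw [hcube] at this
    exact this
  have hsub : ({x, c x, c (c x)} : Finset α) ⊆ c.support := by
    intro t ht
    simp only [Finset.mem_insert, Finset.mem_singleton] at ht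
    rw [Perm.mem_support]
    rcases ht with rfl | rfl | rfl
    · exact hx
    · exact fun h => hx (c.injective h)
    · exact fun h => hx (c.injective (c.injective h))
  have hcard : ({x, c x, c (c x)} : Finset α).card = 3 := by
    rw [Finset.card_insert_of_notMem, Finset.card_insert_of_notMem, Finset.card_singleton]
    · simpa using h12
    · simp only [Finset.mem_insert, Finset.mem_singleton, not_or]
      exact ⟨h01, h02⟩
  have heq := Finset.eq_of_subset_of_card_le hsub (by rw [h3, hcard])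
  have hy' : y ∈ c.support := Perm.mem_support.mpr hy
  rw [← heq] at hy'
  simpa using hy'

theorem three_conj {c : Perm α} (hc : c.IsThreeCycle) (g : Perm α) : (g * c * g⁻¹).IsThreeCycle := by
  unfold Perm.IsThreeCycle at hc ⊢
  rw [Perm.cycleType_conj]
  exact hc

theorem three_ne_one {c : Perm α} (hc : c.IsThreeCycle) : ∃ x, c x ≠ x := by
  have h3 : c.support.card = 3 := hc.card_support
  have : c.support.Nonempty := by
    rw [← Finset.card_pos, h3]; norm_num
  obtain ⟨x, hx⟩ := this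
  exact ⟨x, Perm.mem_support.mp hx⟩

end perm

/-- A subgroup `M` containing an element `c₀` that does not centralize the quasisimple `L`,
normalized by `L` and with `c₀` normalizing `L`, contains `L`. -/
theorem le_of_noncentral {G : Type*} [Group G] {L : Subgroup G} (hL : Cfsg.IsQuasisimple ↥L)
    (M : Subgroup G) (c₀ : G) (hc₀M : c₀ ∈ M) (hc₀L : ∀ l ∈ L, c₀ * l * c₀⁻¹ ∈ L)
    (hLM : ∀ l ∈ L, ∀ m ∈ M, l * m * l⁻¹ ∈ M) (hnc : ¬ ∀ l ∈ L, c₀ * l = l * c₀) : L ≤ M := by
  rcases qs_normal hL (M ⊓ L) inf_le_right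
      (fun l hl m hm => ⟨hLM l hl m hm.1, L.mul_mem (L.mul_mem hl hm.2) (L.inv_mem hl)⟩) with h | h
  · exfalso
    apply hnc
    apply qs_central hL c₀ hc₀L
    intro l hl l' hl'
    apply h _ _ l' hl'
    constructor
    · have e : ⁅c₀, l⁆ = c₀ * (l * c₀⁻¹ * l⁻¹) := by
        simp only [commutatorElement_def]; group
      rw [e]
      exact M.mul_mem hc₀M (hLM l hl _ (M.inv_mem hc₀M))
    · rw [commutatorElement_def]
      exact L.mul_mem (hc₀L l hl) (L.inv_mem hl)
  · rw [← h]
    exact inf_le_left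

section perm2

variable {α : Type*} [Fintype α] [DecidableEq α]

theorem moved_mem_iff {c : Perm α} (O : Set α) (hcO : ∀ y, c y ≠ y → y ∈ O) (y : α) :
    c y ∈ O ↔ y ∈ O := by
  by_cases h : c y = y
  · rw [h]
  · have h' : c (c y) ≠ c y := fun e => h (c.injective e)
    exact ⟨fun _ => hcO y h, fun _ => hcO (c y) h'⟩

theorem closure_mem_iff (S : Set (Perm α)) (O : Set α)
    (hSO : ∀ c ∈ S, ∀ y, c y ≠ y → y ∈ O) :
    ∀ g ∈ Subgroup.closure S, ∀ y, g y ∈ O ↔ y ∈ O := by
  intro g hg
  induction hg using Subgroup.closure_induction with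
  | mem c hc => exact moved_mem_iff O (hSO c hc)
  | one => intro y; simp
  | mul a b _ _ iha ihb => intro y; rw [Perm.mul_apply, iha, ihb]
  | inv a _ iha => intro y; rw [← iha (a⁻¹ y)]; simp

theorem closure_fix (S : Set (Perm α)) (O : Set α)
    (hSO : ∀ c ∈ S, ∀ y, c y ≠ y → y ∈ O) :
    ∀ g ∈ Subgroup.closure S, ∀ y, y ∉ O → g y = y := by
  intro g hg
  induction hg using Subgroup.closure_induction with
  | mem c hc =>
    intro y hy
    by_contra h
    exact hy (hSO c hc y h)
  | one => intro y _; simp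
  | mul a b _ _ iha ihb => intro y hy; rw [Perm.mul_apply, ihb y hy, iha y hy]
  | inv a _ iha =>
    intro y hy
    have := iha y hy
    rw [Perm.inv_eq_iff_eq]
    exact this.symm

theorem alt_solvable (m : ℕ) (hm : m ≤ 4) : Group.IsSolvable (alternatingGroup (Fin m)) := by
  rcases Nat.lt_or_ge m 4 with h | h
  · have hcomm : ∀ a b : alternatingGroup (Fin m), a * b = b * a := by
      interval_cases m <;> decide
    exact Group.isSolvable_of_comm hcomm
  · have hm4 : m = 4 := by omega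
    subst hm4
    have hc : Nat.card (Fin 4) = 4 := by simp
    have h1 := alternatingGroup.kleinFour_eq_commutator hc
    have h2 := alternatingGroup.kleinFour_isKleinFour hc
    rw [Group.isSolvable_def]
    refine ⟨2, ?_⟩
    have h3 : derivedSeries (alternatingGroup (Fin 4)) 1 = alternatingGroup.kleinFour (Fin 4) := by
      rw [h1]; rfl
    rw [derivedSeries_succ, h3, Subgroup.commutator_eq_bot_iff_le_centralizer]
    intro a ha
    rw [Subgroup.mem_centralizer_iff]
    intro b hb
    have := mul_comm_of_exponent_two h2.exponent_two (⟨b, hb⟩ : alternatingGroup.kleinFour (Fin 4)) ⟨a, ha⟩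
    exact congrArg Subtype.val this

open scoped Pointwise in
/-- A group generated by 3-cycles supported in `O` and transitive on `O` is the alternating group
on `O`. -/
theorem alt_of_three_gen (S : Set (Perm α)) (O : Set α)
    (hS3 : ∀ c ∈ S, c.IsThreeCycle) (hSO : ∀ c ∈ S, ∀ y, c y ≠ y → y ∈ O)
    (hne : S.Nonempty)
    (htr : ∀ y ∈ O, ∀ y' ∈ O, ∃ g ∈ Subgroup.closure S, g y = y') :
    Nonempty (↥(Subgroup.closure S) ≃* alternatingGroup (Fin (Nat.card ↥O))) := by
  classical
  have hiff := closure_mem_iff S O hSO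
  let ρ : ↥(Subgroup.closure S) →* Perm ↥O :=
    { toFun := fun m => Perm.subtypePerm (m : Perm α) (fun y => hiff m m.2 y)
      map_one' := by ext; simp
      map_mul' := by intro a b; ext y; rfl }
  have hρapp : ∀ (m : ↥(Subgroup.closure S)) (y : ↥O), ((ρ m y : ↥O) : α) = (m : Perm α) y := by
    intro m y; rfl
  have hρinj : Function.Injective ρ := by
    rw [injective_iff_map_eq_one]
    intro m hm
    ext y
    by_cases hy : y ∈ O
    · have h1 := hρapp m ⟨y, hy⟩
      rw [hm] at h1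
      simpa using h1.symm
    · simpa using closure_fix S O hSO m m.2 y hy
  have hrange : ρ.range = Subgroup.closure (ρ '' ((↑) ⁻¹' S)) := by
    rw [MonoidHom.range_eq_map, ← Subgroup.closure_closure_coe_preimage, MonoidHom.map_closure]
  have hgen3 : ∀ σ ∈ ρ '' ((↑) ⁻¹' S), σ.IsThreeCycle := by
    rintro σ ⟨⟨c, hcM⟩, hcS, rfl⟩
    have hcS' : c ∈ S := hcS
    have h1 : Perm.ofSubtype (ρ ⟨c, hcM⟩) = c := Perm.ofSubtype_subtypePerm (fun y => hiff c hcM y) (hSO c hcS')
    unfold Perm.IsThreeCycle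
    rw [← Perm.cycleType_ofSubtype, h1]
    exact hS3 c hcS'
  have hGle : ρ.range ≤ alternatingGroup ↥O := by
    rw [hrange, Subgroup.closure_le]
    intro σ hσ
    exact (hgen3 σ hσ).mem_alternatingGroup
  have hGtrans : MulAction.IsPretransitive ↥ρ.range ↥O := by
    constructor
    intro y y'
    obtain ⟨g, hg, hgy⟩ := htr y y.2 y' y'.2
    refine ⟨⟨ρ ⟨g, hg⟩, ⟨_, rfl⟩⟩, ?_⟩
    apply Subtype.ext
    rw [← hgy]
    exact hρapp ⟨g, hg⟩ y
  have hGprim : MulAction.IsPreprimitive ↥ρ.range ↥O := by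
    refine { toIsPretransitive := hGtrans, isTrivialBlock_of_isBlock := ?_ }
    intro B hB
    by_cases hsub : B.Subsingleton
    · exact Or.inl hsub
    right
    rw [Set.not_subsingleton_iff] at hsub
    obtain ⟨a, ha, b, hb, hab⟩ := hsub
    have key : ∀ g ∈ ρ.range, g • B = B := by
      intro g hg
      have hg' := hg
      rw [hrange] at hg'
      induction hg' using Subgroup.closure_induction with
      | mem σ hσ =>
        have h3 := hgen3 σ hσ
        by_contra hne'
        have hdisj : Disjoint (σ • B) B := hB.disjoint_smul_of_ne (g := ⟨σ, hg⟩) hne'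
        have hmem : ∀ t ∈ B, σ t ∉ B := by
          intro t ht ht'
          have : σ t ∈ σ • B := Set.smul_mem_smul_set (a := σ) ht
          exact Set.disjoint_left.mp hdisj this ht'
        have hσa : σ a ≠ a := fun e => hmem a ha (by rw [e]; exact ha)
        have hσb : σ b ≠ b := fun e => hmem b hb (by rw [e]; exact hb)
        rcases three_support h3 hσa hσb with h | h | h
        · exact hab h.symm
        · exact hmem a ha (h ▸ hb)
        · have : σ b = a := by rw [h]; exact three_cube h3 a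
          exact hmem b hb (this ▸ ha)
      | one => simp
      | mul x y hx' hy' hx hy =>
        have hxm : x ∈ ρ.range := by rw [hrange]; exact hx'
        have hym : y ∈ ρ.range := by rw [hrange]; exact hy'
        rw [mul_smul, hy hym, hx hxm]
      | inv x hx' hx =>
        have hxm : x ∈ ρ.range := by rw [hrange]; exact hx'
        rw [inv_smul_eq_iff, hx hxm]
    apply Set.eq_univ_of_forall
    intro y
    obtain ⟨g, hg⟩ := MulAction.exists_smul_eq ↥ρ.range a y
    have h1 : y ∈ (g : Perm ↥O) • B := by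
      rw [← hg]
      exact Set.smul_mem_smul_set (a := (g : Perm ↥O)) ha
    rw [key g g.2] at h1
    exact h1
  obtain ⟨c, hc⟩ := hne
  have hcM : c ∈ Subgroup.closure S := Subgroup.subset_closure hc
  have hσ3 : (ρ ⟨c, hcM⟩).IsThreeCycle := hgen3 _ ⟨⟨c, hcM⟩, hc, rfl⟩
  have hle : alternatingGroup ↥O ≤ ρ.range :=
    Equiv.Perm.alternatingGroup_le_of_isPreprimitive_of_isThreeCycle_mem hGprim hσ3 ⟨_, rfl⟩
  have heq : ρ.range = alternatingGroup ↥O := le_antisymm hGle hle
  exact ⟨(MonoidHom.ofInjective hρinj).trans ((MulEquiv.subgroupCongr heq).trans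
    (Equiv.altCongrHom (Finite.equivFin ↥O)))⟩

end perm2



theorem closure_conj_mem {G : Type*} [Group G] (T : Set G) (h : G)
    (hT : ∀ c ∈ T, h * c * h⁻¹ ∈ Subgroup.closure T) :
    ∀ g ∈ Subgroup.closure T, h * g * h⁻¹ ∈ Subgroup.closure T := by
  intro g hg
  induction hg using Subgroup.closure_induction with
  | mem c hc => exact hT c hc
  | one => simp
  | mul a b _ _ iha ihb =>
    have e : h * (a * b) * h⁻¹ = (h * a * h⁻¹) * (h * b * h⁻¹) := by group
    rw [e]
    exact Subgroup.mul_mem _ iha ihb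
  | inv a _ iha =>
    have e : h * a⁻¹ * h⁻¹ = (h * a * h⁻¹)⁻¹ := by group
    rw [e]
    exact Subgroup.inv_mem _ iha

section perm3

variable {α : Type*} [Fintype α] [DecidableEq α]

/-- A perfect permutation group cannot contain a central 3-cycle. -/
theorem central_three_absurd (L : Subgroup (Perm α)) (hLp : ⁅L, L⁆ = L) (c : Perm α)
    (hc3 : c.IsThreeCycle) (hcL : c ∈ L) (hcc : ∀ l ∈ L, c * l = l * c) : False := by
  obtain ⟨x, hx⟩ := three_ne_one hc3
  have hpow : ∀ a ∈ L, ∃ i : ℕ, ∀ j : ℕ, a ((c ^ j) x) = (c ^ (i + j)) x := by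
    intro a ha
    have hcomm : ∀ j : ℕ, a ((c ^ j) x) = (c ^ j) (a x) := by
      intro j
      have h1 : Commute a (c ^ j) := Commute.pow_right (show Commute a c from (hcc a ha).symm) j
      have h2 := congrArg (fun f : Perm α => f x) h1.eq
      simpa [Perm.mul_apply] using h2
    have hmov : c (a x) ≠ a x := by
      intro h
      have h2 := congrArg (fun f : Perm α => f x) (hcc a ha)
      simp only [Perm.mul_apply] at h2
      rw [h] at h2
      exact hx (a.injective h2.symm)
    rcases three_support hc3 hx hmov with h | h | h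
    · refine ⟨0, fun j => ?_⟩
      rw [hcomm, h, zero_add]
    · refine ⟨1, fun j => ?_⟩
      rw [hcomm, h, add_comm, pow_succ, Perm.mul_apply]
    · refine ⟨2, fun j => ?_⟩
      rw [hcomm, h, add_comm, pow_add, Perm.mul_apply, pow_two, Perm.mul_apply]
  have hfix : ∀ a ∈ L, ∀ b ∈ L, ⁅a, b⁆ x = x := by
    intro a ha b hb
    obtain ⟨i, hi⟩ := hpow a ha
    obtain ⟨i', hi'⟩ := hpow a⁻¹ (L.inv_mem ha)
    obtain ⟨k, hk⟩ := hpow b hb
    obtain ⟨k', hk'⟩ := hpow b⁻¹ (L.inv_mem hb)
    have h1 : (c ^ (i + i')) x = x := by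
      have e1 := hi' 0
      have e2 := hi (i' + 0)
      rw [← e1] at e2
      simpa using e2.symm
    have h2 : (c ^ (k + k')) x = x := by
      have e1 := hk' 0
      have e2 := hk (k' + 0)
      rw [← e1] at e2
      simpa using e2.symm
    have e0 : b⁻¹ x = (c ^ (k' + 0)) x := by simpa using hk' 0
    rw [commutatorElement_def]
    simp only [Perm.mul_apply]
    rw [e0, hi', hk, hi]
    have e : i + (k + (i' + (k' + 0))) = (i + i') + (k + k') := by ring
    rw [e, pow_add, Perm.mul_apply, h2, h1]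
  have hle : ⁅L, L⁆ ≤ MulAction.stabilizer (Perm α) x := by
    rw [Subgroup.commutator_le]
    intro a ha b hb
    rw [MulAction.mem_stabilizer_iff]
    exact hfix a ha b hb
  rw [hLp] at hle
  have := hle hcL
  rw [MulAction.mem_stabilizer_iff] at this
  exact hx this

end perm3

section perm4

variable {α : Type*} [Fintype α] [DecidableEq α]

/-- If a permutation group `H` has a quasisimple normal subgroup `L` containing its own
centralizer in `H`, and `H` contains a 3-cycle, then `L` is the alternating group on a set `O`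
containing the supports of all 3-cycles of `H`. -/
theorem exists_orbit_alt (H L : Subgroup (Perm α)) (hLH : L ≤ H)
    (hLn : ∀ h ∈ H, ∀ l ∈ L, h * l * h⁻¹ ∈ L) (hLq : Cfsg.IsQuasisimple ↥L)
    (hLc : ∀ h ∈ H, (∀ l ∈ L, h * l = l * h) → h ∈ L)
    (hne : ∃ c ∈ H, c.IsThreeCycle) :
    ∃ O : Set α, (∀ c ∈ H, c.IsThreeCycle → ∀ y, c y ≠ y → y ∈ O) ∧
      Nonempty (↥L ≃* alternatingGroup (Fin (Nat.card ↥O))) := by
  classical
  -- (S1) a 3-cycle of `H` not centralizing `L`
  have hS1 : ∃ c₀ ∈ H, c₀.IsThreeCycle ∧ ¬ ∀ l ∈ L, c₀ * l = l * c₀ := by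
    by_contra hcon
    push Not at hcon
    obtain ⟨c, hcH, hc3⟩ := hne
    have hcc := hcon c hcH hc3
    exact central_three_absurd L (qs_perfect hLq) c hc3 (hLc c hcH hcc) hcc
  obtain ⟨c₀, hc₀H, hc₀3, hc₀nc⟩ := hS1
  -- (S2) the subgroup generated by the 3-cycles of `H`
  set T : Set (Perm α) := {c | c ∈ H ∧ c.IsThreeCycle} with hT
  have hNH : Subgroup.closure T ≤ H := by
    rw [Subgroup.closure_le]
    intro c hc
    exact hc.1
  have hNn : ∀ h ∈ H, ∀ g ∈ Subgroup.closure T, h * g * h⁻¹ ∈ Subgroup.closure T := by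
    intro h hh
    apply closure_conj_mem
    intro c hc
    exact Subgroup.subset_closure ⟨H.mul_mem (H.mul_mem hh hc.1) (H.inv_mem hh), three_conj hc.2 h⟩
  have hc₀N : c₀ ∈ Subgroup.closure T := Subgroup.subset_closure ⟨hc₀H, hc₀3⟩
  have hLN : L ≤ Subgroup.closure T :=
    le_of_noncentral hLq _ c₀ hc₀N (hLn c₀ hc₀H) (fun l hl => hNn l (hLH hl)) hc₀nc
  -- (S3) the orbit
  obtain ⟨x₀, hx₀⟩ := three_ne_one hc₀3
  set O : Set α := {y | ∃ g ∈ Subgroup.closure T, g x₀ = y} with hO
  have hOinv : ∀ g ∈ Subgroup.closure T, ∀ y ∈ O, g y ∈ O := by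
    rintro g hg y ⟨g', hg', rfl⟩
    exact ⟨g * g', Subgroup.mul_mem _ hg hg', rfl⟩
  have hx₀O : x₀ ∈ O := ⟨1, Subgroup.one_mem _, rfl⟩
  have hdich : ∀ c ∈ T, (∃ y ∈ O, c y ≠ y) → ∀ z, c z ≠ z → z ∈ O := by
    rintro c hc ⟨y, hyO, hy⟩ z hz
    have hcN : c ∈ Subgroup.closure T := Subgroup.subset_closure hc
    rcases three_support hc.2 hy hz with h | h | h
    · rw [h]; exact hyO
    · rw [h]; exact hOinv c hcN y hyO
    · rw [h]; exact hOinv c hcN _ (hOinv c hcN y hyO)
  set TO : Set (Perm α) := {c | c ∈ T ∧ ∀ z, c z ≠ z → z ∈ O} with hTO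
  have hTOsub : ∀ c ∈ TO, ∀ y, c y ≠ y → y ∈ O := fun c hc => hc.2
  have hTO3 : ∀ c ∈ TO, c.IsThreeCycle := fun c hc => hc.1.2
  have hc₀TO : c₀ ∈ TO := ⟨⟨hc₀H, hc₀3⟩, hdich c₀ ⟨hc₀H, hc₀3⟩ ⟨x₀, hx₀O, hx₀⟩⟩
  have hc₀M : c₀ ∈ Subgroup.closure TO := Subgroup.subset_closure hc₀TO
  have hMN : Subgroup.closure TO ≤ Subgroup.closure T := Subgroup.closure_mono (fun c hc => hc.1)
  have hMn : ∀ g ∈ Subgroup.closure T, ∀ m ∈ Subgroup.closure TO,
      g * m * g⁻¹ ∈ Subgroup.closure TO := by
    intro g hg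
    apply closure_conj_mem
    intro c hc
    apply Subgroup.subset_closure
    have hgH : g ∈ H := hNH hg
    refine ⟨⟨H.mul_mem (H.mul_mem hgH hc.1.1) (H.inv_mem hgH), three_conj hc.1.2 g⟩, ?_⟩
    intro z hz
    have h1 : c (g⁻¹ z) ≠ g⁻¹ z := by
      intro e
      apply hz
      simp only [Perm.mul_apply]
      rw [e]
      simp
    have h2 := hOinv g hg _ (hc.2 _ h1)
    simpa using h2
  have hLM : L ≤ Subgroup.closure TO :=
    le_of_noncentral hLq _ c₀ hc₀M (hLn c₀ hc₀H) (fun l hl => hMn l (hLN hl)) hc₀nc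
  have hagree : ∀ g ∈ Subgroup.closure T, ∃ g' ∈ Subgroup.closure TO, ∀ y ∈ O, g' y = g y := by
    intro g hg
    induction hg using Subgroup.closure_induction with
    | mem c hc =>
      by_cases h : ∃ y ∈ O, c y ≠ y
      · exact ⟨c, Subgroup.subset_closure ⟨hc, hdich c hc h⟩, fun _ _ => rfl⟩
      · push Not at h
        exact ⟨1, Subgroup.one_mem _, fun y hy => by rw [h y hy]; rfl⟩
    | one => exact ⟨1, Subgroup.one_mem _, fun _ _ => rfl⟩
    | mul a b _ hb iha ihb =>
      obtain ⟨a', ha', haa⟩ := iha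
      obtain ⟨b', hb', hbb⟩ := ihb
      refine ⟨a' * b', Subgroup.mul_mem _ ha' hb', fun y hy => ?_⟩
      rw [Perm.mul_apply, Perm.mul_apply, hbb y hy, haa _ (hOinv b hb y hy)]
    | inv a ha iha =>
      obtain ⟨a', ha', haa⟩ := iha
      refine ⟨a'⁻¹, Subgroup.inv_mem _ ha', fun y hy => ?_⟩
      have h1 : a⁻¹ y ∈ O := hOinv a⁻¹ (Subgroup.inv_mem _ ha) y hy
      have h2 := haa _ h1
      rw [Perm.inv_eq_iff_eq, h2]
      simp
  have htr : ∀ y ∈ O, ∀ y' ∈ O, ∃ g ∈ Subgroup.closure TO, g y = y' := by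
    rintro y ⟨g₁, hg₁, rfl⟩ y' ⟨g₂, hg₂, rfl⟩
    obtain ⟨g', hg', hgg⟩ := hagree (g₂ * g₁⁻¹) (Subgroup.mul_mem _ hg₂ (Subgroup.inv_mem _ hg₁))
    refine ⟨g', hg', ?_⟩
    rw [hgg _ ⟨g₁, hg₁, rfl⟩]
    simp
  obtain ⟨e⟩ := alt_of_three_gen TO O hTO3 hTOsub ⟨c₀, hc₀TO⟩ htr
  -- `L = M`
  have hLeq : L = Subgroup.closure TO := by
    apply le_antisymm hLM
    have hnorm : (L.subgroupOf (Subgroup.closure TO)).Normal := by
      constructor
      intro m hm g
      rw [Subgroup.mem_subgroupOf] at hm ⊢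
      exact hLn g (hNH (hMN g.2)) m hm
    have hnorm' : ((L.subgroupOf (Subgroup.closure TO)).map e.toMonoidHom).Normal :=
      hnorm.map e.toMonoidHom e.surjective
    have hLnt : Nontrivial ↥L := Cfsg.Agent.H27.quasisimple_nontrivial hLq
    rcases Nat.lt_or_ge (Nat.card ↥O) 5 with h5 | h5
    · exfalso
      have hsolv : Group.IsSolvable (alternatingGroup (Fin (Nat.card ↥O))) :=
        alt_solvable _ (by omega)
      have hsolvL : Group.IsSolvable ↥L :=
        Group.isSolvable_of_isSolvable_injective (f := e.toMonoidHom.comp (Subgroup.inclusion hLM))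
          (e.injective.comp (Subgroup.inclusion_injective hLM))
      exact Cfsg.Agent.H27.quasisimple_not_solvable hLq hsolvL
    · have hsimp : IsSimpleGroup (alternatingGroup (Fin (Nat.card ↥O))) :=
        alternatingGroup.isSimpleGroup (by simpa using h5)
      rcases hnorm'.eq_bot_or_eq_top with hb | ht
      · exfalso
        obtain ⟨l, hl⟩ := exists_ne (1 : ↥L)
        have h1 : e ⟨l, hLM l.2⟩ ∈ (L.subgroupOf (Subgroup.closure TO)).map e.toMonoidHom :=
          ⟨⟨l, hLM l.2⟩, Subgroup.mem_subgroupOf.mpr l.2, rfl⟩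
        rw [hb, Subgroup.mem_bot] at h1
        have h2 : (⟨l, hLM l.2⟩ : ↥(Subgroup.closure TO)) = 1 := by
          apply e.injective
          rw [h1, map_one]
        apply hl
        apply Subtype.ext
        exact congrArg (fun t : ↥(Subgroup.closure TO) => (t : Perm α)) h2
      · intro m hm
        have h1 : e ⟨m, hm⟩ ∈ (L.subgroupOf (Subgroup.closure TO)).map e.toMonoidHom := by
          rw [ht]; trivial
        obtain ⟨m', hm', hmm⟩ := h1
        have h2 : m' = ⟨m, hm⟩ := e.injective hmm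
        rw [h2] at hm'
        exact Subgroup.mem_subgroupOf.mp hm'
  refine ⟨O, ?_, ⟨(MulEquiv.subgroupCongr hLeq).trans e⟩⟩
  -- all 3-cycles of `H` have support in `O`
  intro c hcH hc3
  by_contra hcon
  have hcT : c ∈ T := ⟨hcH, hc3⟩
  have hfixO : ∀ y ∈ O, c y = y := by
    intro y hy
    by_contra h
    exact hcon (hdich c hcT ⟨y, hy, h⟩)
  have hcomm : ∀ l ∈ L, c * l = l * c := by
    intro l hl
    have hlM : l ∈ Subgroup.closure TO := hLM hl
    ext y
    simp only [Perm.mul_apply]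
    by_cases hy : y ∈ O
    · rw [hfixO y hy, hfixO _ (hOinv l (hMN hlM) y hy)]
    · rw [closure_fix TO O hTOsub l hlM y hy]
      have hcy : c y ∉ O := by
        intro h
        have := hfixO _ h
        exact hy (by rw [← c.injective this]; exact h)
      rw [closure_fix TO O hTOsub l hlM _ hcy]
  have hcL : c ∈ L := hLc c hcH hcomm
  obtain ⟨x, hx⟩ := three_ne_one hc3
  by_cases hxO : x ∈ O
  · exact hx (hfixO x hxO)
  · exact hx (closure_fix TO O hTOsub c (hLM hcL) x hxO)

end perm4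

section sylow3

/-- The `k`-th point of the `j`-th block of three consecutive points of `Fin n`. -/
def pt (n : ℕ) (j : Fin (n / 3)) (k : Fin 3) : Fin n :=
  ⟨3 * j.val + k.val, by have := j.2; have := k.2; omega⟩

/-- The 3-cycle on the `j`-th block. -/
def blockCyc (n : ℕ) (j : Fin (n / 3)) : Perm (Fin n) :=
  swap (pt n j 0) (pt n j 1) * swap (pt n j 0) (pt n j 2)

theorem pt_ne (n : ℕ) (j : Fin (n / 3)) {k k' : Fin 3} (h : k ≠ k') : pt n j k ≠ pt n j k' := by
  intro e
  apply h
  have := congrArg Fin.val e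
  simp only [pt] at this
  apply Fin.ext
  omega

theorem blockCyc_three (n : ℕ) (j : Fin (n / 3)) : (blockCyc n j).IsThreeCycle :=
  Equiv.Perm.isThreeCycle_swap_mul_swap_same (pt_ne n j (by decide)) (pt_ne n j (by decide))
    (pt_ne n j (by decide))

theorem blockCyc_fix (n : ℕ) (j : Fin (n / 3)) (x : Fin n) (hx : x.val / 3 ≠ j.val) :
    blockCyc n j x = x := by
  have h : ∀ k : Fin 3, x ≠ pt n j k := by
    intro k e
    apply hx
    rw [e]
    simp only [pt]
    have := k.2
    omega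
  unfold blockCyc
  rw [Perm.mul_apply, swap_apply_of_ne_of_ne (h 0) (h 2), swap_apply_of_ne_of_ne (h 0) (h 1)]

theorem blockCyc_moves (n : ℕ) (j : Fin (n / 3)) (k : Fin 3) :
    blockCyc n j (pt n j k) ≠ pt n j k := by
  have h01 : pt n j 0 ≠ pt n j 1 := pt_ne n j (by decide)
  have h02 : pt n j 0 ≠ pt n j 2 := pt_ne n j (by decide)
  have h12 : pt n j 1 ≠ pt n j 2 := pt_ne n j (by decide)
  unfold blockCyc
  rw [Perm.mul_apply]
  fin_cases k
  · show (swap (pt n j 0) (pt n j 1)) ((swap (pt n j 0) (pt n j 2)) (pt n j 0)) ≠ pt n j 0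
    rw [swap_apply_left, swap_apply_of_ne_of_ne h02.symm h12.symm]
    exact h02.symm
  · show (swap (pt n j 0) (pt n j 1)) ((swap (pt n j 0) (pt n j 2)) (pt n j 1)) ≠ pt n j 1
    rw [swap_apply_of_ne_of_ne h01.symm h12, swap_apply_right]
    exact h01
  · show (swap (pt n j 0) (pt n j 1)) ((swap (pt n j 0) (pt n j 2)) (pt n j 2)) ≠ pt n j 2
    rw [swap_apply_right, swap_apply_left]
    exact h12

theorem blockCyc_comm (n : ℕ) (j j' : Fin (n / 3)) :
    blockCyc n j * blockCyc n j' = blockCyc n j' * blockCyc n j := by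
  by_cases h : j = j'
  · rw [h]
  · have hd : Perm.Disjoint (blockCyc n j) (blockCyc n j') := by
      intro x
      by_cases hx : x.val / 3 = j.val
      · right
        apply blockCyc_fix
        rw [hx]
        exact fun e => h (Fin.ext e)
      · left
        exact blockCyc_fix n j x hx
    exact hd.commute.eq

/-- If `H` contains a Sylow 3-subgroup of `Sym(n)`, then up to a permutation `g`, each of the
first `3 * (n / 3)` points is moved by a 3-cycle of `H`. -/
theorem sylow3_moved (n : ℕ) (H : Subgroup (Perm (Fin n)))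
    (hS : ∃ P : Sylow 3 (Perm (Fin n)), (P : Subgroup (Perm (Fin n))) ≤ H) :
    ∃ g : Perm (Fin n), ∀ i : Fin n, i.val < 3 * (n / 3) →
      ∃ c ∈ H, c.IsThreeCycle ∧ c (g i) ≠ g i := by
  classical
  have : Fact (Nat.Prime 3) := ⟨Nat.prime_three⟩
  obtain ⟨P, hPH⟩ := hS
  set Q : Subgroup (Perm (Fin n)) := Subgroup.closure (Set.range (blockCyc n)) with hQ
  have hcomm : ∀ a ∈ Q, ∀ b ∈ Q, a * b = b * a := by
    have h1 : Q ≤ Subgroup.centralizer (Set.range (blockCyc n)) := by
      rw [hQ, Subgroup.closure_le]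
      rintro _ ⟨j, rfl⟩
      rw [SetLike.mem_coe, Subgroup.mem_centralizer_iff]
      rintro _ ⟨j', rfl⟩
      exact blockCyc_comm n j' j
    rw [← Subgroup.centralizer_closure] at h1
    intro a ha b hb
    exact (Subgroup.mem_centralizer_iff.mp (h1 hb) a ha)
  have hcube : ∀ a ∈ Q, a ^ 3 = 1 := by
    intro a ha
    have ha' := ha
    rw [hQ] at ha'
    induction ha' using Subgroup.closure_induction with
    | mem c hc =>
      obtain ⟨j, rfl⟩ := hc
      rw [← (blockCyc_three n j).orderOf]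
      exact pow_orderOf_eq_one _
    | one => simp
    | mul x y hx' hy' hx hy =>
      have hxQ : x ∈ Q := by rw [hQ]; exact hx'
      have hyQ : y ∈ Q := by rw [hQ]; exact hy'
      have hc : Commute x y := hcomm x hxQ y hyQ
      rw [hc.mul_pow, hx hxQ, hy hyQ, one_mul]
    | inv x hx' hx =>
      have hxQ : x ∈ Q := by rw [hQ]; exact hx'
      rw [inv_pow, hx hxQ, inv_one]
  have hQp : IsPGroup 3 ↥Q := by
    intro a
    refine ⟨1, ?_⟩
    apply Subtype.ext
    simpa using hcube a a.2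
  obtain ⟨P', hP'⟩ := hQp.exists_le_sylow
  obtain ⟨g, hg⟩ := MulAction.exists_smul_eq (Perm (Fin n)) P P'
  refine ⟨g⁻¹, fun i hi => ?_⟩
  have hj : i.val / 3 < n / 3 := by omega
  have hk : i.val % 3 < 3 := Nat.mod_lt _ (by norm_num)
  have hi' : i = pt n ⟨i.val / 3, hj⟩ ⟨i.val % 3, hk⟩ := by
    apply Fin.ext
    simp only [pt]
    omega
  set c := blockCyc n ⟨i.val / 3, hj⟩ with hc
  have hcQ : c ∈ Q := Subgroup.subset_closure ⟨_, rfl⟩
  have hcP' : c ∈ (P' : Subgroup (Perm (Fin n))) := hP' hcQ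
  rw [← hg, Sylow.coe_subgroup_smul, Subgroup.mem_pointwise_smul_iff_inv_smul_mem] at hcP'
  have hcP : g⁻¹ * c * g ∈ (P : Subgroup (Perm (Fin n))) := by
    simpa [MulAut.smul_def] using hcP'
  refine ⟨g⁻¹ * c * g, hPH hcP, ?_, ?_⟩
  · have := three_conj (blockCyc_three n ⟨i.val / 3, hj⟩) g⁻¹
    rw [inv_inv] at this
    exact this
  · intro e
    have e' : g⁻¹ (c (g (g⁻¹ i))) = g⁻¹ i := e
    have h2 := g⁻¹.injective e'
    have h3 : g (g⁻¹ i) = i := by simp
    rw [h3] at h2
    have h4 := blockCyc_moves n ⟨i.val / 3, hj⟩ ⟨i.val % 3, hk⟩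
    rw [← hi'] at h4
    exact h4 h2

end sylow3

end Cfsg.Agent.H54.TC
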