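import Mathlib
import Cfsg.Agent.H41.AutAlt
import Cfsg.Agent.H27.Layer
import Cfsg.Prelude.Def_LocalEven
import Cfsg.Agent.H54.ThreeCyc

/-!
# Automorphisms of odd order of alternating groups are inner; `F*(X) ≅ Alt(n)` and Sylow
3-subgroups (helper54)
-/

set_option autoImplicit false
set_option linter.unusedSectionVars false
set_option linter.unusedVariables false

namespace Cfsg.Agent.H54.AA

open Equiv Equiv.Perm
open Cfsg.Agent.H41

section surj

variable {α : Type*} [Fintype α] [DecidableEq α]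

/-- An automorphism of `Alt(α)` preserving 3-cycles is induced by a permutation
(the proof of `Cfsg.Agent.H41.aut_alt_surj`, with the 3-cycle hypothesis made explicit). -/
theorem aut_surj_of_three (hα4 : 4 ≤ Fintype.card α) (φ : MulAut (alternatingGroup α))
    (h3c : ∀ g : alternatingGroup α, (g : Perm α).IsThreeCycle →
      ((φ g : alternatingGroup α) : Perm α).IsThreeCycle) :
    ∃ σ : Perm α, MulAut.conjNormal σ = φ := by
  classical
  have hnontriv : Nontrivial α := by
    rw [← Fintype.one_lt_card_iff_nontrivial]; omega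
  obtain ⟨o, i, hoi⟩ := exists_pair_ne α
  let Φ : Perm α → Perm α := fun g =>
    if h : g ∈ alternatingGroup α then ((φ ⟨g, h⟩ : alternatingGroup α) : Perm α) else 1
  have hΦ : ∀ (g : Perm α) (h : g ∈ alternatingGroup α),
      Φ g = ((φ ⟨g, h⟩ : alternatingGroup α) : Perm α) := fun g h => dif_pos h
  have hT : ∀ k, k ≠ o → k ≠ i → tc o i k ∈ alternatingGroup α :=
    fun k h1 h2 => (tc_isThreeCycle hoi h1 h2).mem_alternatingGroup
  obtain ⟨σ, hσ⟩ := assembly hoi hα4 (fun k => Φ (tc o i k))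
    (by
      intro k hko hki
      show (Φ (tc o i k)).IsThreeCycle
      rw [hΦ _ (hT k hko hki)]
      exact h3c _ (tc_isThreeCycle hoi hko hki))
    (by
      intro k l hko hki hlo hli hkl
      show Φ (tc o i k) * Φ (tc o i l) ≠ 1
      rw [hΦ _ (hT k hko hki), hΦ _ (hT l hlo hli), ← Subgroup.coe_mul, ← map_mul]
      intro h
      have h1 : φ (⟨tc o i k, hT k hko hki⟩ * ⟨tc o i l, hT l hlo hli⟩) = 1 := Subtype.ext h
      rw [MulEquiv.map_eq_one_iff] at h1
      have h2 := congrArg (fun g : alternatingGroup α => (g : Perm α) o) h1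
      simp only [Subgroup.coe_mul, Perm.mul_apply, tc_apply, Subgroup.coe_one, Perm.one_apply] at h2
      grind)
    (by
      intro k l hko hki hlo hli hkl
      show Φ (tc o i k) * Φ (tc o i l) * (Φ (tc o i k) * Φ (tc o i l)) = 1
      rw [hΦ _ (hT k hko hki), hΦ _ (hT l hlo hli), ← Subgroup.coe_mul, ← Subgroup.coe_mul,
        ← map_mul, ← map_mul]
      have h1 : (⟨tc o i k, hT k hko hki⟩ * ⟨tc o i l, hT l hlo hli⟩ *
          (⟨tc o i k, hT k hko hki⟩ * ⟨tc o i l, hT l hlo hli⟩) : alternatingGroup α) = 1 := by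
        apply Subtype.ext
        simp only [Subgroup.coe_mul, Subgroup.coe_one]
        ext x
        simp only [Perm.mul_apply, tc_apply, Perm.one_apply]
        grind
      rw [h1, map_one, Subgroup.coe_one])
  refine ⟨σ, ?_⟩
  let T : Set (alternatingGroup α) := {g | ∃ k, k ≠ o ∧ k ≠ i ∧ (g : Perm α) = tc o i k}
  have hTtop : Subgroup.closure T = ⊤ := by
    apply Subgroup.map_injective (Subgroup.subtype_injective (alternatingGroup α))
    rw [MonoidHom.map_closure, ← MonoidHom.range_eq_map, Subgroup.range_subtype]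
    refine Eq.trans ?_ (closure_tc hoi)
    congr 1
    ext g
    constructor
    · rintro ⟨g', ⟨k, hko, hki, hg'⟩, rfl⟩
      exact ⟨k, hko, hki, hg'⟩
    · rintro ⟨k, hko, hki, rfl⟩
      exact ⟨⟨tc o i k, hT k hko hki⟩, ⟨k, hko, hki, rfl⟩, rfl⟩
  have hhom : (MulAut.conjNormal σ : alternatingGroup α ≃* alternatingGroup α).toMonoidHom =
      φ.toMonoidHom := by
    apply MonoidHom.eq_of_eqOn_dense hTtop
    rintro g ⟨k, hko, hki, hg⟩
    apply Subtype.ext
    show ((MulAut.conjNormal σ g : alternatingGroup α) : Perm α) = ((φ g : alternatingGroup α) : Perm α)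
    rw [MulAut.conjNormal_apply, hg, ← hσ k hko hki]
    show Φ (tc o i k) = _
    rw [hΦ _ (hT k hko hki)]
    congr 2
    exact Subtype.ext hg.symm
  ext g : 1
  exact DFunLike.congr_fun hhom g

end surj

section six

/-- cycle type `3 + 3` -/
def inD (σ : Perm (Fin 6)) : Prop := σ.cycleType = {3, 3}

def g₀ : Perm (Fin 6) := (swap 0 1 * swap 0 2) * (swap 3 4 * swap 3 5)

def t₀ : Perm (Fin 6) := swap 0 3 * swap 1 4 * swap 2 5

theorem g₀_inD : inD g₀ := by
  unfold inD g₀
  have h1 : (swap (0 : Fin 6) 1 * swap 0 2).IsThreeCycle :=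
    isThreeCycle_swap_mul_swap_same (by decide) (by decide) (by decide)
  have h2 : (swap (3 : Fin 6) 4 * swap 3 5).IsThreeCycle :=
    isThreeCycle_swap_mul_swap_same (by decide) (by decide) (by decide)
  have hd : Perm.Disjoint (swap (0 : Fin 6) 1 * swap 0 2) (swap (3 : Fin 6) 4 * swap 3 5) := by
    intro x
    fin_cases x <;> decide
  rw [hd.cycleType_mul, h1.cycleType, h2.cycleType]
  rfl

theorem t₀_comm : t₀ * g₀ * t₀⁻¹ = g₀ := by
  unfold t₀ g₀
  decide

theorem t₀_sign : Perm.sign t₀ = -1 := by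
  unfold t₀
  rw [map_mul, map_mul, Perm.sign_swap (by decide), Perm.sign_swap (by decide),
    Perm.sign_swap (by decide)]
  decide

theorem inD_conj {σ : Perm (Fin 6)} (hσ : inD σ) :
    ∃ a : Perm (Fin 6), a ∈ alternatingGroup (Fin 6) ∧ a * g₀ * a⁻¹ = σ := by
  have h1 : IsConj g₀ σ := isConj_iff_cycleType_eq.mpr (g₀_inD.trans hσ.symm)
  obtain ⟨c, hc⟩ := isConj_iff.mp h1
  rcases Int.units_eq_one_or (Perm.sign c) with h | h
  · exact ⟨c, h, hc⟩
  · refine ⟨c * t₀, ?_, ?_⟩
    · rw [Perm.mem_alternatingGroup, map_mul, h, t₀_sign]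
      decide
    · rw [← hc]
      have := t₀_comm
      calc c * t₀ * g₀ * (c * t₀)⁻¹ = c * (t₀ * g₀ * t₀⁻¹) * c⁻¹ := by group
        _ = c * g₀ * c⁻¹ := by rw [this]

theorem three_or_inD {σ : Perm (Fin 6)} (h : orderOf σ = 3) : σ.IsThreeCycle ∨ inD σ := by
  obtain ⟨m, hm⟩ := cycleType_prime_order (σ := σ) (by rw [h]; exact Nat.prime_three)
  rw [h] at hm
  have h1 := sum_cycleType_le σ
  rw [hm, Multiset.sum_replicate, Fintype.card_fin] at h1
  simp only [smul_eq_mul] at h1
  have hm' : m = 0 ∨ m = 1 := by omega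
  rcases hm' with rfl | rfl
  · left
    exact hm
  · right
    exact hm

theorem not_inD_of_three {σ : Perm (Fin 6)} (h : σ.IsThreeCycle) : ¬ inD σ := by
  intro h'
  have h1 : σ.cycleType = {3} := h
  rw [h'] at h1
  have := congrArg Multiset.card h1
  simp at this

/-- An automorphism of `Alt(6)` of odd order preserves 3-cycles. -/
theorem aut6_three (ψ : MulAut (alternatingGroup (Fin 6))) (k : ℕ) (hψ : ψ ^ (3 ^ k) = 1)
    (g : alternatingGroup (Fin 6)) (hg : (g : Perm (Fin 6)).IsThreeCycle) :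
    ((ψ g : alternatingGroup (Fin 6)) : Perm (Fin 6)).IsThreeCycle := by
  classical
  by_contra hcon
  have hord : ∀ a : alternatingGroup (Fin 6), orderOf ((ψ a : alternatingGroup (Fin 6)) : Perm (Fin 6)) =
      orderOf (a : Perm (Fin 6)) := by
    intro a
    rw [Subgroup.orderOf_coe, MulEquiv.orderOf_eq, ← Subgroup.orderOf_coe]
  have hgD : inD ((ψ g : alternatingGroup (Fin 6)) : Perm (Fin 6)) := by
    rcases three_or_inD (by rw [hord, hg.orderOf]) with h | h
    · exact absurd h hcon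
    · exact h
  -- (1) every 3-cycle is mapped into `D`
  have h1 : ∀ h : alternatingGroup (Fin 6), (h : Perm (Fin 6)).IsThreeCycle →
      inD ((ψ h : alternatingGroup (Fin 6)) : Perm (Fin 6)) := by
    intro h hh
    obtain ⟨a, ha⟩ := isConj_iff.mp (alternatingGroup.isThreeCycle_isConj (by simp) hg hh)
    rw [← ha, map_mul, map_mul, map_inv]
    unfold inD
    rw [Subgroup.coe_mul, Subgroup.coe_mul, Subgroup.coe_inv, cycleType_conj]
    exact hgD
  -- every element of `D` is the image of a 3-cycle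
  have h2 : ∀ d : alternatingGroup (Fin 6), inD (d : Perm (Fin 6)) →
      ∃ h : alternatingGroup (Fin 6), (h : Perm (Fin 6)).IsThreeCycle ∧ ψ h = d := by
    intro d hd
    obtain ⟨a, ha, hac⟩ := inD_conj hd
    obtain ⟨b, hb, hbc⟩ := inD_conj hgD
    -- d = (a b⁻¹) (ψ g) (a b⁻¹)⁻¹
    set c : alternatingGroup (Fin 6) := ⟨a, ha⟩ * (⟨b, hb⟩ : alternatingGroup (Fin 6))⁻¹ with hc
    have hd' : d = c * ψ g * c⁻¹ := by
      apply Subtype.ext
      rw [hc]
      simp only [Subgroup.coe_mul, Subgroup.coe_inv]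
      rw [← hac, ← hbc]
      group
    refine ⟨ψ.symm c * g * (ψ.symm c)⁻¹, ?_, ?_⟩
    · rw [Subgroup.coe_mul, Subgroup.coe_mul, Subgroup.coe_inv]
      exact Cfsg.Agent.H54.TC.three_conj hg _
    · rw [map_mul, map_mul, map_inv, MulEquiv.apply_symm_apply, hd']
  -- (2) elements of `D` are mapped to 3-cycles
  have h3 : ∀ d : alternatingGroup (Fin 6), inD (d : Perm (Fin 6)) →
      ((ψ d : alternatingGroup (Fin 6)) : Perm (Fin 6)).IsThreeCycle := by
    intro d hd
    by_contra hcon2
    have hdo : orderOf (d : Perm (Fin 6)) = 3 := by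
      obtain ⟨h, hh, rfl⟩ := h2 d hd
      rw [hord, hh.orderOf]
    have hD2 : inD ((ψ d : alternatingGroup (Fin 6)) : Perm (Fin 6)) := by
      rcases three_or_inD (by rw [hord, hdo]) with h | h
      · exact absurd h hcon2
      · exact h
    obtain ⟨h', hh', e⟩ := h2 _ hD2
    have : h' = d := ψ.injective e
    rw [this] at hh'
    exact not_inD_of_three hh' hd
  -- even powers preserve 3-cycles
  have h4 : ∀ i : ℕ, ∀ h : alternatingGroup (Fin 6), (h : Perm (Fin 6)).IsThreeCycle →
      (((ψ ^ (2 * i)) h : alternatingGroup (Fin 6)) : Perm (Fin 6)).IsThreeCycle := by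
    intro i
    induction i with
    | zero => intro h hh; simpa using hh
    | succ i ih =>
      intro h hh
      have e2 : 2 * (i + 1) = 2 * i + 1 + 1 := by ring
      have e : ψ ^ (2 * (i + 1)) = ψ * (ψ * ψ ^ (2 * i)) := by
        rw [e2, pow_succ', pow_succ']
      rw [e, MulAut.mul_apply, MulAut.mul_apply]
      exact h3 _ (h1 _ (ih h hh))
  obtain ⟨i, hi⟩ : ∃ i, 3 ^ k = 2 * i + 1 := by
    have : Odd (3 ^ k) := Odd.pow (by decide)
    obtain ⟨i, hi⟩ := this
    exact ⟨i, hi⟩
  have h5 : (ψ ^ (3 ^ k)) g = ψ ((ψ ^ (2 * i)) g) := by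
    rw [hi, pow_succ', MulAut.mul_apply]
  rw [hψ, MulAut.one_apply] at h5
  have h6 := h1 _ (h4 i g hg)
  rw [← h5] at h6
  exact not_inD_of_three hg h6

end six

section inner

/-- An automorphism of 3-power order of `Alt(n)`, `n ≥ 5`, is inner. -/
theorem exists_alt_of_pow (n : ℕ) (hn : 5 ≤ n) (ψ : MulAut ↥(alternatingGroup (Fin n))) (k : ℕ)
    (hψ : ψ ^ (3 ^ k) = 1) :
    ∃ a : ↥(alternatingGroup (Fin n)), ∀ b, ψ b = a * b * a⁻¹ := by
  have h4 : 4 ≤ Fintype.card (Fin n) := by rw [Fintype.card_fin]; omega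
  obtain ⟨σ, hσ⟩ : ∃ σ : Perm (Fin n), MulAut.conjNormal σ = ψ := by
    by_cases h6 : n = 6
    · subst h6
      exact aut_surj_of_three h4 ψ (aut6_three ψ k hψ)
    · exact Cfsg.Agent.H41.aut_alt_surj h4 (by rw [Fintype.card_fin]; exact h6) ψ
  have hpow : σ ^ (3 ^ k) = 1 := by
    have h1 : (MulAut.conjNormal (σ ^ (3 ^ k)) : MulAut ↥(alternatingGroup (Fin n))) = 1 := by
      rw [map_pow, hσ, hψ]
    exact (injective_iff_map_eq_one _).mp (Cfsg.Agent.H41.conjNormal_injective h4) _ h1
  have hsign : Perm.sign σ = 1 := by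
    rcases Int.units_eq_one_or (Perm.sign σ) with h | h
    · exact h
    · exfalso
      have h1 := congrArg Perm.sign hpow
      rw [map_pow, h, map_one, Odd.neg_one_pow (Odd.pow (by decide))] at h1
      exact absurd h1 (by decide)
  refine ⟨⟨σ, Perm.mem_alternatingGroup.mpr hsign⟩, ?_⟩
  intro b
  apply Subtype.ext
  rw [← hσ, MulAut.conjNormal_apply]
  simp

end inner

section fstar

open Cfsg

variable {X : Type*} [Group X] [Finite X]

/-- If `F*(X) ≅ Alt(n)`, `n ≥ 5`, then every 3-element of `X` lies in `F*(X)`. -/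
theorem three_elt_mem (n : ℕ) (hn : 5 ≤ n)
    (e : ↥(generalizedFittingSubgroup X) ≃* ↥(alternatingGroup (Fin n))) (x : X) (k : ℕ)
    (hx : x ^ (3 ^ k) = 1) : x ∈ generalizedFittingSubgroup X := by
  haveI : (generalizedFittingSubgroup X).Normal := Cfsg.Agent.H27.genFitting_normal X
  set ψ : MulAut ↥(alternatingGroup (Fin n)) :=
    MulAut.congr e (MulAut.conjNormal x : MulAut ↥(generalizedFittingSubgroup X)) with hψdef
  have hψ : ψ ^ (3 ^ k) = 1 := by
    rw [hψdef, ← map_pow, ← map_pow, hx, map_one, map_one]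
  obtain ⟨a, ha⟩ := exists_alt_of_pow n hn ψ k hψ
  have key : ∀ y : ↥(generalizedFittingSubgroup X),
      ((e.symm a : ↥(generalizedFittingSubgroup X)) : X) * y * ((e.symm a : ↥(generalizedFittingSubgroup X)) : X)⁻¹ = x * y * x⁻¹ := by
    intro y
    have h1 : ψ (e y) = a * e y * a⁻¹ := ha (e y)
    have h2 : ψ (e y) = e ((MulAut.conjNormal x : MulAut ↥(generalizedFittingSubgroup X)) y) := by
      show e ((MulAut.conjNormal x : MulAut ↥(generalizedFittingSubgroup X)) (e.symm (e y))) = _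
      rw [MulEquiv.symm_apply_apply]
    have h3 : e (e.symm a * y * (e.symm a)⁻¹) = a * e y * a⁻¹ := by
      rw [map_mul, map_mul, map_inv, MulEquiv.apply_symm_apply]
    have h4 : e.symm a * y * (e.symm a)⁻¹ =
        (MulAut.conjNormal x : MulAut ↥(generalizedFittingSubgroup X)) y :=
      e.injective (by rw [h3, ← h1, h2])
    have h5 := congrArg Subtype.val h4
    rw [MulAut.conjNormal_apply] at h5
    simpa using h5
  have hcen : ((e.symm a : ↥(generalizedFittingSubgroup X)) : X)⁻¹ * x ∈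
      Subgroup.centralizer (generalizedFittingSubgroup X : Set X) := by
    rw [Subgroup.mem_centralizer_iff]
    intro h hh
    have h1 := key ⟨h, hh⟩
    simp only at h1
    -- l h l⁻¹ = x h x⁻¹
    calc h * (((e.symm a : ↥(generalizedFittingSubgroup X)) : X)⁻¹ * x)
        = ((e.symm a : ↥(generalizedFittingSubgroup X)) : X)⁻¹ *
            (((e.symm a : ↥(generalizedFittingSubgroup X)) : X) * h *
              ((e.symm a : ↥(generalizedFittingSubgroup X)) : X)⁻¹) * x := by group
      _ = ((e.symm a : ↥(generalizedFittingSubgroup X)) : X)⁻¹ * (x * h * x⁻¹) * x := by rw [h1]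
      _ = ((e.symm a : ↥(generalizedFittingSubgroup X)) : X)⁻¹ * x * h := by group
  have h2 := Cfsg.Agent.H27.centralizer_genFitting_le hcen
  have h3 := (generalizedFittingSubgroup X).mul_mem (e.symm a).2 h2
  simpa using h3

/-- **Part A**: a 3-minimal group with `F*(X) ≅ Alt(n)`, `n ≥ 5`, equals `F*(X)`. -/
theorem partA (hX : Cfsg.IsPMinimal 3 X) (n : ℕ) (hn : 5 ≤ n)
    (e : ↥(generalizedFittingSubgroup X) ≃* ↥(alternatingGroup (Fin n))) :
    generalizedFittingSubgroup X = ⊤ := by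
  haveI : Fact (Nat.Prime 3) := ⟨Nat.prime_three⟩
  haveI : (generalizedFittingSubgroup X).Normal := Cfsg.Agent.H27.genFitting_normal X
  obtain ⟨P⟩ := (inferInstance : Nonempty (Sylow 3 X))
  obtain ⟨hPn, M, ⟨hMco, hPM⟩, hMuniq⟩ := hX P
  have hPL : (P : Subgroup X) ≤ generalizedFittingSubgroup X := by
    intro x hx
    obtain ⟨k, hk⟩ := P.isPGroup' ⟨x, hx⟩
    have hk' : x ^ (3 ^ k) = 1 := by
      have := congrArg Subtype.val hk
      simpa using this
    exact three_elt_mem n hn e x k hk'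
  by_contra hL
  have key : ∀ K : Subgroup X, (P : Subgroup X) ≤ K → K ≠ ⊤ → K ≤ M := by
    intro K hPK hK
    obtain ⟨C, hC, hKC⟩ := (eq_top_or_exists_le_coatom K).resolve_left hK
    have := hMuniq C ⟨hC, hPK.trans hKC⟩
    exact this ▸ hKC
  have hLM := key _ hPL hL
  have hNM := key (Subgroup.normalizer ((P : Subgroup X) : Set X)) Subgroup.le_normalizer
    (by rw [Ne, Subgroup.normalizer_eq_top_iff]; exact hPn)
  have hF := Sylow.normalizer_sup_eq_top' P hPL
  have : (⊤ : Subgroup X) ≤ M := by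
    rw [← hF]
    exact sup_le hNM hLM
  exact hMco.1 (top_le_iff.mp this)

end fstar

end Cfsg.Agent.H54.AA
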