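import Mathlib
import Cfsg.Agent.H54.ThreeCyc

/-!
# A generation lemma for alternating groups (helper54)

If `ζ` is a fixed-point-free permutation with `ζ³ = 1`, a subgroup containing all even
permutations commuting with `ζ` together with a 3-cycle moving a point out of its `ζ`-orbit
contains the alternating group (degree at least 12).
-/

set_option autoImplicit false
set_option linter.unusedSectionVars false
set_option linter.unusedVariables false

namespace Cfsg.Agent.H54.AG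

open Equiv Equiv.Perm

variable {α : Type*} [Fintype α] [DecidableEq α]

/-- `ζ` is fixed-point-free with `ζ³ = 1`. -/
structure Fpf3 (ζ : Perm α) : Prop where
  cube : ∀ x, ζ (ζ (ζ x)) = x
  fpf : ∀ x, ζ x ≠ x

/-- `y` lies in the `ζ`-orbit of `x`. -/
def inT (ζ : Perm α) (x y : α) : Prop := y = x ∨ y = ζ x ∨ y = ζ (ζ x)

instance inT_dec (ζ : Perm α) (x y : α) : Decidable (inT ζ x y) :=
  inferInstanceAs (Decidable (y = x ∨ y = ζ x ∨ y = ζ (ζ x)))

theorem Fpf3.sq_ne {ζ : Perm α} (h : Fpf3 ζ) (x : α) : ζ (ζ x) ≠ x := by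
  intro e
  have := h.cube x
  rw [e] at this
  exact h.fpf x this

theorem Fpf3.sq_ne' {ζ : Perm α} (h : Fpf3 ζ) (x : α) : ζ (ζ x) ≠ ζ x := h.fpf (ζ x)

theorem inT_symm {ζ : Perm α} (h : Fpf3 ζ) {x y : α} (hxy : inT ζ x y) : inT ζ y x := by
  rcases hxy with rfl | rfl | rfl
  · exact Or.inl rfl
  · right; right; exact (h.cube x).symm
  · right; left; exact (h.cube x).symm

theorem inT_apply {ζ : Perm α} (h : Fpf3 ζ) {x y : α} (hxy : inT ζ x y) : inT ζ x (ζ y) := by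
  rcases hxy with rfl | rfl | rfl
  · exact Or.inr (Or.inl rfl)
  · exact Or.inr (Or.inr rfl)
  · exact Or.inl (h.cube x)

theorem inT_apply_iff {ζ : Perm α} (h : Fpf3 ζ) {x y : α} : inT ζ x (ζ y) ↔ inT ζ x y := by
  constructor
  · intro hy
    have h1 := inT_apply h (inT_apply h hy)
    rwa [h.cube] at h1
  · exact inT_apply h

/-- the 3-cycle `(x, ζ x, ζ² x)` -/
def zc (ζ : Perm α) (x : α) : Perm α := swap x (ζ (ζ x)) * swap x (ζ x)

theorem zc_three {ζ : Perm α} (h : Fpf3 ζ) (x : α) : (zc ζ x).IsThreeCycle :=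
  isThreeCycle_swap_mul_swap_same (h.sq_ne x).symm (h.fpf x).symm (h.sq_ne' x)

theorem zc_apply {ζ : Perm α} (h : Fpf3 ζ) (x y : α) :
    zc ζ x y = if inT ζ x y then ζ y else y := by
  have h1 := h.fpf x
  have h2 := h.sq_ne x
  have h3 := h.sq_ne' x
  have h4 := h.cube x
  unfold zc inT
  rw [Perm.mul_apply]
  by_cases e1 : y = x
  · subst e1
    rw [swap_apply_left, swap_apply_of_ne_of_ne h1 h3.symm]
    simp
  by_cases e2 : y = ζ x
  · subst e2
    rw [swap_apply_right, swap_apply_left]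
    simp
  by_cases e3 : y = ζ (ζ x)
  · subst e3
    rw [swap_apply_of_ne_of_ne h2 h3, swap_apply_right, h4]
    simp
  · rw [swap_apply_of_ne_of_ne e1 e2, swap_apply_of_ne_of_ne e1 e3]
    simp [e1, e2, e3]

theorem zc_comm {ζ : Perm α} (h : Fpf3 ζ) (x : α) : zc ζ x * ζ = ζ * zc ζ x := by
  ext y
  rw [Perm.mul_apply, Perm.mul_apply, zc_apply h, zc_apply h]
  by_cases hy : inT ζ x y
  · rw [if_pos hy, if_pos (inT_apply h hy)]
  · rw [if_neg hy, if_neg (fun hy' => hy ((inT_apply_iff h).mp hy'))]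

/-- the triple swap exchanging the `ζ`-orbits of `a` and `b` -/
def ts (ζ : Perm α) (a b : α) : Perm α :=
  swap a b * swap (ζ a) (ζ b) * swap (ζ (ζ a)) (ζ (ζ b))

theorem ts_apply_left {ζ : Perm α} (h : Fpf3 ζ) {a b : α} (hab : ¬ inT ζ a b) :
    ts ζ a b a = b := by
  have hba : ¬ inT ζ b a := fun h' => hab (inT_symm h h')
  unfold inT at hab hba
  push Not at hab hba
  unfold ts
  rw [Perm.mul_apply, Perm.mul_apply,
    swap_apply_of_ne_of_ne (h.sq_ne a).symm hba.2.2,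
    swap_apply_of_ne_of_ne (h.fpf a).symm hba.2.1, swap_apply_left]

theorem ts_apply_of_not {ζ : Perm α} (h : Fpf3 ζ) {a b y : α}
    (hya : ¬ inT ζ a y) (hyb : ¬ inT ζ b y) : ts ζ a b y = y := by
  unfold inT at hya hyb
  push Not at hya hyb
  unfold ts
  rw [Perm.mul_apply, Perm.mul_apply,
    swap_apply_of_ne_of_ne hya.2.2 hyb.2.2,
    swap_apply_of_ne_of_ne hya.2.1 hyb.2.1, swap_apply_of_ne_of_ne hya.1 hyb.1]

theorem ts_sign {ζ : Perm α} (h : Fpf3 ζ) {a b : α} (hab : ¬ inT ζ a b) :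
    Perm.sign (ts ζ a b) = -1 := by
  unfold inT at hab
  push Not at hab
  have h1 : a ≠ b := fun e => hab.1 e.symm
  have h2 : ζ a ≠ ζ b := fun e => h1 (ζ.injective e)
  have h3 : ζ (ζ a) ≠ ζ (ζ b) := fun e => h2 (ζ.injective e)
  unfold ts
  rw [map_mul, map_mul, Perm.sign_swap h1, Perm.sign_swap h2, Perm.sign_swap h3]
  decide

theorem nodup4 {x y z t : α} (hxy : x ≠ y) (hxz : x ≠ z) (hxt : x ≠ t) (hyz : y ≠ z)
    (hyt : y ≠ t) (hzt : z ≠ t) : [x, y, z, t].Nodup := by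
  simp [hxy, hxz, hxt, hyz, hyt, hzt]

theorem ts_comm {ζ : Perm α} (h : Fpf3 ζ) {a b : α} (hab : ¬ inT ζ a b) :
    ts ζ a b * ζ = ζ * ts ζ a b := by
  have hba : ¬ inT ζ b a := fun h' => hab (inT_symm h h')
  unfold inT at hab hba
  push Not at hab hba
  have k1 : ζ * swap a b = swap (ζ a) (ζ b) * ζ := Equiv.mul_swap_eq_swap_mul ζ a b
  have k2 : ζ * swap (ζ a) (ζ b) = swap (ζ (ζ a)) (ζ (ζ b)) * ζ :=
    Equiv.mul_swap_eq_swap_mul ζ _ _
  have k3 : ζ * swap (ζ (ζ a)) (ζ (ζ b)) = swap a b * ζ := by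
    have := Equiv.mul_swap_eq_swap_mul ζ (ζ (ζ a)) (ζ (ζ b))
    rwa [h.cube, h.cube] at this
  have e1 : ζ * ts ζ a b = swap (ζ a) (ζ b) * swap (ζ (ζ a)) (ζ (ζ b)) * swap a b * ζ := by
    unfold ts
    calc ζ * (swap a b * swap (ζ a) (ζ b) * swap (ζ (ζ a)) (ζ (ζ b)))
        = (ζ * swap a b) * swap (ζ a) (ζ b) * swap (ζ (ζ a)) (ζ (ζ b)) := by
          simp only [mul_assoc]
      _ = swap (ζ a) (ζ b) * (ζ * swap (ζ a) (ζ b)) * swap (ζ (ζ a)) (ζ (ζ b)) := by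
          rw [k1]; simp only [mul_assoc]
      _ = swap (ζ a) (ζ b) * swap (ζ (ζ a)) (ζ (ζ b)) * (ζ * swap (ζ (ζ a)) (ζ (ζ b))) := by
          rw [k2]; simp only [mul_assoc]
      _ = swap (ζ a) (ζ b) * swap (ζ (ζ a)) (ζ (ζ b)) * swap a b * ζ := by
          rw [k3]; simp only [mul_assoc]
  rw [e1]
  have d1 : Perm.Disjoint (swap a b) (swap (ζ a) (ζ b)) :=
    disjoint_swap_swap (nodup4 (fun e => hab.1 e.symm) (h.fpf a).symm hba.2.1 hab.2.1
      (h.fpf b).symm (fun e => hab.1 (ζ.injective e).symm))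
  have d2 : Perm.Disjoint (swap a b) (swap (ζ (ζ a)) (ζ (ζ b))) :=
    disjoint_swap_swap (nodup4 (fun e => hab.1 e.symm) (h.sq_ne a).symm hba.2.2 hab.2.2
      (h.sq_ne b).symm (fun e => hab.1 (ζ.injective (ζ.injective e)).symm))
  unfold ts
  have c1 := d1.commute.eq
  have c2 := d2.commute.eq
  calc swap a b * swap (ζ a) (ζ b) * swap (ζ (ζ a)) (ζ (ζ b)) * ζ
      = swap (ζ a) (ζ b) * swap a b * swap (ζ (ζ a)) (ζ (ζ b)) * ζ := by rw [c1]
    _ = swap (ζ a) (ζ b) * (swap a b * swap (ζ (ζ a)) (ζ (ζ b))) * ζ := by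
        simp only [mul_assoc]
    _ = swap (ζ a) (ζ b) * (swap (ζ (ζ a)) (ζ (ζ b)) * swap a b) * ζ := by rw [c2]
    _ = swap (ζ a) (ζ b) * swap (ζ (ζ a)) (ζ (ζ b)) * swap a b * ζ := by
        simp only [mul_assoc]

theorem card_ins_le (a : α) (s : Finset α) (k : ℕ) (h : s.card ≤ k) :
    (insert a s).card ≤ k + 1 :=
  (Finset.card_insert_le a s).trans (Nat.succ_le_succ h)

/-- **Generation lemma.** -/
theorem gen {ζ : Perm α} (hζ : Fpf3 ζ) (C : Subgroup (Perm α))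
    (hC : ∀ g : Perm α, g ∈ alternatingGroup α → g * ζ = ζ * g → g ∈ C)
    (g0 : Perm α) (hg0 : g0 ∈ C) (h3 : g0.IsThreeCycle) (x0 : α)
    (hx0 : ¬ inT ζ x0 (g0 x0)) (hcard : 12 ≤ Fintype.card α) :
    alternatingGroup α ≤ C := by
  classical
  set S : Set (Perm α) := {c | c ∈ C ∧ c.IsThreeCycle} with hS
  set K : Subgroup (Perm α) := Subgroup.closure S with hK
  have hKC : K ≤ C := by
    rw [hK, Subgroup.closure_le]
    intro c hc
    exact hc.1
  have hzcS : ∀ x, zc ζ x ∈ S := fun x =>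
    ⟨hC _ (zc_three hζ x).mem_alternatingGroup (zc_comm hζ x), zc_three hζ x⟩
  -- the orbit relation of `K`
  have Rrefl : ∀ x : α, ∃ k ∈ K, k x = x := fun x => ⟨1, K.one_mem, rfl⟩
  have Rsymm : ∀ x y : α, (∃ k ∈ K, k x = y) → ∃ k ∈ K, k y = x := by
    rintro x y ⟨k, hk, rfl⟩
    exact ⟨k⁻¹, K.inv_mem hk, by simp⟩
  have Rtrans : ∀ x y z : α, (∃ k ∈ K, k x = y) → (∃ k ∈ K, k y = z) → ∃ k ∈ K, k x = z := by
    rintro x y z ⟨k, hk, rfl⟩ ⟨k', hk', rfl⟩
    exact ⟨k' * k, K.mul_mem hk' hk, rfl⟩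
  have Rz : ∀ x : α, ∃ k ∈ K, k x = ζ x := by
    intro x
    refine ⟨zc ζ x, Subgroup.subset_closure (hzcS x), ?_⟩
    rw [zc_apply hζ, if_pos (show inT ζ x x from Or.inl rfl)]
  have RT : ∀ x y : α, inT ζ x y → ∃ k ∈ K, k x = y := by
    rintro x y (rfl | rfl | rfl)
    · exact Rrefl _
    · exact Rz _
    · exact Rtrans _ _ _ (Rz x) (Rz (ζ x))
  have R0 : ∃ k ∈ K, k x0 = g0 x0 := ⟨g0, Subgroup.subset_closure ⟨hg0, h3⟩, rfl⟩
  -- `C` normalizes `K`
  have hconj : ∀ h ∈ C, ∀ k ∈ K, h * k * h⁻¹ ∈ K := by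
    intro h hh
    apply Cfsg.Agent.H54.TC.closure_conj_mem
    intro c hc
    apply Subgroup.subset_closure
    exact ⟨C.mul_mem (C.mul_mem hh hc.1) (C.inv_mem hh), Cfsg.Agent.H54.TC.three_conj hc.2 h⟩
  have Rconj : ∀ h ∈ C, ∀ x y : α, (∃ k ∈ K, k x = y) → ∃ k ∈ K, k (h x) = h y := by
    rintro h hh x y ⟨k, hk, rfl⟩
    exact ⟨h * k * h⁻¹, hconj h hh k hk, by simp⟩
  -- everything is related to `x0`
  have hall : ∀ y : α, ∃ k ∈ K, k x0 = y := by
    intro y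
    by_cases hy1 : inT ζ x0 y
    · exact RT _ _ hy1
    by_cases hy2 : inT ζ (g0 x0) y
    · exact Rtrans _ _ _ R0 (RT _ _ hy2)
    -- a fourth orbit
    obtain ⟨u, -, hu⟩ := Finset.exists_mem_notMem_of_card_lt_card
      (s := ({x0, ζ x0, ζ (ζ x0), g0 x0, ζ (g0 x0), ζ (ζ (g0 x0)), y, ζ y, ζ (ζ y)} : Finset α))
      (t := Finset.univ) (by
        rw [Finset.card_univ]
        refine lt_of_lt_of_le (lt_of_le_of_lt (card_ins_le _ _ _ (card_ins_le _ _ _
          (card_ins_le _ _ _ (card_ins_le _ _ _ (card_ins_le _ _ _ (card_ins_le _ _ _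
          (card_ins_le _ _ _ (card_ins_le _ _ _ (Finset.card_singleton _).le))))))))
          (by norm_num : (1 + 1 + 1 + 1 + 1 + 1 + 1 + 1 + 1 : ℕ) < 12)) hcard)
    simp only [Finset.mem_insert, Finset.mem_singleton, not_or] at hu
    have hu1 : ¬ inT ζ x0 u := by
      unfold inT; push Not; exact ⟨hu.1, hu.2.1, hu.2.2.1⟩
    have hu2 : ¬ inT ζ (g0 x0) u := by
      unfold inT; push Not; exact ⟨hu.2.2.2.1, hu.2.2.2.2.1, hu.2.2.2.2.2.1⟩
    have hu3 : ¬ inT ζ y u := by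
      unfold inT; push Not; exact ⟨hu.2.2.2.2.2.2.1, hu.2.2.2.2.2.2.2.1, hu.2.2.2.2.2.2.2.2⟩
    have hu3' : ¬ inT ζ u y := fun h' => hu3 (inT_symm hζ h')
    have hx0u : ¬ inT ζ u x0 := fun h' => hu1 (inT_symm hζ h')
    have hx0z : ¬ inT ζ (g0 x0) x0 := fun h' => hx0 (inT_symm hζ h')
    have hx0y : ¬ inT ζ y x0 := fun h' => hy1 (inT_symm hζ h')
    set hh : Perm α := ts ζ u y * ts ζ (g0 x0) u with hhdef
    have hhC : hh ∈ C := by
      apply hC
      · rw [Perm.mem_alternatingGroup, hhdef, map_mul, ts_sign hζ hu3', ts_sign hζ hu2]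
        decide
      · rw [hhdef, mul_assoc, ts_comm hζ hu2, ← mul_assoc, ts_comm hζ hu3', mul_assoc]
    have e1 : hh x0 = x0 := by
      rw [hhdef, Perm.mul_apply, ts_apply_of_not hζ hx0z hx0u, ts_apply_of_not hζ hx0u hx0y]
    have e2 : hh (g0 x0) = y := by
      rw [hhdef, Perm.mul_apply, ts_apply_left hζ hu2, ts_apply_left hζ hu3']
    have := Rconj hh hhC _ _ R0
    rwa [e1, e2] at this
  have htr : ∀ y ∈ (Set.univ : Set α), ∀ y' ∈ (Set.univ : Set α), ∃ g ∈ Subgroup.closure S, g y = y' := by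
    intro y _ y' _
    exact Rtrans _ _ _ (Rsymm _ _ (hall y)) (hall y')
  obtain ⟨e⟩ := Cfsg.Agent.H54.TC.alt_of_three_gen S Set.univ (fun c hc => hc.2)
    (fun _ _ _ _ => Set.mem_univ _) ⟨g0, hg0, h3⟩ htr
  have hKA : K ≤ alternatingGroup α := by
    rw [hK, Subgroup.closure_le]
    intro c hc
    exact hc.2.mem_alternatingGroup
  have hnt : Nontrivial α := by
    rw [← Fintype.one_lt_card_iff_nontrivial]; omega
  have hcu : Nat.card ↥(Set.univ : Set α) = Fintype.card α := by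
    rw [Nat.card_coe_set_eq, Set.ncard_univ, Nat.card_eq_fintype_card]
  have hnt' : Nontrivial (Fin (Nat.card ↥(Set.univ : Set α))) := by
    rw [hcu]
    exact Fin.nontrivial_iff_two_le.mpr (by omega)
  have hc1 : 2 * Nat.card ↥(alternatingGroup α) = (Fintype.card α).factorial := by
    rw [two_mul_nat_card_alternatingGroup, Nat.card_eq_fintype_card, Fintype.card_perm]
  have hc2 : 2 * Nat.card ↥(alternatingGroup (Fin (Nat.card ↥(Set.univ : Set α)))) =
      (Fintype.card α).factorial := by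
    rw [two_mul_nat_card_alternatingGroup, Nat.card_eq_fintype_card, Fintype.card_perm,
      Fintype.card_fin, hcu]
  have hc3 : Nat.card ↥K = Nat.card ↥(alternatingGroup α) := by
    have := Nat.card_congr e.toEquiv
    exact Nat.eq_of_mul_eq_mul_left two_pos (by rw [hc1, this, hc2])
  have hKeq : K = alternatingGroup α :=
    Subgroup.eq_of_le_of_card_ge hKA (le_of_eq hc3.symm)
  rw [← hKeq]
  exact hKC

end Cfsg.Agent.H54.AG
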