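import Mathlib
import Cfsg.Agent.H54.AltGen

/-!
# 3-subgroups of alternating groups contained in a unique maximal subgroup (helper54)
-/

set_option autoImplicit false
set_option linter.unusedSectionVars false
set_option linter.unusedVariables false

namespace Cfsg.Agent.H54.AM

open Equiv Equiv.Perm MulAction
open scoped Pointwise

section general

variable {α : Type*} [Fintype α] [DecidableEq α]

theorem orbit_ncard_pow (Q : Subgroup (Perm α)) (hQ : IsPGroup 3 Q) (x : α) :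
    ∃ a : ℕ, (orbit ↥Q x).ncard = 3 ^ a := by
  haveI : Fact (Nat.Prime 3) := ⟨Nat.prime_three⟩
  obtain ⟨a, ha⟩ := hQ.card_orbit x
  exact ⟨a, by rw [← Nat.card_coe_set_eq]; exact ha⟩

theorem mem_orbit_iff' (Q : Subgroup (Perm α)) (x y : α) :
    y ∈ orbit ↥Q x ↔ ∃ q ∈ Q, q x = y := by
  constructor
  · rintro ⟨q, rfl⟩
    exact ⟨q, q.2, rfl⟩
  · rintro ⟨q, hq, rfl⟩
    exact ⟨⟨q, hq⟩, rfl⟩

theorem apply_mem_orbit_iff (Q : Subgroup (Perm α)) (x : α) {q : Perm α} (hq : q ∈ Q) (w : α) :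
    q w ∈ orbit ↥Q x ↔ w ∈ orbit ↥Q x := by
  rw [mem_orbit_iff', mem_orbit_iff']
  constructor
  · rintro ⟨a, ha, h⟩
    refine ⟨q⁻¹ * a, Q.mul_mem (Q.inv_mem hq) ha, ?_⟩
    rw [Perm.mul_apply, h]; simp
  · rintro ⟨a, ha, rfl⟩
    exact ⟨q * a, Q.mul_mem hq ha, rfl⟩

/-- An element acting on a nontrivial orbit as a central fixed-point-free element of order 3. -/
theorem exists_central_on_orbit (Q : Subgroup (Perm α)) (hQ : IsPGroup 3 Q) (x : α)
    (hx : ∃ q ∈ Q, q x ≠ x) :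
    ∃ z ∈ Q, (∀ y ∈ orbit ↥Q x, z y ≠ y) ∧ (∀ y ∈ orbit ↥Q x, z (z (z y)) = y) ∧
      ∀ q ∈ Q, ∀ y ∈ orbit ↥Q x, z (q y) = q (z y) := by
  classical
  haveI : Fact (Nat.Prime 3) := ⟨Nat.prime_three⟩
  have hOinv : ∀ q ∈ Q, ∀ y ∈ orbit ↥Q x, q y ∈ orbit ↥Q x :=
    fun q hq y hy => (apply_mem_orbit_iff Q x hq y).mpr hy
  let K : Subgroup ↥Q :=
    { carrier := {q | ∀ y ∈ orbit ↥Q x, (q : Perm α) y = y}
      mul_mem' := by
        intro a b ha hb y hy
        show ((a : Perm α) * (b : Perm α)) y = y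
        rw [Perm.mul_apply, hb y hy, ha y hy]
      one_mem' := by intro y _; rfl
      inv_mem' := by
        intro a ha y hy
        show ((a : Perm α)⁻¹) y = y
        rw [Perm.inv_eq_iff_eq]; exact (ha y hy).symm }
  have hKmem : ∀ q : ↥Q, q ∈ K ↔ ∀ y ∈ orbit ↥Q x, (q : Perm α) y = y := fun q => Iff.rfl
  have hKn : K.Normal := by
    constructor
    intro a ha g y hy
    show ((g : Perm α) * (a : Perm α) * (g : Perm α)⁻¹) y = y
    have h1 : (g : Perm α)⁻¹ y ∈ orbit ↥Q x := hOinv _ (Q.inv_mem g.2) y hy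
    rw [Perm.mul_apply, Perm.mul_apply, ha _ h1]; simp
  have hnt : Nontrivial (↥Q ⧸ K) := by
    obtain ⟨q, hq, hqx⟩ := hx
    refine ⟨⟨QuotientGroup.mk (⟨q, hq⟩ : ↥Q), 1, ?_⟩⟩
    intro h
    rw [QuotientGroup.eq_one_iff] at h
    exact hqx (h x (mem_orbit_self x))
  have hPQ : IsPGroup 3 (↥Q ⧸ K) := hQ.to_quotient K
  have hcn : Nontrivial (Subgroup.center (↥Q ⧸ K)) := hPQ.center_nontrivial
  have h3 : 3 ∣ Nat.card (Subgroup.center (↥Q ⧸ K)) := by
    obtain ⟨k, hk⟩ := IsPGroup.iff_card.mp (hPQ.to_subgroup (Subgroup.center (↥Q ⧸ K)))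
    have hk0 : k ≠ 0 := by
      rintro rfl
      rw [pow_zero] at hk
      have := Finite.one_lt_card (α := Subgroup.center (↥Q ⧸ K))
      omega
    rw [hk]; exact dvd_pow_self 3 hk0
  obtain ⟨c, hc⟩ := exists_prime_orderOf_dvd_card' 3 h3
  obtain ⟨z, hz⟩ := QuotientGroup.mk_surjective (c : ↥Q ⧸ K)
  have hc1 : (c : ↥Q ⧸ K) ≠ 1 := by
    intro h
    have : c = 1 := Subtype.ext h
    rw [this, orderOf_one] at hc
    omega
  have hc3 : (c : ↥Q ⧸ K) ^ 3 = 1 := by
    have := pow_orderOf_eq_one c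
    rw [hc] at this
    have h' := congrArg Subtype.val this
    simpa using h'
  have hzK : z ∉ K := by
    intro h
    apply hc1
    rw [← hz]
    exact (QuotientGroup.eq_one_iff z).mpr h
  have hz3 : z ^ 3 ∈ K := by
    rw [← QuotientGroup.eq_one_iff, QuotientGroup.mk_pow, hz]
    exact hc3
  have hzc : ∀ q : ↥Q, (q * z)⁻¹ * (z * q) ∈ K := by
    intro q
    rw [← QuotientGroup.eq, QuotientGroup.mk_mul, QuotientGroup.mk_mul, hz]
    exact Subgroup.mem_center_iff.mp c.2 (QuotientGroup.mk q)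
  have hcomm : ∀ q ∈ Q, ∀ y ∈ orbit ↥Q x, (z : Perm α) (q y) = q ((z : Perm α) y) := by
    intro q hq y hy
    have h1 := (hKmem _).mp (hzc ⟨q, hq⟩) y hy
    have h2 : ((q * (z : Perm α))⁻¹ * ((z : Perm α) * q)) y = y := h1
    rw [Perm.mul_apply, Perm.inv_eq_iff_eq] at h2
    simpa [Perm.mul_apply] using h2
  obtain ⟨y0, hy0, hzy0⟩ : ∃ y0 ∈ orbit ↥Q x, (z : Perm α) y0 ≠ y0 := by
    by_contra hcon
    push Not at hcon
    exact hzK ((hKmem z).mpr hcon)
  refine ⟨z, z.2, ?_, ?_, hcomm⟩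
  · intro y hy
    -- y = q y0 for some q ∈ Q
    obtain ⟨a, ha, rfl⟩ := (mem_orbit_iff' Q x y0).mp hy0
    obtain ⟨b, hb, rfl⟩ := (mem_orbit_iff' Q x y).mp hy
    have e : b x = (b * a⁻¹) (a x) := by simp
    rw [e, hcomm _ (Q.mul_mem hb (Q.inv_mem ha)) _ hy0]
    intro h
    exact hzy0 ((b * a⁻¹).injective h)
  · intro y hy
    have h1 := (hKmem _).mp hz3 y hy
    have h2 : ((z : Perm α) ^ 3) y = y := h1
    simpa [pow_succ, Perm.mul_apply] using h2

theorem exists_zeta_one (Q : Subgroup (Perm α)) (hQ : IsPGroup 3 Q) (x0 : α)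
    (htr : ∀ y, y ∈ orbit ↥Q x0) (hcard : 2 ≤ Fintype.card α) :
    ∃ ζ : Perm α, AG.Fpf3 ζ ∧ ∀ q ∈ Q, ζ * q = q * ζ := by
  have hx : ∃ q ∈ Q, q x0 ≠ x0 := by
    obtain ⟨y, hy⟩ : ∃ y : α, y ≠ x0 := by
      have : Nontrivial α := by
        rw [← Fintype.one_lt_card_iff_nontrivial]; omega
      exact exists_ne x0
    obtain ⟨q, hq, rfl⟩ := (mem_orbit_iff' Q x0 y).mp (htr y)
    exact ⟨q, hq, hy⟩
  obtain ⟨z, hz, h1, h2, h3⟩ := exists_central_on_orbit Q hQ x0 hx
  refine ⟨z, ⟨fun y => h2 y (htr y), fun y => h1 y (htr y)⟩, ?_⟩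
  intro q hq
  ext y
  rw [Perm.mul_apply, Perm.mul_apply]
  exact h3 q hq y (htr y)

theorem exists_zeta_two (Q : Subgroup (Perm α)) (hQ : IsPGroup 3 Q) (x0 y0 : α)
    (hcov : ∀ w, w ∈ orbit ↥Q x0 ∨ w ∈ orbit ↥Q y0)
    (hx : ∃ q ∈ Q, q x0 ≠ x0) (hy : ∃ q ∈ Q, q y0 ≠ y0) :
    ∃ ζ : Perm α, AG.Fpf3 ζ ∧ ∀ q ∈ Q, ζ * q = q * ζ := by
  classical
  obtain ⟨z1, hz1, a1, a2, a3⟩ := exists_central_on_orbit Q hQ x0 hx
  obtain ⟨z2, hz2, b1, b2, b3⟩ := exists_central_on_orbit Q hQ y0 hy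
  have hcov' : ∀ w, w ∉ orbit ↥Q x0 → w ∈ orbit ↥Q y0 := fun w hw => (hcov w).resolve_left hw
  have i1 := fun w => apply_mem_orbit_iff Q x0 hz1 w
  have i2 := fun w => apply_mem_orbit_iff Q x0 hz2 w
  have i1' := fun w => apply_mem_orbit_iff Q x0 (Q.inv_mem hz1) w
  have i2' := fun w => apply_mem_orbit_iff Q x0 (Q.inv_mem hz2) w
  let ζ : Perm α :=
    { toFun := fun w => if w ∈ orbit ↥Q x0 then z1 w else z2 w
      invFun := fun w => if w ∈ orbit ↥Q x0 then z1⁻¹ w else z2⁻¹ w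
      left_inv := by
        intro w
        by_cases hw : w ∈ orbit ↥Q x0
        · simp only [if_pos hw, if_pos ((i1 w).mpr hw)]; simp
        · simp only [if_neg hw, if_neg (fun h => hw ((i2 w).mp h))]; simp
      right_inv := by
        intro w
        by_cases hw : w ∈ orbit ↥Q x0
        · simp only [if_pos hw, if_pos ((i1' w).mpr hw)]; simp
        · simp only [if_neg hw, if_neg (fun h => hw ((i2' w).mp h))]; simp }
  have hζ1 : ∀ w, w ∈ orbit ↥Q x0 → ζ w = z1 w := fun w hw => if_pos hw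
  have hζ2 : ∀ w, w ∉ orbit ↥Q x0 → ζ w = z2 w := fun w hw => if_neg hw
  refine ⟨ζ, ⟨?_, ?_⟩, ?_⟩
  · intro w
    by_cases hw : w ∈ orbit ↥Q x0
    · have hw1 := (i1 w).mpr hw
      have hw2 := (i1 (z1 w)).mpr hw1
      rw [hζ1 w hw, hζ1 _ hw1, hζ1 _ hw2]
      exact a2 w hw
    · have hw1 : z2 w ∉ orbit ↥Q x0 := fun h => hw ((i2 w).mp h)
      have hw2 : z2 (z2 w) ∉ orbit ↥Q x0 := fun h => hw1 ((i2 _).mp h)
      rw [hζ2 w hw, hζ2 _ hw1, hζ2 _ hw2]
      exact b2 w (hcov' w hw)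
  · intro w
    by_cases hw : w ∈ orbit ↥Q x0
    · rw [hζ1 w hw]; exact a1 w hw
    · rw [hζ2 w hw]; exact b1 w (hcov' w hw)
  · intro q hq
    ext w
    rw [Perm.mul_apply, Perm.mul_apply]
    by_cases hw : w ∈ orbit ↥Q x0
    · rw [hζ1 _ ((apply_mem_orbit_iff Q x0 hq w).mpr hw), hζ1 w hw]
      exact a3 q hq w hw
    · rw [hζ2 _ (fun h => hw ((apply_mem_orbit_iff Q x0 hq w).mp h)), hζ2 w hw]
      exact b3 q hq w (hcov' w hw)

end general

section alt

variable {α : Type*} [Fintype α] [DecidableEq α]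

theorem exists_mem_notMem (D : Set α) (F : Finset α) (h : F.card < D.ncard) :
    ∃ d ∈ D, d ∉ F := by
  by_contra hcon
  push Not at hcon
  have h1 : D ⊆ (F : Set α) := fun d hd => hcon d hd
  have h2 := Set.ncard_le_ncard h1 (Finset.finite_toSet F)
  rw [Set.ncard_coe_finset] at h2
  omega

theorem exists_notMem (F : Finset α) (h : F.card < Fintype.card α) : ∃ d : α, d ∉ F := by
  obtain ⟨d, -, hd⟩ := Finset.exists_mem_notMem_of_card_lt_card (s := F) (t := Finset.univ)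
    (by rwa [Finset.card_univ])
  exact ⟨d, hd⟩

theorem card3 (a b c : α) : ({a, b, c} : Finset α).card ≤ 3 :=
  AG.card_ins_le _ _ _ (AG.card_ins_le _ _ _ (Finset.card_singleton _).le)

theorem card4 (a b c d : α) : ({a, b, c, d} : Finset α).card ≤ 4 :=
  AG.card_ins_le _ _ _ (card3 _ _ _)

/-- The centralizer of `ζ` and the stabilizer of a block system generate the alternating group. -/
theorem lemmaU (P : Subgroup ↥(alternatingGroup α)) (ζ : Perm α) (hζ : AG.Fpf3 ζ)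
    (hζP : ∀ p ∈ P, ζ * (p : Perm α) = (p : Perm α) * ζ)
    (D : Set α)
    (hD : ∀ p ∈ P, ∀ u ∈ D, ∀ u' ∈ D, (p : Perm α) u ∈ D → (p : Perm α) u' ∈ D)
    (hD5 : 5 ≤ D.ncard) (w0 : α) (hw0 : w0 ∉ D) (hcard : 12 ≤ Fintype.card α) :
    ∃ K1 K2 : Subgroup ↥(alternatingGroup α), P ≤ K1 ∧ P ≤ K2 ∧ K1 ≠ ⊤ ∧ K2 ≠ ⊤ ∧
      K1 ⊔ K2 = ⊤ := by
  classical
  let r : α → α → Prop := fun x y => ∀ p ∈ P, ((p : Perm α) x ∈ D ↔ (p : Perm α) y ∈ D)
  have rsymm : ∀ x y, r x y → r y x := fun x y h p hp => (h p hp).symm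
  have rtrans : ∀ x y z, r x y → r y z → r x z :=
    fun x y z h1 h2 p hp => (h1 p hp).trans (h2 p hp)
  have rD : ∀ u ∈ D, ∀ u' ∈ D, r u u' := fun u hu u' hu' p hp =>
    ⟨hD p hp u hu u' hu', hD p hp u' hu' u hu⟩
  let K1 : Subgroup ↥(alternatingGroup α) :=
    (Subgroup.centralizer {ζ}).comap (alternatingGroup α).subtype
  have hK1 : ∀ g : ↥(alternatingGroup α), g ∈ K1 ↔ ζ * (g : Perm α) = (g : Perm α) * ζ := by
    intro g
    show (g : Perm α) ∈ Subgroup.centralizer {ζ} ↔ _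
    rw [Subgroup.mem_centralizer_iff]
    simp
  let K2 : Subgroup ↥(alternatingGroup α) :=
    { carrier := {g | ∀ x y, r x y ↔ r ((g : Perm α) x) ((g : Perm α) y)}
      mul_mem' := by
        intro a b ha hb x y
        show r x y ↔ r (((a : Perm α) * (b : Perm α)) x) (((a : Perm α) * (b : Perm α)) y)
        rw [Perm.mul_apply, Perm.mul_apply, ← ha, ← hb]
      one_mem' := by intro x y; exact Iff.rfl
      inv_mem' := by
        intro a ha x y
        show r x y ↔ r ((a : Perm α)⁻¹ x) ((a : Perm α)⁻¹ y)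
        rw [ha ((a : Perm α)⁻¹ x) ((a : Perm α)⁻¹ y)]
        simp }
  have hK2 : ∀ g : ↥(alternatingGroup α),
      g ∈ K2 ↔ ∀ x y, r x y ↔ r ((g : Perm α) x) ((g : Perm α) y) := fun g => Iff.rfl
  have hPK1 : P ≤ K1 := fun p hp => (hK1 p).mpr (hζP p hp)
  have hPK2 : P ≤ K2 := by
    intro q hq
    rw [hK2]
    intro x y
    constructor
    · intro h p hp
      have := h (p * q) (P.mul_mem hp hq)
      simpa [Subgroup.coe_mul, Perm.mul_apply] using this
    · intro h p hp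
      have := h (p * q⁻¹) (P.mul_mem hp (P.inv_mem hq))
      simpa [Subgroup.coe_mul, Perm.mul_apply] using this
  have hne : Nonempty α := by
    rw [← Fintype.card_pos_iff]; omega
  -- K1 is proper
  have hK1top : K1 ≠ ⊤ := by
    obtain ⟨x⟩ := hne
    obtain ⟨y, hy⟩ := exists_notMem ({x, ζ x, ζ (ζ x)} : Finset α)
      (lt_of_le_of_lt (card3 _ _ _) (by omega))
    simp only [Finset.mem_insert, Finset.mem_singleton, not_or] at hy
    have hfx := hζ.fpf x
    have hg3 : (swap x y * swap x (ζ x)).IsThreeCycle :=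
      isThreeCycle_swap_mul_swap_same (fun e => hy.1 e.symm) hfx.symm hy.2.1
    intro htop
    have hmem : (⟨swap x y * swap x (ζ x), hg3.mem_alternatingGroup⟩ : ↥(alternatingGroup α)) ∈ K1 := by
      rw [htop]; exact Subgroup.mem_top _
    rw [hK1] at hmem
    have h' := congrArg (fun f : Perm α => f x) hmem
    simp only [Perm.mul_apply] at h'
    rw [swap_apply_left, swap_apply_of_ne_of_ne hfx (fun e => hy.2.1 e.symm), swap_apply_right,
      swap_apply_left] at h'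
    exact hy.2.2 h'.symm
  -- K2 is proper
  have hK2top : K2 ≠ ⊤ := by
    obtain ⟨u, u', hu, hu', huu'⟩ := (Set.one_lt_ncard_iff (Set.toFinite D)).mp (by omega)
    obtain ⟨w', hw'⟩ := exists_notMem ({u, u', w0} : Finset α)
      (lt_of_le_of_lt (card3 _ _ _) (by omega))
    simp only [Finset.mem_insert, Finset.mem_singleton, not_or] at hw'
    have hw0u : w0 ≠ u := fun e => hw0 (e ▸ hu)
    have hw0u' : w0 ≠ u' := fun e => hw0 (e ▸ hu')
    have hg3 : (swap u w' * swap u w0).IsThreeCycle :=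
      isThreeCycle_swap_mul_swap_same (fun e => hw'.1 e.symm) hw0u.symm hw'.2.2
    intro htop
    have hmem : (⟨swap u w' * swap u w0, hg3.mem_alternatingGroup⟩ : ↥(alternatingGroup α)) ∈ K2 := by
      rw [htop]; exact Subgroup.mem_top _
    rw [hK2] at hmem
    have h1 := (hmem u u').mp (rD u hu u' hu')
    simp only [Perm.mul_apply] at h1
    rw [swap_apply_left, swap_apply_of_ne_of_ne hw0u (fun e => hw'.2.2 e.symm),
      swap_apply_of_ne_of_ne (Ne.symm huu') (Ne.symm hw0u'),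
      swap_apply_of_ne_of_ne (Ne.symm huu') (fun e => hw'.2.1 e.symm)] at h1
    have h2 := h1 1 P.one_mem
    simp only [Subgroup.coe_one, Perm.one_apply] at h2
    exact hw0 (h2.mpr hu')
  refine ⟨K1, K2, hPK1, hPK2, hK1top, hK2top, ?_⟩
  -- generation
  obtain ⟨x, hx⟩ : D.Nonempty := by
    rw [← Set.ncard_pos (Set.toFinite D)]; omega
  obtain ⟨z, hzD, hz⟩ := exists_mem_notMem D ({x, ζ x, ζ (ζ x)} : Finset α)
    (lt_of_le_of_lt (card3 _ _ _) (by omega))
  obtain ⟨w, hwD, hw⟩ := exists_mem_notMem D ({x, ζ x, ζ (ζ x), z} : Finset α)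
    (lt_of_le_of_lt (card4 _ _ _ _) (by omega))
  simp only [Finset.mem_insert, Finset.mem_singleton, not_or] at hz hw
  have h3 : (swap x w * swap x z).IsThreeCycle :=
    isThreeCycle_swap_mul_swap_same (fun e => hw.1 e.symm) (fun e => hz.1 e.symm) hw.2.2.2
  have hg0x : (swap x w * swap x z) x = z := by
    rw [Perm.mul_apply, swap_apply_left, swap_apply_of_ne_of_ne hz.1 (fun e => hw.2.2.2 e.symm)]
  have key : ∀ a, (swap x w * swap x z) a = a ∨ (a ∈ D ∧ (swap x w * swap x z) a ∈ D) := by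
    intro a
    by_cases e1 : a = x
    · subst e1
      right
      exact ⟨hx, by rw [hg0x]; exact hzD⟩
    by_cases e2 : a = z
    · subst e2
      right
      refine ⟨hzD, ?_⟩
      rw [Perm.mul_apply, swap_apply_right, swap_apply_left]
      exact hwD
    by_cases e3 : a = w
    · subst e3
      right
      refine ⟨hwD, ?_⟩
      rw [Perm.mul_apply, swap_apply_of_ne_of_ne e1 e2, swap_apply_right]
      exact hx
    · left
      rw [Perm.mul_apply, swap_apply_of_ne_of_ne e1 e2, swap_apply_of_ne_of_ne e1 e3]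
  have rg : ∀ a, r a ((swap x w * swap x z) a) := by
    intro a
    rcases key a with h | ⟨h1, h2⟩
    · rw [h]; exact fun p hp => Iff.rfl
    · exact rD a h1 _ h2
  have hg0K2 : (⟨swap x w * swap x z, h3.mem_alternatingGroup⟩ : ↥(alternatingGroup α)) ∈ K2 := by
    rw [hK2]
    intro a b
    constructor
    · intro h
      exact rtrans _ _ _ (rsymm _ _ (rg a)) (rtrans _ _ _ h (rg b))
    · intro h
      exact rtrans _ _ _ (rg a) (rtrans _ _ _ h (rsymm _ _ (rg b)))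
  have hA := AG.gen hζ ((K1 ⊔ K2).map (alternatingGroup α).subtype)
    (fun g hg hcomm => ⟨⟨g, hg⟩, Subgroup.mem_sup_left ((hK1 _).mpr hcomm.symm), rfl⟩)
    (swap x w * swap x z) ⟨⟨_, h3.mem_alternatingGroup⟩, Subgroup.mem_sup_right hg0K2, rfl⟩
    h3 x (by
      rw [hg0x]
      unfold AG.inT
      push Not
      exact hz) hcard
  rw [eq_top_iff]
  intro g _
  obtain ⟨g', hg', e⟩ := hA g.2
  have : g' = g := Subtype.ext e
  exact this ▸ hg'

/-- Two distinct set stabilizers containing `P`. -/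
theorem three_sets (P : Subgroup ↥(alternatingGroup α)) (hcard : 5 ≤ Fintype.card α)
    (O1 O2 O3 : Set α)
    (hP1 : P ≤ stabilizer ↥(alternatingGroup α) O1)
    (hP2 : P ≤ stabilizer ↥(alternatingGroup α) O2)
    (h12 : Disjoint O1 O2) (h13 : Disjoint O1 O3) (h23 : Disjoint O2 O3)
    (hne1 : O1.Nonempty) (hne2 : O2.Nonempty) (hne3 : O3.Nonempty)
    (hc1 : Nat.card α ≠ 2 * O1.ncard) (hc2 : Nat.card α ≠ 2 * O2.ncard) :
    ∃ K1 K2 : Subgroup ↥(alternatingGroup α), P ≤ K1 ∧ P ≤ K2 ∧ K1 ≠ ⊤ ∧ K2 ≠ ⊤ ∧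
      K1 ⊔ K2 = ⊤ := by
  obtain ⟨a, ha⟩ := hne2
  obtain ⟨b, hb⟩ := hne3
  obtain ⟨c, hc⟩ := hne1
  have ha' : a ∈ O1ᶜ := fun h => Set.disjoint_left.mp h12 h ha
  have hb' : b ∈ O1ᶜ := fun h => Set.disjoint_left.mp h13 h hb
  have hc' : c ∈ O2ᶜ := fun h => Set.disjoint_left.mp h12 hc h
  have hco1 : IsCoatom (stabilizer ↥(alternatingGroup α) O1) :=
    alternatingGroup.isCoatom_stabilizer ⟨c, hc⟩ ⟨a, ha'⟩ hc1
  have hco2 : IsCoatom (stabilizer ↥(alternatingGroup α) O2) :=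
    alternatingGroup.isCoatom_stabilizer ⟨a, ha⟩ ⟨c, hc'⟩ hc2
  have hne : stabilizer ↥(alternatingGroup α) O1 ≠ stabilizer ↥(alternatingGroup α) O2 := by
    obtain ⟨g, hg, hgab⟩ := alternatingGroup.exists_mem_stabilizer_smul_eq
      (by rw [Nat.card_eq_fintype_card]; omega) a ha' b hb'
    rw [stabilizer_compl] at hg
    intro heq
    rw [heq, mem_stabilizer_iff] at hg
    have h1 : g • a ∈ g • O2 := Set.smul_mem_smul_set ha
    rw [hg, hgab] at h1
    exact Set.disjoint_left.mp h23 h1 hb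
  exact ⟨_, _, hP1, hP2, hco1.1, hco2.1, hco1.sup_eq_top_of_ne hco2 hne⟩

/-- A block of size at least 5 for a transitive 3-group of degree at least 27. -/
theorem exists_block (Q : Subgroup (Perm α)) (hQ : IsPGroup 3 Q) (x0 : α)
    (htr : ∀ y, y ∈ orbit ↥Q x0) (hcard : 27 ≤ Fintype.card α) :
    ∃ D : Set α, (∀ q ∈ Q, ∀ u ∈ D, ∀ u' ∈ D, q u ∈ D → q u' ∈ D) ∧ 5 ≤ D.ncard ∧
      ∃ w0, w0 ∉ D := by
  classical
  haveI : Fact (Nat.Prime 3) := ⟨Nat.prime_three⟩
  obtain ⟨k, hk⟩ := IsPGroup.iff_card.mp hQ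
  obtain ⟨j, hj⟩ := IsPGroup.iff_card.mp (hQ.to_subgroup (stabilizer ↥Q x0))
  have horb : (orbit ↥Q x0).ncard = Fintype.card α := by
    have : orbit ↥Q x0 = Set.univ := Set.eq_univ_of_forall htr
    rw [this, Set.ncard_univ, Nat.card_eq_fintype_card]
  have hidx : (stabilizer ↥Q x0).index = Fintype.card α := by
    rw [index_stabilizer, horb]
  have hmul : Nat.card (stabilizer ↥Q x0) * (stabilizer ↥Q x0).index = Nat.card ↥Q :=
    (stabilizer ↥Q x0).card_mul_index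
  have hjk : j + 1 ≤ k := by
    by_contra hcon
    push Not at hcon
    have h1 : 3 ^ k ≤ 3 ^ j := Nat.pow_le_pow_right (by norm_num) (by omega)
    rw [hj, hk, hidx] at hmul
    have h2 : 0 < 3 ^ j := by positivity
    nlinarith
  obtain ⟨Q0, hQ0card, hStQ0⟩ := Sylow.exists_subgroup_card_pow_prime_le 3 (m := k - 1) (n := j)
    (by rw [hk]; exact pow_dvd_pow 3 (by omega)) (stabilizer ↥Q x0) hj (by omega)
  have hQ0idx : Q0.index = 3 := by
    have h1 := Q0.card_mul_index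
    rw [hQ0card, hk] at h1
    have h3 : (3 : ℕ) ^ k = 3 ^ (k - 1) * 3 := by
      rw [← pow_succ]; congr 1; omega
    rw [h3] at h1
    exact Nat.eq_of_mul_eq_mul_left (by positivity) h1
  have hst : stabilizer ↥Q0 x0 = (stabilizer ↥Q x0).subgroupOf Q0 := by
    ext a
    rw [mem_stabilizer_iff, Subgroup.mem_subgroupOf, mem_stabilizer_iff]
    rfl
  have hDcard : (orbit ↥Q0 x0).ncard * 3 = Fintype.card α := by
    rw [← index_stabilizer, hst, ← hQ0idx, ← hidx]
    exact Subgroup.relIndex_mul_index hStQ0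
  refine ⟨orbit ↥Q0 x0, ?_, by omega, ?_⟩
  · rintro q hq _ ⟨a, rfl⟩ _ ⟨b, rfl⟩ ⟨c, hc⟩
    have h1 : (c : ↥Q)⁻¹ * ⟨q, hq⟩ * (a : ↥Q) ∈ stabilizer ↥Q x0 := by
      rw [mem_stabilizer_iff, mul_smul, mul_smul]
      have hc' : (c : ↥Q) • x0 = (⟨q, hq⟩ : ↥Q) • ((a : ↥Q) • x0) := hc
      rw [← hc', inv_smul_smul]
    have h2 : (⟨q, hq⟩ : ↥Q) ∈ Q0 := by
      have h3 := Q0.mul_mem (Q0.mul_mem c.2 (hStQ0 h1)) (Q0.inv_mem a.2)
      have e : (c : ↥Q) * ((c : ↥Q)⁻¹ * ⟨q, hq⟩ * (a : ↥Q)) * (a : ↥Q)⁻¹ = ⟨q, hq⟩ := by group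
      rwa [e] at h3
    exact ⟨⟨⟨q, hq⟩, h2⟩ * b, rfl⟩
  · by_contra hcon
    push Not at hcon
    have : orbit ↥Q0 x0 = Set.univ := Set.eq_univ_of_forall hcon
    rw [this, Set.ncard_univ, Nat.card_eq_fintype_card] at hDcard
    omega

end alt

section final

theorem exists_moving {α : Type*} [Fintype α] [DecidableEq α] (Q : Subgroup (Perm α)) (x : α)
    (h : 1 < (orbit ↥Q x).ncard) : ∃ q ∈ Q, q x ≠ x := by
  obtain ⟨u, u', hu, hu', hne⟩ := (Set.one_lt_ncard_iff (Set.toFinite _)).mp h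
  by_cases e : u = x
  · obtain ⟨q, hq, rfl⟩ := (mem_orbit_iff' Q x u').mp hu'
    exact ⟨q, hq, fun h' => hne (e.trans h'.symm)⟩
  · obtain ⟨q, hq, rfl⟩ := (mem_orbit_iff' Q x u).mp hu
    exact ⟨q, hq, e⟩

/-- A 3-subgroup of `Alt(n)`, `n ≥ 5`, that is not contained in two proper subgroups generating
`Alt(n)` forces `n ∈ {6, 9} ∪ {3^a + 1 : a ≥ 2}`. -/
theorem partB (n : ℕ) (hn : 5 ≤ n) (P : Subgroup ↥(alternatingGroup (Fin n)))
    (hP : IsPGroup 3 P)
    (hno : ¬ ∃ K1 K2 : Subgroup ↥(alternatingGroup (Fin n)),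
      P ≤ K1 ∧ P ≤ K2 ∧ K1 ≠ ⊤ ∧ K2 ≠ ⊤ ∧ K1 ⊔ K2 = ⊤) :
    n = 6 ∨ n = 9 ∨ ∃ a : ℕ, 2 ≤ a ∧ n = 3 ^ a + 1 := by
  classical
  set Q : Subgroup (Perm (Fin n)) := P.map (alternatingGroup (Fin n)).subtype with hQdef
  have hQ : IsPGroup 3 Q :=
    hP.of_equiv (P.equivMapOfInjective _ (Subgroup.subtype_injective _))
  have hPQ : ∀ p ∈ P, (p : Perm (Fin n)) ∈ Q := fun p hp => ⟨p, hp, rfl⟩
  have hcardα : Fintype.card (Fin n) = n := Fintype.card_fin n
  have hcn : Nat.card (Fin n) = n := by simp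
  have hstab : ∀ x : Fin n, P ≤ stabilizer ↥(alternatingGroup (Fin n)) (orbit ↥Q x) := by
    intro x p hp
    rw [mem_stabilizer_iff]
    exact smul_orbit (⟨(p : Perm (Fin n)), hPQ p hp⟩ : ↥Q) x
  have hpos : ∀ w : Fin n, 0 < (orbit ↥Q w).ncard :=
    fun w => (Set.ncard_pos (Set.toFinite _)).mpr (nonempty_orbit w)
  by_cases h3 : ∃ x y z : Fin n, Disjoint (orbit ↥Q x) (orbit ↥Q y) ∧
      Disjoint (orbit ↥Q x) (orbit ↥Q z) ∧ Disjoint (orbit ↥Q y) (orbit ↥Q z)
  · exfalso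
    obtain ⟨x, y, z, hxy, hxz, hyz⟩ := h3
    apply hno
    have hsum : (orbit ↥Q x).ncard + (orbit ↥Q y).ncard + (orbit ↥Q z).ncard ≤ n := by
      have h1 : ((orbit ↥Q x) ∪ (orbit ↥Q y) ∪ (orbit ↥Q z)).ncard =
          (orbit ↥Q x).ncard + (orbit ↥Q y).ncard + (orbit ↥Q z).ncard := by
        rw [Set.ncard_union_eq (Set.disjoint_union_left.mpr ⟨hxz, hyz⟩), Set.ncard_union_eq hxy]
      have h2 := Set.ncard_le_ncard
        (Set.subset_univ ((orbit ↥Q x) ∪ (orbit ↥Q y) ∪ (orbit ↥Q z)))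
      rw [Set.ncard_univ, hcn] at h2
      omega
    have px := hpos x
    have py := hpos y
    have pz := hpos z
    by_cases c1 : n = 2 * (orbit ↥Q x).ncard
    · exact three_sets P (by rw [hcardα]; exact hn) (orbit ↥Q y) (orbit ↥Q z) (orbit ↥Q x)
        (hstab y) (hstab z) hyz hxy.symm hxz.symm (nonempty_orbit y) (nonempty_orbit z)
        (nonempty_orbit x) (by rw [hcn]; omega) (by rw [hcn]; omega)
    · by_cases c2 : n = 2 * (orbit ↥Q y).ncard
      · exact three_sets P (by rw [hcardα]; exact hn) (orbit ↥Q x) (orbit ↥Q z) (orbit ↥Q y)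
          (hstab x) (hstab z) hxz hxy hyz.symm (nonempty_orbit x) (nonempty_orbit z)
          (nonempty_orbit y) (by rw [hcn]; exact c1) (by rw [hcn]; omega)
      · exact three_sets P (by rw [hcardα]; exact hn) (orbit ↥Q x) (orbit ↥Q y) (orbit ↥Q z)
          (hstab x) (hstab y) hxy hxz hyz (nonempty_orbit x) (nonempty_orbit y)
          (nonempty_orbit z) (by rw [hcn]; exact c1) (by rw [hcn]; exact c2)
  · push Not at h3
    have hn0 : 0 < n := by omega
    set x0 : Fin n := ⟨0, hn0⟩ with hx0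
    have hdisj : ∀ x y : Fin n, y ∉ orbit ↥Q x → Disjoint (orbit ↥Q x) (orbit ↥Q y) := by
      intro x y hy
      rcases orbit.eq_or_disjoint (G := ↥Q) x y with h | h
      · exact absurd (h ▸ mem_orbit_self y) hy
      · exact h
    by_cases htr : ∀ y, y ∈ orbit ↥Q x0
    · obtain ⟨a, ha⟩ := orbit_ncard_pow Q hQ x0
      have hna : n = 3 ^ a := by
        have : orbit ↥Q x0 = Set.univ := Set.eq_univ_of_forall htr
        rw [this, Set.ncard_univ, hcn] at ha
        exact ha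
      have ha2 : 2 ≤ a := by
        by_contra hcon
        push Not at hcon
        interval_cases a <;> omega
      rcases Nat.lt_or_ge a 3 with ha3 | ha3
      · right; left
        have : a = 2 := by omega
        subst this
        omega
      · exfalso
        apply hno
        have hn27 : 27 ≤ n := by
          rw [hna]
          calc 27 = 3 ^ 3 := by norm_num
            _ ≤ 3 ^ a := Nat.pow_le_pow_right (by norm_num) ha3
        obtain ⟨ζ, hζ, hζQ⟩ := exists_zeta_one Q hQ x0 htr (by rw [hcardα]; omega)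
        obtain ⟨D, hDb, hD5, w0, hw0⟩ := exists_block Q hQ x0 htr (by rw [hcardα]; exact hn27)
        exact lemmaU P ζ hζ (fun p hp => hζQ _ (hPQ p hp)) D (fun p hp => hDb _ (hPQ p hp))
          hD5 w0 hw0 (by rw [hcardα]; omega)
    · push Not at htr
      obtain ⟨y0, hy0⟩ := htr
      have hd0 := hdisj x0 y0 hy0
      have hcov : ∀ w, w ∈ orbit ↥Q x0 ∨ w ∈ orbit ↥Q y0 := by
        intro w
        by_contra hcon
        push Not at hcon
        exact h3 x0 y0 w hd0 (hdisj x0 w hcon.1) (hdisj y0 w hcon.2)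
      obtain ⟨a, ha⟩ := orbit_ncard_pow Q hQ x0
      obtain ⟨b, hb⟩ := orbit_ncard_pow Q hQ y0
      have hnab : n = 3 ^ a + 3 ^ b := by
        have hun : orbit ↥Q x0 ∪ orbit ↥Q y0 = Set.univ := Set.eq_univ_of_forall hcov
        have h1 := Set.ncard_union_eq hd0
        rw [hun, Set.ncard_univ, ha, hb, hcn] at h1
        exact h1
      rcases Nat.eq_zero_or_pos a with ha0 | ha0
      · right; right
        subst ha0
        refine ⟨b, ?_, by rw [hnab]; ring⟩
        by_contra hcon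
        push Not at hcon
        interval_cases b <;> omega
      rcases Nat.eq_zero_or_pos b with hb0 | hb0
      · right; right
        subst hb0
        refine ⟨a, ?_, by rw [hnab]; norm_num⟩
        by_contra hcon
        push Not at hcon
        interval_cases a <;> omega
      by_cases hab1 : a = 1 ∧ b = 1
      · left
        rw [hnab, hab1.1, hab1.2]
        norm_num
      · exfalso
        apply hno
        have h3a : 3 ≤ 3 ^ a := by
          calc 3 = 3 ^ 1 := by norm_num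
            _ ≤ 3 ^ a := Nat.pow_le_pow_right (by norm_num) ha0
        have h3b : 3 ≤ 3 ^ b := by
          calc 3 = 3 ^ 1 := by norm_num
            _ ≤ 3 ^ b := Nat.pow_le_pow_right (by norm_num) hb0
        have hx : ∃ q ∈ Q, q x0 ≠ x0 := exists_moving Q x0 (by rw [ha]; omega)
        have hy : ∃ q ∈ Q, q y0 ≠ y0 := exists_moving Q y0 (by rw [hb]; omega)
        obtain ⟨ζ, hζ, hζQ⟩ := exists_zeta_two Q hQ x0 y0 hcov hx hy
        rcases Nat.lt_or_ge a 2 with ha2 | ha2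
        · have hb2 : 2 ≤ b := by omega
          have h9 : 9 ≤ 3 ^ b := by
            calc 9 = 3 ^ 2 := by norm_num
              _ ≤ 3 ^ b := Nat.pow_le_pow_right (by norm_num) hb2
          refine lemmaU P ζ hζ (fun p hp => hζQ _ (hPQ p hp)) (orbit ↥Q y0) ?_ ?_ x0 ?_
            (by rw [hcardα]; omega)
          · intro p hp u hu u' hu' _
            exact (apply_mem_orbit_iff Q y0 (hPQ p hp) u').mpr hu'
          · rw [hb]; omega
          · exact fun h => Set.disjoint_left.mp hd0 (mem_orbit_self x0) h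
        · have h9 : 9 ≤ 3 ^ a := by
            calc 9 = 3 ^ 2 := by norm_num
              _ ≤ 3 ^ a := Nat.pow_le_pow_right (by norm_num) ha2
          refine lemmaU P ζ hζ (fun p hp => hζQ _ (hPQ p hp)) (orbit ↥Q x0) ?_ ?_ y0 hy0
            (by rw [hcardα]; omega)
          · intro p hp u hu u' hu' _
            exact (apply_mem_orbit_iff Q x0 (hPQ p hp) u').mpr hu'
          · rw [ha]; omega

end final

end Cfsg.Agent.H54.AM
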