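import Mathlib
import Cfsg.Agent.H19.ZassInvCount

set_option autoImplicit false
set_option linter.unusedSectionVars false
set_option linter.unusedVariables false

namespace Cfsg.Agent.H54.BSW

variable {G : Type*} [Group G]

/-- Element-wise working hypotheses for the Brauer-Suzuki-Wall situation. -/
structure W (t s : G) (K : Subgroup G) : Prop where
  t1 : t ≠ 1
  tt : t * t = 1
  ss : s * s = 1
  comm : ∀ a ∈ K, ∀ b ∈ K, a * b = b * a
  tK : t ∈ K
  sK : s ∉ K
  inv : ∀ x ∈ K, s * x * s = x⁻¹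
  cent : ∀ x, x * t = t * x ↔ x ∈ K ∨ s * x ∈ K
  invol : ∀ x ∈ K, x * x = 1 → x = 1 ∨ x = t
  ti : ∀ g x, x ∈ K → x ≠ 1 → g * x * g⁻¹ ∈ K → g * t = t * g
  conj : ∀ x y : G, orderOf x = 2 → orderOf y = 2 → IsConj x y

theorem ord2_iff {x : G} : orderOf x = 2 ↔ x * x = 1 ∧ x ≠ 1 := by
  rw [orderOf_eq_prime_iff (p := 2) (hp := ⟨Nat.prime_two⟩), pow_two]

theorem inv_of_sq {x : G} (h : x * x = 1) : x⁻¹ = x := inv_eq_of_mul_eq_one_left h

/-- The subgroup `K ∪ sK`. -/
def dihSub (s : G) (K : Subgroup G) (ss : s * s = 1) (inv : ∀ x ∈ K, s * x * s = x⁻¹) :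
    Subgroup G where
  carrier := {x | x ∈ K ∨ s * x ∈ K}
  one_mem' := Or.inl K.one_mem
  mul_mem' := by
    rintro x y (hx | hx) (hy | hy)
    · exact Or.inl (K.mul_mem hx hy)
    · right
      have h1 : s * (x * y) = (s * x * s) * (s * y) := by
        calc s * (x * y) = s * x * (s * s) * y := by rw [ss]; group
          _ = (s * x * s) * (s * y) := by group
      rw [h1, inv x hx]
      exact K.mul_mem (K.inv_mem hx) hy
    · right
      have h1 : s * (x * y) = (s * x) * y := by group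
      rw [h1]; exact K.mul_mem hx hy
    · left
      have h1 : x * y = (s * (s * x) * s)  * (s * y) := by
        calc x * y = (s * s) * x * (s * s) * y := by rw [ss]; group
          _ = (s * (s * x) * s) * (s * y) := by group
      rw [h1, inv _ hx]
      exact K.mul_mem (K.inv_mem hx) hy
  inv_mem' := by
    rintro x (hx | hx)
    · exact Or.inl (K.inv_mem hx)
    · right
      have h1 : s * x⁻¹ = (s * (s * x) * s)⁻¹ := by
        have : s⁻¹ = s := inv_of_sq ss
        calc s * x⁻¹ = s⁻¹⁻¹ * x⁻¹ * (s * s)⁻¹ := by rw [ss]; group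
          _ = (s * (s * x) * s)⁻¹ := by rw [this]; group
      rw [h1, inv _ hx, inv_inv]; exact hx

theorem mem_cent {y a : G} : a ∈ Subgroup.centralizer ({y} : Set G) ↔ a * y = y * a := by
  rw [Subgroup.mem_centralizer_iff]
  constructor
  · intro h; exact (h y rfl).symm
  · intro h z hz; rw [Set.mem_singleton_iff] at hz; subst hz; exact h.symm

theorem W.of_hyp (t : G) (ht : orderOf t = 2)
    (K : Subgroup G) (hKab : IsMulCommutative ↥K) (hKH : K ≤ Subgroup.centralizer ({t} : Set G))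
    (htK : t ∈ K)
    (s : G) (hs : orderOf s = 2) (hsH : s ∈ Subgroup.centralizer ({t} : Set G)) (hsK : s ∉ K)
    (hH : K ⊔ Subgroup.zpowers s = Subgroup.centralizer ({t} : Set G))
    (hCK : K ⊓ Subgroup.centralizer ({s} : Set G) = Subgroup.zpowers t)
    (hinv : ∀ x ∈ K, s * x * s⁻¹ = x⁻¹)
    (hTI : ∀ g : G, g ∉ Subgroup.centralizer ({t} : Set G) →
      K ⊓ K.map (MulAut.conj g).toMonoidHom = ⊥)
    (hconj : ∀ x y : G, orderOf x = 2 → orderOf y = 2 → IsConj x y) : W t s K := by
  have htt := (ord2_iff.mp ht)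
  have hss := (ord2_iff.mp hs)
  have hsi : s⁻¹ = s := inv_of_sq hss.1
  have hinv' : ∀ x ∈ K, s * x * s = x⁻¹ := by
    intro x hx
    have := hinv x hx
    rwa [hsi] at this
  have hcent : ∀ x, x * t = t * x ↔ x ∈ Subgroup.centralizer ({t} : Set G) := by
    intro x
    rw [Subgroup.mem_centralizer_iff]
    constructor
    · intro h y hy
      rw [Set.mem_singleton_iff] at hy
      subst hy; exact h.symm
    · intro h
      exact (h t rfl).symm
  refine ⟨htt.2, htt.1, hss.1, ?_, htK, hsK, hinv', ?_, ?_, ?_, hconj⟩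
  · intro a ha b hb
    have := hKab.is_comm.comm ⟨a, ha⟩ ⟨b, hb⟩
    exact congrArg Subtype.val this
  · intro x
    rw [hcent, ← hH]
    constructor
    · intro hx
      have hle : K ⊔ Subgroup.zpowers s ≤ dihSub s K hss.1 hinv' := by
        apply sup_le
        · intro y hy; exact Or.inl hy
        · rw [Subgroup.zpowers_le]
          right
          rw [hss.1]; exact K.one_mem
      exact hle hx
    · rintro (hx | hx)
      · exact Subgroup.mem_sup_left hx
      · have h1 : x = s * (s * x) := by rw [← mul_assoc, hss.1, one_mul]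
        rw [h1]
        exact Subgroup.mul_mem _ (Subgroup.mem_sup_right (Subgroup.mem_zpowers s))
          (Subgroup.mem_sup_left hx)
  · intro x hx hxx
    have hxi : x⁻¹ = x := inv_of_sq hxx
    have h1 : s * x = x * s := by
      have := hinv' x hx
      rw [hxi] at this
      calc s * x = s * x * (s * s) := by rw [hss.1, mul_one]
        _ = (s * x * s) * s := by group
        _ = x * s := by rw [this]
    have h2 : x ∈ K ⊓ Subgroup.centralizer ({s} : Set G) :=
      Subgroup.mem_inf.mpr ⟨hx, mem_cent.mpr h1.symm⟩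
    rw [hCK] at h2
    obtain ⟨n, hn⟩ := Subgroup.mem_zpowers_iff.mp h2
    rcases Int.even_or_odd' n with ⟨j, hj | hj⟩
    · left
      rw [← hn, hj, zpow_mul, zpow_two, htt.1, one_zpow]
    · right
      rw [← hn, hj, zpow_add, zpow_mul, zpow_two, htt.1, one_zpow, one_mul, zpow_one]
  · intro g x hx hx1 hgx
    rw [hcent]
    by_contra hg
    have h1 := hTI g hg
    have h2 : g * x * g⁻¹ ∈ K ⊓ K.map (MulAut.conj g).toMonoidHom := by
      refine ⟨hgx, ?_⟩
      exact ⟨x, hx, by simp [MulAut.conj_apply]⟩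
    rw [h1, Subgroup.mem_bot] at h2
    apply hx1
    have : x = g⁻¹ * (g * x * g⁻¹) * g := by group
    rw [this, h2]; group


theorem mem_conjK {K : Subgroup G} {c y : G} :
    y ∈ K.map (MulAut.conj c).toMonoidHom ↔ c⁻¹ * y * c ∈ K := by
  constructor
  · rintro ⟨x, hx, rfl⟩
    have : c⁻¹ * ((MulAut.conj c).toMonoidHom x) * c = x := by
      simp [MulAut.conj_apply, mul_assoc]
    rw [this]; exact hx
  · intro hy
    exact ⟨c⁻¹ * y * c, hy, by simp [MulAut.conj_apply, mul_assoc]⟩

theorem ord2_conj {x : G} (c : G) : orderOf (c * x * c⁻¹) = 2 ↔ orderOf x = 2 := by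
  have : c * x * c⁻¹ = MulAut.conj c x := by simp [MulAut.conj_apply]
  rw [this, MulEquiv.orderOf_eq]

section Basic

variable {t s : G} {K : Subgroup G}

theorem W.s_inv (h : W t s K) : s⁻¹ = s := inv_of_sq h.ss
theorem W.t_inv (h : W t s K) : t⁻¹ = t := inv_of_sq h.tt
theorem W.ot (h : W t s K) : orderOf t = 2 := ord2_iff.mpr ⟨h.tt, h.t1⟩
theorem W.s1 (h : W t s K) : s ≠ 1 := fun e => h.sK (e ▸ K.one_mem)
theorem W.os (h : W t s K) : orderOf s = 2 := ord2_iff.mpr ⟨h.ss, h.s1⟩

theorem W.sK_ord (h : W t s K) {x : G} (hx : s * x ∈ K) : orderOf x = 2 := by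
  rw [ord2_iff]
  constructor
  · have ha := h.inv (s * x) hx
    have h1 : s * (s * x) * s = x * s := by rw [← mul_assoc, h.ss, one_mul]
    rw [h1, mul_inv_rev, h.s_inv] at ha
    have h2 : x = x⁻¹ := mul_right_cancel ha
    have h3 : x * x = x⁻¹ * x := by rw [← h2]
    rw [h3, inv_mul_cancel]
  · intro e; subst e; rw [mul_one] at hx; exact h.sK hx

theorem W.conj' (h : W t s K) (c : G) :
    W (c * t * c⁻¹) (c * s * c⁻¹) (K.map (MulAut.conj c).toMonoidHom) := by
  refine ⟨?_, ?_, ?_, ?_, ?_, ?_, ?_, ?_, ?_, ?_, h.conj⟩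
  · intro e
    apply h.t1
    have : t = c⁻¹ * (c * t * c⁻¹) * c := by group
    rw [this, e]; group
  · have : c * t * c⁻¹ * (c * t * c⁻¹) = c * (t * t) * c⁻¹ := by group
    rw [this, h.tt]; group
  · have : c * s * c⁻¹ * (c * s * c⁻¹) = c * (s * s) * c⁻¹ := by group
    rw [this, h.ss]; group
  · intro a ha b hb
    rw [mem_conjK] at ha hb
    have h1 := h.comm _ ha _ hb
    have h2 : a * b = c * ((c⁻¹ * a * c) * (c⁻¹ * b * c)) * c⁻¹ := by group
    have h3 : b * a = c * ((c⁻¹ * b * c) * (c⁻¹ * a * c)) * c⁻¹ := by group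
    rw [h2, h3, h1]
  · rw [mem_conjK]
    have : c⁻¹ * (c * t * c⁻¹) * c = t := by group
    rw [this]; exact h.tK
  · rw [mem_conjK]
    have : c⁻¹ * (c * s * c⁻¹) * c = s := by group
    rw [this]; exact h.sK
  · intro x hx
    rw [mem_conjK] at hx
    have h1 := h.inv _ hx
    have h2 : c * s * c⁻¹ * x * (c * s * c⁻¹) = c * (s * (c⁻¹ * x * c) * s) * c⁻¹ := by group
    rw [h2, h1]; group
  · intro x
    rw [mem_conjK, mem_conjK]
    have h1 := h.cent (c⁻¹ * x * c)
    have h2 : c⁻¹ * (c * s * c⁻¹ * x) * c = s * (c⁻¹ * x * c) := by group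
    rw [h2, ← h1]
    constructor
    · intro e
      have : c⁻¹ * x * c * t = c⁻¹ * (x * (c * t * c⁻¹)) * c := by group
      rw [this, e]; group
    · intro e
      have : x * (c * t * c⁻¹) = c * (c⁻¹ * x * c * t) * c⁻¹ := by group
      rw [this, e]; group
  · intro x hx hxx
    rw [mem_conjK] at hx
    have h1 : (c⁻¹ * x * c) * (c⁻¹ * x * c) = 1 := by
      have : (c⁻¹ * x * c) * (c⁻¹ * x * c) = c⁻¹ * (x * x) * c := by group
      rw [this, hxx]; group
    rcases h.invol _ hx h1 with e | e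
    · left
      have : x = c * (c⁻¹ * x * c) * c⁻¹ := by group
      rw [this, e]; group
    · right
      have : x = c * (c⁻¹ * x * c) * c⁻¹ := by group
      rw [this, e]
  · intro g x hx hx1 hgx
    rw [mem_conjK] at hx hgx
    have hx1' : c⁻¹ * x * c ≠ 1 := by
      intro e
      apply hx1
      have : x = c * (c⁻¹ * x * c) * c⁻¹ := by group
      rw [this, e]; group
    have h1 : (c⁻¹ * g * c) * (c⁻¹ * x * c) * (c⁻¹ * g * c)⁻¹ = c⁻¹ * (g * x * g⁻¹) * c := by
      group
    have h2 := h.ti (c⁻¹ * g * c) (c⁻¹ * x * c) hx hx1' (by rw [h1]; exact hgx)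
    have h3 : g * (c * t * c⁻¹) = c * ((c⁻¹ * g * c) * t) * c⁻¹ := by group
    rw [h3, h2]; group

/-- nonidentity elements conjugate into `K`. -/
def inKT (K : Subgroup G) (z : G) : Prop := z ≠ 1 ∧ ∃ c : G, c⁻¹ * z * c ∈ K

theorem inKT_conj {z : G} (g : G) (hz : inKT K z) : inKT K (g * z * g⁻¹) := by
  obtain ⟨h1, c, hc⟩ := hz
  refine ⟨?_, g * c, ?_⟩
  · intro e
    apply h1
    have : z = g⁻¹ * (g * z * g⁻¹) * g := by group
    rw [this, e]; group
  · have : (g * c)⁻¹ * (g * z * g⁻¹) * (g * c) = c⁻¹ * z * c := by group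
    rw [this]; exact hc

theorem inKT_conj_iff {z : G} (g : G) : inKT K (g * z * g⁻¹) ↔ inKT K z := by
  constructor
  · intro h
    have := inKT_conj (K := K) g⁻¹ h
    have e : g⁻¹ * (g * z * g⁻¹) * g⁻¹⁻¹ = z := by group
    rwa [e] at this
  · exact inKT_conj g

theorem inKT_inv {z : G} (hz : inKT K z) : inKT K z⁻¹ := by
  obtain ⟨h1, c, hc⟩ := hz
  refine ⟨inv_ne_one.mpr h1, c, ?_⟩
  have : c⁻¹ * z⁻¹ * c = (c⁻¹ * z * c)⁻¹ := by group
  rw [this]; exact K.inv_mem hc

theorem inKT_of_mem {z : G} (hz : z ∈ K) (hz1 : z ≠ 1) : inKT K z :=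
  ⟨hz1, 1, by simpa using hz⟩

theorem W.exists_conj_t (h : W t s K) {u : G} (hu : orderOf u = 2) : ∃ c, u = c * t * c⁻¹ := by
  obtain ⟨c, hc⟩ := isConj_iff.mp (h.conj t u h.ot hu)
  exact ⟨c, hc.symm⟩

theorem W.invol_KT (h : W t s K) {u : G} (hu : orderOf u = 2) : inKT K u := by
  obtain ⟨c, rfl⟩ := h.exists_conj_t hu
  exact inKT_conj c (inKT_of_mem h.tK h.t1)

theorem W.comm_invol_KT (h : W t s K) {z v : G} (hz1 : z ≠ 1) (hv : orderOf v = 2)
    (hvz : v * z = z * v) : inKT K z := by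
  obtain ⟨c, rfl⟩ := h.exists_conj_t hv
  have hc := h.conj' c
  rcases (hc.cent z).mp hvz.symm with h1 | h1
  · exact ⟨hz1, c, mem_conjK.mp h1⟩
  · exact h.invol_KT (hc.sK_ord h1)

theorem W.comm_KT (h : W t s K) {a z : G} (ha : inKT K a) (hza : z * a = a * z) (hz1 : z ≠ 1) :
    inKT K z := by
  obtain ⟨ha1, c, hc⟩ := ha
  have hW := h.conj' c
  have haK : a ∈ K.map (MulAut.conj c).toMonoidHom := mem_conjK.mpr hc
  have h1 : z * a * z⁻¹ = a := by rw [hza]; group
  have h2 := hW.ti z a haK ha1 (by rw [h1]; exact haK)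
  exact h.comm_invol_KT hz1 hW.ot h2.symm

end Basic

theorem fpf_inv [Finite G] (A : Subgroup G) (u : G) (huu : u * u = 1)
    (hn : ∀ a ∈ A, u * a * u ∈ A) (hf : ∀ a ∈ A, u * a = a * u → a = 1) :
    (∀ a ∈ A, u * a * u = a⁻¹) ∧ (∀ a ∈ A, ∀ b ∈ A, a * b = b * a) := by
  let φ : A →* A :=
    { toFun := fun a => ⟨u * a * u, hn a a.2⟩
      map_one' := by
        apply Subtype.ext
        show u * (1 : G) * u = 1
        rw [mul_one, huu]
      map_mul' := by
        intro a b
        apply Subtype.ext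
        show u * ((a : G) * b) * u = (u * a * u) * (u * b * u)
        calc u * ((a : G) * b) * u = u * a * 1 * b * u := by group
          _ = u * a * (u * u) * b * u := by rw [huu]
          _ = (u * a * u) * (u * b * u) := by group }
  have hφ : MonoidHom.FixedPointFree φ := by
    intro a ha
    have h1 : u * (a : G) * u = a := congrArg Subtype.val ha
    have h2 : u * (a : G) = a * u := by
      calc u * (a : G) = u * a * (u * u) := by rw [huu, mul_one]
        _ = (u * a * u) * u := by group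
        _ = a * u := by rw [h1]
    exact Subtype.ext (hf a a.2 h2)
  have h2 : Function.Involutive φ := by
    intro a
    apply Subtype.ext
    show u * (u * (a : G) * u) * u = a
    calc u * (u * (a : G) * u) * u = (u * u) * a * (u * u) := by group
      _ = a := by rw [huu, one_mul, mul_one]
  constructor
  · intro a ha
    have := congrFun (hφ.coe_eq_inv_of_involutive h2) ⟨a, ha⟩
    exact congrArg Subtype.val this
  · intro a ha b hb
    have := hφ.commute_all_of_involutive h2 ⟨a, ha⟩ ⟨b, hb⟩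
    exact congrArg Subtype.val this

theorem no_invol_odd [Finite G] (N : Subgroup G) (hN : ∀ v ∈ N, orderOf v ≠ 2) :
    Odd (Nat.card N) := by
  by_contra hodd
  rw [Nat.not_odd_iff_even] at hodd
  have : Fact (Nat.Prime 2) := ⟨Nat.prime_two⟩
  obtain ⟨v, hv⟩ := exists_prime_orderOf_dvd_card' (G := N) 2 hodd.two_dvd
  exact hN v v.2 (by rw [← Subgroup.orderOf_coe] at hv; exact hv)

section T3

variable {t s : G} {K : Subgroup G}

theorem W.T3_struct [Finite G] (h : W t s K) {y u : G} (hy1 : y ≠ 1) (hy : ¬ inKT K y)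
    (hu : orderOf u = 2) (huy : u * y * u = y⁻¹) :
    (∀ a ∈ Subgroup.centralizer ({y} : Set G), u * a * u = a⁻¹) ∧
    (∀ a ∈ Subgroup.centralizer ({y} : Set G), ∀ b ∈ Subgroup.centralizer ({y} : Set G),
      a * b = b * a) ∧
    (∀ a ∈ Subgroup.centralizer ({y} : Set G), a ≠ 1 → ¬ inKT K a) := by
  have huu := (ord2_iff.mp hu).1
  have h1 : y * u = u * y⁻¹ := by
    calc y * u = (u * u) * y * u := by rw [huu, one_mul]
      _ = u * (u * y * u) := by group
      _ = u * y⁻¹ := by rw [huy]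
  have h2 : u * y = y⁻¹ * u := by
    calc u * y = u * y * (u * u) := by rw [huu, mul_one]
      _ = (u * y * u) * u := by group
      _ = y⁻¹ * u := by rw [huy]
  have hn : ∀ a ∈ Subgroup.centralizer ({y} : Set G), u * a * u ∈
      Subgroup.centralizer ({y} : Set G) := by
    intro a ha
    rw [mem_cent] at ha ⊢
    have ha' : a * y⁻¹ = y⁻¹ * a := by
      calc a * y⁻¹ = y⁻¹ * (y * a) * y⁻¹ := by group
        _ = y⁻¹ * (a * y) * y⁻¹ := by rw [ha]
        _ = y⁻¹ * a := by group
    calc u * a * u * y = u * a * (u * y) := by group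
      _ = u * a * (y⁻¹ * u) := by rw [h2]
      _ = u * (a * y⁻¹) * u := by group
      _ = u * (y⁻¹ * a) * u := by rw [ha']
      _ = (u * y⁻¹) * a * u := by group
      _ = (y * u) * a * u := by rw [h1]
      _ = y * (u * a * u) := by group
  have hc3 : ∀ a ∈ Subgroup.centralizer ({y} : Set G), a ≠ 1 → ¬ inKT K a := by
    intro a ha ha1 hKT
    rw [mem_cent] at ha
    exact hy (h.comm_KT hKT ha.symm hy1)
  have hf : ∀ a ∈ Subgroup.centralizer ({y} : Set G), u * a = a * u → a = 1 := by
    intro a ha hua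
    by_contra ha1
    exact hc3 a ha ha1 (h.comm_invol_KT ha1 hu hua)
  obtain ⟨r1, r2⟩ := fpf_inv _ u huu hn hf
  exact ⟨r1, r2, hc3⟩

theorem W.T3_cent [Finite G] (h : W t s K) {y u : G} (hy1 : y ≠ 1) (hy : ¬ inKT K y)
    (hu : orderOf u = 2) (huy : u * y * u = y⁻¹) {a : G}
    (ha : a ∈ Subgroup.centralizer ({y} : Set G)) (ha1 : a ≠ 1) :
    Subgroup.centralizer ({a} : Set G) = Subgroup.centralizer ({y} : Set G) := by
  obtain ⟨r1, r2, r3⟩ := h.T3_struct hy1 hy hu huy
  obtain ⟨q1, q2, q3⟩ := h.T3_struct ha1 (r3 a ha ha1) hu (r1 a ha)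
  have hya : y ∈ Subgroup.centralizer ({a} : Set G) := by
    rw [mem_cent] at ha ⊢; exact ha.symm
  ext g
  constructor
  · intro hg
    rw [mem_cent]
    exact q2 g hg y hya
  · intro hg
    rw [mem_cent]
    exact r2 g hg a ha

theorem W.T4_struct [Finite G] (h : W t s K) {z : G} (hz1 : z ≠ 1) (hz : ¬ inKT K z)
    (hno : ∀ u, orderOf u = 2 → u * z * u ≠ z⁻¹) {c : G}
    (hc : c ∈ Subgroup.centralizer ({z} : Set G)) (hc1 : c ≠ 1) :
    ¬ inKT K c ∧ ∀ u, orderOf u = 2 → u * c * u ≠ c⁻¹ := by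
  rw [mem_cent] at hc
  have hcK : ¬ inKT K c := fun hK => hz (h.comm_KT hK hc.symm hz1)
  refine ⟨hcK, fun u hu huc => ?_⟩
  obtain ⟨q1, q2, q3⟩ := h.T3_struct hc1 hcK hu huc
  exact hno u hu (q1 z (by rw [mem_cent]; exact hc.symm))

theorem W.cent_odd [Finite G] (h : W t s K) {z : G} (hz1 : z ≠ 1) (hz : ¬ inKT K z) :
    Odd (Nat.card (Subgroup.centralizer ({z} : Set G))) := by
  apply no_invol_odd
  intro v hv hv2
  rw [mem_cent] at hv
  exact hz (h.comm_invol_KT hz1 hv2 hv)

end T3


/-- number of ways of writing `σ` as a product of two involutions. -/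
noncomputable def gam (σ : G) : ℕ := Nat.card {x : G // orderOf x = 2 ∧ orderOf (x⁻¹ * σ) = 2}

theorem gam_conj (c σ : G) : gam (c * σ * c⁻¹) = gam σ := by
  unfold gam
  apply Nat.card_congr
  refine Equiv.subtypeEquiv (MulAut.conj c⁻¹).toEquiv ?_
  intro x
  have e1 : (MulAut.conj c⁻¹).toEquiv x = c⁻¹ * x * c⁻¹⁻¹ := by simp [MulAut.conj_apply]
  have e2 : ((MulAut.conj c⁻¹).toEquiv x)⁻¹ * σ = c⁻¹ * (x⁻¹ * (c * σ * c⁻¹)) * c⁻¹⁻¹ := by
    rw [e1]; group
  rw [e2, ord2_conj, e1, ord2_conj]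

theorem gam_one : gam (1 : G) = Nat.card {x : G // orderOf x = 2} := by
  unfold gam
  apply Nat.card_congr
  refine Equiv.subtypeEquivRight ?_
  intro x
  rw [mul_one, orderOf_inv]
  exact and_self_iff

section Gam

variable {t s : G} {K : Subgroup G}

theorem W.gam_K (h : W t s K) {z : G} (hz : z ∈ K) (hz1 : z ≠ 1) : gam z = Nat.card K := by
  unfold gam
  apply Nat.card_congr
  have key : ∀ x : G, orderOf x = 2 ∧ orderOf (x⁻¹ * z) = 2 → s * x ∈ K := by
    rintro x ⟨hx, hxz⟩
    obtain ⟨hxx, hx1⟩ := ord2_iff.mp hx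
    have hxi : x⁻¹ = x := inv_of_sq hxx
    rw [hxi] at hxz
    obtain ⟨hxzxz, hxz1⟩ := ord2_iff.mp hxz
    have h1 : x * z * x⁻¹ = z⁻¹ := by
      rw [hxi]
      calc x * z * x = (x * z * (x * z)) * z⁻¹ := by group
        _ = z⁻¹ := by rw [hxzxz, one_mul]
    have h2 := h.ti x z hz hz1 (by rw [h1]; exact K.inv_mem hz)
    rcases (h.cent x).mp h2 with h3 | h3
    · exfalso
      rcases h.invol x h3 hxx with e | e
      · exact hx1 e
      · rcases h.invol (x * z) (K.mul_mem h3 hz) hxzxz with e' | e'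
        · exact hxz1 e'
        · rw [e] at e'
          exact hz1 (by simpa using e')
    · exact h3
  have key2 : ∀ a : G, a ∈ K → orderOf (s * a) = 2 ∧ orderOf ((s * a)⁻¹ * z) = 2 := by
    intro a ha
    have h1 : orderOf (s * a) = 2 := h.sK_ord (by rw [← mul_assoc, h.ss, one_mul]; exact ha)
    refine ⟨h1, ?_⟩
    rw [inv_of_sq (ord2_iff.mp h1).1]
    apply h.sK_ord
    have : s * (s * a * z) = (s * s) * (a * z) := by group
    rw [this, h.ss, one_mul]
    exact K.mul_mem ha hz
  exact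
    { toFun := fun x => ⟨s * x.1, key x.1 x.2⟩
      invFun := fun a => ⟨s * a.1, key2 a.1 a.2⟩
      left_inv := by
        intro x
        apply Subtype.ext
        show s * (s * x.1) = x.1
        rw [← mul_assoc, h.ss, one_mul]
      right_inv := by
        intro a
        apply Subtype.ext
        show s * (s * a.1) = a.1
        rw [← mul_assoc, h.ss, one_mul] }

theorem W.gam_KT (h : W t s K) {z : G} (hz : inKT K z) : gam z = Nat.card K := by
  obtain ⟨hz1, c, hc⟩ := hz
  have e : z = c * (c⁻¹ * z * c) * c⁻¹ := by group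
  rw [e, gam_conj]
  apply h.gam_K hc
  intro e'
  apply hz1
  rw [e, e']; group

theorem W.gam_inv_of_ne [Finite G] (h : W t s K) {z : G} (hz1 : z ≠ 1) (hz : ¬ inKT K z)
    (hg : gam z ≠ 0) : ∃ u, orderOf u = 2 ∧ u * z * u = z⁻¹ := by
  unfold gam at hg
  have hne : Nonempty {x : G // orderOf x = 2 ∧ orderOf (x⁻¹ * z) = 2} := by
    by_contra hcon
    rw [not_nonempty_iff] at hcon
    exact hg Nat.card_of_isEmpty
  obtain ⟨x, hx, hxz⟩ := hne
  obtain ⟨hxx, hx1⟩ := ord2_iff.mp hx
  rw [inv_of_sq hxx] at hxz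
  obtain ⟨hxzxz, hxz1⟩ := ord2_iff.mp hxz
  refine ⟨x, hx, ?_⟩
  calc x * z * x = (x * z * (x * z)) * z⁻¹ := by group
    _ = z⁻¹ := by rw [hxzxz, one_mul]

theorem W.gam_eq_card [Finite G] (h : W t s K) {z u : G} (hz1 : z ≠ 1) (hz : ¬ inKT K z)
    (hu : orderOf u = 2) (huz : u * z * u = z⁻¹) :
    gam z = Nat.card (Subgroup.centralizer ({z} : Set G)) := by
  obtain ⟨r1, r2, r3⟩ := h.T3_struct hz1 hz hu huz
  have huu := (ord2_iff.mp hu).1
  have hzC : z ∈ Subgroup.centralizer ({z} : Set G) := by rw [mem_cent]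
  have key2 : ∀ a : G, a ∈ Subgroup.centralizer ({z} : Set G) → orderOf (u * a) = 2 := by
    intro a ha
    rw [ord2_iff]
    constructor
    · calc u * a * (u * a) = (u * a * u) * a := by group
        _ = 1 := by rw [r1 a ha, inv_mul_cancel]
    · intro e
      have hua : u = a⁻¹ := eq_inv_of_mul_eq_one_left e
      have huC : u ∈ Subgroup.centralizer ({z} : Set G) := by
        rw [hua]; exact Subgroup.inv_mem _ ha
      rw [mem_cent] at huC
      exact hz (h.comm_invol_KT hz1 hu huC)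
  unfold gam
  apply Nat.card_congr
  exact
    { toFun := fun x => ⟨u * x.1, by
        obtain ⟨x, hx, hxz⟩ := x
        obtain ⟨hxx, hx1⟩ := ord2_iff.mp hx
        rw [inv_of_sq hxx] at hxz
        obtain ⟨hxzxz, hxz1⟩ := ord2_iff.mp hxz
        have h1 : x * z * x = z⁻¹ := by
          calc x * z * x = (x * z * (x * z)) * z⁻¹ := by group
            _ = z⁻¹ := by rw [hxzxz, one_mul]
        rw [mem_cent]
        show u * x * z = z * (u * x)
        have h2 : x * z = z⁻¹ * x := by
          calc x * z = x * z * (x * x) := by rw [hxx, mul_one]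
            _ = (x * z * x) * x := by group
            _ = z⁻¹ * x := by rw [h1]
        have h3 : u * z⁻¹ = z * u := by
          calc u * z⁻¹ = u * (u * z * u) := by rw [huz]
            _ = (u * u) * z * u := by group
            _ = z * u := by rw [huu, one_mul]
        calc u * x * z = u * (x * z) := by group
          _ = u * (z⁻¹ * x) := by rw [h2]
          _ = (u * z⁻¹) * x := by group
          _ = (z * u) * x := by rw [h3]
          _ = z * (u * x) := by group⟩
      invFun := fun a => ⟨u * a.1, key2 a.1 a.2, by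
        rw [inv_of_sq (ord2_iff.mp (key2 a.1 a.2)).1]
        have : u * a.1 * z = u * (a.1 * z) := by group
        rw [this]
        exact key2 _ (Subgroup.mul_mem _ a.2 hzC)⟩
      left_inv := by
        intro x
        apply Subtype.ext
        show u * (u * x.1) = x.1
        rw [← mul_assoc, huu, one_mul]
      right_inv := by
        intro a
        apply Subtype.ext
        show u * (u * a.1) = a.1
        rw [← mul_assoc, huu, one_mul] }

theorem W.gam_ne_of_inv [Finite G] (h : W t s K) {z u : G} (hz1 : z ≠ 1) (hz : ¬ inKT K z)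
    (hu : orderOf u = 2) (huz : u * z * u = z⁻¹) : gam z ≠ 0 := by
  rw [h.gam_eq_card hz1 hz hu huz]
  exact Nat.card_pos.ne'

end Gam


section Count

variable {t s : G} {K : Subgroup G}

theorem W.s_comm_t (h : W t s K) : s * t = t * s :=
  (h.cent s).mpr (Or.inr (by rw [h.ss]; exact K.one_mem))

theorem W.K_comm_t (h : W t s K) {a : G} (ha : a ∈ K) : a * t = t * a :=
  (h.cent a).mpr (Or.inl ha)

theorem W.card_cent [Finite G] (h : W t s K) :
    Nat.card (Subgroup.centralizer ({t} : Set G)) = 2 * Nat.card K := by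
  classical
  set C := Subgroup.centralizer ({t} : Set G) with hC
  have hKC : K ≤ C := fun a ha => mem_cent.mpr (h.K_comm_t ha)
  have h1 : Nat.card (K.subgroupOf C) = Nat.card K :=
    Nat.card_congr (Subgroup.subgroupOfEquivOfLe hKC).toEquiv
  have h2 : (K.subgroupOf C).index = 2 := by
    rw [Subgroup.index_eq_two_iff]
    refine ⟨⟨s, mem_cent.mpr h.s_comm_t⟩, fun b => ?_⟩
    have hb := (h.cent b.1).mp (mem_cent.mp b.2)
    simp only [Subgroup.mem_subgroupOf, Subgroup.coe_mul]
    by_cases hbK : b.1 ∈ K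
    · right
      refine ⟨hbK, fun hbs => h.sK ?_⟩
      have : s = b.1⁻¹ * (b.1 * s) := by group
      rw [this]; exact K.mul_mem (K.inv_mem hbK) hbs
    · left
      refine ⟨?_, hbK⟩
      have h3 := hb.resolve_left hbK
      have h4 := h.inv _ h3
      have : b.1 * s = (s * b.1)⁻¹ := by rw [← h4, ← mul_assoc, h.ss, one_mul]
      rw [this]; exact K.inv_mem h3
  have := Subgroup.card_mul_index (K.subgroupOf C)
  rw [h1, h2] at this
  omega

theorem W.card_invol [Finite G] (h : W t s K) :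
    Nat.card {x : G // orderOf x = 2} * (2 * Nat.card K) = Nat.card G := by
  rw [← h.card_cent]
  exact Cfsg.Agent.H19.card_invol_mul_card_centralizer t h.ot
    (fun x hx => isConj_iff.mp (h.conj t x h.ot hx))

theorem W.two_dvd_card [Finite G] (h : W t s K) : 2 ∣ Nat.card K := by
  have h1 : orderOf (⟨t, h.tK⟩ : K) = 2 := by
    rw [← Subgroup.orderOf_coe]; exact h.ot
  rw [← h1]
  exact orderOf_dvd_natCard _

theorem W.invol_mod [Finite G] (h : W t s K) :
    ∃ j : ℕ, Nat.card {x : G // orderOf x = 2} = 1 + Nat.card K * (j + 1) := by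
  classical
  have := Fintype.ofFinite G
  have hsplit : Nat.card {x : G // orderOf x = 2} =
      Nat.card {x : G // orderOf x = 2 ∧ x * t = t * x} +
        Nat.card {x : G // orderOf x = 2 ∧ x * t ≠ t * x} := by
    rw [Nat.card_eq_fintype_card, Nat.card_eq_fintype_card, Nat.card_eq_fintype_card,
      Fintype.card_subtype, Fintype.card_subtype, Fintype.card_subtype]
    rw [← Finset.card_filter_add_card_filter_not (p := fun x => x * t = t * x)]
    congr 1 <;> rw [Finset.filter_filter]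
  have hA : Nat.card {x : G // orderOf x = 2 ∧ x * t = t * x} = Nat.card K + 1 := by
    rw [← Finite.card_option]
    symm
    let f : Option K → {x : G // orderOf x = 2 ∧ x * t = t * x} := fun o =>
      match o with
      | none => ⟨t, h.ot, rfl⟩
      | some a => ⟨s * a.1, h.sK_ord (by rw [← mul_assoc, h.ss, one_mul]; exact a.2),
          (h.cent _).mpr (Or.inr (by rw [← mul_assoc, h.ss, one_mul]; exact a.2))⟩
    apply Nat.card_congr (Equiv.ofBijective f ⟨?_, ?_⟩)
    · intro o1 o2 e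
      have e' : (f o1).1 = (f o2).1 := congrArg Subtype.val e
      rcases o1 with _ | a <;> rcases o2 with _ | b
      · rfl
      · exfalso
        have e2 : t = s * b.1 := e'
        apply h.sK
        have : s = t * b.1⁻¹ := by rw [e2]; group
        rw [this]; exact K.mul_mem h.tK (K.inv_mem b.2)
      · exfalso
        have e2 : s * a.1 = t := e'
        apply h.sK
        have : s = t * a.1⁻¹ := by rw [← e2]; group
        rw [this]; exact K.mul_mem h.tK (K.inv_mem a.2)
      · have e2 : s * a.1 = s * b.1 := e'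
        exact congrArg some (Subtype.ext (mul_left_cancel e2))
    · rintro ⟨x, hx, hxt⟩
      rcases (h.cent x).mp hxt with hxK | hxK
      · refine ⟨none, Subtype.ext ?_⟩
        show t = x
        rcases h.invol x hxK (ord2_iff.mp hx).1 with e | e
        · exact absurd e (ord2_iff.mp hx).2
        · exact e.symm
      · refine ⟨some ⟨s * x, hxK⟩, Subtype.ext ?_⟩
        show s * (s * x) = x
        rw [← mul_assoc, h.ss, one_mul]
  have hB : Nat.card K ∣ Nat.card {x : G // orderOf x = 2 ∧ x * t ≠ t * x} := by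
    letI : MulAction K {x : G // orderOf x = 2 ∧ x * t ≠ t * x} :=
      { smul := fun a x => ⟨a.1 * x.1 * a.1⁻¹, (ord2_conj a.1).mpr x.2.1, fun e => x.2.2 (by
          have hat := h.K_comm_t a.2
          have hat' : a.1⁻¹ * t * a.1 = t := by
            calc a.1⁻¹ * t * a.1 = a.1⁻¹ * (t * a.1) := by group
              _ = a.1⁻¹ * (a.1 * t) := by rw [hat]
              _ = t := by group
          calc x.1 * t = x.1 * (a.1⁻¹ * t * a.1) := by rw [hat']
            _ = a.1⁻¹ * (a.1 * x.1 * a.1⁻¹ * t) * a.1 := by group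
            _ = a.1⁻¹ * (t * (a.1 * x.1 * a.1⁻¹)) * a.1 := by rw [e]
            _ = (a.1⁻¹ * t * a.1) * x.1 := by group
            _ = t * x.1 := by rw [hat'])⟩
        one_smul := fun x => Subtype.ext (by
          show (1 : K).1 * x.1 * (1 : K).1⁻¹ = x.1
          simp)
        mul_smul := fun a b x => Subtype.ext (by
          show (a * b).1 * x.1 * (a * b).1⁻¹ = a.1 * (b.1 * x.1 * b.1⁻¹) * a.1⁻¹
          simp [mul_assoc]) }
    have hfree : ∀ x : {x : G // orderOf x = 2 ∧ x * t ≠ t * x}, MulAction.stabilizer K x = ⊥ := by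
      intro x
      rw [Subgroup.eq_bot_iff_forall]
      intro a ha
      rw [MulAction.mem_stabilizer_iff] at ha
      have ha' : a.1 * x.1 * a.1⁻¹ = x.1 := congrArg Subtype.val ha
      by_contra ha1
      have ha1' : a.1 ≠ 1 := fun e => ha1 (Subtype.ext e)
      have h1 : x.1 * a.1 * x.1⁻¹ = a.1 := by
        have : a.1 * x.1 = x.1 * a.1 := by
          calc a.1 * x.1 = (a.1 * x.1 * a.1⁻¹) * a.1 := by group
            _ = x.1 * a.1 := by rw [ha']
        rw [← this]; group
      exact x.2.2 (h.ti x.1 a.1 a.2 ha1' (by rw [h1]; exact a.2))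
    have e := MulAction.selfEquivOrbitsQuotientProd hfree
    rw [Nat.card_congr e, Nat.card_prod]
    exact dvd_mul_left _ _
  obtain ⟨j, hj⟩ := hB
  refine ⟨j, ?_⟩
  rw [hsplit, hA, hj]
  ring

theorem W.normalizer_sub (h : W t s K) {X : Subgroup G} (hX : X ≤ K) (hX1 : X ≠ ⊥) :
    Subgroup.normalizer (X : Set G) = Subgroup.centralizer ({t} : Set G) := by
  have hone : ∀ g, g * t = t * g → ∀ x ∈ X, g * x * g⁻¹ ∈ X := by
    intro g hg x hx
    rcases (h.cent g).mp hg with hgK | hgK
    · have : g * x * g⁻¹ = x := by rw [h.comm g hgK x (hX hx)]; group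
      rw [this]; exact hx
    · have hax : (s * g) * x * (s * g)⁻¹ = x := by rw [h.comm _ hgK x (hX hx)]; group
      have e1 : s * ((s * g) * x * (s * g)⁻¹) * s⁻¹ = (s * s) * g * x * g⁻¹ * (s * s)⁻¹ := by
        group
      rw [h.ss, hax, h.s_inv, h.inv x (hX hx)] at e1
      have e2 : g * x * g⁻¹ = x⁻¹ := by rw [e1]; group
      rw [e2]; exact X.inv_mem hx
  ext g
  rw [Subgroup.mem_set_normalizer_iff, mem_cent]
  constructor
  · intro hg
    obtain ⟨x, hx1⟩ := (Subgroup.ne_bot_iff_exists_ne_one.mp hX1)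
    have hx1' : (x : G) ≠ 1 := fun e => hx1 (Subtype.ext e)
    have h1 : g * x * g⁻¹ ∈ X := (hg x).mp x.2
    exact h.ti g x (hX x.2) hx1' (hX h1)
  · intro hg x
    constructor
    · intro hx; exact hone g hg x hx
    · intro hx
      have hg' : g⁻¹ * t = t * g⁻¹ := by
        calc g⁻¹ * t = g⁻¹ * (t * g) * g⁻¹ := by group
          _ = g⁻¹ * (g * t) * g⁻¹ := by rw [hg]
          _ = t * g⁻¹ := by group
      have := hone g⁻¹ hg' _ hx
      have e : g⁻¹ * (g * x * g⁻¹) * g⁻¹⁻¹ = x := by group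
      rwa [e] at this

theorem W.cent_eq (h : W t s K) :
    Subgroup.centralizer ({t} : Set G) = K ⊔ Subgroup.zpowers s := by
  apply le_antisymm
  · intro x hx
    rcases (h.cent x).mp (mem_cent.mp hx) with h1 | h1
    · exact Subgroup.mem_sup_left h1
    · have e : x = s * (s * x) := by rw [← mul_assoc, h.ss, one_mul]
      rw [e]
      exact Subgroup.mul_mem _ (Subgroup.mem_sup_right (Subgroup.mem_zpowers s))
        (Subgroup.mem_sup_left h1)
  · apply sup_le
    · intro a ha; exact mem_cent.mpr (h.K_comm_t ha)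
    · rw [Subgroup.zpowers_le]; exact mem_cent.mpr h.s_comm_t

theorem W.K_ne_bot (h : W t s K) : K ≠ ⊥ := by
  intro e
  have := h.tK
  rw [e, Subgroup.mem_bot] at this
  exact h.t1 this

/-- the last clause of the theorem for `D = K`. -/
theorem W.final_clause (h : W t s K) (X : Subgroup G) (hX : X ≤ K) (hX1 : X ≠ ⊥) :
    Subgroup.normalizer (X : Set G) = Subgroup.normalizer (K : Set G) ∧
      ∃ u : G, orderOf u = 2 ∧ u ∉ K ∧ (∀ d ∈ K, u * d * u⁻¹ = d⁻¹) ∧
        Subgroup.normalizer (K : Set G) = K ⊔ Subgroup.zpowers u := by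
  rw [h.normalizer_sub hX hX1, h.normalizer_sub le_rfl h.K_ne_bot]
  refine ⟨rfl, s, h.os, h.sK, ?_, h.cent_eq⟩
  intro d hd
  rw [h.s_inv]; exact h.inv d hd

end Count

end Cfsg.Agent.H54.BSW
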