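import Mathlib
import Cfsg.Agent.H54.BSW1
import Cfsg.Agent.H4.Induction
import Cfsg.Agent.H4.Chars
import Cfsg.Agent.H4.Exceptional
import Cfsg.Agent.H4.BrauerBasic
import Cfsg.Agent.H19.BSNorm
import Cfsg.Agent.H5.D8Char
import Cfsg.Agent.H5.GaloisTwist

set_option autoImplicit false
set_option linter.unusedSectionVars false
set_option linter.unusedVariables false
set_option linter.style.haveILetI false

namespace Cfsg.Agent.H54.BSW

open Cfsg Cfsg.Agent.H4
open scoped ComplexConjugate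

universe u

variable {G : Type u} [Group G] [Fintype G] {t s : G} {K : Subgroup G}

open Classical in
theorem card_filter_mem (K : Subgroup G) :
    (Finset.univ.filter (fun c : G => c ∈ K)).card = Nat.card K := by
  rw [Nat.card_eq_fintype_card, Fintype.card_subtype]

open Classical in
theorem W.card_filter_sK (h : W t s K) :
    (Finset.univ.filter (fun c : G => s * c ∈ K)).card = Nat.card K := by
  rw [← card_filter_mem K]
  apply Finset.card_bij (fun c _ => s * c)
  · intro c hc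
    simpa using hc
  · intro a _ b _ e
    exact mul_left_cancel e
  · intro b hb
    refine ⟨s * b, ?_, ?_⟩
    · simp only [Finset.mem_filter, Finset.mem_univ, true_and] at hb ⊢
      rw [← mul_assoc, h.ss, one_mul]; exact hb
    · rw [← mul_assoc, h.ss, one_mul]

open Classical in
theorem W.indK_mem (h : W t s K) (φ : K → ℂ) {x : G} (hx : x ∈ K) (hx1 : x ≠ 1) :
    indFun K φ x = φ ⟨x, hx⟩ + φ ⟨x⁻¹, K.inv_mem hx⟩ := by
  have hk : (Nat.card K : ℂ) ≠ 0 := by
    exact_mod_cast Nat.card_pos.ne'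
  have claim : ∀ c : G, extendByZero K φ (c⁻¹ * x * c) =
      (if c ∈ K then φ ⟨x, hx⟩ else 0) + (if s * c ∈ K then φ ⟨x⁻¹, K.inv_mem hx⟩ else 0) := by
    intro c
    by_cases hc : c ∈ K
    · have hsc : s * c ∉ K := by
        intro h'
        apply h.sK
        have : s = (s * c) * c⁻¹ := by group
        rw [this]; exact K.mul_mem h' (K.inv_mem hc)
      rw [if_pos hc, if_neg hsc, add_zero]
      have e : c⁻¹ * x * c = x := by
        rw [mul_assoc, h.comm x hx c hc]; group
      have hm : c⁻¹ * x * c ∈ K := by rw [e]; exact hx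
      rw [extendByZero_of_mem K φ hm]
      congr 1
      exact Subtype.ext e
    · rw [if_neg hc, zero_add]
      by_cases hsc : s * c ∈ K
      · rw [if_pos hsc]
        have e : c⁻¹ * x * c = x⁻¹ := by
          have h1 : (s * c)⁻¹ * x⁻¹ * (s * c) = x⁻¹ := by
            rw [mul_assoc, h.comm x⁻¹ (K.inv_mem hx) _ hsc]; group
          have h2 : (s * c)⁻¹ * (s * x * s) * (s * c) = c⁻¹ * x * (s * s) * c := by group
          rw [h.ss, mul_one] at h2
          rw [← h2, h.inv x hx, h1]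
        have hm : c⁻¹ * x * c ∈ K := by rw [e]; exact K.inv_mem hx
        rw [extendByZero_of_mem K φ hm]
        congr 1
        exact Subtype.ext e
      · rw [if_neg hsc]
        apply extendByZero_of_not_mem
        intro hm
        have h1 := h.ti c⁻¹ x hx hx1 (by rw [inv_inv]; exact hm)
        have h2 : c * t = t * c := by
          calc c * t = c * (t * c⁻¹) * c := by group
            _ = c * (c⁻¹ * t) * c := by rw [h1]
            _ = t * c := by group
        rcases (h.cent c).mp h2 with h3 | h3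
        · exact hc h3
        · exact hsc h3
  rw [indFun_apply]
  simp only [claim]
  rw [Finset.sum_add_distrib, Finset.sum_ite, Finset.sum_const_zero, add_zero, Finset.sum_const,
    nsmul_eq_mul, Finset.sum_ite, Finset.sum_const_zero, add_zero, Finset.sum_const, nsmul_eq_mul,
    card_filter_mem, h.card_filter_sK]
  field_simp

theorem indK_not (φ : K → ℂ) {g : G} (hg1 : g ≠ 1) (hg : ¬ inKT K g) :
    indFun K φ g = 0 := by
  rw [indFun_apply]
  rw [Finset.sum_eq_zero, mul_zero]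
  intro c _
  apply extendByZero_of_not_mem
  intro hm
  exact hg ⟨hg1, c, hm⟩

open Classical in
theorem sum_split (K : Subgroup G) (F : G → ℂ) :
    ∑ g, F g = F 1 + ∑ g ∈ Finset.univ.filter (fun g => inKT K g), F g +
      ∑ g ∈ Finset.univ.filter (fun g => g ≠ 1 ∧ ¬ inKT K g), F g := by
  rw [← Finset.sum_filter_add_sum_filter_not Finset.univ (fun g : G => g = 1) F]
  have e1 : ∑ g ∈ Finset.univ.filter (fun g : G => g = 1), F g = F 1 := by
    rw [Finset.filter_eq' Finset.univ (1 : G), if_pos (Finset.mem_univ _), Finset.sum_singleton]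
  rw [e1, add_assoc]
  congr 1
  rw [← Finset.sum_filter_add_sum_filter_not (Finset.univ.filter (fun g : G => ¬ g = 1))
    (fun g : G => inKT K g) F]
  rw [Finset.filter_filter, Finset.filter_filter]
  congr 1
  apply Finset.sum_congr _ (fun _ _ => rfl)
  ext g
  simp only [Finset.mem_filter, Finset.mem_univ, true_and]
  constructor
  · intro h; exact h.2
  · intro h; exact ⟨h.1, h⟩

open Classical in
theorem W.sum_KT (h : W t s K) (F : G → ℂ) (hF : IsClassFunction G F) :
    ∑ g ∈ Finset.univ.filter (fun g => inKT K g), F g =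
      (Nat.card {x : G // orderOf x = 2} : ℂ) *
        ∑ x ∈ Finset.univ.filter (fun x : G => x ∈ K ∧ x ≠ 1), F x := by
  haveI : Fintype K := Fintype.ofFinite K
  set φ : K → ℂ := fun x => if (x : G) = 1 then 0 else 1 with hφ
  have hΨ : ∀ g, indFun K φ g = if inKT K g then 2 else 0 := by
    intro g
    by_cases hg : inKT K g
    · rw [if_pos hg]
      obtain ⟨hg1, c, hc⟩ := hg
      have h1 := indFun_isClassFunction K φ g c⁻¹
      rw [inv_inv] at h1
      rw [← h1]
      have hc1 : c⁻¹ * g * c ≠ 1 := by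
        intro e
        apply hg1
        have : g = c * (c⁻¹ * g * c) * c⁻¹ := by group
        rw [this, e]; group
      rw [h.indK_mem φ hc hc1]
      simp only [hφ]
      rw [if_neg hc1, if_neg (inv_ne_one.mpr hc1)]
      norm_num
    · rw [if_neg hg]
      by_cases hg1 : g = 1
      · subst hg1
        apply indFun_one_eq_zero
        simp [hφ]
      · exact indK_not φ hg1 hg
  have hF' : IsClassFunction G (fun g => conj (F g)) := by
    intro g c
    show conj (F (c * g * c⁻¹)) = conj (F g)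
    rw [hF g c]
  have hfr := frobenius_reciprocity K φ (fun g => conj (F g)) hF'
  unfold classInner at hfr
  simp only [Complex.conj_conj] at hfr
  have hL : ∑ g, indFun K φ g * F g = 2 * ∑ g ∈ Finset.univ.filter (fun g => inKT K g), F g := by
    simp only [hΨ]
    rw [Finset.mul_sum, Finset.sum_filter]
    apply Finset.sum_congr rfl
    intro g _
    split_ifs <;> simp
  have hR : ∑ x : K, φ x * F x = ∑ x ∈ Finset.univ.filter (fun x : G => x ∈ K ∧ x ≠ 1), F x := by
    rw [← sum_extendByZero_mul K φ F, Finset.sum_filter]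
    apply Finset.sum_congr rfl
    intro g _
    by_cases hg : g ∈ K
    · rw [extendByZero_of_mem K φ hg]
      simp only [hφ]
      by_cases hg1 : g = 1
      · simp [hg1]
      · simp [hg, hg1]
    · rw [extendByZero_of_not_mem K φ hg]
      simp [hg]
  rw [hL, hR] at hfr
  have hcard := h.card_invol
  have hk : (Nat.card K : ℂ) ≠ 0 := by exact_mod_cast Nat.card_pos.ne'
  have hG : (Nat.card G : ℂ) ≠ 0 := by exact_mod_cast Nat.card_pos.ne'
  have hcard' : (Nat.card G : ℂ) = (Nat.card {x : G // orderOf x = 2} : ℂ) * (2 * Nat.card K) := by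
    rw [← hcard]; push_cast; ring
  rw [hcard'] at hfr hG
  have hm : (Nat.card {x : G // orderOf x = 2} : ℂ) ≠ 0 := left_ne_zero_of_mul hG
  field_simp at hfr
  rw [← hfr]

open Classical in
theorem W.sum_gam (h : W t s K) (F : G → ℂ) :
    ∑ g, (gam g : ℂ) * F g = (Nat.card {x : G // orderOf x = 2} : ℂ) * F 1 +
      (Nat.card K : ℂ) * ∑ g ∈ Finset.univ.filter (fun g => inKT K g), F g +
      ∑ g ∈ Finset.univ.filter (fun g => g ≠ 1 ∧ ¬ inKT K g), (gam g : ℂ) * F g := by
  rw [sum_split K, gam_one, Finset.mul_sum]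
  congr 2
  apply Finset.sum_congr rfl
  intro g hg
  simp only [Finset.mem_filter, Finset.mem_univ, true_and] at hg
  rw [h.gam_KT hg]

theorem W.isConj_iff_ord (h : W t s K) (x : G) : IsConj t x ↔ orderOf x = 2 := by
  constructor
  · intro hc
    obtain ⟨c, rfl⟩ := isConj_iff.mp hc
    exact (ord2_conj c).mpr h.ot
  · intro hx; exact h.conj t x h.ot hx

theorem W.index_cent (h : W t s K) :
    (Subgroup.centralizer ({t} : Set G)).index = Nat.card {x : G // orderOf x = 2} := by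
  have h1 := Subgroup.card_mul_index (Subgroup.centralizer ({t} : Set G))
  have h2 := h.card_invol
  rw [← h.card_cent] at h2
  have hpos : 0 < Nat.card (Subgroup.centralizer ({t} : Set G)) := Nat.card_pos
  rw [← h2, mul_comm] at h1
  exact Nat.eq_of_mul_eq_mul_right hpos h1

/-- the pairing of `gam` with an irreducible character. -/
theorem W.gam_irr (h : W t s K) (χ : G → ℂ) (hχ : IsIrrCharacter G χ) :
    ∑ g, (gam g : ℂ) * χ g =
      (Nat.card {x : G // orderOf x = 2} : ℂ) ^ 2 * χ t ^ 2 / χ 1 := by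
  classical
  letI := fintypeIrr G
  have hG : (Nat.card G : ℂ) ≠ 0 := by exact_mod_cast Nat.card_pos.ne'
  have hgam : ∀ σ : G, (gam σ : ℂ) = (Nat.card G : ℂ)⁻¹ * ∑ ψ : IrrCharacter G,
      (ψ : G → ℂ) 1 * conj ((ψ : G → ℂ) σ) *
        (centralChar (ψ : G → ℂ) t * centralChar (ψ : G → ℂ) t) := by
    intro σ
    have h1 := Cfsg.Agent.H5.D8Char.class_eq t σ
    rw [finsum_irr_eq_sum] at h1
    rw [← h1]
    congr 1
    unfold gam
    apply Nat.card_congr
    apply Equiv.subtypeEquivRight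
    intro x
    rw [h.isConj_iff_ord, h.isConj_iff_ord]
  have step : ∑ g, (gam g : ℂ) * χ g = ∑ ψ : IrrCharacter G, (ψ : G → ℂ) 1 *
      (centralChar (ψ : G → ℂ) t * centralChar (ψ : G → ℂ) t) * classInner χ (ψ : G → ℂ) := by
    simp only [hgam]
    simp only [Finset.mul_sum, Finset.sum_mul]
    rw [Finset.sum_comm]
    apply Finset.sum_congr rfl
    intro ψ _
    unfold classInner
    rw [Finset.mul_sum, Finset.mul_sum]
    apply Finset.sum_congr rfl
    intro g _
    ring
  rw [step]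
  have hirr : ∀ ψ : IrrCharacter G, classInner χ (ψ : G → ℂ) =
      if (⟨χ, hχ⟩ : IrrCharacter G) = ψ then 1 else 0 := fun ψ => irr_inner ⟨χ, hχ⟩ ψ
  simp only [hirr]
  rw [Finset.sum_eq_single (⟨χ, hχ⟩ : IrrCharacter G)]
  · rw [if_pos rfl, mul_one]
    unfold centralChar
    rw [h.index_cent]
    have h1 : χ 1 ≠ 0 := irr_one_ne_zero ⟨χ, hχ⟩
    show χ 1 * (_ * χ t / χ 1 * (_ * χ t / χ 1)) = _
    field_simp
  · intro ψ _ hne
    rw [if_neg (Ne.symm hne), mul_zero]
  · intro hne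
    exact absurd (Finset.mem_univ _) hne


/-- a linear character of `K` as a complex function. -/
def lin (ν : K →* ℂˣ) : K → ℂ := fun x => ((ν x : ℂˣ) : ℂ)

theorem lin_apply (ν : K →* ℂˣ) (x : K) : lin ν x = ((ν x : ℂˣ) : ℂ) := rfl

theorem lin_one : lin (1 : K →* ℂˣ) = fun _ => 1 := by
  funext x; simp [lin]

theorem lin_irr (ν : K →* ℂˣ) : IsIrrCharacter K (lin ν) := isIrrCharacter_of_hom ν

theorem lin_injective : Function.Injective (lin : (K →* ℂˣ) → K → ℂ) := by
  intro a b e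
  ext x
  exact congrFun e x

theorem lin_inner [Fintype K] (a b : K →* ℂˣ) :
    classInner (lin a) (lin b) = if a = b then 1 else 0 := by
  have := irr_inner (⟨lin a, lin_irr a⟩ : IrrCharacter K) ⟨lin b, lin_irr b⟩
  rw [this]
  by_cases hab : a = b
  · subst hab; simp
  · rw [if_neg hab, if_neg]
    intro e
    exact hab (lin_injective (congrArg Subtype.val e))

theorem lin_inv (ν : K →* ℂˣ) (x : K) : lin ν⁻¹ x = (lin ν x)⁻¹ := by
  simp [lin]

/-- the class function induced from `1 - ν`. -/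
noncomputable def Phi (K : Subgroup G) (ν : K →* ℂˣ) : G → ℂ := indFun K (fun x => 1 - lin ν x)

theorem Phi_cf (ν : K →* ℂˣ) : IsClassFunction G (Phi K ν) := indFun_isClassFunction _ _

theorem Phi_one (ν : K →* ℂˣ) : Phi K ν 1 = 0 := by
  apply indFun_one_eq_zero
  simp [lin]

theorem W.Phi_mem (h : W t s K) (ν : K →* ℂˣ) {x : G} (hx : x ∈ K) :
    Phi K ν x = 2 - lin ν ⟨x, hx⟩ - (lin ν ⟨x, hx⟩)⁻¹ := by
  by_cases hx1 : x = 1
  · subst hx1
    rw [Phi_one]
    have : lin ν ⟨1, hx⟩ = 1 := by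
      have : (⟨1, hx⟩ : K) = 1 := rfl
      rw [this]; simp [lin]
    rw [this]; norm_num
  · unfold Phi
    rw [h.indK_mem _ hx hx1]
    have : lin ν ⟨x⁻¹, K.inv_mem hx⟩ = (lin ν ⟨x, hx⟩)⁻¹ := by
      have e : (⟨x⁻¹, K.inv_mem hx⟩ : K) = (⟨x, hx⟩ : K)⁻¹ := rfl
      rw [e]; simp [lin]
    rw [this]; ring

theorem Phi_not (ν : K →* ℂˣ) {g : G} (hg1 : g ≠ 1) (hg : ¬ inKT K g) : Phi K ν g = 0 :=
  indK_not _ hg1 hg

theorem Phi_inner_cf [Fintype K] (ν : K →* ℂˣ) (F : G → ℂ) (hF : IsClassFunction G F) :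
    classInner (Phi K ν) F = classInner (lin 1 - lin ν) (fun x : K => F x) := by
  unfold Phi
  rw [frobenius_reciprocity K _ F hF]
  congr 1

theorem W.Phi_restrict (h : W t s K) (ν : K →* ℂˣ) :
    (fun x : K => Phi K ν x) = lin 1 + lin 1 - lin ν - lin ν⁻¹ := by
  funext x
  rw [h.Phi_mem ν x.2]
  simp only [Pi.sub_apply, Pi.add_apply, lin_inv]
  simp [lin]
  norm_num

theorem W.Phi_inner [Fintype K] (h : W t s K) {ν ν' : K →* ℂˣ} (hν : ν ≠ 1) (hν' : ν' ≠ 1) :
    classInner (Phi K ν) (Phi K ν') =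
      2 + (if ν = ν' then 1 else 0) + (if ν = ν'⁻¹ then 1 else 0) := by
  rw [Phi_inner_cf ν _ (Phi_cf ν'), h.Phi_restrict ν']
  simp only [classInner_sub_left, classInner_sub_right, classInner_add_right, lin_inner]
  have h1 : (1 : K →* ℂˣ) ≠ ν' := Ne.symm hν'
  have h2 : (1 : K →* ℂˣ) ≠ ν'⁻¹ := by
    intro e
    apply hν'
    have : ν' = (ν'⁻¹)⁻¹ := (inv_inv ν').symm
    rw [this, ← e]
    ext x; simp
  simp only [h1, h2, hν, if_true, if_false]
  ring

theorem Phi_inner_one [Fintype K] {ν : K →* ℂˣ} (hν : ν ≠ 1) :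
    classInner (Phi K ν) (fun _ => 1) = 1 := by
  have hcf : IsClassFunction G (fun _ : G => (1 : ℂ)) := fun _ _ => rfl
  rw [Phi_inner_cf ν _ hcf]
  have : (fun x : K => (1 : ℂ)) = lin 1 := lin_one.symm
  rw [this, classInner_sub_left, lin_inner, lin_inner, if_pos rfl, if_neg hν]
  ring

theorem W.Phi_inv (h : W t s K) (ν : K →* ℂˣ) : Phi K ν⁻¹ = Phi K ν := by
  funext g
  by_cases hg1 : g = 1
  · subst hg1; rw [Phi_one, Phi_one]
  · by_cases hg : inKT K g
    · obtain ⟨_, c, hc⟩ := hg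
      have h1 := Phi_cf (K := K) ν g c⁻¹
      have h2 := Phi_cf (K := K) ν⁻¹ g c⁻¹
      rw [inv_inv] at h1 h2
      rw [← h1, ← h2, h.Phi_mem _ hc, h.Phi_mem _ hc, lin_inv, inv_inv]
      ring
    · rw [Phi_not _ hg1 hg, Phi_not _ hg1 hg]

/-- decomposition of `Phi ν` for a non-real linear character. -/
theorem W.Phi_decomp (h : W t s K) {ν : K →* ℂˣ} (hν : ν⁻¹ ≠ ν) :
    ∃ χ₁ χ₂ : G → ℂ, IsIrrCharacter G χ₁ ∧ IsIrrCharacter G χ₂ ∧ χ₁ ≠ (fun _ => 1) ∧
      χ₂ ≠ (fun _ => 1) ∧ χ₁ 1 = χ₂ 1 + 1 ∧ ∀ g, Phi K ν g = 1 + χ₂ g - χ₁ g := by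
  haveI : Fintype K := Fintype.ofFinite K
  have hν1 : ν ≠ 1 := by
    intro e; apply hν; rw [e]; ext x; simp
  have hA : IsCharacter G (indFun K (fun _ : K => (1 : ℂ))) := by
    apply isCharacter_indFun
    have := isCharacter_of_hom (1 : K →* ℂˣ)
    simpa using this
  have hB : IsCharacter G (indFun K (lin ν)) := isCharacter_indFun K _ (isCharacter_of_hom ν)
  have hAB : indFun K (fun _ : K => (1 : ℂ)) - indFun K (lin ν) = Phi K ν := by
    rw [← indFun_sub]; rfl
  have h3 : classInner (indFun K (fun _ : K => (1 : ℂ)) - indFun K (lin ν))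
      (indFun K (fun _ : K => (1 : ℂ)) - indFun K (lin ν)) = 3 := by
    rw [hAB, h.Phi_inner hν1 hν1, if_pos rfl, if_neg (Ne.symm hν)]
    norm_num
  have h1 : classInner (indFun K (fun _ : K => (1 : ℂ)) - indFun K (lin ν)) (fun _ => 1) = 1 := by
    rw [hAB]; exact Phi_inner_one hν1
  have h0 : indFun K (fun _ : K => (1 : ℂ)) 1 - indFun K (lin ν) 1 = 0 := by
    have := congrFun hAB 1
    rw [Pi.sub_apply] at this
    rw [this, Phi_one]
  obtain ⟨χ₁, χ₂, i1, i2, n1, n2, hd, hval⟩ :=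
    Cfsg.Agent.H19.exists_irr_of_norm_three _ _ hA hB h3 h1 h0
  refine ⟨χ₁, χ₂, i1, i2, n1, n2, hd, fun g => ?_⟩
  rw [← hval g, ← hAB]; rfl

theorem Phi_tw (ν : K →* ℂˣ) (j : ℕ) (hj : j.Coprime (Nat.card G)) :
    Cfsg.Agent.H5.tw j (Phi K ν) = Phi K (ν ^ j) := by
  unfold Phi
  rw [Cfsg.Agent.H5.tw_indFun j hj]
  congr 1
  funext w
  simp [lin]

theorem W.gam_Phi (h : W t s K) {ν : K →* ℂˣ} (hν : ν ≠ 1) :
    ∑ g, (gam g : ℂ) * Phi K ν g = (Nat.card K : ℂ) * Nat.card G := by
  haveI : Fintype K := Fintype.ofFinite K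
  have hG : (Nat.card G : ℂ) ≠ 0 := by exact_mod_cast Nat.card_pos.ne'
  have h1 : ∀ g : G, (gam g : ℂ) * Phi K ν g = (Nat.card K : ℂ) * Phi K ν g := by
    intro g
    by_cases hg1 : g = 1
    · subst hg1; rw [Phi_one, mul_zero, mul_zero]
    · by_cases hg : inKT K g
      · rw [h.gam_KT hg]
      · rw [Phi_not _ hg1 hg, mul_zero, mul_zero]
  simp only [h1]
  rw [← Finset.mul_sum]
  have h2 := Phi_inner_one (G := G) hν
  unfold classInner at h2
  simp only [map_one, mul_one] at h2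
  have h3 : ∑ g, Phi K ν g = Nat.card G := by
    field_simp at h2
    exact h2
  rw [h3]

/-- the basic numerical equation attached to a decomposition `Phi ν = 1 + χ₂ - χ₁`. -/
theorem W.gam_eq (h : W t s K) {ν : K →* ℂˣ} (hν : ν ≠ 1) {χ₁ χ₂ : G → ℂ}
    (i1 : IsIrrCharacter G χ₁) (i2 : IsIrrCharacter G χ₂)
    (hval : ∀ g, Phi K ν g = 1 + χ₂ g - χ₁ g) :
    (Nat.card {x : G // orderOf x = 2} : ℂ) * (1 + χ₂ t ^ 2 / χ₂ 1 - χ₁ t ^ 2 / χ₁ 1) =
      2 * (Nat.card K : ℂ) ^ 2 := by
  have h1 := h.gam_Phi hν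
  simp only [hval] at h1
  have h2 : ∑ g, (gam g : ℂ) * (1 + χ₂ g - χ₁ g) =
      ∑ g, (gam g : ℂ) * (fun _ : G => (1 : ℂ)) g + ∑ g, (gam g : ℂ) * χ₂ g -
        ∑ g, (gam g : ℂ) * χ₁ g := by
    rw [← Finset.sum_add_distrib, ← Finset.sum_sub_distrib]
    apply Finset.sum_congr rfl
    intro g _; ring
  rw [h2, h.gam_irr _ isIrrCharacter_one, h.gam_irr _ i1, h.gam_irr _ i2] at h1
  have hcard := h.card_invol
  have hcard' : (Nat.card G : ℂ) = (Nat.card {x : G // orderOf x = 2} : ℂ) * (2 * Nat.card K) := by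
    rw [← hcard]; push_cast; ring
  have hm : (Nat.card {x : G // orderOf x = 2} : ℂ) ≠ 0 := by
    have hG : (Nat.card G : ℂ) ≠ 0 := by exact_mod_cast Nat.card_pos.ne'
    rw [hcard'] at hG
    exact left_ne_zero_of_mul hG
  rw [hcard'] at h1
  have h3 : (Nat.card {x : G // orderOf x = 2} : ℂ) *
      ((Nat.card {x : G // orderOf x = 2} : ℂ) * (1 + χ₂ t ^ 2 / χ₂ 1 - χ₁ t ^ 2 / χ₁ 1)) =
      (Nat.card {x : G // orderOf x = 2} : ℂ) * (2 * (Nat.card K : ℂ) ^ 2) := by
    linear_combination h1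
  exact mul_left_cancel₀ hm h3

end Cfsg.Agent.H54.BSW
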