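import Mathlib
import Cfsg.Agent.H54.BSW2

set_option autoImplicit false
set_option linter.unusedSectionVars false
set_option linter.unusedVariables false
set_option linter.style.haveILetI false

namespace Cfsg.Agent.H54.BSW

open Cfsg Cfsg.Agent.H4
open scoped ComplexConjugate

universe u

section Dual

theorem card_hom_comm (A : Type*) [Group A] [Finite A] (hA : ∀ a b : A, a * b = b * a) :
    Finite (A →* ℂˣ) ∧ Nat.card (A →* ℂˣ) = Nat.card A := by
  letI : CommGroup A := { ‹Group A› with mul_comm := hA }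
  haveI : NeZero (Monoid.exponent A) := ⟨Monoid.exponent_ne_zero_of_finite⟩
  have h := CommGroup.card_monoidHom_of_hasEnoughRootsOfUnity A ℂ
  refine ⟨?_, h⟩
  apply Nat.finite_of_card_ne_zero
  rw [h]
  exact Nat.card_pos.ne'

theorem exists_hom_ne (A : Type*) [Group A] [Finite A] (hA : ∀ a b : A, a * b = b * a) {a : A}
    (ha : a ≠ 1) : ∃ ψ : A →* ℂˣ, ψ a ≠ 1 := by
  letI : CommGroup A := { ‹Group A› with mul_comm := hA }
  haveI : NeZero (Monoid.exponent A) := ⟨Monoid.exponent_ne_zero_of_finite⟩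
  exact CommGroup.exists_apply_ne_one_of_hasEnoughRootsOfUnity A ℂ ha

theorem hom_equiv (A : Type*) [Group A] [Finite A] (hA : ∀ a b : A, a * b = b * a) :
    Nonempty ((A →* ℂˣ) ≃* A) := by
  letI : CommGroup A := { ‹Group A› with mul_comm := hA }
  haveI : NeZero (Monoid.exponent A) := ⟨Monoid.exponent_ne_zero_of_finite⟩
  exact CommGroup.monoidHom_mulEquiv_of_hasEnoughRootsOfUnity A ℂ

theorem sum_hom_apply' (A : Type*) [Group A] [Finite A] [DecidableEq A]
    (hA : ∀ a b : A, a * b = b * a) [Fintype (A →* ℂˣ)] (a : A) :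
    ∑ φ : A →* ℂˣ, ((φ a : ℂˣ) : ℂ) = if a = 1 then (Nat.card A : ℂ) else 0 := by
  by_cases ha : a = 1
  · rw [if_pos ha, ha]
    simp only [map_one, Units.val_one, Finset.sum_const, Finset.card_univ, nsmul_eq_mul, mul_one]
    rw [← (card_hom_comm A hA).2, Nat.card_eq_fintype_card]
  · rw [if_neg ha]
    obtain ⟨ψ, hψ⟩ := exists_hom_ne A hA ha
    have h1 : ((ψ a : ℂˣ) : ℂ) * ∑ φ : A →* ℂˣ, ((φ a : ℂˣ) : ℂ)
        = ∑ φ : A →* ℂˣ, ((φ a : ℂˣ) : ℂ) := by
      rw [Finset.mul_sum]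
      exact Fintype.sum_bijective (fun φ => ψ * φ) (Group.mulLeft_bijective ψ) _ _
        (fun φ => by simp [MonoidHom.mul_apply])
    have h2 : ((ψ a : ℂˣ) : ℂ) ≠ 1 := fun h => hψ (Units.ext h)
    have h3 : (((ψ a : ℂˣ) : ℂ) - 1) * ∑ φ : A →* ℂˣ, ((φ a : ℂˣ) : ℂ) = 0 := by
      rw [sub_mul, h1, one_mul, sub_self]
    rcases mul_eq_zero.mp h3 with h | h
    · exact absurd (sub_eq_zero.mp h) h2
    · exact h

end Dual

theorem arith (m k n δ : ℤ) (hm : 0 < m) (hk : 0 < k) (hn : 0 < n) (hδ : δ = 1 ∨ δ = -1)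
    (hodd : ¬ (2 : ℤ) ∣ m) (hcop : IsCoprime m k)
    (heq : m * (n - δ) ^ 2 = 2 * k ^ 2 * n * (n + δ)) :
    n = 2 * k + δ ∧ m = (2 * k + δ) * (k + δ) := by
  have hδ2 : δ ^ 2 = 1 := by rcases hδ with h | h <;> rw [h] <;> norm_num
  have hc2 : IsCoprime m 2 := by
    rw [isCoprime_comm]
    exact (Int.prime_two.coprime_iff_not_dvd).mpr hodd
  have hc : IsCoprime m (2 * k ^ 2) := IsCoprime.mul_right hc2 (IsCoprime.pow_right hcop)
  have hdvd : m ∣ n * (n + δ) := by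
    apply hc.dvd_of_dvd_mul_left
    refine ⟨(n - δ) ^ 2, ?_⟩
    linear_combination -heq
  obtain ⟨e, he⟩ := hdvd
  have h1 : (n - δ) ^ 2 = 2 * k ^ 2 * e := by
    have : m * (n - δ) ^ 2 = m * (2 * k ^ 2 * e) := by
      rw [heq]; linear_combination (2 * k ^ 2) * he
    exact mul_left_cancel₀ hm.ne' this
  have hkd : k ∣ n - δ := by
    have : k ^ 2 ∣ (n - δ) ^ 2 := ⟨2 * e, by rw [h1]; ring⟩
    exact (Int.pow_dvd_pow_iff two_ne_zero).mp this
  obtain ⟨b, hb⟩ := hkd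
  have h2 : b ^ 2 = 2 * e := by
    have : k ^ 2 * b ^ 2 = k ^ 2 * (2 * e) := by rw [← mul_pow, ← hb, h1]; ring
    exact mul_left_cancel₀ (pow_ne_zero 2 hk.ne') this
  have hb2 : (2 : ℤ) ∣ b := Int.prime_two.dvd_of_dvd_pow ⟨e, h2⟩
  obtain ⟨c, hc'⟩ := hb2
  have h3 : e = 2 * c ^ 2 := by
    rw [hc'] at h2
    linarith [h2]
  have hn' : n = 2 * k * c + δ := by rw [hc'] at hb; linarith
  have h4 : (2 * k * c + δ) * (k * c + δ) = m * c ^ 2 := by
    have : 2 * ((2 * k * c + δ) * (k * c + δ)) = 2 * (m * c ^ 2) := by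
      rw [hn', h3] at he; linear_combination he
    linarith
  have hc1 : c ∣ 1 := ⟨m * c - 2 * k ^ 2 * c - 3 * k * δ, by linear_combination h4 - hδ2⟩
  rcases Int.isUnit_iff.mp (isUnit_of_dvd_one hc1) with hcc | hcc
  · subst hcc
    refine ⟨by linarith, ?_⟩
    linear_combination -h4
  · exfalso
    subst hcc
    rcases hδ with h | h <;> subst h <;> linarith

variable {G : Type u} [Group G] [Fintype G] {t s : G} {K : Subgroup G}

theorem W.comm_sub (h : W t s K) : ∀ a b : K, a * b = b * a :=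
  fun a b => Subtype.ext (h.comm a a.2 b b.2)

theorem W.real_unique (h : W t s K) {ν ν' : K →* ℂˣ} (h1 : ν ≠ 1) (h2 : ν⁻¹ = ν)
    (h1' : ν' ≠ 1) (h2' : ν'⁻¹ = ν') : ν = ν' := by
  obtain ⟨e⟩ := hom_equiv K h.comm_sub
  have key : ∀ μ : K →* ℂˣ, μ ≠ 1 → μ⁻¹ = μ → ((e μ : K) : G) = t := by
    intro μ hμ1 hμ2
    have hmm : μ * μ = 1 := by
      apply MonoidHom.ext
      intro x
      have hx : (μ x)⁻¹ = μ x := DFunLike.congr_fun hμ2 x
      show μ x * μ x = 1
      calc μ x * μ x = (μ x)⁻¹ * μ x := by rw [hx]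
        _ = 1 := inv_mul_cancel _
    have h3 : e μ * e μ = 1 := by rw [← map_mul, hmm, map_one]
    have h4 : ((e μ : K) : G) * ((e μ : K) : G) = 1 := congrArg Subtype.val h3
    have h5 : ((e μ : K) : G) ≠ 1 := by
      intro e1
      apply hμ1
      apply e.injective
      rw [map_one]
      exact Subtype.ext e1
    rcases h.invol _ (e μ).2 h4 with h6 | h6
    · exact absurd h6 h5
    · exact h6
  apply e.injective
  apply Subtype.ext
  rw [key ν h1 h2, key ν' h1' h2']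

theorem W.fourier (h : W t s K) (δ : ℂ) (hδ : conj δ = δ) (X : G → ℂ)
    (hXcf : IsClassFunction G X) (hXt : X t = δ)
    (hall : ∀ ν : K →* ℂˣ, ν⁻¹ ≠ ν → classInner (Phi K ν) X = δ) :
    ∀ x ∈ K, x ≠ 1 → X x = δ := by
  classical
  haveI : Fintype K := Fintype.ofFinite K
  haveI : Finite (K →* ℂˣ) := (card_hom_comm K h.comm_sub).1
  letI : Fintype (K →* ℂˣ) := Fintype.ofFinite _
  have hk : (Nat.card K : ℂ) ≠ 0 := by exact_mod_cast Nat.card_pos.ne'
  set c : (K →* ℂˣ) → ℂ := fun ν => classInner (lin ν) (fun x : K => X x) with hc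
  have hcδ : ∀ ν : K →* ℂˣ, ν⁻¹ ≠ ν → c 1 - c ν = δ := by
    intro ν hν
    have := hall ν hν
    rw [Phi_inner_cf ν X hXcf, classInner_sub_left] at this
    exact this
  have hinvn : ∀ g : K, ∑ ν : K →* ℂˣ, c ν * (lin ν g)⁻¹ = conj (X g) := by
    intro g
    simp only [hc]
    unfold classInner
    have h1 : ∀ ν : K →* ℂˣ,
        ((Nat.card K : ℂ)⁻¹ * ∑ x : K, lin ν x * conj (X x)) * (lin ν g)⁻¹
        = ∑ x : K, (Nat.card K : ℂ)⁻¹ * conj (X x) * lin ν (x * g⁻¹) := by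
      intro ν
      rw [Finset.mul_sum, Finset.sum_mul]
      apply Finset.sum_congr rfl
      intro x _
      have : lin ν (x * g⁻¹) = lin ν x * (lin ν g)⁻¹ := by simp [lin]
      rw [this]; ring
    simp only [h1]
    rw [Finset.sum_comm]
    have h2 : ∀ x : K, ∑ ν : K →* ℂˣ, (Nat.card K : ℂ)⁻¹ * conj (X x) * lin ν (x * g⁻¹)
        = if x = g then conj (X x) else 0 := by
      intro x
      rw [← Finset.mul_sum]
      have := sum_hom_apply' K h.comm_sub (x * g⁻¹)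
      simp only [lin]
      rw [this]
      by_cases hxg : x = g
      · rw [if_pos hxg, if_pos (by rw [hxg, mul_inv_cancel])]
        field_simp
      · rw [if_neg hxg, if_neg (by intro e; exact hxg (mul_inv_eq_one.mp e)), mul_zero]
    simp only [h2]
    rw [Finset.sum_ite_eq' Finset.univ g (fun x => conj (X x)), if_pos (Finset.mem_univ _)]
  have hsum0 : ∀ g : K, g ≠ 1 → ∑ ν : K →* ℂˣ, (lin ν g)⁻¹ = 0 := by
    intro g hg
    have := sum_hom_apply' K h.comm_sub g⁻¹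
    rw [if_neg (inv_ne_one.mpr hg)] at this
    rw [← this]
    apply Finset.sum_congr rfl
    intro ν _
    simp [lin]
  set d : (K →* ℂˣ) → ℂ := fun ν => c ν - (c 1 - δ) with hd
  have hd1 : d 1 = δ := by simp [hd]
  have hdn : ∀ ν : K →* ℂˣ, ν⁻¹ ≠ ν → d ν = 0 := by
    intro ν hν
    simp only [hd]
    linear_combination - hcδ ν hν
  have hX : ∀ g : K, g ≠ 1 → conj (X g) = ∑ ν : K →* ℂˣ, d ν * (lin ν g)⁻¹ := by
    intro g hg
    rw [← hinvn g]
    have e : ∀ ν : K →* ℂˣ, d ν * (lin ν g)⁻¹ =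
        c ν * (lin ν g)⁻¹ - (c 1 - δ) * (lin ν g)⁻¹ := by
      intro ν; simp only [hd]; ring
    simp only [e]
    rw [Finset.sum_sub_distrib, ← Finset.mul_sum, hsum0 g hg, mul_zero, sub_zero]
  have hlin1 : ∀ g : K, lin (1 : K →* ℂˣ) g = 1 := by intro g; simp [lin]
  have hfin : ∀ g : K, g ≠ 1 → conj (X g) = δ := by
    by_cases hR : ∃ ν₀ : K →* ℂˣ, ν₀ ≠ 1 ∧ ν₀⁻¹ = ν₀
    · obtain ⟨ν₀, hν₀1, hν₀2⟩ := hR
      have hform : ∀ g : K, g ≠ 1 → conj (X g) = δ + d ν₀ * (lin ν₀ g)⁻¹ := by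
        intro g hg
        rw [hX g hg, Finset.sum_eq_add (1 : K →* ℂˣ) ν₀ (Ne.symm hν₀1)]
        · rw [hd1, hlin1, inv_one, mul_one]
        · intro ν _ hν
          have : ν⁻¹ ≠ ν := fun e => hν.2 (h.real_unique hν.1 e hν₀1 hν₀2)
          rw [hdn ν this, zero_mul]
        · intro hh; exact absurd (Finset.mem_univ _) hh
        · intro hh; exact absurd (Finset.mem_univ _) hh
      have htK1 : (⟨t, h.tK⟩ : K) ≠ 1 := fun e => h.t1 (congrArg Subtype.val e)
      have h0 := hform ⟨t, h.tK⟩ htK1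
      rw [hXt, hδ] at h0
      have hd0 : d ν₀ = 0 := by
        have h1 : d ν₀ * (lin ν₀ ⟨t, h.tK⟩)⁻¹ = 0 := by linear_combination -h0
        rcases mul_eq_zero.mp h1 with h2 | h2
        · exact h2
        · exfalso; simp [lin] at h2
      intro g hg
      rw [hform g hg, hd0, zero_mul, add_zero]
    · push Not at hR
      intro g hg
      rw [hX g hg, Finset.sum_eq_single (1 : K →* ℂˣ)]
      · rw [hd1, hlin1, inv_one, mul_one]
      · intro ν _ hν
        rw [hdn ν (hR ν hν), zero_mul]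
      · intro hh; exact absurd (Finset.mem_univ _) hh
  intro x hx hx1
  have := hfin ⟨x, hx⟩ (fun e => hx1 (congrArg Subtype.val e))
  have h2 := congrArg conj this
  rw [Complex.conj_conj, hδ] at h2
  exact h2


open Classical in
theorem irr_ip {χ ψ : G → ℂ} (hχ : IsIrrCharacter G χ) (hψ : IsIrrCharacter G ψ) :
    classInner χ ψ = if χ = ψ then 1 else 0 := by
  have := irr_inner (⟨χ, hχ⟩ : IrrCharacter G) ⟨ψ, hψ⟩
  rw [this]
  by_cases e : χ = ψ
  · subst e; simp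
  · rw [if_neg e, if_neg]
    intro e'; exact e (congrArg Subtype.val e')

/-- the data used by the endgame. -/
structure Data (K : Subgroup G) (δ : ℤ) (X Λ : G → ℂ) : Prop where
  hδ : δ = 1 ∨ δ = -1
  irr : IsIrrCharacter G X
  char : IsCharacter G Λ
  X1 : X 1 = 2 * (Nat.card K : ℂ) + δ
  L1 : Λ 1 = 2 * (Nat.card K : ℂ) + 2 * δ
  hm : (Nat.card {x : G // orderOf x = 2} : ℤ) = (2 * Nat.card K + δ) * (Nat.card K + δ)
  int : ∀ g, ∃ n : ℤ, X g = n
  XK : ∀ x ∈ K, x ≠ 1 → X x = δ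
  LX : ∀ g, g ≠ 1 → ¬ inKT K g → Λ g = X g + δ

theorem W.m_odd_coprime (h : W t s K) :
    ¬ (2 : ℤ) ∣ (Nat.card {x : G // orderOf x = 2} : ℤ) ∧
      IsCoprime (Nat.card {x : G // orderOf x = 2} : ℤ) (Nat.card K : ℤ) := by
  obtain ⟨j, hj⟩ := h.invol_mod
  obtain ⟨k', hk'⟩ := h.two_dvd_card
  constructor
  · have : ¬ 2 ∣ Nat.card {x : G // orderOf x = 2} := by
      rw [hj, hk']
      intro hd
      have : 1 + 2 * k' * (j + 1) = 2 * (k' * (j + 1)) + 1 := by ring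
      rw [this] at hd
      omega
    exact_mod_cast this
  · rw [Nat.isCoprime_iff_coprime]
    rw [hj]
    apply Nat.Coprime.symm
    rw [Nat.coprime_iff_gcd_eq_one]
    apply Nat.eq_one_of_dvd_one
    have h1 : Nat.gcd (Nat.card K) (1 + Nat.card K * (j + 1)) ∣ Nat.card K * (j + 1) :=
      Dvd.dvd.mul_right (Nat.gcd_dvd_left _ _) _
    have h2 := Nat.gcd_dvd_right (Nat.card K) (1 + Nat.card K * (j + 1))
    exact (Nat.dvd_add_left h1).mp h2

theorem W.core (h : W t s K) (δ : ℤ) (hδ : δ = 1 ∨ δ = -1) (X Λ : G → ℂ)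
    (hX : IsIrrCharacter G X) (hΛ : IsIrrCharacter G Λ) (lam : K →* ℂˣ) (hlam : lam⁻¹ ≠ lam)
    (hval : ∀ g, Phi K lam g = 1 + δ * (X g - Λ g))
    (hdeg : Λ 1 = X 1 + δ) (hXt : X t = δ) (hΛt : Λ t ^ 2 = 4)
    (hall : ∀ ν : K →* ℂˣ, ν⁻¹ ≠ ν → classInner (Phi K ν) X = δ) :
    Data K δ X Λ := by
  classical
  have hlam1 : lam ≠ 1 := by
    intro e; apply hlam; rw [e]; ext x; simp
  obtain ⟨n, hn0, hn⟩ := irr_one_eq_natCast ⟨X, hX⟩
  obtain ⟨n', hn0', hn'⟩ := irr_one_eq_natCast ⟨Λ, hΛ⟩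
  simp only at hn hn'
  have hnn' : (n' : ℤ) = n + δ := by
    have : ((n' : ℤ) : ℂ) = ((n + δ : ℤ) : ℂ) := by
      push_cast
      rw [← hn', ← hn, hdeg]
    exact_mod_cast this
  set m := Nat.card {x : G // orderOf x = 2} with hm
  set k := Nat.card K with hk
  have hδ2 : (δ : ℂ) ^ 2 = 1 := by
    rcases hδ with e | e <;> rw [e] <;> norm_num
  have hN : (n : ℂ) ≠ 0 := by exact_mod_cast hn0.ne'
  have hN' : (n : ℂ) + δ ≠ 0 := by
    have : ((n' : ℕ) : ℂ) ≠ 0 := by exact_mod_cast hn0'.ne'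
    rw [← hn', hdeg, hn] at this
    exact this
  -- the equation
  have heqC : (m : ℂ) * ((n : ℂ) - δ) ^ 2 = 2 * (k : ℂ) ^ 2 * n * (n + δ) := by
    rcases hδ with e | e
    · subst e
      have hv : ∀ g, Phi K lam g = 1 + X g - Λ g := by
        intro g; rw [hval g]; push_cast; ring
      have h1 := h.gam_eq hlam1 hΛ hX hv
      rw [hXt, hΛt, hdeg, hn] at h1
      push_cast at h1 hN' ⊢
      have h2 : (m : ℂ) * ((n : ℂ) - 1) ^ 2 =
          (m : ℂ) * (1 + 1 ^ 2 / (n : ℂ) - 4 / ((n : ℂ) + 1)) * ((n : ℂ) * ((n : ℂ) + 1)) := by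
        field_simp
        ring
      rw [h2, h1]; ring
    · subst e
      have hv : ∀ g, Phi K lam g = 1 + Λ g - X g := by
        intro g; rw [hval g]; push_cast; ring
      have h1 := h.gam_eq hlam1 hX hΛ hv
      rw [hXt, hΛt, hdeg, hn] at h1
      push_cast at h1 hN' ⊢
      have h2 : (m : ℂ) * ((n : ℂ) - -1) ^ 2 =
          (m : ℂ) * (1 + 4 / ((n : ℂ) + -1) - (-1) ^ 2 / (n : ℂ)) * ((n : ℂ) * ((n : ℂ) + -1)) := by
        field_simp
        ring
      rw [h2, h1]; ring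
  have heqZ : (m : ℤ) * ((n : ℤ) - δ) ^ 2 = 2 * (k : ℤ) ^ 2 * n * (n + δ) := by
    have : (((m : ℤ) * ((n : ℤ) - δ) ^ 2 : ℤ) : ℂ) = ((2 * (k : ℤ) ^ 2 * n * (n + δ) : ℤ) : ℂ) := by
      push_cast; exact heqC
    exact_mod_cast this
  have hmpos : 0 < m := Nat.card_pos_iff.mpr ⟨⟨⟨t, h.ot⟩⟩, inferInstance⟩
  have hkpos : 0 < k := Nat.card_pos
  obtain ⟨hodd, hcop⟩ := h.m_odd_coprime
  obtain ⟨hnk, hmk⟩ := arith (m : ℤ) (k : ℤ) (n : ℤ) δ (by exact_mod_cast hmpos)
    (by exact_mod_cast hkpos) (by exact_mod_cast hn0) hδ hodd hcop heqZ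
  have hX1 : X 1 = 2 * (k : ℂ) + δ := by
    rw [hn]
    have : ((n : ℤ) : ℂ) = ((2 * (k : ℤ) + δ : ℤ) : ℂ) := by rw [hnk]
    push_cast at this
    exact this
  have hk2 : 2 ≤ k := by
    obtain ⟨k', hk'⟩ := h.two_dvd_card
    omega
  have hXne : X ≠ fun _ => 1 := by
    intro e
    have h1 : X 1 = 1 := by rw [e]
    rw [hn] at h1
    have h2 : n = 1 := by exact_mod_cast h1
    rcases hδ with e' | e' <;> subst e' <;> omega
  have hXΛ : X ≠ Λ := by
    intro e
    rw [← e] at hdeg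
    have : (δ : ℂ) = 0 := by linear_combination -hdeg
    rcases hδ with e' | e' <;> subst e' <;> norm_num at this
  -- Galois invariance
  have htw : ∀ J : ℕ, J.Coprime (Nat.card G) → (fun g => X (g ^ J)) = X := by
    intro J hJ
    have hX' := Cfsg.Agent.H79.isIrrCharacter_comp_pow J hJ hX
    have hΛ' := Cfsg.Agent.H79.isIrrCharacter_comp_pow J hJ hΛ
    have hnr : (lam ^ J)⁻¹ ≠ lam ^ J := by
      intro e
      apply hlam
      apply MonoidHom.ext
      intro x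
      have ex : ((lam x) ^ J)⁻¹ = (lam x) ^ J := DFunLike.congr_fun e x
      have h2J : ((lam x) ^ 2) ^ J = 1 := by
        rw [← pow_mul, mul_comm, pow_mul, sq]
        nth_rewrite 1 [← ex]
        exact inv_mul_cancel _
      have hG : ((lam x) ^ 2) ^ (Nat.card G) = 1 := by
        rw [← pow_mul, mul_comm, pow_mul, ← map_pow]
        have : x ^ Nat.card G = 1 := by
          apply Subtype.ext
          rw [Subgroup.coe_pow, Subgroup.coe_one]
          exact pow_card_eq_one'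
        rw [this, map_one, one_pow]
      have h1 : orderOf ((lam x) ^ 2) ∣ Nat.gcd J (Nat.card G) :=
        Nat.dvd_gcd (orderOf_dvd_of_pow_eq_one h2J) (orderOf_dvd_of_pow_eq_one hG)
      rw [hJ] at h1
      have h3 : (lam x) ^ 2 = 1 := orderOf_eq_one_iff.mp (Nat.dvd_one.mp h1)
      show (lam x)⁻¹ = lam x
      exact inv_eq_of_mul_eq_one_left (by rw [← sq]; exact h3)
    have hP : Phi K (lam ^ J) = (fun _ => (1 : ℂ)) +
        (δ : ℂ) • ((fun g => X (g ^ J)) - (fun g => Λ (g ^ J))) := by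
      rw [← Phi_tw lam J hJ]
      funext g
      simp only [Cfsg.Agent.H5.tw_apply, hval, Pi.add_apply, Pi.smul_apply, Pi.sub_apply,
        smul_eq_mul]
    have h1 := hall (lam ^ J) hnr
    rw [hP, classInner_add_left, classInner_smul_left, classInner_sub_left,
      irr_ip isIrrCharacter_one hX, irr_ip hX' hX, irr_ip hΛ' hX] at h1
    by_contra hne
    rw [if_neg (Ne.symm hXne), if_neg hne] at h1
    split_ifs at h1 <;> (rcases hδ with hh | hh <;> subst hh <;> norm_num at h1)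
  have hint : ∀ g, ∃ z : ℤ, X g = z := by
    intro g
    apply Cfsg.Agent.H5.character_int_of_pow_invariant (isCharacter_of_isIrrCharacter hX) g
    intro j hj
    obtain ⟨J, hJ, hJj⟩ := Cfsg.Agent.H5.exists_coprime_modEq (Nat.card_pos (α := G)).ne'
      (orderOf_dvd_natCard g) j hj
    have e : g ^ j = g ^ J := pow_eq_pow_iff_modEq.mpr hJj.symm
    rw [e]
    exact congrFun (htw J hJ) g
  refine ⟨hδ, hX, isCharacter_of_isIrrCharacter hΛ, hX1, ?_, hmk, hint, ?_, ?_⟩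
  · rw [hdeg, hX1]; ring
  · exact h.fourier (δ : ℂ) (map_intCast (starRingEnd ℂ) δ) X (irr_isClassFunction ⟨X, hX⟩) hXt hall
  · intro g hg1 hg
    have e := hval g
    rw [Phi_not lam hg1 hg] at e
    linear_combination (δ : ℂ) * e + (X g - Λ g) * hδ2

end Cfsg.Agent.H54.BSW
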