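import Mathlib
import Cfsg.Agent.H54.BSW3

set_option autoImplicit false
set_option linter.unusedSectionVars false
set_option linter.unusedVariables false
set_option linter.style.haveILetI false

namespace Cfsg.Agent.H54.BSW

open Cfsg Cfsg.Agent.H4
open scoped ComplexConjugate

universe u

theorem ite_mul_left_ne {α : Type*} {a b c : α} [Decidable (a = c)] [Decidable (b = c)]
    (hab : a ≠ b) :
    (if a = c then (1 : ℂ) else 0) * (if b = c then 1 else 0) = 0 := by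
  by_cases h1 : a = c
  · by_cases h2 : b = c
    · exact absurd (h1.trans h2.symm) hab
    · rw [if_neg h2, mul_zero]
  · rw [if_neg h1, zero_mul]

theorem ite_mul_right_ne {α : Type*} {a b c : α} [Decidable (a = b)] [Decidable (a = c)]
    (hbc : b ≠ c) :
    (if a = b then (1 : ℂ) else 0) * (if a = c then 1 else 0) = 0 := by
  by_cases h1 : a = b
  · by_cases h2 : a = c
    · exact absurd (h1.symm.trans h2) hbc
    · rw [if_neg h2, mul_zero]
  · rw [if_neg h1, zero_mul]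

set_option maxHeartbeats 1600000 in
theorem bool_arith (δ P2 P1 Q2 Q1 R2 R1 : ℂ) (hδ : δ = 1 ∨ δ = -1)
    (v1 : P2 = 1 ∨ P2 = 0) (v2 : P1 = 1 ∨ P1 = 0) (v3 : Q2 = 1 ∨ Q2 = 0) (v4 : Q1 = 1 ∨ Q1 = 0)
    (v5 : R2 = 1 ∨ R2 = 0) (v6 : R1 = 1 ∨ R1 = 0)
    (hP : P1 * P2 = 0) (hQ : Q1 * Q2 = 0) (hR : R1 * R2 = 0) (hQR2 : Q2 * R2 = 0)
    (hQR1 : Q1 * R1 = 0)
    (I1 : δ * (P2 - P1 - (Q2 - Q1)) = 1) (I2 : δ * (P2 - P1 - (R2 - R1)) = 1) :
    P2 - P1 = δ := by
  rcases hδ with rfl | rfl <;> rcases v1 with rfl | rfl <;> rcases v2 with rfl | rfl <;>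
    rcases v3 with rfl | rfl <;> rcases v4 with rfl | rfl <;> rcases v5 with rfl | rfl <;>
    rcases v6 with rfl | rfl <;> norm_num at *

variable {G : Type u} [Group G] [Fintype G] {t s : G} {K : Subgroup G}

open Classical in
theorem W.hall_pair (h : W t s K) (δ : ℤ) (hδ : δ = 1 ∨ δ = -1) (X Ll Lm : G → ℂ)
    (hX : IsIrrCharacter G X) (hLl : IsIrrCharacter G Ll) (hLm : IsIrrCharacter G Lm)
    (hX1 : X ≠ fun _ => 1) (hLl1 : Ll ≠ fun _ => 1) (hLm1 : Lm ≠ fun _ => 1)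
    (hXl : X ≠ Ll) (hXm : X ≠ Lm) (hlm : Ll ≠ Lm)
    (lam mu : K →* ℂˣ) (hlam : lam⁻¹ ≠ lam) (hmu : mu⁻¹ ≠ mu)
    (hvl : ∀ g, Phi K lam g = 1 + δ * (X g - Ll g))
    (hvm : ∀ g, Phi K mu g = 1 + δ * (X g - Lm g)) :
    ∀ ν : K →* ℂˣ, ν⁻¹ ≠ ν → classInner (Phi K ν) X = δ := by
  haveI : Fintype K := Fintype.ofFinite K
  have hne1 : ∀ ν : K →* ℂˣ, ν⁻¹ ≠ ν → ν ≠ 1 := by
    intro ν hν e; apply hν; rw [e]; ext x; simp
  have hPl : Phi K lam = (fun _ => (1 : ℂ)) + (δ : ℂ) • (X - Ll) := by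
    funext g; rw [hvl g]; rfl
  have hPm : Phi K mu = (fun _ => (1 : ℂ)) + (δ : ℂ) • (X - Lm) := by
    funext g; rw [hvm g]; rfl
  have i1 : classInner (fun _ : G => (1 : ℂ)) X = 0 := by
    rw [irr_ip isIrrCharacter_one hX, if_neg (Ne.symm hX1)]
  have key1 : classInner (Phi K lam) X = δ := by
    rw [hPl, classInner_add_left, classInner_smul_left, classInner_sub_left, i1,
      irr_ip hX hX, irr_ip hLl hX, if_pos rfl, if_neg (Ne.symm hXl)]
    ring
  have key2 : classInner (Phi K mu) X = δ := by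
    rw [hPm, classInner_add_left, classInner_smul_left, classInner_sub_left, i1,
      irr_ip hX hX, irr_ip hLm hX, if_pos rfl, if_neg (Ne.symm hXm)]
    ring
  intro ν hν
  by_cases e1 : ν = lam
  · rw [e1]; exact key1
  by_cases e2 : ν = lam⁻¹
  · rw [e2, h.Phi_inv]; exact key1
  by_cases e3 : ν = mu
  · rw [e3]; exact key2
  by_cases e4 : ν = mu⁻¹
  · rw [e4, h.Phi_inv]; exact key2
  obtain ⟨c₁, c₂, ic1, ic2, nc1, nc2, hdc, hvc⟩ := h.Phi_decomp hν
  have hc12 : c₁ ≠ c₂ := by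
    intro e
    rw [e] at hdc
    have : (1 : ℂ) = 0 := by linear_combination -hdc
    norm_num at this
  have hPν : Phi K ν = (fun _ => (1 : ℂ)) + c₂ - c₁ := by
    funext g; rw [hvc g]; rfl
  have I1 := h.Phi_inner (hne1 ν hν) (hne1 lam hlam)
  have I2 := h.Phi_inner (hne1 ν hν) (hne1 mu hmu)
  rw [if_neg e1, if_neg e2, hPν, hPl] at I1
  rw [if_neg e3, if_neg e4, hPν, hPm] at I2
  simp only [classInner_add_left, classInner_sub_left, classInner_add_right,
    classInner_sub_right, classInner_smul_right, map_intCast] at I1 I2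
  have t1 : ((fun _ : G => (1 : ℂ)) = fun _ => 1) := rfl
  rw [irr_ip isIrrCharacter_one isIrrCharacter_one, irr_ip ic2 isIrrCharacter_one,
    irr_ip ic1 isIrrCharacter_one, irr_ip isIrrCharacter_one hX, irr_ip ic2 hX, irr_ip ic1 hX,
    irr_ip isIrrCharacter_one hLl, irr_ip ic2 hLl, irr_ip ic1 hLl, if_pos t1, if_neg nc2,
    if_neg nc1, if_neg (Ne.symm hX1), if_neg (Ne.symm hLl1)] at I1
  rw [irr_ip isIrrCharacter_one isIrrCharacter_one, irr_ip ic2 isIrrCharacter_one,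
    irr_ip ic1 isIrrCharacter_one, irr_ip isIrrCharacter_one hX, irr_ip ic2 hX, irr_ip ic1 hX,
    irr_ip isIrrCharacter_one hLm, irr_ip ic2 hLm, irr_ip ic1 hLm, if_pos t1, if_neg nc2,
    if_neg nc1, if_neg (Ne.symm hX1), if_neg (Ne.symm hLm1)] at I2
  rw [hPν, classInner_sub_left, classInner_add_left, i1, irr_ip ic2 hX, irr_ip ic1 hX]
  have hP : (if c₁ = X then (1 : ℂ) else 0) * (if c₂ = X then 1 else 0) = 0 :=
    ite_mul_left_ne hc12
  have hQ : (if c₁ = Ll then (1 : ℂ) else 0) * (if c₂ = Ll then 1 else 0) = 0 :=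
    ite_mul_left_ne hc12
  have hR : (if c₁ = Lm then (1 : ℂ) else 0) * (if c₂ = Lm then 1 else 0) = 0 :=
    ite_mul_left_ne hc12
  have hQR1 : (if c₁ = Ll then (1 : ℂ) else 0) * (if c₁ = Lm then 1 else 0) = 0 :=
    ite_mul_right_ne hlm
  have hQR2 : (if c₂ = Ll then (1 : ℂ) else 0) * (if c₂ = Lm then 1 else 0) = 0 :=
    ite_mul_right_ne hlm
  have v1 := ite_eq_or_eq (c₂ = X) (1 : ℂ) 0
  have v2 := ite_eq_or_eq (c₁ = X) (1 : ℂ) 0
  have v3 := ite_eq_or_eq (c₂ = Ll) (1 : ℂ) 0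
  have v4 := ite_eq_or_eq (c₁ = Ll) (1 : ℂ) 0
  have v5 := ite_eq_or_eq (c₂ = Lm) (1 : ℂ) 0
  have v6 := ite_eq_or_eq (c₁ = Lm) (1 : ℂ) 0
  generalize (if c₂ = X then (1 : ℂ) else 0) = P2 at *
  generalize (if c₁ = X then (1 : ℂ) else 0) = P1 at *
  generalize (if c₂ = Ll then (1 : ℂ) else 0) = Q2 at *
  generalize (if c₁ = Ll then (1 : ℂ) else 0) = Q1 at *
  generalize (if c₂ = Lm then (1 : ℂ) else 0) = R2 at *
  generalize (if c₁ = Lm then (1 : ℂ) else 0) = R1 at *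
  have hδ' : (δ : ℂ) = 1 ∨ (δ : ℂ) = -1 := by
    rcases hδ with e | e <;> simp [e]
  have := bool_arith (δ : ℂ) P2 P1 Q2 Q1 R2 R1 hδ' v1 v2 v3 v4 v5 v6 hP hQ hR hQR2 hQR1
    (by linear_combination I1) (by linear_combination I2)
  linear_combination this


theorem W.m_ne_zero (h : W t s K) : (Nat.card {x : G // orderOf x = 2} : ℂ) ≠ 0 := by
  have : 0 < Nat.card {x : G // orderOf x = 2} := Nat.card_pos_iff.mpr ⟨⟨⟨t, h.ot⟩⟩, inferInstance⟩
  exact_mod_cast this.ne'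

theorem W.pair_Xt (h : W t s K) (δ : ℤ) (hδ : δ = 1 ∨ δ = -1) (X Ll Lm : G → ℂ)
    (hX : IsIrrCharacter G X) (hLl : IsIrrCharacter G Ll) (hLm : IsIrrCharacter G Lm)
    (lam mu : K →* ℂˣ) (hlam1 : lam ≠ 1) (hmu1 : mu ≠ 1)
    (hlt : lin lam ⟨t, h.tK⟩ = 1) (hmt : lin mu ⟨t, h.tK⟩ = -1)
    (hvl : ∀ g, Phi K lam g = 1 + δ * (X g - Ll g))
    (hvm : ∀ g, Phi K mu g = 1 + δ * (X g - Lm g))
    (hdl : Ll 1 = X 1 + δ) (hdm : Lm 1 = X 1 + δ) : X t = δ ∧ Ll t ^ 2 = 4 := by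
  have hδ2 : (δ : ℂ) ^ 2 = 1 := by
    rcases hδ with e | e <;> rw [e] <;> norm_num
  have e1' : 1 + (δ : ℂ) * (X t - Ll t) = 0 := by
    rw [← hvl t, h.Phi_mem lam h.tK, hlt]; norm_num
  have e2' : 1 + (δ : ℂ) * (X t - Lm t) = 4 := by
    rw [← hvm t, h.Phi_mem mu h.tK, hmt]; norm_num
  have hLlt : Ll t = X t + δ := by
    linear_combination (-(δ : ℂ)) * e1' + (X t - Ll t) * hδ2
  have hLmt : Lm t = X t - 3 * δ := by
    linear_combination (-(δ : ℂ)) * e2' + (X t - Lm t) * hδ2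
  have hm := h.m_ne_zero
  have hD : X 1 + (δ : ℂ) ≠ 0 := by
    rw [← hdl]; exact irr_one_ne_zero ⟨Ll, hLl⟩
  have hsq : Ll t ^ 2 = Lm t ^ 2 := by
    rcases hδ with e | e
    · subst e
      have hv1 : ∀ g, Phi K lam g = 1 + X g - Ll g := by
        intro g; rw [hvl g]; push_cast; ring
      have hv2 : ∀ g, Phi K mu g = 1 + X g - Lm g := by
        intro g; rw [hvm g]; push_cast; ring
      have G1 := h.gam_eq hlam1 hLl hX hv1
      have G2 := h.gam_eq hmu1 hLm hX hv2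
      rw [hdl] at G1
      rw [hdm] at G2
      have e3 : (Nat.card {x : G // orderOf x = 2} : ℂ) *
          ((Lm t ^ 2 - Ll t ^ 2) / (X 1 + ((1 : ℤ) : ℂ))) = 0 := by
        linear_combination G1 - G2
      rcases mul_eq_zero.mp e3 with e4 | e4
      · exact absurd e4 hm
      · rcases div_eq_zero_iff.mp e4 with e5 | e5
        · linear_combination -e5
        · exact absurd e5 hD
    · subst e
      have hv1 : ∀ g, Phi K lam g = 1 + Ll g - X g := by
        intro g; rw [hvl g]; push_cast; ring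
      have hv2 : ∀ g, Phi K mu g = 1 + Lm g - X g := by
        intro g; rw [hvm g]; push_cast; ring
      have G1 := h.gam_eq hlam1 hX hLl hv1
      have G2 := h.gam_eq hmu1 hX hLm hv2
      rw [hdl] at G1
      rw [hdm] at G2
      have e3 : (Nat.card {x : G // orderOf x = 2} : ℂ) *
          ((Ll t ^ 2 - Lm t ^ 2) / (X 1 + ((-1 : ℤ) : ℂ))) = 0 := by
        linear_combination G1 - G2
      rcases mul_eq_zero.mp e3 with e4 | e4
      · exact absurd e4 hm
      · rcases div_eq_zero_iff.mp e4 with e5 | e5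
        · linear_combination e5
        · exact absurd e5 hD
  rw [hLlt, hLmt] at hsq
  have hXt : X t = δ := by
    linear_combination ((δ : ℂ) / 8) * hsq - (X t - δ) * hδ2
  refine ⟨hXt, ?_⟩
  rw [hLlt, hXt]
  linear_combination 4 * hδ2

theorem W.sq_t_hom (h : W t s K) (ν : K →* ℂˣ) :
    lin ν ⟨t, h.tK⟩ = 1 ∨ lin ν ⟨t, h.tK⟩ = -1 := by
  have h1 : (ν ⟨t, h.tK⟩) ^ 2 = 1 := by
    rw [← map_pow]
    have : (⟨t, h.tK⟩ : K) ^ 2 = 1 := Subtype.ext (by
      show t ^ 2 = 1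
      rw [sq, h.tt])
    rw [this, map_one]
  have h2 : (lin ν ⟨t, h.tK⟩) ^ 2 = 1 := by
    have := congrArg (fun u : ℂˣ => (u : ℂ)) h1
    simpa [lin] using this
  have h3 : (lin ν ⟨t, h.tK⟩ - 1) * (lin ν ⟨t, h.tK⟩ + 1) = 0 := by linear_combination h2
  rcases mul_eq_zero.mp h3 with h4 | h4
  · left; linear_combination h4
  · right; linear_combination h4

theorem W.caseA (h : W t s K) (hk : 6 ≤ Nat.card K) :
    ∃ (δ : ℤ) (X Λ : G → ℂ), Data K δ X Λ := by
  classical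
  haveI : Fintype K := Fintype.ofFinite K
  obtain ⟨a, ha, ha4⟩ : ∃ a ∈ K, a ^ 4 ≠ 1 := by
    by_contra hcon
    push Not at hcon
    have hsq : ∀ a ∈ K, a * a = 1 ∨ a * a = t := by
      intro a ha
      apply h.invol (a * a) (K.mul_mem ha ha)
      have := hcon a ha
      rw [← this, show (4 : ℕ) = 2 + 2 from rfl, pow_add, pow_two]
    have hle : Nat.card K ≤ 4 := by
      rw [← card_filter_mem K]
      by_cases hex : ∃ a₀ ∈ K, a₀ * a₀ = t
      · obtain ⟨a₀, ha₀, ha₀t⟩ := hex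
        refine le_trans (Finset.card_le_card (t := {1, t, a₀, a₀ * t}) ?_) Finset.card_le_four
        intro a ha
        simp only [Finset.mem_filter, Finset.mem_univ, true_and] at ha
        simp only [Finset.mem_insert, Finset.mem_singleton]
        rcases hsq a ha with e | e
        · rcases h.invol a ha e with e' | e'
          · left; exact e'
          · right; left; exact e'
        · have hb : a * a₀⁻¹ ∈ K := K.mul_mem ha (K.inv_mem ha₀)
          have hbb : (a * a₀⁻¹) * (a * a₀⁻¹) = 1 := by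
            have hc := h.comm a₀⁻¹ (K.inv_mem ha₀) a ha
            calc (a * a₀⁻¹) * (a * a₀⁻¹) = a * (a₀⁻¹ * a) * a₀⁻¹ := by group
              _ = a * (a * a₀⁻¹) * a₀⁻¹ := by rw [hc]
              _ = (a * a) * (a₀ * a₀)⁻¹ := by group
              _ = 1 := by rw [e, ha₀t, mul_inv_cancel]
          rcases h.invol _ hb hbb with e' | e'
          · right; right; left
            exact mul_inv_eq_one.mp e'
          · right; right; right
            have : a = t * a₀ := by rw [← e']; group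
            rw [this, h.comm t h.tK a₀ ha₀]
      · push Not at hex
        refine le_trans (Finset.card_le_card (t := {1, t}) ?_)
          (le_trans Finset.card_le_two (by norm_num))
        intro a ha
        simp only [Finset.mem_filter, Finset.mem_univ, true_and] at ha
        simp only [Finset.mem_insert, Finset.mem_singleton]
        rcases hsq a ha with e | e
        · exact h.invol a ha e
        · exact absurd e (hex a ha)
    omega
  have ha4' : (⟨a, ha⟩ : K) ^ 4 ≠ 1 := by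
    intro e
    apply ha4
    have := congrArg Subtype.val e
    simpa using this
  obtain ⟨ψ, hψ⟩ := exists_hom_ne K h.comm_sub ha4'
  set lam : K →* ℂˣ := ψ ^ 2 with hlamdef
  have hlam : lam⁻¹ ≠ lam := by
    intro e
    apply hψ
    have ex : (lam ⟨a, ha⟩)⁻¹ = lam ⟨a, ha⟩ := DFunLike.congr_fun e _
    have h4 : (ψ ⟨a, ha⟩) ^ 4 = 1 := by
      have : (ψ ⟨a, ha⟩) ^ 4 = (lam ⟨a, ha⟩) * (lam ⟨a, ha⟩) := by
        show _ = (ψ ⟨a, ha⟩) ^ 2 * (ψ ⟨a, ha⟩) ^ 2
        rw [← pow_add]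
      rw [this]
      nth_rewrite 1 [← ex]
      exact inv_mul_cancel _
    rw [map_pow]; exact h4
  have hlt : lin lam ⟨t, h.tK⟩ = 1 := by
    have h1 : lin lam ⟨t, h.tK⟩ = (lin ψ ⟨t, h.tK⟩) ^ 2 := by
      simp [lin, hlamdef]
    rw [h1]
    rcases h.sq_t_hom ψ with e | e <;> rw [e] <;> norm_num
  have ht1' : (⟨t, h.tK⟩ : K) ≠ 1 := fun e => h.t1 (congrArg Subtype.val e)
  obtain ⟨φ, hφ⟩ := exists_hom_ne K h.comm_sub ht1'
  have hφt : lin φ ⟨t, h.tK⟩ = -1 := by
    rcases h.sq_t_hom φ with e | e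
    · exfalso
      apply hφ
      apply Units.ext
      exact e
    · exact e
  obtain ⟨mu, hmu, hmt⟩ : ∃ mu : K →* ℂˣ, mu⁻¹ ≠ mu ∧ lin mu ⟨t, h.tK⟩ = -1 := by
    by_cases hφr : φ⁻¹ = φ
    · refine ⟨φ * lam, ?_, ?_⟩
      · intro e
        apply hlam
        apply MonoidHom.ext
        intro x
        have ex : (φ x * lam x)⁻¹ = φ x * lam x := DFunLike.congr_fun e x
        have ex2 : (φ x)⁻¹ = φ x := DFunLike.congr_fun hφr x
        show (lam x)⁻¹ = lam x
        rw [mul_inv, ex2] at ex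
        exact mul_left_cancel ex
      · have : lin (φ * lam) ⟨t, h.tK⟩ = lin φ ⟨t, h.tK⟩ * lin lam ⟨t, h.tK⟩ := by
          simp [lin]
        rw [this, hφt, hlt]; norm_num
    · exact ⟨φ, hφr, hφt⟩
  have hlam1 : lam ≠ 1 := by
    intro e; apply hlam; rw [e]; ext x; simp
  have hmu1 : mu ≠ 1 := by
    intro e; apply hmu; rw [e]; ext x; simp
  have hlm : lam ≠ mu := by
    intro e
    rw [e, hmt] at hlt
    norm_num at hlt
  have hlm' : lam ≠ mu⁻¹ := by
    intro e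
    rw [e, lin_inv, hmt] at hlt
    norm_num at hlt
  obtain ⟨a₁, a₂, ia1, ia2, na1, na2, hda, hva⟩ := h.Phi_decomp hlam
  obtain ⟨b₁, b₂, ib1, ib2, nb1, nb2, hdb, hvb⟩ := h.Phi_decomp hmu
  have ha12 : a₁ ≠ a₂ := by
    intro e
    rw [e] at hda
    have : (1 : ℂ) = 0 := by linear_combination -hda
    norm_num at this
  have hb12 : b₁ ≠ b₂ := by
    intro e
    rw [e] at hdb
    have : (1 : ℂ) = 0 := by linear_combination -hdb
    norm_num at this
  have hPa : Phi K lam = (fun _ => (1 : ℂ)) + a₂ - a₁ := by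
    funext g; rw [hva g]; rfl
  have hPb : Phi K mu = (fun _ => (1 : ℂ)) + b₂ - b₁ := by
    funext g; rw [hvb g]; rfl
  have I := h.Phi_inner hlam1 hmu1
  rw [if_neg hlm, if_neg hlm', hPa, hPb] at I
  simp only [classInner_add_left, classInner_sub_left, classInner_add_right,
    classInner_sub_right] at I
  have t1 : ((fun _ : G => (1 : ℂ)) = fun _ => 1) := rfl
  rw [irr_ip isIrrCharacter_one isIrrCharacter_one, irr_ip ia2 isIrrCharacter_one,
    irr_ip ia1 isIrrCharacter_one, irr_ip isIrrCharacter_one ib2, irr_ip ia2 ib2, irr_ip ia1 ib2,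
    irr_ip isIrrCharacter_one ib1, irr_ip ia2 ib1, irr_ip ia1 ib1, if_pos t1, if_neg na2,
    if_neg na1, if_neg (Ne.symm nb2), if_neg (Ne.symm nb1)] at I
  have hcase : (a₂ = b₂ ∧ a₁ ≠ b₁) ∨ (a₁ = b₁ ∧ a₂ ≠ b₂) := by
    by_cases e22 : a₂ = b₂
    · left
      refine ⟨e22, fun e11 => ?_⟩
      have e21 : a₂ ≠ b₁ := fun e => hb12 (e.symm.trans e22)
      have e12 : a₁ ≠ b₂ := fun e => ha12 (e.trans e22.symm)
      rw [if_pos e22, if_pos e11, if_neg e21, if_neg e12] at I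
      norm_num at I
    · right
      by_cases e11 : a₁ = b₁
      · exact ⟨e11, e22⟩
      · exfalso
        rw [if_neg e22, if_neg e11] at I
        split_ifs at I <;> norm_num at I
  rcases hcase with ⟨e22, e11⟩ | ⟨e11, e22⟩
  · -- δ = 1, X = a₂
    subst e22
    have hvl : ∀ g, Phi K lam g = 1 + ((1 : ℤ) : ℂ) * (a₂ g - a₁ g) := by
      intro g; rw [hva g]; push_cast; ring
    have hvm : ∀ g, Phi K mu g = 1 + ((1 : ℤ) : ℂ) * (a₂ g - b₁ g) := by
      intro g; rw [hvb g]; push_cast; ring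
    have hdl : a₁ 1 = a₂ 1 + ((1 : ℤ) : ℂ) := by rw [hda]; push_cast; ring
    have hdm : b₁ 1 = a₂ 1 + ((1 : ℤ) : ℂ) := by rw [hdb]; push_cast; ring
    obtain ⟨hXt, hLt⟩ := h.pair_Xt 1 (Or.inl rfl) a₂ a₁ b₁ ia2 ia1 ib1 lam mu hlam1 hmu1 hlt hmt
      hvl hvm hdl hdm
    have hall := h.hall_pair 1 (Or.inl rfl) a₂ a₁ b₁ ia2 ia1 ib1 na2 na1 nb1 (Ne.symm ha12)
      (Ne.symm hb12) e11 lam mu hlam hmu hvl hvm
    exact ⟨1, a₂, a₁, h.core 1 (Or.inl rfl) a₂ a₁ ia2 ia1 lam hlam hvl hdl hXt hLt hall⟩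
  · -- δ = -1, X = a₁
    subst e11
    have hvl : ∀ g, Phi K lam g = 1 + ((-1 : ℤ) : ℂ) * (a₁ g - a₂ g) := by
      intro g; rw [hva g]; push_cast; ring
    have hvm : ∀ g, Phi K mu g = 1 + ((-1 : ℤ) : ℂ) * (a₁ g - b₂ g) := by
      intro g; rw [hvb g]; push_cast; ring
    have hdl : a₂ 1 = a₁ 1 + ((-1 : ℤ) : ℂ) := by rw [hda]; push_cast; ring
    have hdm : b₂ 1 = a₁ 1 + ((-1 : ℤ) : ℂ) := by rw [hdb]; push_cast; ring
    obtain ⟨hXt, hLt⟩ := h.pair_Xt (-1) (Or.inr rfl) a₁ a₂ b₂ ia1 ia2 ib2 lam mu hlam1 hmu1 hlt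
      hmt hvl hvm hdl hdm
    have hall := h.hall_pair (-1) (Or.inr rfl) a₁ a₂ b₂ ia1 ia2 ib2 na1 na2 nb2 ha12
      hb12 e22 lam mu hlam hmu hvl hvm
    exact ⟨-1, a₁, a₂, h.core (-1) (Or.inr rfl) a₁ a₂ ia1 ia2 lam hlam hvl hdl hXt hLt hall⟩


open Classical in
theorem hall_single (δ : ℤ) (X Λ : G → ℂ) (hX : IsIrrCharacter G X) (hΛ : IsIrrCharacter G Λ)
    (hX1 : X ≠ fun _ => 1) (hXΛ : X ≠ Λ) (lam : K →* ℂˣ)
    (hvl : ∀ g, Phi K lam g = 1 + δ * (X g - Λ g)) : classInner (Phi K lam) X = δ := by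
  have hPl : Phi K lam = (fun _ => (1 : ℂ)) + (δ : ℂ) • (X - Λ) := by
    funext g; rw [hvl g]; rfl
  rw [hPl, classInner_add_left, classInner_smul_left, classInner_sub_left,
    irr_ip isIrrCharacter_one hX, irr_ip hX hX, irr_ip hΛ hX, if_neg (Ne.symm hX1), if_pos rfl,
    if_neg (Ne.symm hXΛ)]
  ring

theorem W.caseB (h : W t s K) (hk : Nat.card K = 4) :
    ∃ (δ : ℤ) (X Λ : G → ℂ), Data K δ X Λ := by
  classical
  haveI : Fintype K := Fintype.ofFinite K
  have hsq : ∀ x ∈ K, x * x = 1 ∨ x * x = t := by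
    intro x hx
    apply h.invol (x * x) (K.mul_mem hx hx)
    have h4 : x ^ 4 = 1 := by
      have : (⟨x, hx⟩ : K) ^ Nat.card K = 1 := pow_card_eq_one'
      rw [hk] at this
      have := congrArg Subtype.val this
      simpa using this
    rw [← h4, show (4 : ℕ) = 2 + 2 from rfl, pow_add, pow_two]
  obtain ⟨a, ha, ha1, hat⟩ : ∃ a ∈ K, a ≠ 1 ∧ a ≠ t := by
    by_contra hcon
    push Not at hcon
    have : Nat.card K ≤ 2 := by
      rw [← card_filter_mem K]
      refine le_trans (Finset.card_le_card (t := {1, t}) ?_) Finset.card_le_two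
      intro a ha
      simp only [Finset.mem_filter, Finset.mem_univ, true_and] at ha
      simp only [Finset.mem_insert, Finset.mem_singleton]
      by_cases e : a = 1
      · left; exact e
      · right; exact hcon a ha e
    omega
  have haa : a * a = t := by
    rcases hsq a ha with e | e
    · rcases h.invol a ha e with e' | e'
      · exact absurd e' ha1
      · exact absurd e' hat
    · exact e
  have ht1' : (⟨t, h.tK⟩ : K) ≠ 1 := fun e => h.t1 (congrArg Subtype.val e)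
  obtain ⟨lam, hlam0⟩ := exists_hom_ne K h.comm_sub ht1'
  have hlt : lin lam ⟨t, h.tK⟩ = -1 := by
    rcases h.sq_t_hom lam with e | e
    · exfalso
      apply hlam0
      apply Units.ext
      exact e
    · exact e
  have hnr : ∀ ν : K →* ℂˣ, lin ν ⟨t, h.tK⟩ = -1 → ν⁻¹ ≠ ν := by
    intro ν hν e
    have ex : (ν ⟨a, ha⟩)⁻¹ = ν ⟨a, ha⟩ := DFunLike.congr_fun e _
    have h1 : ν ⟨t, h.tK⟩ = 1 := by
      have : (⟨t, h.tK⟩ : K) = ⟨a, ha⟩ * ⟨a, ha⟩ := Subtype.ext haa.symm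
      rw [this, map_mul]
      nth_rewrite 1 [← ex]
      exact inv_mul_cancel _
    rw [lin, h1] at hν
    norm_num at hν
  have hreal : ∀ ρ : K →* ℂˣ, lin ρ ⟨t, h.tK⟩ = 1 → ρ⁻¹ = ρ := by
    intro ρ e
    apply MonoidHom.ext
    intro x
    show (ρ x)⁻¹ = ρ x
    have h2 : ρ x * ρ x = 1 := by
      rw [← map_mul]
      rcases hsq x x.2 with e' | e'
      · have : x * x = 1 := Subtype.ext e'
        rw [this, map_one]
      · have : x * x = ⟨t, h.tK⟩ := Subtype.ext e'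
        rw [this]
        apply Units.ext
        exact e
    exact inv_eq_of_mul_eq_one_left h2
  have hnr' : ∀ ν : K →* ℂˣ, ν⁻¹ ≠ ν → lin ν ⟨t, h.tK⟩ = -1 := by
    intro ν hν
    rcases h.sq_t_hom ν with e | e
    · exact absurd (hreal ν e) hν
    · exact e
  have hlam := hnr lam hlt
  have hlam1 : lam ≠ 1 := by
    intro e; apply hlam; rw [e]; ext x; simp
  have hclass : ∀ ν : K →* ℂˣ, ν⁻¹ ≠ ν → ν = lam ∨ ν = lam⁻¹ := by
    intro ν hν
    have hνt := hnr' ν hν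
    have r1 : (ν * lam⁻¹)⁻¹ = ν * lam⁻¹ := by
      apply hreal
      have : lin (ν * lam⁻¹) ⟨t, h.tK⟩ = lin ν ⟨t, h.tK⟩ * (lin lam ⟨t, h.tK⟩)⁻¹ := by
        simp [lin]
      rw [this, hνt, hlt]; norm_num
    have r2 : (ν * lam)⁻¹ = ν * lam := by
      apply hreal
      have : lin (ν * lam) ⟨t, h.tK⟩ = lin ν ⟨t, h.tK⟩ * lin lam ⟨t, h.tK⟩ := by
        simp [lin]
      rw [this, hνt, hlt]; norm_num
    by_cases e1 : ν * lam⁻¹ = 1
    · left
      apply MonoidHom.ext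
      intro x
      have := DFunLike.congr_fun e1 x
      exact mul_inv_eq_one.mp this
    · by_cases e2 : ν * lam = 1
      · right
        apply MonoidHom.ext
        intro x
        have := DFunLike.congr_fun e2 x
        exact eq_inv_of_mul_eq_one_left this
      · exfalso
        have e3 := h.real_unique e1 r1 e2 r2
        apply hlam
        apply MonoidHom.ext
        intro x
        have := DFunLike.congr_fun e3 x
        exact mul_left_cancel this
  obtain ⟨a₁, a₂, ia1, ia2, na1, na2, hda, hva⟩ := h.Phi_decomp hlam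
  have ha12 : a₁ ≠ a₂ := by
    intro e
    rw [e] at hda
    have : (1 : ℂ) = 0 := by linear_combination -hda
    norm_num at this
  have et : 1 + a₂ t - a₁ t = 4 := by
    rw [← hva t, h.Phi_mem lam h.tK, hlt]; norm_num
  obtain ⟨c, hc⟩ : ∃ c : ℤ, a₂ t = c := by
    apply Cfsg.Agent.H5.character_int_of_pow_invariant (isCharacter_of_isIrrCharacter ia2) t
    intro j hj
    rw [h.ot, Nat.coprime_two_right] at hj
    obtain ⟨r, hr⟩ := hj
    have : t ^ j = t := by
      rw [hr, pow_succ, pow_mul, sq, h.tt, one_pow, one_mul]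
    rw [this]
  have hc1 : a₁ t = (c : ℂ) - 3 := by rw [← hc]; linear_combination -et
  have hcol := column_orthogonality (G := G) t t
  have hcard8 : Nat.card {c : G // c * t * c⁻¹ = t} = 8 := by
    have e1 : Nat.card {c : G // c * t * c⁻¹ = t} =
        Nat.card (Subgroup.centralizer ({t} : Set G)) := by
      apply Nat.card_congr
      apply Equiv.subtypeEquivRight
      intro c
      rw [mem_cent]
      constructor
      · intro e
        calc c * t = (c * t * c⁻¹) * c := by group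
          _ = t * c := by rw [e]
      · intro e
        rw [e]; group
    rw [e1, h.card_cent, hk]
  letI := fintypeIrr G
  rw [finsum_irr_eq_sum, hcard8] at hcol
  have hre : ∑ χ : IrrCharacter G, Complex.normSq (χ.1 t) = 8 := by
    have : ((∑ χ : IrrCharacter G, Complex.normSq (χ.1 t) : ℝ) : ℂ) = 8 := by
      push_cast
      have h8 : ((8 : ℕ) : ℂ) = 8 := by norm_num
      rw [← h8, ← hcol]
      apply Finset.sum_congr rfl
      intro χ _
      rw [Complex.mul_conj]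
    exact_mod_cast this
  have hS : ∑ χ ∈ ({trivialIrr G, ⟨a₁, ia1⟩, ⟨a₂, ia2⟩} : Finset (IrrCharacter G)),
      Complex.normSq (χ.1 t) ≤ 8 := by
    rw [← hre]
    exact Finset.sum_le_sum_of_subset_of_nonneg (Finset.subset_univ _)
      (fun _ _ _ => Complex.normSq_nonneg _)
  have hne1 : trivialIrr G ∉ ({⟨a₁, ia1⟩, ⟨a₂, ia2⟩} : Finset (IrrCharacter G)) := by
    simp only [Finset.mem_insert, Finset.mem_singleton, not_or]
    constructor
    · intro e; exact na1 (congrArg Subtype.val e).symm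
    · intro e; exact na2 (congrArg Subtype.val e).symm
  have hne2 : (⟨a₁, ia1⟩ : IrrCharacter G) ∉ ({⟨a₂, ia2⟩} : Finset (IrrCharacter G)) := by
    simp only [Finset.mem_singleton]
    intro e; exact ha12 (congrArg Subtype.val e)
  rw [Finset.sum_insert hne1, Finset.sum_insert hne2, Finset.sum_singleton] at hS
  have n1 : Complex.normSq ((trivialIrr G).1 t) = 1 := by
    show Complex.normSq (1 : ℂ) = 1
    simp
  have n2 : Complex.normSq (a₁ t) = ((c : ℝ) - 3) * ((c : ℝ) - 3) := by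
    rw [hc1]
    have : ((c : ℂ) - 3) = (((c : ℝ) - 3 : ℝ) : ℂ) := by push_cast; ring
    rw [this, Complex.normSq_ofReal]
  have n3 : Complex.normSq (a₂ t) = (c : ℝ) * (c : ℝ) := by
    rw [hc, Complex.normSq_intCast]
  simp only [n1, n2, n3] at hS
  have hc_lo : 1 ≤ c := by
    by_contra hlt'
    have : (c : ℝ) ≤ 0 := by exact_mod_cast (by omega : c ≤ 0)
    nlinarith [sq_nonneg (c : ℝ)]
  have hc_hi : c ≤ 2 := by
    by_contra hgt
    have : (3 : ℝ) ≤ (c : ℝ) := by exact_mod_cast (by omega : 3 ≤ c)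
    nlinarith [sq_nonneg ((c : ℝ) - 3)]
  have hc12 : c = 1 ∨ c = 2 := by omega
  rcases hc12 with e | e
  · subst e
    have hvl : ∀ g, Phi K lam g = 1 + ((1 : ℤ) : ℂ) * (a₂ g - a₁ g) := by
      intro g; rw [hva g]; push_cast; ring
    have hdl : a₁ 1 = a₂ 1 + ((1 : ℤ) : ℂ) := by rw [hda]; push_cast; ring
    have hLt : a₁ t ^ 2 = 4 := by rw [hc1]; push_cast; norm_num
    have key := hall_single 1 a₂ a₁ ia2 ia1 na2 (Ne.symm ha12) lam hvl
    have hall : ∀ ν : K →* ℂˣ, ν⁻¹ ≠ ν → classInner (Phi K ν) a₂ = ((1 : ℤ) : ℂ) := by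
      intro ν hν
      rcases hclass ν hν with e | e
      · rw [e]; exact key
      · rw [e, h.Phi_inv]; exact key
    exact ⟨1, a₂, a₁, h.core 1 (Or.inl rfl) a₂ a₁ ia2 ia1 lam hlam hvl hdl hc hLt hall⟩
  · subst e
    have hvl : ∀ g, Phi K lam g = 1 + ((-1 : ℤ) : ℂ) * (a₁ g - a₂ g) := by
      intro g; rw [hva g]; push_cast; ring
    have hdl : a₂ 1 = a₁ 1 + ((-1 : ℤ) : ℂ) := by rw [hda]; push_cast; ring
    have hXt : a₁ t = ((-1 : ℤ) : ℂ) := by rw [hc1]; push_cast; norm_num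
    have hLt : a₂ t ^ 2 = 4 := by rw [hc]; push_cast; norm_num
    have key := hall_single (-1) a₁ a₂ ia1 ia2 na1 ha12 lam hvl
    have hall : ∀ ν : K →* ℂˣ, ν⁻¹ ≠ ν → classInner (Phi K ν) a₁ = ((-1 : ℤ) : ℂ) := by
      intro ν hν
      rcases hclass ν hν with e | e
      · rw [e]; exact key
      · rw [e, h.Phi_inv]; exact key
    exact ⟨-1, a₁, a₂, h.core (-1) (Or.inr rfl) a₁ a₂ ia1 ia2 lam hlam hvl hdl hXt hLt hall⟩

end Cfsg.Agent.H54.BSW
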