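import Mathlib
import Cfsg.Agent.H54.BSW4

set_option autoImplicit false
set_option linter.unusedSectionVars false
set_option linter.unusedVariables false
set_option linter.style.haveILetI false

namespace Cfsg.Agent.H54.BSW

open Cfsg Cfsg.Agent.H4
open scoped ComplexConjugate

universe u

variable {G : Type u} [Group G] [Fintype G] {t s : G} {K : Subgroup G}

open Classical in
/-- nonidentity elements not conjugate into `K`. -/
noncomputable def R0 (K : Subgroup G) : Finset G :=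
  Finset.univ.filter (fun g => g ≠ 1 ∧ ¬ inKT K g)

theorem mem_R0 {g : G} : g ∈ R0 K ↔ g ≠ 1 ∧ ¬ inKT K g := by
  classical
  simp [R0]

/-- the conclusion of the theorem. -/
def Concl (G : Type u) [Group G] : Prop :=
  ∃ Q D : Subgroup G, 2 * Nat.card G = Nat.card ↥Q * (Nat.card ↥Q + 1) * (Nat.card ↥Q - 1) ∧
      (∀ x ∈ Q, x ≠ 1 → Subgroup.centralizer ({x} : Set G) = Q) ∧
      IsMulCommutative ↥D ∧ 2 * Nat.card ↥D + 1 = Nat.card ↥Q ∧ Q ⊓ D = ⊥ ∧
      Subgroup.normalizer (Q : Set G) = Q ⊔ D ∧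
      ∀ X : Subgroup G, X ≤ D → X ≠ ⊥ →
        Subgroup.normalizer (X : Set G) = Subgroup.normalizer (D : Set G) ∧
        ∃ u : G, orderOf u = 2 ∧ u ∉ D ∧ (∀ d ∈ D, u * d * u⁻¹ = d⁻¹) ∧
          Subgroup.normalizer (D : Set G) = D ⊔ Subgroup.zpowers u

/-- counting data for the endgame. -/
structure Cnt (K : Subgroup G) (δ : ℤ) (X : G → ℂ) (Xi : G → ℤ) : Prop where
  hX : ∀ g, X g = Xi g
  cj : ∀ g c, Xi (c * g * c⁻¹) = Xi g
  inv : ∀ g, Xi g⁻¹ = Xi g
  one : Xi 1 = 2 * Nat.card K + δ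
  KT : ∀ g, inKT K g → Xi g = δ
  val : ∀ g ∈ R0 K, Xi g = 0 ∨ Xi g = -δ
  sumX : ∑ g ∈ R0 K, Xi g = -(2 * (Nat.card K : ℤ) + δ) -
    δ * (Nat.card {x : G // orderOf x = 2} : ℤ) * ((Nat.card K : ℤ) - 1)
  sumgX : ∑ g ∈ R0 K, (gam g : ℤ) * Xi g =
    (Nat.card {x : G // orderOf x = 2} : ℤ) * ((Nat.card K : ℤ) + δ) -
    (Nat.card {x : G // orderOf x = 2} : ℤ) * (2 * (Nat.card K : ℤ) + δ) -
    δ * (Nat.card K : ℤ) * (Nat.card {x : G // orderOf x = 2} : ℤ) * ((Nat.card K : ℤ) - 1)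
  sumg : ∑ g ∈ R0 K, (gam g : ℤ) = (Nat.card {x : G // orderOf x = 2} : ℤ) ^ 2 -
    (Nat.card {x : G // orderOf x = 2} : ℤ) -
    (Nat.card K : ℤ) * (Nat.card {x : G // orderOf x = 2} : ℤ) * ((Nat.card K : ℤ) - 1)
  card : ((R0 K).card : ℤ) = 2 * (Nat.card K : ℤ) * (Nat.card {x : G // orderOf x = 2} : ℤ) - 1 -
    (Nat.card {x : G // orderOf x = 2} : ℤ) * ((Nat.card K : ℤ) - 1)

open Classical in
theorem W.card_Ksharp (h : W t s K) :
    ((Finset.univ.filter (fun x : G => x ∈ K ∧ x ≠ 1)).card : ℂ) = (Nat.card K : ℂ) - 1 := by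
  have h1 : (Finset.univ.filter (fun x : G => x ∈ K ∧ x ≠ 1)) =
      (Finset.univ.filter (fun x : G => x ∈ K)).erase 1 := by
    ext x
    simp only [Finset.mem_filter, Finset.mem_univ, true_and, Finset.mem_erase]
    tauto
  rw [h1, Finset.card_erase_of_mem (by simp [K.one_mem]), card_filter_mem]
  have : 1 ≤ Nat.card K := Nat.card_pos
  push_cast [Nat.cast_sub this]
  ring

theorem W.exists_cnt (h : W t s K) {δ : ℤ} {X Λ : G → ℂ} (D : Data K δ X Λ) :
    ∃ Xi : G → ℤ, Cnt K δ X Xi := by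
  classical
  choose Xi hXi using D.int
  have hcf := irr_isClassFunction ⟨X, D.irr⟩
  simp only at hcf
  set m := Nat.card {x : G // orderOf x = 2} with hm
  set k := Nat.card K with hk
  have hδ2 : (δ : ℂ) ^ 2 = 1 := by
    rcases D.hδ with e | e <;> rw [e] <;> norm_num
  have hk2 : 2 ≤ k := by
    obtain ⟨k', hk'⟩ := h.two_dvd_card
    have : 0 < k := Nat.card_pos
    omega
  have hXKT : ∀ g, inKT K g → X g = δ := by
    intro g hg
    obtain ⟨hg1, c, hc⟩ := hg
    have h1 := hcf g c⁻¹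
    rw [inv_inv] at h1
    rw [← h1]
    apply D.XK _ hc
    intro e
    apply hg1
    have : g = c * (c⁻¹ * g * c) * c⁻¹ := by group
    rw [this, e]; group
  have hG : (Nat.card G : ℂ) ≠ 0 := by exact_mod_cast Nat.card_pos.ne'
  have hcardG : (Nat.card G : ℂ) = 2 * (k : ℂ) * m := by
    have := h.card_invol
    rw [← this]; push_cast; ring
  have hXne : X ≠ fun _ => 1 := by
    intro e
    have h1 : X 1 = 1 := by rw [e]
    rw [D.X1] at h1
    have h2 : ((2 * (k : ℤ) + δ : ℤ) : ℂ) = ((1 : ℤ) : ℂ) := by push_cast; exact h1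
    have h3 : 2 * (k : ℤ) + δ = 1 := by exact_mod_cast h2
    rcases D.hδ with e' | e' <;> subst e' <;> omega
  -- |KT|
  have hKTcard : ((Finset.univ.filter (fun g => inKT K g)).card : ℂ) = (m : ℂ) * ((k : ℂ) - 1) := by
    have := h.sum_KT (fun _ => (1 : ℂ)) (fun _ _ => rfl)
    simp only [Finset.sum_const, nsmul_eq_mul, mul_one] at this
    rw [this, h.card_Ksharp]
  have hS1 : ∑ g, X g = 0 := by
    have := irr_ip D.irr (isIrrCharacter_one (G := G))
    rw [if_neg hXne] at this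
    unfold classInner at this
    simp only [map_one, mul_one] at this
    rcases mul_eq_zero.mp this with e | e
    · exact absurd (inv_eq_zero.mp e) hG
    · exact e
  have hS2 : ∑ g, X g * conj (X g) = Nat.card G := by
    have := irr_ip D.irr D.irr
    rw [if_pos rfl] at this
    unfold classInner at this
    field_simp at this
    exact this
  have hKTX : ∑ g ∈ Finset.univ.filter (fun g => inKT K g), X g = (m : ℂ) * ((k : ℂ) - 1) * δ := by
    rw [← hKTcard, ← nsmul_eq_mul, ← Finset.sum_const]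
    apply Finset.sum_congr rfl
    intro g hg
    simp only [Finset.mem_filter, Finset.mem_univ, true_and] at hg
    exact hXKT g hg
  have hKTX2 : ∑ g ∈ Finset.univ.filter (fun g => inKT K g), X g * conj (X g) =
      (m : ℂ) * ((k : ℂ) - 1) := by
    rw [← hKTcard]
    have : ((Finset.univ.filter (fun g => inKT K g)).card : ℂ) =
        ∑ g ∈ Finset.univ.filter (fun g => inKT K g), (1 : ℂ) := by simp
    rw [this]
    apply Finset.sum_congr rfl
    intro g hg
    simp only [Finset.mem_filter, Finset.mem_univ, true_and] at hg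
    rw [hXKT g hg]
    simp only [map_intCast]
    linear_combination hδ2
  have e1 := sum_split K X
  have e2 := sum_split K (fun g => X g * conj (X g))
  have e3 := sum_split K (fun _ => (1 : ℂ))
  have e4 := h.sum_gam X
  have e5 := h.sum_gam (fun _ => (1 : ℂ))
  have g1 := h.gam_irr X D.irr
  have g2 := h.gam_irr (fun _ => (1 : ℂ)) isIrrCharacter_one
  have hXt : X t = δ := D.XK t h.tK h.t1
  rw [hS1, hKTX, D.X1] at e1
  rw [hS2, hKTX2, D.X1, hcardG] at e2
  simp only [map_add, map_mul, map_ofNat, map_natCast, map_intCast] at e2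
  simp only [Finset.sum_const, nsmul_eq_mul, mul_one, Finset.card_univ] at e3
  rw [← Nat.card_eq_fintype_card, hKTcard, hcardG] at e3
  rw [g1, hKTX, D.X1, hXt] at e4
  simp only [mul_one, Finset.sum_const, nsmul_eq_mul] at e5 g2
  rw [g2, hKTcard] at e5
  have hmC : (m : ℂ) = (2 * (k : ℂ) + δ) * ((k : ℂ) + δ) := by
    have := D.hm
    have h2 : ((m : ℤ) : ℂ) = (((2 * (k : ℤ) + δ) * ((k : ℤ) + δ) : ℤ) : ℂ) := by rw [this]
    push_cast at h2
    exact h2
  have hq : (2 * (k : ℂ) + δ) ≠ 0 := by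
    rw [← D.X1]; exact irr_one_ne_zero ⟨X, D.irr⟩
  have hR0 : Finset.univ.filter (fun g : G => g ≠ 1 ∧ ¬ inKT K g) = R0 K := rfl
  rw [hR0] at e1 e2 e3 e4 e5
  have conv : ∀ g, conj (X g) = X g := by
    intro g; rw [hXi g]; simp
  refine ⟨Xi, hXi, ?_, ?_, ?_, ?_, ?_, ?_, ?_, ?_, ?_⟩
  · intro g c
    have := hcf g c
    rw [hXi, hXi] at this
    exact_mod_cast this
  · intro g
    obtain ⟨n, ρ, hρ, hρX⟩ := D.irr
    have := Cfsg.Agent.H4.character_inv ρ g
    rw [hρX, hXi, hXi] at this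
    simp only [map_intCast] at this
    exact_mod_cast this
  · have := D.X1
    rw [hXi] at this
    exact_mod_cast this
  · intro g hg
    have := hXKT g hg
    rw [hXi] at this
    exact_mod_cast this
  · -- values
    have hsum : ∑ g ∈ R0 K, (Xi g * (Xi g + δ)) = 0 := by
      have hC : ((∑ g ∈ R0 K, (Xi g * (Xi g + δ)) : ℤ) : ℂ) = 0 := by
        push_cast
        have t1 : ∑ g ∈ R0 K, ((Xi g : ℂ) * ((Xi g : ℂ) + δ)) =
            ∑ g ∈ R0 K, X g * conj (X g) + δ * ∑ g ∈ R0 K, X g := by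
          rw [Finset.mul_sum, ← Finset.sum_add_distrib]
          apply Finset.sum_congr rfl
          intro g _
          rw [conv, hXi]; ring
        rw [t1]
        linear_combination -e2 - (δ : ℂ) * e1 + 2 * hmC - (m : ℂ) * ((k : ℂ) - 1) * hδ2
      exact_mod_cast hC
    have hnn : ∀ g ∈ R0 K, 0 ≤ Xi g * (Xi g + δ) := by
      intro g _
      rcases D.hδ with e | e <;> subst e <;> nlinarith [sq_nonneg (2 * Xi g + 1), sq_nonneg (2 * Xi g - 1)]
    intro g hg
    have := (Finset.sum_eq_zero_iff_of_nonneg hnn).mp hsum g hg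
    rcases mul_eq_zero.mp this with e | e
    · left; exact e
    · right; linarith
  · have hC : ((∑ g ∈ R0 K, Xi g : ℤ) : ℂ) = ((-(2 * (k : ℤ) + δ) - δ * (m : ℤ) * ((k : ℤ) - 1) : ℤ) : ℂ) := by
      push_cast
      have t1 : ∑ g ∈ R0 K, (Xi g : ℂ) = ∑ g ∈ R0 K, X g := by
        apply Finset.sum_congr rfl
        intro g _; rw [hXi]
      rw [t1]
      linear_combination -e1
    exact_mod_cast hC
  · have hC : ((∑ g ∈ R0 K, (gam g : ℤ) * Xi g : ℤ) : ℂ) =
        (((m : ℤ) * ((k : ℤ) + δ) - (m : ℤ) * (2 * (k : ℤ) + δ) -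
          δ * (k : ℤ) * (m : ℤ) * ((k : ℤ) - 1) : ℤ) : ℂ) := by
      push_cast
      have t1 : ∑ g ∈ R0 K, (gam g : ℂ) * (Xi g : ℂ) = ∑ g ∈ R0 K, (gam g : ℂ) * X g := by
        apply Finset.sum_congr rfl
        intro g _; rw [hXi]
      rw [t1]
      have t2 : (m : ℂ) ^ 2 * (δ : ℂ) ^ 2 / (2 * (k : ℂ) + δ) = m * (k + δ) := by
        rw [hδ2, hmC]; field_simp
      rw [t2] at e4
      linear_combination -e4
    exact_mod_cast hC
  · have hC : ((∑ g ∈ R0 K, (gam g : ℤ) : ℤ) : ℂ) =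
        (((m : ℤ) ^ 2 - (m : ℤ) - (k : ℤ) * (m : ℤ) * ((k : ℤ) - 1) : ℤ) : ℂ) := by
      push_cast
      linear_combination -e5
    exact_mod_cast hC
  · have hC : ((((R0 K).card : ℤ)) : ℂ) =
        ((2 * (k : ℤ) * (m : ℤ) - 1 - (m : ℤ) * ((k : ℤ) - 1) : ℤ) : ℂ) := by
      push_cast
      linear_combination -e3
    exact_mod_cast hC

end Cfsg.Agent.H54.BSW
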