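import Mathlib
import Cfsg.Agent.H54.BSW5

set_option autoImplicit false
set_option linter.unusedSectionVars false
set_option linter.unusedVariables false
set_option linter.style.haveILetI false

namespace Cfsg.Agent.H54.BSW

open Cfsg Cfsg.Agent.H4
open scoped ComplexConjugate

universe u

variable {G : Type u} [Group G] [Fintype G] {t s : G} {K : Subgroup G}

open Classical in
theorem char_sum_nat {X : G → ℂ} (hX : IsCharacter G X) (B : Subgroup G) :
    ∃ n : ℕ, ∑ g ∈ Finset.univ.filter (fun g => g ∈ B), X g = (n : ℂ) * Nat.card B := by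
  haveI : Fintype B := Fintype.ofFinite B
  obtain ⟨n, hn⟩ := classInner_isCharacter_nat (isCharacter_restrict B hX)
    (isCharacter_of_isIrrCharacter (isIrrCharacter_one (G := B)))
  refine ⟨n, ?_⟩
  unfold classInner at hn
  simp only [map_one, mul_one] at hn
  have hB : (Nat.card B : ℂ) ≠ 0 := by exact_mod_cast Nat.card_pos.ne'
  have e : ∑ g ∈ Finset.univ.filter (fun g => g ∈ B), X g = ∑ b : B, X b :=
    Finset.sum_subtype _ (by simp) _
  rw [e]
  rw [inv_mul_eq_iff_eq_mul₀ hB] at hn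
  rw [hn]; ring

open Classical in
theorem char_sum_sign {X : G → ℂ} (hX : IsCharacter G X) (B A : Subgroup G)
    (hidx : ∀ b₁ ∈ B, ∀ b₂ ∈ B, (b₁ * b₂ ∈ A ↔ (b₁ ∈ A ↔ b₂ ∈ A))) :
    ∃ n : ℕ, ∑ g ∈ Finset.univ.filter (fun g => g ∈ B ∧ g ∈ A), X g -
      ∑ g ∈ Finset.univ.filter (fun g => g ∈ B ∧ g ∉ A), X g = (n : ℂ) * Nat.card B := by
  haveI : Fintype B := Fintype.ofFinite B
  let ε : B →* ℂˣ :=
    { toFun := fun b => if (b : G) ∈ A then 1 else -1
      map_one' := by simp [A.one_mem]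
      map_mul' := by
        intro a b
        have := hidx a a.2 b b.2
        simp only [Subgroup.coe_mul]
        by_cases ha : (a : G) ∈ A <;> by_cases hb : (b : G) ∈ A <;> simp_all }
  obtain ⟨n, hn⟩ := classInner_isCharacter_nat (isCharacter_restrict B hX) (isCharacter_of_hom ε)
  refine ⟨n, ?_⟩
  unfold classInner at hn
  have hB : (Nat.card B : ℂ) ≠ 0 := by exact_mod_cast Nat.card_pos.ne'
  rw [inv_mul_eq_iff_eq_mul₀ hB] at hn
  have e : ∑ b : B, X b * conj (((ε b : ℂˣ) : ℂ)) =
      ∑ g ∈ Finset.univ.filter (fun g => g ∈ B), X g * (if g ∈ A then (1 : ℂ) else -1) := by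
    have e0 : ∑ g ∈ Finset.univ.filter (fun g => g ∈ B), X g * (if g ∈ A then (1 : ℂ) else -1) =
        ∑ b : B, X b * (if (b : G) ∈ A then (1 : ℂ) else -1) :=
      Finset.sum_subtype _ (by simp) _
    rw [e0]
    apply Finset.sum_congr rfl
    intro b _
    show X b * conj (((if (b : G) ∈ A then (1 : ℂˣ) else -1 : ℂˣ) : ℂ)) = _
    split_ifs <;> simp
  rw [e] at hn
  rw [← Finset.sum_filter_add_sum_filter_not (Finset.univ.filter (fun g => g ∈ B))
    (fun g => g ∈ A)] at hn
  rw [Finset.filter_filter, Finset.filter_filter] at hn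
  have e1 : ∑ g ∈ Finset.univ.filter (fun g => g ∈ B ∧ g ∈ A),
      X g * (if g ∈ A then (1 : ℂ) else -1) =
      ∑ g ∈ Finset.univ.filter (fun g => g ∈ B ∧ g ∈ A), X g := by
    apply Finset.sum_congr rfl
    intro g hg
    simp only [Finset.mem_filter, Finset.mem_univ, true_and] at hg
    rw [if_pos hg.2, mul_one]
  have e2 : ∑ g ∈ Finset.univ.filter (fun g => g ∈ B ∧ ¬ g ∈ A),
      X g * (if g ∈ A then (1 : ℂ) else -1) =
      - ∑ g ∈ Finset.univ.filter (fun g => g ∈ B ∧ g ∉ A), X g := by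
    rw [← Finset.sum_neg_distrib]
    apply Finset.sum_congr rfl
    intro g hg
    simp only [Finset.mem_filter, Finset.mem_univ, true_and] at hg
    rw [if_neg hg.2]; ring
  rw [e1, e2] at hn
  rw [sub_eq_add_neg, hn]; ring

open Classical in
theorem W.plus_bound (h : W t s K) {X : G → ℂ} {Xi : G → ℤ} (hX : IsCharacter G X)
    (C : Cnt K 1 X Xi) {z : G} (hz : z ∈ R0 K) {u : G} (hu : orderOf u = 2)
    (huz : u * z * u = z⁻¹) :
    (Nat.card (Subgroup.centralizer ({z} : Set G)) : ℤ) ≤ (2 * Nat.card K + 1) +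
      ∑ a ∈ Finset.univ.filter (fun a => a ∈ Subgroup.centralizer ({z} : Set G) ∧ a ≠ 1),
        Xi a := by
  obtain ⟨hz1, hzK⟩ := mem_R0.mp hz
  obtain ⟨r1, r2, r3⟩ := h.T3_struct hz1 hzK hu huz
  set A := Subgroup.centralizer ({z} : Set G) with hA
  have huu := (ord2_iff.mp hu).1
  set B := dihSub u A huu r1 with hB
  have hmemB : ∀ g, g ∈ B ↔ g ∈ A ∨ u * g ∈ A := fun g => Iff.rfl
  have hAB : A ≤ B := fun a ha => Or.inl ha
  have huA : u ∉ A := by
    intro hh
    rw [hA, mem_cent] at hh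
    exact hzK (h.comm_invol_KT hz1 hu hh)
  have hidx : ∀ b₁ ∈ B, ∀ b₂ ∈ B, (b₁ * b₂ ∈ A ↔ (b₁ ∈ A ↔ b₂ ∈ A)) := by
    intro b₁ hb₁ b₂ hb₂
    by_cases h1 : b₁ ∈ A <;> by_cases h2 : b₂ ∈ A
    · simp [h1, h2, A.mul_mem h1 h2]
    · simp only [h1, h2, iff_false, not_true_eq_false]
      intro h3
      apply h2
      have : b₂ = b₁⁻¹ * (b₁ * b₂) := by group
      rw [this]; exact A.mul_mem (A.inv_mem h1) h3
    · simp only [h1, h2, iff_true, iff_false]
      intro h3
      apply h1
      have : b₁ = (b₁ * b₂) * b₂⁻¹ := by group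
      rw [this]; exact A.mul_mem h3 (A.inv_mem h2)
    · simp only [h1, h2, iff_true]
      have hb₁' : u * b₁ ∈ A := ((hmemB b₁).mp hb₁).resolve_left h1
      have hb₂' : u * b₂ ∈ A := ((hmemB b₂).mp hb₂).resolve_left h2
      have e : b₁ * b₂ = (u * (u * b₁) * u) * (u * b₂) := by
        calc b₁ * b₂ = (u * u) * b₁ * (u * u) * b₂ := by rw [huu]; group
          _ = (u * (u * b₁) * u) * (u * b₂) := by group
      rw [e, r1 _ hb₁']
      exact A.mul_mem (A.inv_mem hb₁') hb₂'
  obtain ⟨n, hn⟩ := char_sum_sign hX B A hidx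
  have hord : ∀ a ∈ A, orderOf (u * a) = 2 := by
    intro a ha
    rw [ord2_iff]
    constructor
    · calc u * a * (u * a) = (u * a * u) * a := by group
        _ = 1 := by rw [r1 a ha, inv_mul_cancel]
    · intro e
      apply huA
      have : u = a⁻¹ := eq_inv_of_mul_eq_one_left e
      rw [this]; exact A.inv_mem ha
  have F1 : ∑ g ∈ Finset.univ.filter (fun g => g ∈ B ∧ g ∈ A), X g =
      ((2 * (Nat.card K : ℤ) + 1 +
        ∑ a ∈ Finset.univ.filter (fun a => a ∈ A ∧ a ≠ 1), Xi a : ℤ) : ℂ) := by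
    have e1 : Finset.univ.filter (fun g => g ∈ B ∧ g ∈ A) = Finset.univ.filter (fun g => g ∈ A) := by
      ext g
      simp only [Finset.mem_filter, Finset.mem_univ, true_and]
      exact ⟨fun hh => hh.2, fun hh => ⟨hAB hh, hh⟩⟩
    have e2 : Finset.univ.filter (fun a => a ∈ A ∧ a ≠ 1) =
        (Finset.univ.filter (fun g => g ∈ A)).erase 1 := by
      ext g
      simp only [Finset.mem_filter, Finset.mem_univ, true_and, Finset.mem_erase]
      tauto
    rw [e1, ← Finset.add_sum_erase _ _ (show (1 : G) ∈ Finset.univ.filter (fun g => g ∈ A) by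
      simp [A.one_mem]), ← e2]
    push_cast
    rw [C.hX 1, C.one]
    push_cast
    congr 1
    apply Finset.sum_congr rfl
    intro g _
    rw [C.hX]
  have F2card : (Finset.univ.filter (fun g => g ∈ B ∧ g ∉ A)).card = Nat.card A := by
    rw [← card_filter_mem A]
    apply Finset.card_bij (fun g _ => u * g)
    · intro g hg
      simp only [Finset.mem_filter, Finset.mem_univ, true_and] at hg ⊢
      exact ((hmemB g).mp hg.1).resolve_left hg.2
    · intro a _ b _ e
      exact mul_left_cancel e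
    · intro a ha
      simp only [Finset.mem_filter, Finset.mem_univ, true_and] at ha
      refine ⟨u * a, ?_, ?_⟩
      · simp only [Finset.mem_filter, Finset.mem_univ, true_and]
        refine ⟨Or.inr (by rw [← mul_assoc, huu, one_mul]; exact ha), fun hh => huA ?_⟩
        have : u = (u * a) * a⁻¹ := by group
        rw [this]; exact A.mul_mem hh (A.inv_mem ha)
      · rw [← mul_assoc, huu, one_mul]
  have F2 : ∑ g ∈ Finset.univ.filter (fun g => g ∈ B ∧ g ∉ A), X g = (Nat.card A : ℂ) := by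
    rw [← F2card, ← nsmul_one, ← Finset.sum_const]
    apply Finset.sum_congr rfl
    intro g hg
    simp only [Finset.mem_filter, Finset.mem_univ, true_and] at hg
    have h1 : u * g ∈ A := ((hmemB g).mp hg.1).resolve_left hg.2
    have h2 : orderOf g = 2 := by
      have := hord _ h1
      rwa [← mul_assoc, huu, one_mul] at this
    rw [C.hX, C.KT g (h.invol_KT h2)]
    simp
  have F3 : Nat.card B = 2 * Nat.card A := by
    rw [← card_filter_mem B, ← Finset.card_filter_add_card_filter_not (p := fun g => g ∈ A),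
      Finset.filter_filter, Finset.filter_filter, F2card]
    have e1 : Finset.univ.filter (fun g => g ∈ B ∧ g ∈ A) = Finset.univ.filter (fun g => g ∈ A) := by
      ext g
      simp only [Finset.mem_filter, Finset.mem_univ, true_and]
      exact ⟨fun hh => hh.2, fun hh => ⟨hAB hh, hh⟩⟩
    rw [e1, card_filter_mem]
    ring
  rw [F1, F2, F3] at hn
  have hZ : (2 * (Nat.card K : ℤ) + 1 +
      ∑ a ∈ Finset.univ.filter (fun a => a ∈ A ∧ a ≠ 1), Xi a) - (Nat.card A : ℤ) =
      (n : ℤ) * (2 * Nat.card A) := by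
    have : (((2 * (Nat.card K : ℤ) + 1 +
      ∑ a ∈ Finset.univ.filter (fun a => a ∈ A ∧ a ≠ 1), Xi a) - (Nat.card A : ℤ) : ℤ) : ℂ) =
      (((n : ℤ) * (2 * Nat.card A) : ℤ) : ℂ) := by
      push_cast
      push_cast at hn
      exact hn
    exact_mod_cast this
  have hnn : (0 : ℤ) ≤ (n : ℤ) * (2 * Nat.card A) := by positivity
  linarith

end Cfsg.Agent.H54.BSW
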