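import Mathlib
import Cfsg.Agent.H54.BSW6

set_option autoImplicit false
set_option linter.unusedSectionVars false
set_option linter.unusedVariables false
set_option linter.style.haveILetI false

namespace Cfsg.Agent.H54.BSW

open Cfsg Cfsg.Agent.H4
open scoped ComplexConjugate

universe u

variable {G : Type u} [Group G] [Fintype G] {t s : G} {K : Subgroup G}

theorem mem_normalizer_of_conj {Q : Subgroup G}
    (hQ : ∀ x ∈ Q, x ≠ 1 → Subgroup.centralizer ({x} : Set G) = Q)
    {x x₀ n : G} (hx : x ∈ Q) (hx1 : x ≠ 1) (hx₀ : x₀ ∈ Q) (hn : n * x * n⁻¹ = x₀) :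
    n ∈ Subgroup.normalizer (Q : Set G) := by
  have hx₀1 : x₀ ≠ 1 := by
    intro e; apply hx1; rw [e] at hn
    have : x = n⁻¹ * (n * x * n⁻¹) * n := by group
    rw [this, hn]; group
  rw [Subgroup.mem_set_normalizer_iff]
  intro a
  constructor
  · intro ha
    have hax : a * x = x * a := by
      have : a ∈ Subgroup.centralizer ({x} : Set G) := by rw [hQ x hx hx1]; exact ha
      exact mem_cent.mp this
    have : n * a * n⁻¹ ∈ Subgroup.centralizer ({x₀} : Set G) := by
      rw [mem_cent, ← hn]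
      calc n * a * n⁻¹ * (n * x * n⁻¹) = n * (a * x) * n⁻¹ := by group
        _ = n * (x * a) * n⁻¹ := by rw [hax]
        _ = n * x * n⁻¹ * (n * a * n⁻¹) := by group
    rw [hQ x₀ hx₀ hx₀1] at this
    exact this
  · intro ha
    have h1 : n * a * n⁻¹ * x₀ = x₀ * (n * a * n⁻¹) := by
      have : n * a * n⁻¹ ∈ Subgroup.centralizer ({x₀} : Set G) := by
        rw [hQ x₀ hx₀ hx₀1]; exact ha
      exact mem_cent.mp this
    rw [← hn] at h1
    have : a ∈ Subgroup.centralizer ({x} : Set G) := by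
      rw [mem_cent]
      calc a * x = n⁻¹ * (n * a * n⁻¹ * (n * x * n⁻¹)) * n := by group
        _ = n⁻¹ * (n * x * n⁻¹ * (n * a * n⁻¹)) * n := by rw [h1]
        _ = x * a := by group
    rw [hQ x hx hx1] at this
    exact this

open Classical in
theorem card_sharp (Q : Subgroup G) :
    (Finset.univ.filter (fun a : G => a ∈ Q ∧ a ≠ 1)).card = Nat.card Q - 1 := by
  have e2 : Finset.univ.filter (fun a : G => a ∈ Q ∧ a ≠ 1) =
      (Finset.univ.filter (fun g => g ∈ Q)).erase 1 := by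
    ext g
    simp only [Finset.mem_filter, Finset.mem_univ, true_and, Finset.mem_erase]
    tauto
  rw [e2, Finset.card_erase_of_mem (by simp [Q.one_mem]), card_filter_mem]

open Classical in
theorem card_le_normalizer {Q : Subgroup G}
    (hQ : ∀ x ∈ Q, x ≠ 1 → Subgroup.centralizer ({x} : Set G) = Q)
    (Z : Finset G) (hZ : ∀ x ∈ Q, x ≠ 1 → ∀ g : G, g * x * g⁻¹ ∈ Z) :
    Nat.card G * (Nat.card Q - 1) ≤ Nat.card (Subgroup.normalizer (Q : Set G)) * Z.card := by
  have hS : ((Finset.univ : Finset G) ×ˢ (Finset.univ.filter (fun a => a ∈ Q ∧ a ≠ 1))).card =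
      Nat.card G * (Nat.card Q - 1) := by
    rw [Finset.card_product, Finset.card_univ, ← Nat.card_eq_fintype_card, card_sharp]
  rw [← hS]
  apply Finset.card_le_mul_card_image_of_maps_to (f := fun p : G × G => p.1 * p.2 * p.1⁻¹)
  · intro p hp
    simp only [Finset.mem_product, Finset.mem_univ, true_and, Finset.mem_filter] at hp
    exact hZ p.2 hp.1 hp.2 p.1
  · intro z₀ hz₀
    by_cases hne : (Finset.filter (fun p : G × G => p.1 * p.2 * p.1⁻¹ = z₀)
        ((Finset.univ : Finset G) ×ˢ (Finset.univ.filter (fun a => a ∈ Q ∧ a ≠ 1)))).Nonempty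
    · obtain ⟨p₀, hp₀⟩ := hne
      simp only [Finset.mem_filter, Finset.mem_product, Finset.mem_univ, true_and] at hp₀
      rw [← card_filter_mem (Subgroup.normalizer (Q : Set G))]
      apply Finset.card_le_card_of_injOn (fun p => p₀.1⁻¹ * p.1)
      · intro p hp
        simp only [Finset.coe_filter, Set.mem_ofPred_eq, Finset.mem_product, Finset.mem_univ,
          true_and, Finset.mem_filter] at hp ⊢
        apply mem_normalizer_of_conj hQ hp.1.1 hp.1.2 hp₀.1.1
        have : p₀.1⁻¹ * p.1 * p.2 * (p₀.1⁻¹ * p.1)⁻¹ = p₀.1⁻¹ * (p.1 * p.2 * p.1⁻¹) * p₀.1 := by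
          group
        rw [this, hp.2, ← hp₀.2]; group
      · intro p hp p' hp' e
        simp only [Finset.coe_filter, Set.mem_ofPred_eq, Finset.mem_product, Finset.mem_univ,
          true_and, Finset.mem_filter] at hp hp'
        have e1 : p.1 = p'.1 := mul_left_cancel e
        have e2 : p.2 = p'.2 := by
          have a1 : p.2 = p.1⁻¹ * (p.1 * p.2 * p.1⁻¹) * p.1 := by group
          have a2 : p'.2 = p'.1⁻¹ * (p'.1 * p'.2 * p'.1⁻¹) * p'.1 := by group
          rw [a1, a2, hp.2, hp'.2, e1]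
        exact Prod.ext e1 e2
    · rw [Finset.not_nonempty_iff_eq_empty] at hne
      rw [hne]; simp

open Classical in
theorem card_normalizer_le {Q : Subgroup G} {y u : G}
    (hQ : Q = Subgroup.centralizer ({y} : Set G)) (huu : u * u = 1)
    (hinv : ∀ a ∈ Q, u * a * u = a⁻¹) :
    Nat.card (Subgroup.normalizer (Q : Set G)) ≤
      (Finset.univ.filter (fun g => g ∈ Subgroup.normalizer (Q : Set G) ∧ g * u = u * g)).card *
        Nat.card Q := by
  rw [← card_filter_mem (Subgroup.normalizer (Q : Set G)), ← card_filter_mem Q]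
  apply Finset.card_le_mul_card_image_of_maps_to (f := fun n : G => u * (n * u * n⁻¹))
  · intro n hn
    simp only [Finset.mem_filter, Finset.mem_univ, true_and] at hn ⊢
    have hyQ : y ∈ Q := by rw [hQ, mem_cent]
    have h1 : n⁻¹ * y * n ∈ Q := by
      have := (Subgroup.mem_set_normalizer_iff.mp (Subgroup.inv_mem _ hn) y).mp hyQ
      rwa [inv_inv] at this
    have h2 := hinv _ h1
    have huinv : u⁻¹ = u := inv_of_sq huu
    have h3 : n * u * n⁻¹ * y = y⁻¹ * (n * u * n⁻¹) := by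
      calc n * u * n⁻¹ * y = n * (u * (n⁻¹ * y * n) * u) * (u⁻¹ * n⁻¹) := by group
        _ = n * (n⁻¹ * y * n)⁻¹ * (u * n⁻¹) := by rw [h2, huinv]
        _ = y⁻¹ * (n * u * n⁻¹) := by group
    have h4 : u * y⁻¹ = y * u := by
      have := hinv y hyQ
      calc u * y⁻¹ = u * (u * y * u) := by rw [this]
        _ = (u * u) * y * u := by group
        _ = y * u := by rw [huu, one_mul]
    have h5 : u * (n * u * n⁻¹) ∈ Subgroup.centralizer ({y} : Set G) := by
      rw [mem_cent]
      calc u * (n * u * n⁻¹) * y = u * (n * u * n⁻¹ * y) := by group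
        _ = u * (y⁻¹ * (n * u * n⁻¹)) := by rw [h3]
        _ = (u * y⁻¹) * (n * u * n⁻¹) := by group
        _ = y * u * (n * u * n⁻¹) := by rw [h4]
        _ = y * (u * (n * u * n⁻¹)) := by group
    rw [hQ]; exact h5
  · intro a ha
    by_cases hne : (Finset.filter (fun n : G => u * (n * u * n⁻¹) = a)
        (Finset.univ.filter (fun g => g ∈ Subgroup.normalizer (Q : Set G)))).Nonempty
    · obtain ⟨n₀, hn₀⟩ := hne
      simp only [Finset.mem_filter, Finset.mem_univ, true_and] at hn₀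
      apply Finset.card_le_card_of_injOn (fun n => n₀⁻¹ * n)
      · intro n hn
        simp only [Finset.coe_filter, Set.mem_ofPred_eq, Finset.mem_filter, Finset.mem_univ,
          true_and] at hn ⊢
        refine ⟨Subgroup.mul_mem _ (Subgroup.inv_mem _ hn₀.1) hn.1, ?_⟩
        have e : n * u * n⁻¹ = n₀ * u * n₀⁻¹ := mul_left_cancel (hn.2.trans hn₀.2.symm)
        calc n₀⁻¹ * n * u = n₀⁻¹ * (n * u * n⁻¹) * n := by group
          _ = n₀⁻¹ * (n₀ * u * n₀⁻¹) * n := by rw [e]
          _ = u * (n₀⁻¹ * n) := by group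
      · intro n _ n' _ e
        exact mul_left_cancel e
    · rw [Finset.not_nonempty_iff_eq_empty] at hne
      rw [hne]; simp

/-- elements of `N(Q) ∩ C(u)` lie in `K` when `u = t`. -/
theorem W.norm_cent_sub (h : W t s K) {Q : Subgroup G} {y : G}
    (hQy : Q = Subgroup.centralizer ({y} : Set G))
    (hQ : ∀ x ∈ Q, x ≠ 1 → Subgroup.centralizer ({x} : Set G) = Q)
    (hinv : ∀ a ∈ Q, t * a * t = a⁻¹) (hno : ∀ a ∈ Q, orderOf a ≠ 2)
    {v : G} (hv : v ∈ Subgroup.normalizer (Q : Set G)) (hvt : v * t = t * v) : v ∈ K := by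
  rcases (h.cent v).mp hvt with hK | hK
  · exact hK
  · exfalso
    have hv2 : orderOf v = 2 := h.sK_ord hK
    obtain ⟨hvv, hv1⟩ := ord2_iff.mp hv2
    have hvinv : v⁻¹ = v := inv_of_sq hvv
    have hyQ : y ∈ Q := by rw [hQy, mem_cent]
    have hn : ∀ a ∈ Q, v * a * v ∈ Q := by
      intro a ha
      have := (Subgroup.mem_set_normalizer_iff.mp hv a).mp ha
      rwa [hvinv] at this
    have hf : ∀ a ∈ Q, v * a = a * v → a = 1 := by
      intro a ha hva
      by_contra ha1
      have : v ∈ Subgroup.centralizer ({a} : Set G) := mem_cent.mpr hva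
      rw [hQ a ha ha1] at this
      exact hno v this hv2
    obtain ⟨r1, -⟩ := fpf_inv Q v hvv hn hf
    have h4 : y * t = t * y⁻¹ := by
      have := hinv y hyQ
      calc y * t = (t * t) * y * t := by rw [h.tt, one_mul]
        _ = t * (t * y * t) := by group
        _ = t * y⁻¹ := by rw [this]
    have h5 : t * v ∈ Subgroup.centralizer ({y} : Set G) := by
      rw [mem_cent]
      calc t * v * y = t * (v * y * v) * v⁻¹ := by group
        _ = t * y⁻¹ * v := by rw [r1 y hyQ, hvinv]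
        _ = y * t * v := by rw [h4]
        _ = y * (t * v) := by group
    rw [← hQy] at h5
    have h6 : t * v * (t * v) = 1 := by
      calc t * v * (t * v) = t * (v * t) * v := by group
        _ = t * (t * v) * v := by rw [hvt]
        _ = (t * t) * (v * v) := by group
        _ = 1 := by rw [h.tt, hvv, one_mul]
    by_cases h7 : t * v = 1
    · have : v = t := by
        have : v = t⁻¹ := eq_inv_of_mul_eq_one_right h7
        rw [this, h.t_inv]
      rw [this] at hK
      apply h.sK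
      have e2 : s = (s * t) * t⁻¹ := by group
      rw [e2]; exact K.mul_mem hK (K.inv_mem h.tK)
    · exact hno _ h5 (ord2_iff.mpr ⟨h6, h7⟩)

theorem normalizer_eq_sup {Q D : Subgroup G} (hD : D ≤ Subgroup.normalizer (Q : Set G))
    (hcop : Nat.Coprime (Nat.card Q) (Nat.card D))
    (hcard : Nat.card (Subgroup.normalizer (Q : Set G)) ≤ Nat.card Q * Nat.card D) :
    Subgroup.normalizer (Q : Set G) = Q ⊔ D := by
  have h1 : Q ⊔ D ≤ Subgroup.normalizer (Q : Set G) := sup_le Subgroup.le_normalizer hD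
  symm
  apply Subgroup.eq_of_le_of_card_ge h1
  have d1 : Nat.card Q ∣ Nat.card (Q ⊔ D : Subgroup G) := Subgroup.card_dvd_of_le le_sup_left
  have d2 : Nat.card D ∣ Nat.card (Q ⊔ D : Subgroup G) := Subgroup.card_dvd_of_le le_sup_right
  have d3 := Nat.Coprime.mul_dvd_of_dvd_of_dvd hcop d1 d2
  exact hcard.trans (Nat.le_of_dvd Nat.card_pos d3)

open Classical in
/-- the structural part of the `δ = 1` endgame. -/
theorem W.plus_final (h : W t s K) {Q : Subgroup G} {y u : G}
    (hQy : Q = Subgroup.centralizer ({y} : Set G)) (hu : orderOf u = 2)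
    (hinv : ∀ a ∈ Q, u * a * u = a⁻¹)
    (hQcent : ∀ x ∈ Q, x ≠ 1 → Subgroup.centralizer ({x} : Set G) = Q)
    (hnoKT : ∀ a ∈ Q, a ≠ 1 → ¬ inKT K a)
    (hQcard : Nat.card Q = 2 * Nat.card K + 1)
    (hmN : Nat.card {x : G // orderOf x = 2} = (2 * Nat.card K + 1) * (Nat.card K + 1))
    (Z : Finset G) (hZcard : Z.card = 4 * Nat.card K * (Nat.card K + 1))
    (hZ : ∀ x ∈ Q, x ≠ 1 → ∀ g : G, g * x * g⁻¹ ∈ Z) : Concl G := by
  have hk1 : 1 ≤ Nat.card K := Nat.card_pos
  have hcardG := h.card_invol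
  have hno : ∀ a ∈ Q, orderOf a ≠ 2 := by
    intro a ha ha2
    exact hnoKT a ha (ord2_iff.mp ha2).2 (h.invol_KT ha2)
  have hlow := card_le_normalizer hQcent Z hZ
  obtain ⟨c, hc⟩ := h.exists_conj_t hu
  have h' := h.conj' c
  rw [← hc] at h'
  have hDcard : Nat.card (K.map (MulAut.conj c).toMonoidHom) = Nat.card K :=
    Subgroup.card_map_of_injective (MulAut.conj c).injective
  have huu := (ord2_iff.mp hu).1
  have hup := card_normalizer_le hQy huu hinv
  have hsub : Finset.univ.filter (fun g => g ∈ Subgroup.normalizer (Q : Set G) ∧ g * u = u * g) ⊆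
      Finset.univ.filter (fun g => g ∈ K.map (MulAut.conj c).toMonoidHom) := by
    intro v hv
    simp only [Finset.mem_filter, Finset.mem_univ, true_and] at hv ⊢
    exact h'.norm_cent_sub hQy hQcent hinv hno hv.1 hv.2
  have hsubcard := Finset.card_le_card hsub
  rw [card_filter_mem, hDcard] at hsubcard
  have hGN : Nat.card G = Nat.card {x : G // orderOf x = 2} * (2 * Nat.card K) := hcardG.symm
  rw [hGN, hQcard, hZcard, hmN] at hlow
  rw [hQcard] at hup
  generalize Nat.card K = k at *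
  have hN : Nat.card (Subgroup.normalizer (Q : Set G)) = (2 * k + 1) * k := by
    have h1 : (2 * k + 1) * k * (4 * k * (k + 1)) ≤
        Nat.card (Subgroup.normalizer (Q : Set G)) * (4 * k * (k + 1)) := by
      calc (2 * k + 1) * k * (4 * k * (k + 1))
          = (2 * k + 1) * (k + 1) * (2 * k) * (2 * k + 1 - 1) := by
            rw [Nat.add_sub_cancel]; ring
        _ ≤ _ := hlow
    have h2 : (2 * k + 1) * k ≤ Nat.card (Subgroup.normalizer (Q : Set G)) :=
      Nat.le_of_mul_le_mul_right h1 (Nat.mul_pos (Nat.mul_pos (by norm_num) hk1) (Nat.succ_pos k))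
    have h3 : Nat.card (Subgroup.normalizer (Q : Set G)) ≤ k * (2 * k + 1) :=
      hup.trans (Nat.mul_le_mul_right _ hsubcard)
    apply le_antisymm _ h2
    calc Nat.card (Subgroup.normalizer (Q : Set G)) ≤ k * (2 * k + 1) := h3
      _ = (2 * k + 1) * k := by ring
  have hF : k ≤ (Finset.univ.filter
      (fun g => g ∈ Subgroup.normalizer (Q : Set G) ∧ g * u = u * g)).card := by
    rw [hN] at hup
    have : k * (2 * k + 1) ≤ (Finset.univ.filter
        (fun g => g ∈ Subgroup.normalizer (Q : Set G) ∧ g * u = u * g)).card * (2 * k + 1) := by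
      calc k * (2 * k + 1) = (2 * k + 1) * k := by ring
        _ ≤ _ := hup
    exact Nat.le_of_mul_le_mul_right this (by omega)
  have hFeq := Finset.eq_of_subset_of_card_le hsub (by rw [card_filter_mem, hDcard]; exact hF)
  have hDN : K.map (MulAut.conj c).toMonoidHom ≤ Subgroup.normalizer (Q : Set G) := by
    intro d hd
    have : d ∈ Finset.univ.filter (fun g => g ∈ K.map (MulAut.conj c).toMonoidHom) := by
      rw [Finset.mem_filter]; exact ⟨Finset.mem_univ _, hd⟩
    rw [← hFeq] at this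
    simp only [Finset.mem_filter, Finset.mem_univ, true_and] at this
    exact this.1
  have hQD : Q ⊓ K.map (MulAut.conj c).toMonoidHom = ⊥ := by
    rw [eq_bot_iff]
    intro x hx
    rw [Subgroup.mem_inf] at hx
    rw [Subgroup.mem_bot]
    by_contra hx1
    apply hnoKT x hx.1 hx1
    exact ⟨hx1, c, mem_conjK.mp hx.2⟩
  have hcop : Nat.Coprime (Nat.card Q) (Nat.card (K.map (MulAut.conj c).toMonoidHom)) := by
    rw [hQcard, hDcard]
    exact Nat.isCoprime_iff_coprime.mp ⟨1, -2, by push_cast; ring⟩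
  have hNsup := normalizer_eq_sup hDN hcop (by rw [hN, hQcard, hDcard])
  refine ⟨Q, K.map (MulAut.conj c).toMonoidHom, ?_, hQcent, ?_, ?_, hQD, hNsup, ?_⟩
  · rw [hQcard, hGN, hmN, Nat.add_sub_cancel]; ring
  · exact ⟨⟨fun a b => Subtype.ext (h'.comm a a.2 b b.2)⟩⟩
  · rw [hQcard, hDcard]
  · intro X hX hX1
    exact h'.final_clause X hX hX1

open Classical in
theorem W.end_plus (h : W t s K) {X Λ : G → ℂ} (D : Data K 1 X Λ) : Concl G := by
  obtain ⟨Xi, C⟩ := h.exists_cnt D
  have hXchar : IsCharacter G X := isCharacter_of_isIrrCharacter D.irr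
  have hk1 : 1 ≤ Nat.card K := Nat.card_pos
  have hk' : (1 : ℤ) ≤ (Nat.card K : ℤ) := by exact_mod_cast hk1
  have hmk := D.hm
  have hval : ∀ g ∈ R0 K, Xi g = 0 ∨ Xi g = -1 := C.val
  have hmN : Nat.card {x : G // orderOf x = 2} = (2 * Nat.card K + 1) * (Nat.card K + 1) := by
    have : (Nat.card {x : G // orderOf x = 2} : ℤ) =
        (((2 * Nat.card K + 1) * (Nat.card K + 1) : ℕ) : ℤ) := by
      push_cast; rw [hmk]
    exact_mod_cast this
  obtain ⟨Z, hZ⟩ : ∃ Z : Finset G, Z = (R0 K).filter (fun g => Xi g = 0) := ⟨_, rfl⟩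
  have hZmem : ∀ g, g ∈ Z ↔ (g ≠ 1 ∧ ¬ inKT K g) ∧ Xi g = 0 := by
    intro g; rw [hZ, Finset.mem_filter, mem_R0]
  have hZconj : ∀ g ∈ Z, ∀ c : G, c * g * c⁻¹ ∈ Z := by
    intro g hg c
    rw [hZmem] at hg ⊢
    refine ⟨⟨?_, ?_⟩, ?_⟩
    · intro e; apply hg.1.1
      have : g = c⁻¹ * (c * g * c⁻¹) * c := by group
      rw [this, e]; group
    · rw [inKT_conj_iff]; exact hg.1.2
    · rw [C.cj]; exact hg.2
  have hZcard : (Z.card : ℤ) = 4 * (Nat.card K : ℤ) * ((Nat.card K : ℤ) + 1) := by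
    have e2 : (Z.card : ℤ) = ∑ g ∈ R0 K, (1 + Xi g) := by
      rw [hZ, Finset.card_filter]
      push_cast
      apply Finset.sum_congr rfl
      intro g hg
      rcases hval g hg with e | e <;> rw [e] <;> simp
    rw [e2, Finset.sum_add_distrib, C.sumX, Finset.sum_const, nsmul_eq_mul, mul_one, C.card, hmk]
    ring
  have hZgam : ∑ g ∈ Z, (gam g : ℤ) =
      (2 * (Nat.card K : ℤ) + 1) * (4 * (Nat.card K : ℤ) * ((Nat.card K : ℤ) + 1)) := by
    have e2 : ∑ g ∈ Z, (gam g : ℤ) = ∑ g ∈ R0 K, ((gam g : ℤ) + (gam g : ℤ) * Xi g) := by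
      rw [hZ, Finset.sum_filter]
      apply Finset.sum_congr rfl
      intro g hg
      rcases hval g hg with e | e <;> rw [e] <;> simp
    rw [e2, Finset.sum_add_distrib, C.sumg, C.sumgX, hmk]; ring
  have key : ∀ z ∈ Z, gam z ≠ 0 → ∃ u, orderOf u = 2 ∧ u * z * u = z⁻¹ ∧
      gam z = Nat.card (Subgroup.centralizer ({z} : Set G)) ∧
      (∀ a ∈ Subgroup.centralizer ({z} : Set G), a ≠ 1 → a ∈ R0 K) ∧
      (Nat.card (Subgroup.centralizer ({z} : Set G)) : ℤ) ≤ (2 * Nat.card K + 1) +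
        ∑ a ∈ Finset.univ.filter (fun a => a ∈ Subgroup.centralizer ({z} : Set G) ∧ a ≠ 1),
          Xi a := by
    intro z hz hg
    obtain ⟨⟨hz1, hzK⟩, hXz⟩ := (hZmem z).mp hz
    obtain ⟨u, hu, huz⟩ := h.gam_inv_of_ne hz1 hzK hg
    obtain ⟨r1, r2, r3⟩ := h.T3_struct hz1 hzK hu huz
    refine ⟨u, hu, huz, h.gam_eq_card hz1 hzK hu huz, ?_, ?_⟩
    · intro a ha ha1
      exact mem_R0.mpr ⟨ha1, r3 a ha ha1⟩
    · exact h.plus_bound hXchar C (mem_R0.mpr ⟨hz1, hzK⟩) hu huz
  have hsum_nonpos : ∀ z ∈ Z, gam z ≠ 0 → ∀ a ∈ Finset.univ.filter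
      (fun a => a ∈ Subgroup.centralizer ({z} : Set G) ∧ a ≠ 1), Xi a ≤ 0 := by
    intro z hz hg a ha
    obtain ⟨u, hu, huz, e1, e2, e3⟩ := key z hz hg
    simp only [Finset.mem_filter, Finset.mem_univ, true_and] at ha
    rcases hval a (e2 a ha.1 ha.2) with e | e <;> rw [e] <;> norm_num
  have hle : ∀ z ∈ Z, (gam z : ℤ) ≤ 2 * (Nat.card K : ℤ) + 1 := by
    intro z hz
    by_cases hg : gam z = 0
    · rw [hg]; push_cast; linarith
    · obtain ⟨u, hu, huz, e1, e2, e3⟩ := key z hz hg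
      have := Finset.sum_nonpos (hsum_nonpos z hz hg)
      rw [e1]; linarith
  have heq : ∀ z ∈ Z, (gam z : ℤ) = 2 * (Nat.card K : ℤ) + 1 := by
    have h1 : ∑ g ∈ Z, (gam g : ℤ) = ∑ g ∈ Z, (2 * (Nat.card K : ℤ) + 1) := by
      rw [hZgam, Finset.sum_const, nsmul_eq_mul, hZcard]; ring
    exact (Finset.sum_eq_sum_iff_of_le hle).mp h1
  have hZne : Z.Nonempty := by
    rw [← Finset.card_pos]
    have : (0 : ℤ) < (Z.card : ℤ) := by
      rw [hZcard]
      exact mul_pos (mul_pos (by norm_num) (by linarith)) (by linarith)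
    exact_mod_cast this
  obtain ⟨y, hy⟩ := hZne
  have hgy : gam y ≠ 0 := by
    have := heq y hy
    intro e; rw [e] at this
    push_cast at this
    linarith
  obtain ⟨u, hu, huy, e1, e2, e3⟩ := key y hy hgy
  obtain ⟨⟨hy1, hyK⟩, hXy⟩ := (hZmem y).mp hy
  obtain ⟨r1, r2, r3⟩ := h.T3_struct hy1 hyK hu huy
  have hQcard : Nat.card (Subgroup.centralizer ({y} : Set G)) = 2 * Nat.card K + 1 := by
    have := heq y hy
    rw [e1] at this
    exact_mod_cast this
  have hQZ : ∀ a ∈ Subgroup.centralizer ({y} : Set G), a ≠ 1 → a ∈ Z := by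
    have h1 : ∑ a ∈ Finset.univ.filter
        (fun a => a ∈ Subgroup.centralizer ({y} : Set G) ∧ a ≠ 1), Xi a = 0 := by
      have := Finset.sum_nonpos (hsum_nonpos y hy hgy)
      have h2 : (Nat.card (Subgroup.centralizer ({y} : Set G)) : ℤ) = 2 * Nat.card K + 1 := by
        exact_mod_cast hQcard
      rw [h2] at e3
      linarith
    have h2 := (Finset.sum_eq_zero_iff_of_nonpos (hsum_nonpos y hy hgy)).mp h1
    intro a ha ha1
    rw [hZ, Finset.mem_filter]
    exact ⟨e2 a ha ha1, h2 a (by simp [ha, ha1])⟩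
  have hQcent : ∀ x ∈ Subgroup.centralizer ({y} : Set G), x ≠ 1 →
      Subgroup.centralizer ({x} : Set G) = Subgroup.centralizer ({y} : Set G) := by
    intro x hx hx1
    exact h.T3_cent hy1 hyK hu huy hx hx1
  have hZcardN : Z.card = 4 * Nat.card K * (Nat.card K + 1) := by exact_mod_cast hZcard
  exact h.plus_final rfl hu r1 hQcent r3 hQcard hmN Z hZcardN
    (fun x hx hx1 g => hZconj x (hQZ x hx hx1) g)

end Cfsg.Agent.H54.BSW
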