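import Mathlib
import Cfsg.Agent.H54.BSW7

set_option autoImplicit false
set_option linter.unusedSectionVars false
set_option linter.unusedVariables false
set_option linter.style.haveILetI false
set_option linter.unnecessarySeqFocus false

namespace Cfsg.Agent.H54.BSW

open Cfsg Cfsg.Agent.H4
open scoped ComplexConjugate

universe u

variable {G : Type u} [Group G] [Fintype G] {t s : G} {K : Subgroup G}

open Classical in
theorem sum_sub_const {X : G → ℂ} (H : Subgroup G) (c : ℂ) (hc : ∀ a ∈ H, a ≠ 1 → X a = c) :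
    ∑ g ∈ Finset.univ.filter (fun g => g ∈ H), X g = X 1 + ((Nat.card H : ℂ) - 1) * c := by
  rw [← Finset.add_sum_erase _ _ (show (1 : G) ∈ Finset.univ.filter (fun g => g ∈ H) by
    simp [H.one_mem])]
  congr 1
  have e2 : ∑ g ∈ (Finset.univ.filter (fun g => g ∈ H)).erase 1, X g =
      ∑ g ∈ (Finset.univ.filter (fun g => g ∈ H)).erase 1, c := by
    apply Finset.sum_congr rfl
    intro g hg
    rw [Finset.mem_erase, Finset.mem_filter] at hg
    exact hc g hg.2.2 hg.1
  rw [e2, Finset.sum_const, Finset.card_erase_of_mem (by simp [H.one_mem]), card_filter_mem,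
    nsmul_eq_mul]
  have : 1 ≤ Nat.card H := Nat.card_pos
  push_cast [Nat.cast_sub this]
  ring

theorem card_dvd_of_const {X : G → ℂ} {Xi : G → ℤ} (hXc : IsCharacter G X)
    (hX : ∀ g, X g = Xi g) (H : Subgroup G) (c : ℤ) (hc : ∀ a ∈ H, a ≠ 1 → Xi a = c) :
    (Nat.card H : ℤ) ∣ Xi 1 - c := by
  classical
  obtain ⟨n, hn⟩ := char_sum_nat hXc H
  rw [sum_sub_const H (c : ℂ) (fun a ha ha1 => by rw [hX, hc a ha ha1]), hX 1] at hn
  refine ⟨(n : ℤ) - c, ?_⟩
  have : ((Xi 1 - c : ℤ) : ℂ) = (((Nat.card H : ℤ) * ((n : ℤ) - c) : ℤ) : ℂ) := by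
    push_cast
    linear_combination hn
  exact_mod_cast this

/-- the set `B`: nonidentity elements outside `KT` on which `Xi` vanishes. -/
def isB (K : Subgroup G) (Xi : G → ℤ) (g : G) : Prop := g ≠ 1 ∧ ¬ inKT K g ∧ Xi g = 0

open Classical in
/-- data for the `δ = -1` endgame. -/
structure Neg (K : Subgroup G) (X Λ : G → ℂ) (Xi : G → ℤ) : Prop where
  hXchar : IsCharacter G X
  hLchar : IsCharacter G Λ
  hX : ∀ g, X g = Xi g
  cj : ∀ g c, Xi (c * g * c⁻¹) = Xi g
  inv : ∀ g, Xi g⁻¹ = Xi g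
  one : Xi 1 = 2 * Nat.card K - 1
  L1 : Λ 1 = 2 * (Nat.card K : ℂ) - 2
  KT : ∀ g, inKT K g → Xi g = -1
  val : ∀ g, g ≠ 1 → ¬ inKT K g → Xi g = 0 ∨ Xi g = 1
  LX : ∀ g, g ≠ 1 → ¬ inKT K g → Λ g = Xi g - 1
  hm : (Nat.card {x : G // orderOf x = 2} : ℤ) = (2 * Nat.card K - 1) * (Nat.card K - 1)
  noinv : ∀ z, isB K Xi z → ∀ u, orderOf u = 2 → u * z * u ≠ z⁻¹
  A1 : ∀ y, y ≠ 1 → ¬ inKT K y → Xi y = 1 → (∃ u, orderOf u = 2 ∧ u * y * u = y⁻¹) ∧
    (Nat.card (Subgroup.centralizer ({y} : Set G)) : ℤ) = Nat.card K - 1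
  Bcard : ((Finset.univ.filter (fun g => isB K Xi g)).card : ℤ) =
    4 * Nat.card K * (Nat.card K - 1)

open Classical in
theorem W.exists_neg (h : W t s K) {X Λ : G → ℂ} (D : Data K (-1) X Λ) :
    ∃ Xi : G → ℤ, Neg K X Λ Xi := by
  obtain ⟨Xi, C⟩ := h.exists_cnt D
  have hXchar : IsCharacter G X := isCharacter_of_isIrrCharacter D.irr
  have hk1 : 1 ≤ Nat.card K := Nat.card_pos
  have hk2 : 2 ≤ Nat.card K := by
    obtain ⟨k', hk'⟩ := h.two_dvd_card
    omega
  have hk2' : (2 : ℤ) ≤ (Nat.card K : ℤ) := by exact_mod_cast hk2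
  have hmk : (Nat.card {x : G // orderOf x = 2} : ℤ) =
      (2 * Nat.card K - 1) * (Nat.card K - 1) := by
    rw [D.hm]; ring
  have hval : ∀ g ∈ R0 K, Xi g = 0 ∨ Xi g = 1 := by
    intro g hg
    have := C.val g hg
    simpa using this
  have hsumX : ∑ g ∈ R0 K, Xi g = -(2 * (Nat.card K : ℤ) - 1) +
      (Nat.card {x : G // orderOf x = 2} : ℤ) * ((Nat.card K : ℤ) - 1) := by
    rw [C.sumX]; ring
  have hsumgX : ∑ g ∈ R0 K, (gam g : ℤ) * Xi g =
      (Nat.card {x : G // orderOf x = 2} : ℤ) * (Nat.card K : ℤ) * ((Nat.card K : ℤ) - 2) := by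
    rw [C.sumgX]; ring
  have h0a : ∀ g ∈ R0 K, Xi g = 0 → gam g = 0 := by
    have hs : ∑ g ∈ R0 K, (gam g : ℤ) * (1 - Xi g) = 0 := by
      simp only [mul_sub, mul_one, Finset.sum_sub_distrib]
      rw [C.sumg, hsumgX, hmk]; ring
    have hnn : ∀ g ∈ R0 K, 0 ≤ (gam g : ℤ) * (1 - Xi g) := by
      intro g hg
      rcases hval g hg with e | e <;> rw [e] <;> simp
    intro g hg e
    have := (Finset.sum_eq_zero_iff_of_nonneg hnn).mp hs g hg
    rw [e] at this
    simpa using this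
  have h0b : ∀ y ∈ R0 K, gam y ≠ 0 → (gam y : ℤ) ≤ (Nat.card K : ℤ) - 1 := by
    intro y hy hg
    obtain ⟨hy1, hyK⟩ := mem_R0.mp hy
    obtain ⟨u, hu, huy⟩ := h.gam_inv_of_ne hy1 hyK hg
    obtain ⟨r1, r2, r3⟩ := h.T3_struct hy1 hyK hu huy
    have hXi1 : ∀ a ∈ Subgroup.centralizer ({y} : Set G), a ≠ 1 → Xi a = 1 := by
      intro a ha ha1
      have haR : a ∈ R0 K := mem_R0.mpr ⟨ha1, r3 a ha ha1⟩
      rcases hval a haR with e | e
      · exact absurd (h0a a haR e) (h.gam_ne_of_inv ha1 (r3 a ha ha1) hu (r1 a ha))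
      · exact e
    have hdvd := card_dvd_of_const hXchar C.hX (Subgroup.centralizer ({y} : Set G)) 1 hXi1
    rw [C.one] at hdvd
    obtain ⟨k', hk'⟩ : ∃ k', Nat.card K = k' + 1 := ⟨Nat.card K - 1, by omega⟩
    have hdvd2 : Nat.card (Subgroup.centralizer ({y} : Set G)) ∣ 2 * k' := by
      have : (Nat.card (Subgroup.centralizer ({y} : Set G)) : ℤ) ∣ ((2 * k' : ℕ) : ℤ) := by
        have e : ((2 * k' : ℕ) : ℤ) = 2 * (Nat.card K : ℤ) + -1 - 1 := by
          rw [hk']; push_cast; ring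
        rw [e]; exact hdvd
      exact_mod_cast this
    have hodd := h.cent_odd hy1 hyK
    have hcop : Nat.Coprime (Nat.card (Subgroup.centralizer ({y} : Set G))) 2 :=
      Nat.Coprime.symm (Nat.coprime_two_left.mpr hodd)
    have hdvd3 := hcop.dvd_of_dvd_mul_left hdvd2
    have hk'pos : 0 < k' := by omega
    have hle := Nat.le_of_dvd hk'pos hdvd3
    rw [h.gam_eq_card hy1 hyK hu huy, hk']
    push_cast
    have : (Nat.card (Subgroup.centralizer ({y} : Set G)) : ℤ) ≤ (k' : ℤ) := by exact_mod_cast hle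
    linarith
  have h0c : ∀ g ∈ R0 K, Xi g = 1 → (gam g : ℤ) = (Nat.card K : ℤ) - 1 := by
    have hle : ∀ g ∈ R0 K, (gam g : ℤ) * Xi g ≤ ((Nat.card K : ℤ) - 1) * Xi g := by
      intro g hg
      rcases hval g hg with e | e
      · rw [e]; simp
      · rw [e, mul_one, mul_one]
        by_cases hg0 : gam g = 0
        · rw [hg0]; push_cast; linarith
        · exact h0b g hg hg0
    have hs : ∑ g ∈ R0 K, (gam g : ℤ) * Xi g = ∑ g ∈ R0 K, ((Nat.card K : ℤ) - 1) * Xi g := by
      rw [← Finset.mul_sum, hsumgX, hsumX, hmk]; ring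
    have hall := (Finset.sum_eq_sum_iff_of_le hle).mp hs
    intro g hg e
    have := hall g hg
    rw [e, mul_one, mul_one] at this
    exact this
  refine ⟨Xi, hXchar, D.char, C.hX, C.cj, C.inv, ?_, ?_, ?_, ?_, ?_, hmk, ?_, ?_, ?_⟩
  · rw [C.one]; ring
  · rw [D.L1]; push_cast; ring
  · intro g hg
    exact C.KT g hg
  · intro g hg1 hgK
    exact hval g (mem_R0.mpr ⟨hg1, hgK⟩)
  · intro g hg1 hgK
    rw [D.LX g hg1 hgK, C.hX]; push_cast; ring
  · rintro z ⟨hz1, hzK, hz0⟩ u hu huz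
    exact h.gam_ne_of_inv hz1 hzK hu huz (h0a z (mem_R0.mpr ⟨hz1, hzK⟩) hz0)
  · intro y hy1 hyK hy
    have hg := h0c y (mem_R0.mpr ⟨hy1, hyK⟩) hy
    have hg0 : gam y ≠ 0 := by
      intro e
      rw [e] at hg
      push_cast at hg
      linarith
    obtain ⟨u, hu, huy⟩ := h.gam_inv_of_ne hy1 hyK hg0
    refine ⟨⟨u, hu, huy⟩, ?_⟩
    rw [← h.gam_eq_card hy1 hyK hu huy]
    exact hg
  · have e1 : Finset.univ.filter (fun g => isB K Xi g) = (R0 K).filter (fun g => Xi g = 0) := by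
      ext g
      rw [Finset.mem_filter, Finset.mem_filter, mem_R0]
      exact ⟨fun hh => ⟨⟨hh.2.1, hh.2.2.1⟩, hh.2.2.2⟩,
        fun hh => ⟨Finset.mem_univ _, hh.1.1, hh.1.2, hh.2⟩⟩
    have e2 : (((R0 K).filter (fun g => Xi g = 0)).card : ℤ) = ∑ g ∈ R0 K, (1 - Xi g) := by
      rw [Finset.card_filter]
      push_cast
      apply Finset.sum_congr rfl
      intro g hg
      rcases hval g hg with e | e <;> rw [e] <;> simp
    rw [e1, e2, Finset.sum_sub_distrib, hsumX, Finset.sum_const, nsmul_eq_mul, mul_one, C.card,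
      hmk]
    ring

section NegLemmas

variable {X Λ : G → ℂ} {Xi : G → ℤ}

theorem Neg.isB_conj (N : Neg K X Λ Xi) {z : G} (hz : isB K Xi z) (g : G) :
    isB K Xi (g * z * g⁻¹) := by
  obtain ⟨hz1, hzK, hz0⟩ := hz
  refine ⟨?_, ?_, ?_⟩
  · intro e; apply hz1
    have : z = g⁻¹ * (g * z * g⁻¹) * g := by group
    rw [this, e]; group
  · rw [inKT_conj_iff]; exact hzK
  · rw [N.cj]; exact hz0

theorem Neg.isB_inv (N : Neg K X Λ Xi) {z : G} (hz : isB K Xi z) : isB K Xi z⁻¹ := by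
  obtain ⟨hz1, hzK, hz0⟩ := hz
  refine ⟨?_, ?_, ?_⟩
  · intro e; apply hz1; exact inv_eq_one.mp e
  · intro hK
    apply hzK
    have := inKT_inv hK
    rwa [inv_inv] at this
  · rw [N.inv]; exact hz0

theorem Neg.sub (N : Neg K X Λ Xi) (h : W t s K) {z a : G} (hz : isB K Xi z)
    (ha : a ∈ Subgroup.centralizer ({z} : Set G)) (ha1 : a ≠ 1) : isB K Xi a := by
  obtain ⟨hz1, hzK, hz0⟩ := hz
  obtain ⟨q1, q2⟩ := h.T4_struct hz1 hzK (N.noinv z ⟨hz1, hzK, hz0⟩) ha ha1
  refine ⟨ha1, q1, ?_⟩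
  rcases N.val a ha1 q1 with e | e
  · exact e
  · obtain ⟨⟨u, hu, hua⟩, -⟩ := N.A1 a ha1 q1 e
    exact absurd hua (q2 u hu)

theorem Neg.card_dvd (N : Neg K X Λ Xi) (h : W t s K) {z : G} (hz : isB K Xi z) :
    (Nat.card (Subgroup.centralizer ({z} : Set G)) : ℤ) ∣ 2 * (Nat.card K : ℤ) - 1 := by
  have := card_dvd_of_const N.hXchar N.hX (Subgroup.centralizer ({z} : Set G)) 0
    (fun a ha ha1 => (N.sub h hz ha ha1).2.2)
  rw [N.one, sub_zero] at this
  exact this

theorem Neg.not_conj_inv (N : Neg K X Λ Xi) (h : W t s K) {z : G} (hz : isB K Xi z) (g : G) :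
    g * z * g⁻¹ ≠ z⁻¹ := by
  intro e
  obtain ⟨hz1, hzK, hz0⟩ := hz
  obtain ⟨j, hj⟩ := h.cent_odd hz1 hzK
  have hgg : g * g ∈ Subgroup.centralizer ({z} : Set G) := by
    rw [mem_cent]
    have e' : g * z⁻¹ * g⁻¹ = z := by
      have : g * z⁻¹ * g⁻¹ = (g * z * g⁻¹)⁻¹ := by group
      rw [this, e, inv_inv]
    calc g * g * z = g * (g * z * g⁻¹) * g := by group
      _ = g * z⁻¹ * g := by rw [e]
      _ = (g * z⁻¹ * g⁻¹) * (g * g) := by group
      _ = z * (g * g) := by rw [e']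
  obtain ⟨a, ha⟩ : ∃ a, a = (g * g) ^ j := ⟨_, rfl⟩
  have haC : a ∈ Subgroup.centralizer ({z} : Set G) := by
    rw [ha]; exact Subgroup.pow_mem _ hgg j
  have hww : (g * a) * (g * a) = 1 := by
    have h1 : (g * a) * (g * a) = (g * g) ^ (2 * j + 1) := by
      rw [ha]
      have hc : Commute g ((g * g) ^ j) :=
        (Commute.mul_right (Commute.refl g) (Commute.refl g)).pow_right j
      calc g * (g * g) ^ j * (g * (g * g) ^ j) = g * ((g * g) ^ j * g) * (g * g) ^ j := by group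
        _ = g * (g * (g * g) ^ j) * (g * g) ^ j := by rw [hc.eq]
        _ = (g * g) * ((g * g) ^ j * (g * g) ^ j) := by group
        _ = (g * g) ^ (2 * j + 1) := by rw [← pow_add, ← pow_succ']; congr 1; ring
    rw [h1, ← hj]
    have h2 : ((⟨g * g, hgg⟩ : Subgroup.centralizer ({z} : Set G)) ^
        Nat.card (Subgroup.centralizer ({z} : Set G))) = 1 := pow_card_eq_one'
    have h3 : (g * g) ^ Nat.card (Subgroup.centralizer ({z} : Set G)) =
        ((⟨g * g, hgg⟩ : Subgroup.centralizer ({z} : Set G)) ^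
          Nat.card (Subgroup.centralizer ({z} : Set G)) :
            Subgroup.centralizer ({z} : Set G)).1 := by
      rw [Subgroup.coe_pow]
    rw [h3, h2]; rfl
  have hinv' : (g * a)⁻¹ = g * a := inv_of_sq hww
  have hinv : (g * a) * z * (g * a) = z⁻¹ := by
    have haz : a * z = z * a := mem_cent.mp haC
    calc (g * a) * z * (g * a) = (g * a) * z * (g * a)⁻¹ := by rw [hinv']
      _ = g * (a * z) * a⁻¹ * g⁻¹ := by group
      _ = g * (z * a) * a⁻¹ * g⁻¹ := by rw [haz]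
      _ = g * z * g⁻¹ := by group
      _ = z⁻¹ := e
  have hw1 : g * a ≠ 1 := by
    intro e1
    rw [e1, one_mul, mul_one] at hinv
    have hzz : z * z = 1 := by
      have : z * z = z⁻¹ * z := by rw [← hinv]
      rw [this, inv_mul_cancel]
    exact hzK (h.invol_KT (ord2_iff.mpr ⟨hzz, hz1⟩))
  exact N.noinv z ⟨hz1, hzK, hz0⟩ (g * a) (ord2_iff.mpr ⟨hww, hw1⟩) hinv

open Classical in
theorem Neg.classes (N : Neg K X Λ Xi) (h : W t s K) {z : G} (hz : isB K Xi z) :
    (Nat.card (Subgroup.centralizer ({z} : Set G)) : ℤ) = 2 * Nat.card K - 1 ∧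
    ∀ b, isB K Xi b → ∃ g, b = g * z * g⁻¹ ∨ b = g * z⁻¹ * g⁻¹ := by
  obtain ⟨f, hf⟩ : ∃ f : G × Bool → G,
      f = fun p => p.1 * (if p.2 = true then z else z⁻¹) * p.1⁻¹ := ⟨_, rfl⟩
  have hkey : ∀ (ε ε' : Bool) (n : G),
      n * (if ε = true then z else z⁻¹) * n⁻¹ = (if ε' = true then z else z⁻¹) →
        ε = ε' ∧ n * z = z * n := by
    intro ε ε' n e
    cases ε <;> cases ε'
    · simp only [Bool.false_eq_true, if_false] at e
      refine ⟨rfl, ?_⟩
      have e2 : n * z * n⁻¹ = z := by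
        have : n * z * n⁻¹ = (n * z⁻¹ * n⁻¹)⁻¹ := by group
        rw [this, e, inv_inv]
      calc n * z = (n * z * n⁻¹) * n := by group
        _ = z * n := by rw [e2]
    · simp only [Bool.false_eq_true, if_false, if_true] at e
      exfalso
      apply N.not_conj_inv h hz n
      have : n * z * n⁻¹ = (n * z⁻¹ * n⁻¹)⁻¹ := by group
      rw [this, e]
    · simp only [Bool.false_eq_true, if_false, if_true] at e
      exact absurd e (N.not_conj_inv h hz n)
    · simp only [if_true] at e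
      refine ⟨rfl, ?_⟩
      calc n * z = (n * z * n⁻¹) * n := by group
        _ = z * n := by rw [e]
  have hfib : ∀ b ∈ (Finset.univ : Finset (G × Bool)).image f,
      ((Finset.univ : Finset (G × Bool)).filter (fun p => f p = b)).card ≤
        Nat.card (Subgroup.centralizer ({z} : Set G)) := by
    intro b hb
    rw [Finset.mem_image] at hb
    obtain ⟨p₀, -, hp₀⟩ := hb
    rw [← card_filter_mem (Subgroup.centralizer ({z} : Set G))]
    have hrel : ∀ p : G × Bool, f p = b →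
        p.2 = p₀.2 ∧ (p₀.1⁻¹ * p.1) * z = z * (p₀.1⁻¹ * p.1) := by
      intro p hp
      apply hkey
      rw [hf] at hp hp₀
      simp only at hp hp₀
      calc p₀.1⁻¹ * p.1 * (if p.2 = true then z else z⁻¹) * (p₀.1⁻¹ * p.1)⁻¹
          = p₀.1⁻¹ * (p.1 * (if p.2 = true then z else z⁻¹) * p.1⁻¹) * p₀.1 := by group
        _ = p₀.1⁻¹ * (p₀.1 * (if p₀.2 = true then z else z⁻¹) * p₀.1⁻¹) * p₀.1 := by
            rw [hp, hp₀]
        _ = _ := by group
    apply Finset.card_le_card_of_injOn (fun p => p₀.1⁻¹ * p.1)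
    · intro p hp
      simp only [Finset.coe_filter, Set.mem_ofPred_eq, Finset.mem_filter, Finset.mem_univ,
        true_and] at hp ⊢
      rw [mem_cent]; exact (hrel p hp).2
    · intro p hp p' hp' e
      simp only [Finset.coe_filter, Set.mem_ofPred_eq, Finset.mem_filter, Finset.mem_univ,
        true_and] at hp hp'
      have e1 : p.1 = p'.1 := mul_left_cancel e
      exact Prod.ext e1 ((hrel p hp).1.trans (hrel p' hp').1.symm)
  have hcard := Finset.card_le_mul_card_image (Finset.univ : Finset (G × Bool)) _ hfib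
  have hU : (Finset.univ : Finset (G × Bool)).card = Nat.card G * 2 := by
    rw [Finset.card_univ, Fintype.card_prod, Fintype.card_bool, Nat.card_eq_fintype_card]
  rw [hU] at hcard
  have himg : (Finset.univ : Finset (G × Bool)).image f ⊆
      Finset.univ.filter (fun g => isB K Xi g) := by
    intro b hb
    rw [Finset.mem_image] at hb
    obtain ⟨p, -, rfl⟩ := hb
    rw [Finset.mem_filter]
    refine ⟨Finset.mem_univ _, ?_⟩
    rw [hf]
    by_cases hp : p.2 = true
    · simp only [hp, if_true]; exact N.isB_conj hz _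
    · simp only [hp, if_false]; exact N.isB_conj (N.isB_inv hz) _
  have himgcard := Finset.card_le_card himg
  have hG := h.card_invol
  have hdvd := N.card_dvd h hz
  have hk2 : 2 ≤ Nat.card K := by
    obtain ⟨k', hk'⟩ := h.two_dvd_card
    have : 1 ≤ Nat.card K := Nat.card_pos
    omega
  have hk2' : (2 : ℤ) ≤ (Nat.card K : ℤ) := by exact_mod_cast hk2
  have hcle : (Nat.card (Subgroup.centralizer ({z} : Set G)) : ℤ) ≤ 2 * (Nat.card K : ℤ) - 1 :=
    Int.le_of_dvd (by linarith) hdvd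
  have h1 : ((Nat.card G * 2 : ℕ) : ℤ) ≤ (Nat.card (Subgroup.centralizer ({z} : Set G)) : ℤ) *
      (((Finset.univ : Finset (G × Bool)).image f).card : ℤ) := by exact_mod_cast hcard
  have h2 : (((Finset.univ : Finset (G × Bool)).image f).card : ℤ) ≤
      4 * (Nat.card K : ℤ) * ((Nat.card K : ℤ) - 1) := by
    rw [← N.Bcard]; exact_mod_cast himgcard
  have hGz : ((Nat.card G * 2 : ℕ) : ℤ) =
      (2 * (Nat.card K : ℤ) - 1) * (4 * (Nat.card K : ℤ) * ((Nat.card K : ℤ) - 1)) := by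
    rw [← hG]; push_cast; rw [N.hm]; ring
  have hP : (0 : ℤ) < 4 * (Nat.card K : ℤ) * ((Nat.card K : ℤ) - 1) :=
    mul_pos (mul_pos (by norm_num) (by linarith)) (by linarith)
  have h3 : (2 * (Nat.card K : ℤ) - 1) * (4 * (Nat.card K : ℤ) * ((Nat.card K : ℤ) - 1)) ≤
      (Nat.card (Subgroup.centralizer ({z} : Set G)) : ℤ) *
        (4 * (Nat.card K : ℤ) * ((Nat.card K : ℤ) - 1)) := by
    rw [← hGz]
    exact h1.trans (mul_le_mul_of_nonneg_left h2 (by positivity))
  have hc : (Nat.card (Subgroup.centralizer ({z} : Set G)) : ℤ) = 2 * (Nat.card K : ℤ) - 1 :=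
    le_antisymm hcle (le_of_mul_le_mul_right h3 hP)
  have h4 : 4 * (Nat.card K : ℤ) * ((Nat.card K : ℤ) - 1) ≤
      (((Finset.univ : Finset (G × Bool)).image f).card : ℤ) := by
    have : (2 * (Nat.card K : ℤ) - 1) * (4 * (Nat.card K : ℤ) * ((Nat.card K : ℤ) - 1)) ≤
        (2 * (Nat.card K : ℤ) - 1) * (((Finset.univ : Finset (G × Bool)).image f).card : ℤ) := by
      rw [← hGz, ← hc]; exact h1
    exact le_of_mul_le_mul_left this (by linarith)
  have himgeq := Finset.eq_of_subset_of_card_le himg (by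
    have : ((Finset.univ.filter (fun g => isB K Xi g)).card : ℤ) ≤
        (((Finset.univ : Finset (G × Bool)).image f).card : ℤ) := by rw [N.Bcard]; exact h4
    exact_mod_cast this)
  refine ⟨hc, ?_⟩
  intro b hb
  have hbm : b ∈ (Finset.univ : Finset (G × Bool)).image f := by
    rw [himgeq, Finset.mem_filter]; exact ⟨Finset.mem_univ _, hb⟩
  rw [Finset.mem_image] at hbm
  obtain ⟨p, -, hp⟩ := hbm
  refine ⟨p.1, ?_⟩
  rw [hf] at hp
  by_cases hp2 : p.2 = true
  · left; simp only [hp2, if_true] at hp; exact hp.symm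
  · right; simp only [hp2, if_false] at hp; exact hp.symm

theorem Neg.prime_order (N : Neg K X Λ Xi) (h : W t s K) :
    ∃ p : ℕ, p.Prime ∧ ∀ b, isB K Xi b → orderOf b = p := by
  by_cases hne : ∃ z, isB K Xi z
  · obtain ⟨z, hz⟩ := hne
    have hsame : ∀ b, isB K Xi b → orderOf b = orderOf z := by
      intro b hb
      obtain ⟨g, e | e⟩ := (N.classes h hz).2 b hb
      · rw [e]
        have : g * z * g⁻¹ = MulAut.conj g z := by simp [MulAut.conj_apply]
        rw [this, MulEquiv.orderOf_eq]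
      · rw [e]
        have : g * z⁻¹ * g⁻¹ = MulAut.conj g z⁻¹ := by simp [MulAut.conj_apply]
        rw [this, MulEquiv.orderOf_eq, orderOf_inv]
    have hr1 : orderOf z ≠ 1 := by rw [Ne, orderOf_eq_one_iff]; exact hz.1
    have hr0 : orderOf z ≠ 0 := (orderOf_pos z).ne'
    have hpp : (orderOf z).minFac.Prime := Nat.minFac_prime hr1
    have hpr : (orderOf z).minFac ∣ orderOf z := Nat.minFac_dvd _
    refine ⟨(orderOf z).minFac, hpp, ?_⟩
    have hord : orderOf (z ^ (orderOf z / (orderOf z).minFac)) = (orderOf z).minFac :=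
      orderOf_pow_orderOf_div hr0 hpr
    have hmem : z ^ (orderOf z / (orderOf z).minFac) ∈ Subgroup.centralizer ({z} : Set G) := by
      rw [mem_cent]; exact ((Commute.refl z).pow_left _).eq
    have hne1 : z ^ (orderOf z / (orderOf z).minFac) ≠ 1 := by
      intro e; rw [e, orderOf_one] at hord; exact hpp.one_lt.ne hord
    have hB := N.sub h hz hmem hne1
    have : (orderOf z).minFac = orderOf z := by rw [← hord, hsame _ hB]
    intro b hb
    rw [hsame b hb, this]
  · exact ⟨2, Nat.prime_two, fun b hb => absurd ⟨b, hb⟩ hne⟩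

end NegLemmas

end Cfsg.Agent.H54.BSW
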