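import Mathlib
import Cfsg.Agent.H54.BSW8

set_option autoImplicit false
set_option linter.unusedSectionVars false
set_option linter.unusedVariables false
set_option linter.style.haveILetI false
set_option linter.unnecessarySeqFocus false
set_option linter.unusedSimpArgs false

namespace Cfsg.Agent.H54.BSW

open Cfsg Cfsg.Agent.H4
open scoped ComplexConjugate

universe u

variable {G : Type u} [Group G] [Fintype G] {t s : G} {K : Subgroup G}

theorem inKT_map_conj (c g : G) : inKT (K.map (MulAut.conj c).toMonoidHom) g ↔ inKT K g := by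
  unfold inKT
  constructor
  · rintro ⟨h1, d, hd⟩
    rw [mem_conjK] at hd
    refine ⟨h1, d * c, ?_⟩
    have : (d * c)⁻¹ * g * (d * c) = c⁻¹ * (d⁻¹ * g * d) * c := by group
    rw [this]; exact hd
  · rintro ⟨h1, d, hd⟩
    refine ⟨h1, d * c⁻¹, ?_⟩
    rw [mem_conjK]
    have : c⁻¹ * ((d * c⁻¹)⁻¹ * g * (d * c⁻¹)) * c = d⁻¹ * g * d := by group
    rw [this]; exact hd

open Classical in
theorem W.ti_count (h : W t s K) (M : Subgroup G) (hM : ∀ v ∈ M, orderOf v ≠ 2) {x : G}
    (hxM : x ∈ M) (hxK : x ∈ K) (hx1 : x ≠ 1) :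
    2 * Nat.card M ≤ 3 * (Finset.univ.filter (fun g => g ∈ M ∧ inKT K g)).card := by
  have hYodd : Odd (Nat.card (M ⊓ K : Subgroup G)) :=
    no_invol_odd (M ⊓ K) (fun v hv => hM v hv.1)
  have hYne : Nat.card (M ⊓ K : Subgroup G) ≠ 1 := by
    intro e
    have := Subgroup.card_eq_one.mp e
    have hxY : x ∈ M ⊓ K := ⟨hxM, hxK⟩
    rw [this, Subgroup.mem_bot] at hxY
    exact hx1 hxY
  obtain ⟨j, hj⟩ := hYodd
  have hj1 : 1 ≤ j := by omega
  have hS : ((Finset.univ.filter (fun g => g ∈ M)) ×ˢ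
      (Finset.univ.filter (fun y => y ∈ (M ⊓ K : Subgroup G) ∧ y ≠ 1))).card =
      Nat.card M * (2 * j) := by
    rw [Finset.card_product, card_filter_mem, card_sharp, hj]; simp
  have key : ((Finset.univ.filter (fun g => g ∈ M)) ×ˢ
      (Finset.univ.filter (fun y => y ∈ (M ⊓ K : Subgroup G) ∧ y ≠ 1))).card ≤
      Nat.card (M ⊓ K : Subgroup G) *
        (Finset.univ.filter (fun g => g ∈ M ∧ inKT K g)).card := by
    apply Finset.card_le_mul_card_image_of_maps_to (f := fun p : G × G => p.1 * p.2 * p.1⁻¹)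
    · intro p hp
      simp only [Finset.mem_product, Finset.mem_filter, Finset.mem_univ, true_and] at hp ⊢
      obtain ⟨hp1, ⟨hp2M, hp2K⟩, hp21⟩ := hp
      exact ⟨M.mul_mem (M.mul_mem hp1 hp2M) (M.inv_mem hp1),
        inKT_conj _ (inKT_of_mem hp2K hp21)⟩
    · intro b hb
      by_cases hne : (Finset.filter (fun p : G × G => p.1 * p.2 * p.1⁻¹ = b)
          ((Finset.univ.filter (fun g => g ∈ M)) ×ˢ
            (Finset.univ.filter (fun y => y ∈ (M ⊓ K : Subgroup G) ∧ y ≠ 1)))).Nonempty
      · obtain ⟨p₀, hp₀⟩ := hne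
        simp only [Finset.mem_filter, Finset.mem_product, Finset.mem_univ, true_and] at hp₀
        rw [← card_filter_mem (M ⊓ K : Subgroup G)]
        apply Finset.card_le_card_of_injOn (fun p => p₀.1⁻¹ * p.1)
        · intro p hp
          simp only [Finset.coe_filter, Set.mem_ofPred_eq, Finset.mem_product, Finset.mem_univ,
            true_and, Finset.mem_filter] at hp ⊢
          obtain ⟨⟨hp1, ⟨hp2M, hp2K⟩, hp21⟩, hpb⟩ := hp
          obtain ⟨⟨hq1, ⟨hq2M, hq2K⟩, hq21⟩, hqb⟩ := hp₀
          have hnM : p₀.1⁻¹ * p.1 ∈ M := M.mul_mem (M.inv_mem hq1) hp1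
          have hconj : (p₀.1⁻¹ * p.1) * p.2 * (p₀.1⁻¹ * p.1)⁻¹ = p₀.2 := by
            have : (p₀.1⁻¹ * p.1) * p.2 * (p₀.1⁻¹ * p.1)⁻¹ =
                p₀.1⁻¹ * (p.1 * p.2 * p.1⁻¹) * p₀.1 := by group
            rw [this, hpb, ← hqb]; group
          have hcomm := h.ti (p₀.1⁻¹ * p.1) p.2 hp2K hp21 (by rw [hconj]; exact hq2K)
          rcases (h.cent _).mp hcomm with hK | hK
          · exact ⟨hnM, hK⟩
          · exact absurd (h.sK_ord hK) (hM _ hnM)
        · intro p hp p' hp' e
          simp only [Finset.coe_filter, Set.mem_ofPred_eq, Finset.mem_product, Finset.mem_univ,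
            true_and, Finset.mem_filter] at hp hp'
          have e1 : p.1 = p'.1 := mul_left_cancel e
          have e2 : p.2 = p'.2 := by
            have a1 : p.2 = p.1⁻¹ * (p.1 * p.2 * p.1⁻¹) * p.1 := by group
            have a2 : p'.2 = p'.1⁻¹ * (p'.1 * p'.2 * p'.1⁻¹) * p'.1 := by group
            rw [a1, a2, hp.2, hp'.2, e1]
          exact Prod.ext e1 e2
      · rw [Finset.not_nonempty_iff_eq_empty] at hne
        rw [hne]; simp
  rw [hS, hj] at key
  have h3 : j * (2 * Nat.card M) ≤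
      j * (3 * (Finset.univ.filter (fun g => g ∈ M ∧ inKT K g)).card) := by
    nlinarith [Nat.mul_le_mul_right (Finset.univ.filter (fun g => g ∈ M ∧ inKT K g)).card hj1,
      key]
  exact Nat.le_of_mul_le_mul_left h3 hj1

section NegLemmas

variable {X Λ : G → ℂ} {Xi : G → ℤ}

open Classical in
theorem Neg.claim (N : Neg K X Λ Xi) (h : W t s K) {z : G} (hz : isB K Xi z) (M : Subgroup G)
    (hM : ∀ v ∈ M, orderOf v ≠ 2) (hPM : Subgroup.centralizer ({z} : Set G) ≤ M) :
    (∀ x ∈ M, ¬ inKT K x) ∧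
      (∀ x ∈ M, isB K Xi x → x ∈ Subgroup.centralizer ({z} : Set G)) := by
  have hPcard := (N.classes h hz).1
  have hsub : Finset.univ.filter (fun a => a ∈ Subgroup.centralizer ({z} : Set G) ∧ a ≠ 1) ⊆
      Finset.univ.filter (fun g => g ∈ M ∧ isB K Xi g) := by
    intro a ha
    simp only [Finset.mem_filter, Finset.mem_univ, true_and] at ha ⊢
    exact ⟨hPM ha.1, N.sub h hz ha.1 ha.2⟩
  have hPpos : 1 ≤ Nat.card (Subgroup.centralizer ({z} : Set G)) := Nat.card_pos
  have hBM : (2 * (Nat.card K : ℤ) - 2) ≤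
      ((Finset.univ.filter (fun g => g ∈ M ∧ isB K Xi g)).card : ℤ) := by
    have := Finset.card_le_card hsub
    rw [card_sharp] at this
    omega
  have e_one : ∑ g ∈ Finset.univ.filter (fun g => g ∈ M), (if g = 1 then (1 : ℤ) else 0) = 1 := by
    rw [Finset.sum_ite_eq' (Finset.univ.filter (fun g => g ∈ M)) 1 (fun _ => (1 : ℤ))]
    rw [if_pos (by simp [M.one_mem])]
  have e_KT : ∑ g ∈ Finset.univ.filter (fun g => g ∈ M), (if inKT K g then (1 : ℤ) else 0) =
      ((Finset.univ.filter (fun g => g ∈ M ∧ inKT K g)).card : ℤ) := by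
    rw [Finset.sum_boole, Finset.filter_filter]
  have e_B : ∑ g ∈ Finset.univ.filter (fun g => g ∈ M), (if isB K Xi g then (1 : ℤ) else 0) =
      ((Finset.univ.filter (fun g => g ∈ M ∧ isB K Xi g)).card : ℤ) := by
    rw [Finset.sum_boole, Finset.filter_filter]
  have hMpos : (0 : ℤ) < Nat.card M := by exact_mod_cast Nat.card_pos
  have hnoKT : ∀ x ∈ M, ¬ inKT K x := by
    intro x hxM hxKT
    obtain ⟨hx1, c, hc⟩ := hxKT
    have h' := h.conj' c
    have hxK' : x ∈ K.map (MulAut.conj c).toMonoidHom := mem_conjK.mpr hc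
    have hcount := h'.ti_count M hM hxM hxK' hx1
    have hfe : Finset.univ.filter
        (fun g => g ∈ M ∧ inKT (K.map (MulAut.conj c).toMonoidHom) g) =
        Finset.univ.filter (fun g => g ∈ M ∧ inKT K g) := by
      apply Finset.filter_congr
      intro g _
      rw [inKT_map_conj]
    rw [hfe] at hcount
    obtain ⟨n, hn⟩ := char_sum_nat N.hXchar M
    have hsumZ : ∑ g ∈ Finset.univ.filter (fun g => g ∈ M), Xi g = (n : ℤ) * Nat.card M := by
      have : ((∑ g ∈ Finset.univ.filter (fun g => g ∈ M), Xi g : ℤ) : ℂ) =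
          (((n : ℤ) * Nat.card M : ℤ) : ℂ) := by
        push_cast
        rw [← hn]
        apply Finset.sum_congr rfl
        intro g _
        rw [N.hX]
      exact_mod_cast this
    have hpt : ∀ g ∈ Finset.univ.filter (fun g => g ∈ M), Xi g ≤
        (2 * (Nat.card K : ℤ) - 2) * (if g = 1 then 1 else 0) + 1 -
          2 * (if inKT K g then 1 else 0) - (if isB K Xi g then 1 else 0) := by
      intro g _
      by_cases hg1 : g = 1
      · subst hg1
        have h1 : ¬ inKT K (1 : G) := fun hh => hh.1 rfl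
        have h2 : ¬ isB K Xi (1 : G) := fun hh => hh.1 rfl
        rw [if_pos rfl, if_neg h1, if_neg h2, N.one]; linarith
      · by_cases hgK : inKT K g
        · have h2 : ¬ isB K Xi g := fun hh => hh.2.1 hgK
          rw [if_neg hg1, if_pos hgK, if_neg h2, N.KT g hgK]; linarith
        · rcases N.val g hg1 hgK with e | e
          · have h2 : isB K Xi g := ⟨hg1, hgK, e⟩
            rw [if_neg hg1, if_neg hgK, if_pos h2, e]; linarith
          · have h2 : ¬ isB K Xi g := fun hh => by
              rw [hh.2.2] at e; exact absurd e (by norm_num)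
            rw [if_neg hg1, if_neg hgK, if_neg h2, e]; linarith
    have hle := Finset.sum_le_sum hpt
    rw [hsumZ] at hle
    simp only [Finset.sum_sub_distrib, Finset.sum_add_distrib, ← Finset.mul_sum, e_one, e_KT,
      e_B, Finset.sum_const, card_filter_mem, nsmul_eq_mul, mul_one] at hle
    have hcount' : 2 * (Nat.card M : ℤ) ≤
        3 * ((Finset.univ.filter (fun g => g ∈ M ∧ inKT K g)).card : ℤ) := by
      exact_mod_cast hcount
    have hnn : (0 : ℤ) ≤ (n : ℤ) * Nat.card M := by positivity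
    linarith
  refine ⟨hnoKT, ?_⟩
  obtain ⟨n', hn'⟩ := char_sum_nat N.hLchar M
  have hptL : ∀ g ∈ Finset.univ.filter (fun g => g ∈ M), Λ g =
      (((2 * (Nat.card K : ℤ) - 2) * (if g = 1 then 1 else 0) -
        (if isB K Xi g then 1 else 0) : ℤ) : ℂ) := by
    intro g hg
    rw [Finset.mem_filter] at hg
    by_cases hg1 : g = 1
    · subst hg1
      have h2 : ¬ isB K Xi (1 : G) := fun hh => hh.1 rfl
      rw [if_pos rfl, if_neg h2, N.L1]; push_cast; ring
    · have hgK := hnoKT g hg.2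
      rcases N.val g hg1 hgK with e | e
      · have h2 : isB K Xi g := ⟨hg1, hgK, e⟩
        rw [if_neg hg1, if_pos h2, N.LX g hg1 hgK, e]; push_cast; ring
      · have h2 : ¬ isB K Xi g := fun hh => by
          rw [hh.2.2] at e; exact absurd e (by norm_num)
        rw [if_neg hg1, if_neg h2, N.LX g hg1 hgK, e]; push_cast; ring
  rw [Finset.sum_congr rfl hptL, ← Int.cast_sum] at hn'
  have hZ : ∑ g ∈ Finset.univ.filter (fun g => g ∈ M),
      ((2 * (Nat.card K : ℤ) - 2) * (if g = 1 then 1 else 0) -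
        (if isB K Xi g then 1 else 0)) = (n' : ℤ) * Nat.card M := by
    have : ((∑ g ∈ Finset.univ.filter (fun g => g ∈ M),
        ((2 * (Nat.card K : ℤ) - 2) * (if g = 1 then 1 else 0) -
          (if isB K Xi g then 1 else 0)) : ℤ) : ℂ) = (((n' : ℤ) * Nat.card M : ℤ) : ℂ) := by
      rw [hn']; push_cast; ring
    exact_mod_cast this
  rw [Finset.sum_sub_distrib, ← Finset.mul_sum, e_one, e_B] at hZ
  have hnn : (0 : ℤ) ≤ (n' : ℤ) * Nat.card M := by positivity
  have hBle : ((Finset.univ.filter (fun g => g ∈ M ∧ isB K Xi g)).card : ℤ) ≤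
      2 * (Nat.card K : ℤ) - 2 := by linarith
  have heq := Finset.eq_of_subset_of_card_le hsub (by rw [card_sharp]; omega)
  intro x hxM hxB
  have hmem : x ∈ Finset.univ.filter (fun g => g ∈ M ∧ isB K Xi g) := by
    rw [Finset.mem_filter]; exact ⟨Finset.mem_univ _, hxM, hxB⟩
  rw [← heq] at hmem
  simp only [Finset.mem_filter, Finset.mem_univ, true_and] at hmem
  exact hmem.1

end NegLemmas

end Cfsg.Agent.H54.BSW
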