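import Mathlib
import Cfsg.Agent.H54.BSW9

set_option autoImplicit false
set_option linter.unusedSectionVars false
set_option linter.unusedVariables false
set_option linter.style.haveILetI false
set_option linter.unnecessarySeqFocus false
set_option linter.unusedSimpArgs false

namespace Cfsg.Agent.H54.BSW

open Cfsg Cfsg.Agent.H4
open scoped ComplexConjugate
open scoped commutatorElement

universe u

theorem exists_second_center {H : Type*} [Group H] [hN : Group.IsNilpotent H]
    (hc : Subgroup.center H ≠ ⊤) :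
    ∃ x : H, x ∉ Subgroup.center H ∧ ∀ y : H, ⁅x, y⁆ ∈ Subgroup.center H := by
  by_contra hcon
  push Not at hcon
  have hstep : ∀ n, Subgroup.upperCentralSeries H (n + 1) = Subgroup.center H := by
    intro n
    induction n with
    | zero => rw [zero_add]; exact Subgroup.upperCentralSeries_one H
    | succ n ih =>
      apply le_antisymm
      · intro x hx
        rw [Subgroup.mem_upperCentralSeries_succ_iff] at hx
        by_contra hxc
        obtain ⟨y, hy⟩ := hcon x hxc
        exact hy (by rw [← ih]; exact hx y)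
      · rw [← ih]; exact Subgroup.upperCentralSeries_mono H (Nat.le_succ _)
  obtain ⟨n, hn⟩ := hN.nilpotent'
  cases n with
  | zero =>
    apply hc
    rw [eq_top_iff, ← hn, Subgroup.upperCentralSeries_zero]
    exact bot_le
  | succ n => exact hc (by rw [← hstep n]; exact hn)

variable {G : Type u} [Group G] [Fintype G] {t s : G} {K : Subgroup G}

section NegLemmas

variable {X Λ : G → ℂ} {Xi : G → ℤ}

theorem Neg.comm (N : Neg K X Λ Xi) (h : W t s K) {z : G} (hz : isB K Xi z) :
    ∀ a ∈ Subgroup.centralizer ({z} : Set G), ∀ b ∈ Subgroup.centralizer ({z} : Set G),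
      a * b = b * a := by
  by_contra hnc
  obtain ⟨p, hp, hord⟩ := N.prime_order h
  haveI : Fact p.Prime := ⟨hp⟩
  have hPG : ∀ {y : G}, isB K Xi y → IsPGroup p (Subgroup.centralizer ({y} : Set G)) := by
    intro y hy g
    by_cases hg : (g : G) = 1
    · exact ⟨0, by rw [pow_zero, pow_one]; exact Subtype.ext hg⟩
    · refine ⟨1, ?_⟩
      rw [pow_one]
      apply Subtype.ext
      rw [Subgroup.coe_pow, ← hord _ (N.sub h hy g.2 hg)]
      exact pow_orderOf_eq_one _
  haveI := IsPGroup.isNilpotent (hPG hz)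
  have hcen : Subgroup.center (Subgroup.centralizer ({z} : Set G)) ≠ ⊤ := by
    intro e
    apply hnc
    intro a ha b hb
    have : (⟨b, hb⟩ : Subgroup.centralizer ({z} : Set G)) ∈
        Subgroup.center (Subgroup.centralizer ({z} : Set G)) := by rw [e]; trivial
    rw [Subgroup.mem_center_iff] at this
    exact congrArg Subtype.val (this ⟨a, ha⟩)
  obtain ⟨x₁, hx₁c, hx₁⟩ := exists_second_center hcen
  have hx1Q : (x₁ : G) ∈ Subgroup.centralizer ({z} : Set G) := x₁.2
  have hx11 : (x₁ : G) ≠ 1 := by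
    intro e
    apply hx₁c
    have : x₁ = 1 := Subtype.ext e
    rw [this]; exact Subgroup.one_mem _
  have hx1B := N.sub h hz hx1Q hx11
  have hzeta : ∀ g ∈ Subgroup.centralizer ({z} : Set G), ∃ ζ : G,
      (∀ c ∈ Subgroup.centralizer ({z} : Set G), c * ζ = ζ * c) ∧
        g⁻¹ * (x₁ : G) * g = ζ * (x₁ : G) := by
    intro g hg
    have hc : ⁅x₁, (⟨g⁻¹, Subgroup.inv_mem _ hg⟩ : Subgroup.centralizer ({z} : Set G))⁆⁻¹ ∈
        Subgroup.center (Subgroup.centralizer ({z} : Set G)) := Subgroup.inv_mem _ (hx₁ _)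
    refine ⟨((⁅x₁, (⟨g⁻¹, Subgroup.inv_mem _ hg⟩ : Subgroup.centralizer ({z} : Set G))⁆⁻¹ :
      Subgroup.centralizer ({z} : Set G)) : G), ?_, ?_⟩
    · intro c hc'
      rw [Subgroup.mem_center_iff] at hc
      exact congrArg Subtype.val (hc ⟨c, hc'⟩)
    · rw [commutatorElement_def]
      simp only [Subgroup.coe_inv, Subgroup.coe_mul]
      group
  obtain ⟨D₀, hD₀⟩ : ∃ D₀ : Subgroup G, D₀ = Subgroup.centralizer ({z} : Set G) ⊓
      Subgroup.centralizer ({(x₁ : G)} : Set G) := ⟨_, rfl⟩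
  have hD₀mem : ∀ c, c ∈ D₀ ↔ c ∈ Subgroup.centralizer ({z} : Set G) ∧
      c ∈ Subgroup.centralizer ({(x₁ : G)} : Set G) := by
    intro c; rw [hD₀, Subgroup.mem_inf]
  have hfwd : ∀ g ∈ Subgroup.centralizer ({z} : Set G), ∀ c ∈ D₀, g * c * g⁻¹ ∈ D₀ := by
    intro g hg c hc
    rw [hD₀mem] at hc ⊢
    obtain ⟨hcQ, hcx⟩ := hc
    refine ⟨Subgroup.mul_mem _ (Subgroup.mul_mem _ hg hcQ) (Subgroup.inv_mem _ hg), ?_⟩
    rw [mem_cent] at hcx ⊢
    obtain ⟨ζ, hζ, hgx⟩ := hzeta g hg
    have hcζ := hζ c hcQ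
    calc g * c * g⁻¹ * (x₁ : G) = g * c * (g⁻¹ * (x₁ : G) * g) * g⁻¹ := by group
      _ = g * (c * ζ * (x₁ : G)) * g⁻¹ := by rw [hgx]; group
      _ = g * (ζ * (c * (x₁ : G))) * g⁻¹ := by rw [hcζ]; group
      _ = g * (ζ * ((x₁ : G) * c)) * g⁻¹ := by rw [hcx]
      _ = g * ((ζ * (x₁ : G)) * c) * g⁻¹ := by group
      _ = g * ((g⁻¹ * (x₁ : G) * g) * c) * g⁻¹ := by rw [hgx]
      _ = (x₁ : G) * (g * c * g⁻¹) := by group
  have hQN : Subgroup.centralizer ({z} : Set G) ≤ Subgroup.normalizer (D₀ : Set G) := by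
    intro g hg
    rw [Subgroup.mem_set_normalizer_iff]
    intro c
    constructor
    · exact fun hc => hfwd g hg c hc
    · intro hc
      have := hfwd g⁻¹ (Subgroup.inv_mem _ hg) _ hc
      have e : g⁻¹ * (g * c * g⁻¹) * g⁻¹⁻¹ = c := by group
      rwa [e] at this
  have hMno : ∀ v ∈ Subgroup.normalizer (D₀ : Set G), orderOf v ≠ 2 := by
    intro v hv hv2
    obtain ⟨hvv, hv1⟩ := ord2_iff.mp hv2
    have hvinv : v⁻¹ = v := inv_of_sq hvv
    have hn : ∀ a ∈ D₀, v * a * v ∈ D₀ := by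
      intro a ha
      have := (Subgroup.mem_set_normalizer_iff.mp hv a).mp ha
      rwa [hvinv] at this
    have hf : ∀ a ∈ D₀, v * a = a * v → a = 1 := by
      intro a ha hva
      by_contra ha1
      have haB := N.sub h hz ((hD₀mem a).mp ha).1 ha1
      exact haB.2.1 (h.comm_invol_KT ha1 hv2 hva)
    obtain ⟨r1, -⟩ := fpf_inv D₀ v hvv hn hf
    have hzD : z ∈ D₀ := by
      rw [hD₀mem]
      exact ⟨by rw [mem_cent], by rw [mem_cent]; exact (mem_cent.mp hx1Q).symm⟩
    exact N.noinv z hz v hv2 (r1 z hzD)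
  obtain ⟨-, hcl⟩ := N.claim h hz _ hMno hQN
  haveI := IsPGroup.isNilpotent (hPG hx1B)
  have hHtop : D₀.subgroupOf (Subgroup.centralizer ({(x₁ : G)} : Set G)) < ⊤ := by
    rw [lt_top_iff_ne_top]
    intro e
    rw [Subgroup.subgroupOf_eq_top] at e
    have hle : Subgroup.centralizer ({(x₁ : G)} : Set G) ≤ Subgroup.centralizer ({z} : Set G) :=
      fun a ha => ((hD₀mem a).mp (e ha)).1
    have hcard : Nat.card (Subgroup.centralizer ({z} : Set G)) ≤
        Nat.card (Subgroup.centralizer ({(x₁ : G)} : Set G)) := by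
      have h1 := (N.classes h hz).1
      have h2 := (N.classes h hx1B).1
      omega
    have heq := Subgroup.eq_of_le_of_card_ge hle hcard
    apply hx₁c
    rw [Subgroup.mem_center_iff]
    intro g
    have : (g : G) ∈ Subgroup.centralizer ({(x₁ : G)} : Set G) := by rw [heq]; exact g.2
    exact Subtype.ext (mem_cent.mp this)
  obtain ⟨w, hwN, hwH⟩ := SetLike.exists_of_lt
    (Group.normalizerCondition_of_isNilpotent _ hHtop)
  have hwD : (w : G) ∉ D₀ := fun hh => hwH (Subgroup.mem_subgroupOf.mpr hh)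
  have hw1 : (w : G) ≠ 1 := fun e => hwD (by rw [e]; exact Subgroup.one_mem _)
  have hwB := N.sub h hx1B w.2 hw1
  have hwNG : (w : G) ∈ Subgroup.normalizer (D₀ : Set G) := by
    rw [Subgroup.mem_set_normalizer_iff]
    rw [Subgroup.mem_set_normalizer_iff] at hwN
    intro a
    constructor
    · intro ha
      have := (hwN ⟨a, ((hD₀mem a).mp ha).2⟩).mp (Subgroup.mem_subgroupOf.mpr ha)
      exact Subgroup.mem_subgroupOf.mp this
    · intro ha
      have haQ1 : a ∈ Subgroup.centralizer ({(x₁ : G)} : Set G) := by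
        have h1 : (w : G)⁻¹ * ((w : G) * a * (w : G)⁻¹) * (w : G) ∈
            Subgroup.centralizer ({(x₁ : G)} : Set G) :=
          Subgroup.mul_mem _ (Subgroup.mul_mem _ (Subgroup.inv_mem _ w.2)
            ((hD₀mem _).mp ha).2) w.2
        have e : (w : G)⁻¹ * ((w : G) * a * (w : G)⁻¹) * (w : G) = a := by group
        rwa [e] at h1
      have := (hwN ⟨a, haQ1⟩).mpr (Subgroup.mem_subgroupOf.mpr ha)
      exact Subgroup.mem_subgroupOf.mp this
  exact hwD ((hD₀mem _).mpr ⟨hcl _ hwNG hwB, w.2⟩)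

theorem Neg.ti (N : Neg K X Λ Xi) (h : W t s K) {z : G} (hz : isB K Xi z) {x : G}
    (hx : x ∈ Subgroup.centralizer ({z} : Set G)) (hx1 : x ≠ 1) :
    Subgroup.centralizer ({x} : Set G) = Subgroup.centralizer ({z} : Set G) := by
  have hxB := N.sub h hz hx hx1
  have hle : Subgroup.centralizer ({z} : Set G) ≤ Subgroup.centralizer ({x} : Set G) := by
    intro a ha
    rw [mem_cent]
    exact N.comm h hz a ha x hx
  have hcard : Nat.card (Subgroup.centralizer ({x} : Set G)) ≤
      Nat.card (Subgroup.centralizer ({z} : Set G)) := by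
    have h1 := (N.classes h hz).1
    have h2 := (N.classes h hxB).1
    omega
  exact (Subgroup.eq_of_le_of_card_ge hle hcard).symm

end NegLemmas

end Cfsg.Agent.H54.BSW
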