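import Mathlib
import Cfsg.Agent.H54.BSW10

set_option autoImplicit false
set_option linter.unusedSectionVars false
set_option linter.unusedVariables false
set_option linter.style.haveILetI false
set_option linter.unnecessarySeqFocus false
set_option linter.unusedSimpArgs false

namespace Cfsg.Agent.H54.BSW

open Cfsg Cfsg.Agent.H4
open scoped ComplexConjugate

universe u

variable {G : Type u} [Group G] [Fintype G] {t s : G} {K : Subgroup G}

theorem cent_conj {g z a : G} : a ∈ Subgroup.centralizer ({g * z * g⁻¹} : Set G) ↔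
    g⁻¹ * a * g ∈ Subgroup.centralizer ({z} : Set G) := by
  rw [mem_cent, mem_cent]
  constructor
  · intro e
    calc g⁻¹ * a * g * z = g⁻¹ * (a * (g * z * g⁻¹)) * g := by group
      _ = g⁻¹ * ((g * z * g⁻¹) * a) * g := by rw [e]
      _ = z * (g⁻¹ * a * g) := by group
  · intro e
    calc a * (g * z * g⁻¹) = g * (g⁻¹ * a * g * z) * g⁻¹ := by group
      _ = g * (z * (g⁻¹ * a * g)) * g⁻¹ := by rw [e]
      _ = g * z * g⁻¹ * a := by group

theorem norm_cent_conj {g z n : G}
    (hn : n ∈ Subgroup.normalizer (Subgroup.centralizer ({z} : Set G) : Set G)) :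
    g * n * g⁻¹ ∈ Subgroup.normalizer (Subgroup.centralizer ({g * z * g⁻¹} : Set G) : Set G) := by
  rw [Subgroup.mem_set_normalizer_iff] at hn ⊢
  intro a
  have h1 := hn (g⁻¹ * a * g)
  have e : g⁻¹ * (g * n * g⁻¹ * a * (g * n * g⁻¹)⁻¹) * g = n * (g⁻¹ * a * g) * n⁻¹ := by group
  show a ∈ Subgroup.centralizer ({g * z * g⁻¹} : Set G) ↔
    g * n * g⁻¹ * a * (g * n * g⁻¹)⁻¹ ∈ Subgroup.centralizer ({g * z * g⁻¹} : Set G)
  rw [cent_conj, cent_conj, e]
  exact h1

theorem mem_norm_of_forall {X : Subgroup G} {g : G} (h1 : ∀ a ∈ X, g * a * g⁻¹ ∈ X)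
    (h2 : ∀ a ∈ X, g⁻¹ * a * g ∈ X) : g ∈ Subgroup.normalizer (X : Set G) := by
  rw [Subgroup.mem_set_normalizer_iff]
  intro a
  constructor
  · exact h1 a
  · intro ha
    have := h2 _ ha
    have e : g⁻¹ * (g * a * g⁻¹) * g = a := by group
    rwa [e] at this

theorem mem_norm_of_cent_eq {g y : G}
    (hc : Subgroup.centralizer ({g * y * g⁻¹} : Set G) = Subgroup.centralizer ({y} : Set G)) :
    g ∈ Subgroup.normalizer (Subgroup.centralizer ({y} : Set G) : Set G) := by
  rw [Subgroup.mem_set_normalizer_iff]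
  intro a
  have h1 : g * a * g⁻¹ ∈ Subgroup.centralizer ({g * y * g⁻¹} : Set G) ↔
      a ∈ Subgroup.centralizer ({y} : Set G) := by
    rw [cent_conj]
    have e : g⁻¹ * (g * a * g⁻¹) * g = a := by group
    rw [e]
  rw [hc] at h1
  exact h1.symm

section NegLemmas

variable {X Λ : G → ℂ} {Xi : G → ℤ}

open Classical in
theorem Neg.final (N : Neg K X Λ Xi) (h : W t s K) : Concl G := by
  have hk2 : 2 ≤ Nat.card K := by
    obtain ⟨k', hk'⟩ := h.two_dvd_card
    have : 1 ≤ Nat.card K := Nat.card_pos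
    omega
  have hk2' : (2 : ℤ) ≤ (Nat.card K : ℤ) := by exact_mod_cast hk2
  have hBne : (Finset.univ.filter (fun g => isB K Xi g)).Nonempty := by
    rw [← Finset.card_pos]
    have : (0 : ℤ) < ((Finset.univ.filter (fun g => isB K Xi g)).card : ℤ) := by
      rw [N.Bcard]; exact mul_pos (mul_pos (by norm_num) (by linarith)) (by linarith)
    exact_mod_cast this
  obtain ⟨z, hzm⟩ := hBne
  have hz : isB K Xi z := (Finset.mem_filter.mp hzm).2
  have hz' : isB K Xi (t * z * t⁻¹) := N.isB_conj hz t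
  obtain ⟨z', hz'def⟩ : ∃ z', z' = t * z * t⁻¹ := ⟨_, rfl⟩
  rw [← hz'def] at hz'
  obtain ⟨Q, hQdef⟩ : ∃ Q : Subgroup G, Q = Subgroup.centralizer ({z} : Set G) := ⟨_, rfl⟩
  obtain ⟨Q', hQ'def⟩ : ∃ Q' : Subgroup G, Q' = Subgroup.centralizer ({z'} : Set G) := ⟨_, rfl⟩
  have hzQ : z ∈ Q := by rw [hQdef, mem_cent]
  have hz'Q' : z' ∈ Q' := by rw [hQ'def, mem_cent]
  have hz'1 : z' ≠ 1 := hz'.1
  have hQ : ∀ x ∈ Q, x ≠ 1 → Subgroup.centralizer ({x} : Set G) = Q := by
    intro x hx hx1; rw [hQdef] at hx ⊢; exact N.ti h hz hx hx1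
  have hQ' : ∀ x ∈ Q', x ≠ 1 → Subgroup.centralizer ({x} : Set G) = Q' := by
    intro x hx hx1; rw [hQ'def] at hx ⊢; exact N.ti h hz' hx hx1
  have hQB : ∀ x ∈ Q, x ≠ 1 → isB K Xi x := by
    intro x hx hx1; rw [hQdef] at hx; exact N.sub h hz hx hx1
  have hQ'B : ∀ x ∈ Q', x ≠ 1 → isB K Xi x := by
    intro x hx hx1; rw [hQ'def] at hx; exact N.sub h hz' hx hx1
  have hQcard : (Nat.card Q : ℤ) = 2 * Nat.card K - 1 := by
    rw [hQdef]; exact (N.classes h hz).1
  have hQ'card : (Nat.card Q' : ℤ) = 2 * Nat.card K - 1 := by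
    rw [hQ'def]; exact (N.classes h hz').1
  have hnoinv : ∀ {y : G}, isB K Xi y →
      ∀ v ∈ Subgroup.normalizer (Subgroup.centralizer ({y} : Set G) : Set G), orderOf v ≠ 2 := by
    intro y hy v hv hv2
    obtain ⟨hvv, hv1⟩ := ord2_iff.mp hv2
    have hvinv : v⁻¹ = v := inv_of_sq hvv
    have hn : ∀ a ∈ Subgroup.centralizer ({y} : Set G),
        v * a * v ∈ Subgroup.centralizer ({y} : Set G) := by
      intro a ha
      have := (Subgroup.mem_set_normalizer_iff.mp hv a).mp ha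
      rwa [hvinv] at this
    have hf : ∀ a ∈ Subgroup.centralizer ({y} : Set G), v * a = a * v → a = 1 := by
      intro a ha hva
      by_contra ha1
      exact (N.sub h hy ha ha1).2.1 (h.comm_invol_KT ha1 hv2 hva)
    obtain ⟨r1, -⟩ := fpf_inv _ v hvv hn hf
    exact N.noinv y hy v hv2 (r1 y (by rw [mem_cent]))
  obtain ⟨hnKT, hnB⟩ := N.claim h hz _ (hnoinv hz) Subgroup.le_normalizer
  obtain ⟨hnKT', hnB'⟩ := N.claim h hz' _ (hnoinv hz') Subgroup.le_normalizer
  rw [← hQdef] at hnKT hnB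
  rw [← hQ'def] at hnKT' hnB'
  have hnoinvQ := hnoinv hz
  rw [← hQdef] at hnoinvQ
  have htinv : t⁻¹ = t := h.t_inv
  have hkey : ∀ b, t * b * t⁻¹ ∈ Q' ↔ b ∈ Q := by
    intro b
    rw [hQ'def, hz'def, cent_conj, hQdef]
    have e : t⁻¹ * (t * b * t⁻¹) * t = b := by group
    rw [e]
  have hQQ' : ∀ a, a ∈ Q → a ∈ Q' → a = 1 := by
    intro a haQ haQ'
    by_contra ha1
    have e1 := hQ a haQ ha1
    have e2 := hQ' a haQ' ha1
    have heq : Q = Q' := e1.symm.trans e2
    apply hnoinvQ t _ h.ot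
    rw [Subgroup.mem_set_normalizer_iff]
    intro b
    show b ∈ Q ↔ t * b * t⁻¹ ∈ Q
    rw [← hkey b, heq]
  have hInj : ∀ x ∈ Q, ∀ x' ∈ Q, ∀ w ∈ Q', ∀ w' ∈ Q', w ≠ 1 →
      x * w * x⁻¹ = x' * w' * x'⁻¹ → x = x' := by
    intro x hx x' hx' w hw w' hw' hw1 e
    have hn : (x'⁻¹ * x) * w * (x'⁻¹ * x)⁻¹ = w' := by
      calc (x'⁻¹ * x) * w * (x'⁻¹ * x)⁻¹ = x'⁻¹ * (x * w * x⁻¹) * x' := by group
        _ = x'⁻¹ * (x' * w' * x'⁻¹) * x' := by rw [e]
        _ = w' := by group
    have hnN : x'⁻¹ * x ∈ Subgroup.normalizer (Q' : Set G) :=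
      mem_normalizer_of_conj hQ' hw hw1 hw' hn
    have hnQ : x'⁻¹ * x ∈ Q := Q.mul_mem (Q.inv_mem hx') hx
    have hn1 : x'⁻¹ * x = 1 := by
      by_contra hne
      exact hne (hQQ' _ hnQ (hnB' _ hnN (hQB _ hnQ hne)))
    calc x = x' * (x'⁻¹ * x) := by group
      _ = x' := by rw [hn1, mul_one]
  have hR : ∀ b, isB K Xi b → b ∉ Q → ∃ x ∈ Q, ∃ w ∈ Q', w ≠ 1 ∧ b = x * w * x⁻¹ := by
    have hcardt : ((Finset.univ.filter (fun b => isB K Xi b ∧ b ∉ Q)).card : ℤ) =
        (2 * Nat.card K - 1) * (2 * Nat.card K - 2) := by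
      have e1 := Finset.card_filter_add_card_filter_not
        (s := Finset.univ.filter (fun g => isB K Xi g)) (p := fun g => g ∈ Q)
      rw [Finset.filter_filter, Finset.filter_filter] at e1
      have e2 : Finset.univ.filter (fun g => isB K Xi g ∧ g ∈ Q) =
          Finset.univ.filter (fun a => a ∈ Q ∧ a ≠ 1) := by
        ext g
        simp only [Finset.mem_filter, Finset.mem_univ, true_and]
        exact ⟨fun hh => ⟨hh.2, hh.1.1⟩, fun hh => ⟨hQB g hh.1 hh.2, hh.1⟩⟩
      rw [e2, card_sharp] at e1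
      have hpos : 1 ≤ Nat.card Q := Nat.card_pos
      have e3 : ((Nat.card Q - 1 : ℕ) : ℤ) +
          ((Finset.univ.filter (fun b => isB K Xi b ∧ b ∉ Q)).card : ℤ) =
          4 * Nat.card K * (Nat.card K - 1) := by
        rw [← N.Bcard]; exact_mod_cast e1
      rw [Nat.cast_sub hpos, hQcard] at e3
      push_cast at e3
      linear_combination e3
    have hcards : (((Finset.univ.filter (fun x => x ∈ Q)) ×ˢ
        (Finset.univ.filter (fun w => w ∈ Q' ∧ w ≠ 1))).card : ℤ) =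
        (2 * Nat.card K - 1) * (2 * Nat.card K - 2) := by
      rw [Finset.card_product, card_filter_mem, card_sharp]
      have hpos : 1 ≤ Nat.card Q' := Nat.card_pos
      push_cast [Nat.cast_sub hpos]
      rw [hQcard, hQ'card]; ring
    have hsurj := Finset.surj_on_of_inj_on_of_card_le
      (s := (Finset.univ.filter (fun x => x ∈ Q)) ×ˢ
        (Finset.univ.filter (fun w => w ∈ Q' ∧ w ≠ 1)))
      (t := Finset.univ.filter (fun b => isB K Xi b ∧ b ∉ Q))
      (fun p _ => p.1 * p.2 * p.1⁻¹)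
      (by
        intro p hp
        simp only [Finset.mem_product, Finset.mem_filter, Finset.mem_univ, true_and] at hp ⊢
        obtain ⟨hp1, hp2, hp21⟩ := hp
        refine ⟨N.isB_conj (hQ'B _ hp2 hp21) _, fun hh => hp21 (hQQ' _ ?_ hp2)⟩
        have : p.2 = p.1⁻¹ * (p.1 * p.2 * p.1⁻¹) * p.1 := by group
        rw [this]; exact Q.mul_mem (Q.mul_mem (Q.inv_mem hp1) hh) hp1)
      (by
        intro p p' hp hp' e
        simp only [Finset.mem_product, Finset.mem_filter, Finset.mem_univ, true_and] at hp hp'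
        have e' : p.1 * p.2 * p.1⁻¹ = p'.1 * p'.2 * p'.1⁻¹ := e
        have e1 : p.1 = p'.1 := hInj _ hp.1 _ hp'.1 _ hp.2.1 _ hp'.2.1 hp.2.2 e'
        have e2 : p.2 = p'.2 := by
          have a1 : p.2 = p.1⁻¹ * (p.1 * p.2 * p.1⁻¹) * p.1 := by group
          have a2 : p'.2 = p'.1⁻¹ * (p'.1 * p'.2 * p'.1⁻¹) * p'.1 := by group
          rw [a1, a2, e', e1]
        exact Prod.ext e1 e2)
      (by
        have : ((Finset.univ.filter (fun b => isB K Xi b ∧ b ∉ Q)).card : ℤ) ≤
            (((Finset.univ.filter (fun x => x ∈ Q)) ×ˢ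
              (Finset.univ.filter (fun w => w ∈ Q' ∧ w ≠ 1))).card : ℤ) := by
          rw [hcardt, hcards]
        exact_mod_cast this)
    intro b hb hbQ
    obtain ⟨p, hp, hbp⟩ := hsurj b (by
      rw [Finset.mem_filter]; exact ⟨Finset.mem_univ _, hb, hbQ⟩)
    simp only [Finset.mem_product, Finset.mem_filter, Finset.mem_univ, true_and] at hp
    exact ⟨p.1, hp.1, p.2, hp.2.1, hp.2.2, hbp⟩
  obtain ⟨D, hDdef⟩ : ∃ D : Subgroup G, D = Subgroup.normalizer (Q : Set G) ⊓
      Subgroup.normalizer (Q' : Set G) := ⟨_, rfl⟩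
  have hDmem : ∀ d, d ∈ D ↔ d ∈ Subgroup.normalizer (Q : Set G) ∧
      d ∈ Subgroup.normalizer (Q' : Set G) := by
    intro d; rw [hDdef, Subgroup.mem_inf]
  have hDA : ∀ d ∈ D, d ≠ 1 → ¬ inKT K d ∧ ¬ isB K Xi d ∧ Xi d = 1 := by
    intro d hd hd1
    rw [hDmem] at hd
    have h1 := hnKT d hd.1
    have h2 : ¬ isB K Xi d := fun hB => hd1 (hQQ' d (hnB d hd.1 hB) (hnB' d hd.2 hB))
    refine ⟨h1, h2, ?_⟩
    rcases N.val d hd1 h1 with e | e
    · exact absurd ⟨hd1, h1, e⟩ h2
    · exact e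
  have hDodd : Odd (Nat.card D) :=
    no_invol_odd D (fun v hv => hnoinvQ v ((hDmem v).mp hv).1)
  obtain ⟨j, hj⟩ : ∃ j, Nat.card K = j + 2 := ⟨Nat.card K - 2, by omega⟩
  have hDn : Nat.card D ≤ j + 1 := by
    have hdvd := card_dvd_of_const N.hXchar N.hX D 1 (fun a ha ha1 => (hDA a ha ha1).2.2)
    rw [N.one] at hdvd
    have hdvd2 : Nat.card D ∣ 2 * (j + 1) := by
      have : (Nat.card D : ℤ) ∣ ((2 * (j + 1) : ℕ) : ℤ) := by
        have e : ((2 * (j + 1) : ℕ) : ℤ) = 2 * (Nat.card K : ℤ) - 1 - 1 := by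
          rw [hj]; push_cast; ring
        rw [e]; exact hdvd
      exact_mod_cast this
    have hcop : Nat.Coprime (Nat.card D) 2 := Nat.Coprime.symm (Nat.coprime_two_left.mpr hDodd)
    have hdvd3 := hcop.dvd_of_dvd_mul_left hdvd2
    exact Nat.le_of_dvd (by omega) hdvd3
  have hQD : ∀ n ∈ Subgroup.normalizer (Q : Set G), ∃ x ∈ Q, ∃ d ∈ D, n = x * d := by
    intro n hn
    have hb : isB K Xi (n * z' * n⁻¹) := N.isB_conj hz' n
    have hbQ : n * z' * n⁻¹ ∉ Q := by
      intro hh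
      apply hz'1
      apply hQQ' z' _ hz'Q'
      have := (Subgroup.mem_set_normalizer_iff.mp (Subgroup.inv_mem _ hn) (n * z' * n⁻¹)).mp hh
      have e : n⁻¹ * (n * z' * n⁻¹) * n⁻¹⁻¹ = z' := by group
      rwa [e] at this
    obtain ⟨x, hx, w, hw, hw1, e⟩ := hR _ hb hbQ
    refine ⟨x, hx, x⁻¹ * n, ?_, by group⟩
    rw [hDmem]
    constructor
    · exact Subgroup.mul_mem _ (Subgroup.inv_mem _ (Subgroup.le_normalizer hx)) hn
    · apply mem_normalizer_of_conj hQ' hz'Q' hz'1 hw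
      calc x⁻¹ * n * z' * (x⁻¹ * n)⁻¹ = x⁻¹ * (n * z' * n⁻¹) * x := by group
        _ = x⁻¹ * (x * w * x⁻¹) * x := by rw [e]
        _ = w := by group
  have hNle : Nat.card (Subgroup.normalizer (Q : Set G)) ≤ Nat.card Q * Nat.card D := by
    rw [← card_filter_mem (Subgroup.normalizer (Q : Set G)), ← card_filter_mem Q,
      ← card_filter_mem D, ← Finset.card_product]
    have hsubset : Finset.univ.filter (fun n => n ∈ Subgroup.normalizer (Q : Set G)) ⊆
        ((Finset.univ.filter (fun x => x ∈ Q)) ×ˢ (Finset.univ.filter (fun d => d ∈ D))).image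
          (fun p => p.1 * p.2) := by
      intro n hn
      rw [Finset.mem_filter] at hn
      obtain ⟨x, hx, d, hd, e⟩ := hQD n hn.2
      rw [Finset.mem_image]
      refine ⟨(x, d), ?_, e.symm⟩
      rw [Finset.mem_product, Finset.mem_filter, Finset.mem_filter]
      exact ⟨⟨Finset.mem_univ _, hx⟩, ⟨Finset.mem_univ _, hd⟩⟩
    exact (Finset.card_le_card hsubset).trans Finset.card_image_le
  have hNge := card_le_normalizer hQ (Finset.univ.filter (fun g => isB K Xi g))
    (fun x hx hx1 g => by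
      rw [Finset.mem_filter]; exact ⟨Finset.mem_univ _, N.isB_conj (hQB x hx hx1) g⟩)
  have hQn : Nat.card Q = 2 * j + 3 := by omega
  have hmn : Nat.card {x : G // orderOf x = 2} = (2 * j + 3) * (j + 1) := by
    have := N.hm
    rw [hj] at this
    have e : (Nat.card {x : G // orderOf x = 2} : ℤ) = (((2 * j + 3) * (j + 1) : ℕ) : ℤ) := by
      rw [this]; push_cast; ring
    exact_mod_cast e
  have hGn : Nat.card G = (2 * j + 3) * (j + 1) * (2 * (j + 2)) := by
    rw [← h.card_invol, hmn, hj]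
  have hBn : (Finset.univ.filter (fun g => isB K Xi g)).card = 4 * (j + 2) * (j + 1) := by
    have := N.Bcard
    rw [hj] at this
    have e : ((Finset.univ.filter (fun g => isB K Xi g)).card : ℤ) =
        ((4 * (j + 2) * (j + 1) : ℕ) : ℤ) := by
      rw [this]; push_cast; ring
    exact_mod_cast e
  rw [hGn, hQn, hBn] at hNge
  rw [hQn] at hNle
  have hN1 : (2 * j + 3) * (j + 1) ≤ Nat.card (Subgroup.normalizer (Q : Set G)) := by
    have : (2 * j + 3) * (j + 1) * (4 * (j + 2) * (j + 1)) ≤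
        Nat.card (Subgroup.normalizer (Q : Set G)) * (4 * (j + 2) * (j + 1)) := by
      calc (2 * j + 3) * (j + 1) * (4 * (j + 2) * (j + 1))
          = (2 * j + 3) * (j + 1) * (2 * (j + 2)) * (2 * j + 3 - 1) := by
            have : 2 * j + 3 - 1 = 2 * (j + 1) := by omega
            rw [this]; ring
        _ ≤ _ := hNge
    exact Nat.le_of_mul_le_mul_right this (by positivity)
  have hDeq : Nat.card D = j + 1 := by
    apply le_antisymm hDn
    have : (2 * j + 3) * (j + 1) ≤ (2 * j + 3) * Nat.card D := hN1.trans hNle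
    exact Nat.le_of_mul_le_mul_left this (by omega)
  have hNeq : Nat.card (Subgroup.normalizer (Q : Set G)) = (2 * j + 3) * (j + 1) := by
    apply le_antisymm _ hN1
    rw [hDeq] at hNle; exact hNle
  have hQD0 : Q ⊓ D = ⊥ := by
    rw [eq_bot_iff]
    intro x hx
    rw [Subgroup.mem_inf] at hx
    rw [Subgroup.mem_bot]
    by_contra hx1
    exact (hDA x hx.2 hx1).2.1 (hQB x hx.1 hx1)
  have hDN : D ≤ Subgroup.normalizer (Q : Set G) := fun d hd => ((hDmem d).mp hd).1
  have hcop : Nat.Coprime (Nat.card Q) (Nat.card D) := by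
    rw [hQn, hDeq]
    exact Nat.isCoprime_iff_coprime.mp ⟨1, -2, by push_cast; ring⟩
  have hNsup := normalizer_eq_sup hDN hcop (by rw [hNeq, hQn, hDeq])
  have htN : ∀ d, d ∈ Subgroup.normalizer (Q : Set G) →
      t * d * t⁻¹ ∈ Subgroup.normalizer (Q' : Set G) := by
    intro d hd
    rw [hQdef] at hd
    have := norm_cent_conj (g := t) hd
    rw [← hz'def, ← hQ'def] at this
    exact this
  have hz_eq : t * z' * t⁻¹ = z := by
    rw [hz'def]
    calc t * (t * z * t⁻¹) * t⁻¹ = (t * t) * z * (t * t)⁻¹ := by group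
      _ = z := by rw [h.tt]; group
  have htN' : ∀ d, d ∈ Subgroup.normalizer (Q' : Set G) →
      t * d * t⁻¹ ∈ Subgroup.normalizer (Q : Set G) := by
    intro d hd
    rw [hQ'def] at hd
    have := norm_cent_conj (g := t) hd
    rw [hz_eq, ← hQdef] at this
    exact this
  have htD : ∀ d ∈ D, t * d * t ∈ D := by
    intro d hd
    rw [hDmem] at hd ⊢
    have h1 := htN d hd.1
    have h2 := htN' d hd.2
    rw [htinv] at h1 h2
    exact ⟨h2, h1⟩
  have hf : ∀ d ∈ D, t * d = d * t → d = 1 := by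
    intro d hd htd
    by_contra hd1
    exact (hDA d hd hd1).1 (h.comm_invol_KT hd1 h.ot htd)
  obtain ⟨hDinv, hDcomm⟩ := fpf_inv D t h.tt htD hf
  have hDcent : ∀ d ∈ D, d ≠ 1 → Subgroup.centralizer ({d} : Set G) = D := by
    intro d hd hd1
    obtain ⟨a1, a2, a3⟩ := hDA d hd hd1
    have hc := (N.A1 d hd1 a1 a3).2
    have hle : D ≤ Subgroup.centralizer ({d} : Set G) :=
      fun a ha => mem_cent.mpr (hDcomm a ha d hd)
    exact (Subgroup.eq_of_le_of_card_ge hle (by omega)).symm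
  have htND : t ∈ Subgroup.normalizer (D : Set G) := by
    apply mem_norm_of_forall
    · intro a ha; rw [htinv]; exact htD a ha
    · intro a ha; rw [htinv]; exact htD a ha
  have hFix : ∀ d ∈ D, d ≠ 1 → ∀ b, isB K Xi b →
      d ∈ Subgroup.normalizer (Subgroup.centralizer ({b} : Set G) : Set G) →
      Subgroup.centralizer ({b} : Set G) = Q ∨ Subgroup.centralizer ({b} : Set G) = Q' := by
    intro d hd hd1 b hb hdb
    by_cases hbQ : b ∈ Q
    · left; exact hQ b hbQ hb.1
    · right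
      obtain ⟨x, hx, w, hw, hw1, e⟩ := hR b hb hbQ
      have hdN := (hDmem d).mp hd
      have hb2 : d * b * d⁻¹ ∈ Subgroup.centralizer ({b} : Set G) :=
        (Subgroup.mem_set_normalizer_iff.mp hdb b).mp (by
          show b ∈ Subgroup.centralizer ({b} : Set G)
          rw [mem_cent])
      have hb2comm : (d * b * d⁻¹) * b = b * (d * b * d⁻¹) := mem_cent.mp hb2
      have hw2 : x⁻¹ * (d * b * d⁻¹) * x ∈ Q' := by
        rw [← hQ' w hw hw1, mem_cent]
        have ew : w = x⁻¹ * b * x := by rw [e]; group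
        rw [ew]
        calc x⁻¹ * (d * b * d⁻¹) * x * (x⁻¹ * b * x) = x⁻¹ * ((d * b * d⁻¹) * b) * x := by group
          _ = x⁻¹ * (b * (d * b * d⁻¹)) * x := by rw [hb2comm]
          _ = x⁻¹ * b * x * (x⁻¹ * (d * b * d⁻¹) * x) := by group
      have hdx : d * x * d⁻¹ ∈ Q := (Subgroup.mem_set_normalizer_iff.mp hdN.1 x).mp hx
      have hdw : d * w * d⁻¹ ∈ Q' := (Subgroup.mem_set_normalizer_iff.mp hdN.2 w).mp hw
      have hdw1 : d * w * d⁻¹ ≠ 1 := by
        intro e1; apply hw1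
        have : w = d⁻¹ * (d * w * d⁻¹) * d := by group
        rw [this, e1]; group
      have heq : (d * x * d⁻¹) * (d * w * d⁻¹) * (d * x * d⁻¹)⁻¹ =
          x * (x⁻¹ * (d * b * d⁻¹) * x) * x⁻¹ := by
        rw [e]; group
      have hxx := hInj _ hdx _ hx _ hdw _ hw2 hdw1 heq
      have hx1 : x = 1 := by
        by_contra hx1
        have hdC : d ∈ Subgroup.centralizer ({x} : Set G) := by
          rw [mem_cent]
          calc d * x = (d * x * d⁻¹) * d := by group
            _ = x * d := by rw [hxx]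
        rw [hQ x hx hx1] at hdC
        exact (hDA d hd hd1).2.1 (hQB d hdC hd1)
      have hbw : b = w := by rw [e, hx1]; group
      rw [hbw]; exact hQ' w hw hw1
  have hDconj : ∀ g ∈ Subgroup.normalizer (D : Set G), ∀ d ∈ D, g⁻¹ * d * g ∈ D := by
    intro g hg d hd
    have := (Subgroup.mem_set_normalizer_iff.mp (Subgroup.inv_mem _ hg) d).mp hd
    rwa [inv_inv] at this
  have hnormb : ∀ g ∈ Subgroup.normalizer (D : Set G), ∀ d ∈ D,
      d ∈ Subgroup.normalizer (Subgroup.centralizer ({g * z * g⁻¹} : Set G) : Set G) ∧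
      d ∈ Subgroup.normalizer (Subgroup.centralizer ({g * z' * g⁻¹} : Set G) : Set G) := by
    intro g hg d hd
    have hd' := (hDmem _).mp (hDconj g hg d hd)
    have e : g * (g⁻¹ * d * g) * g⁻¹ = d := by group
    constructor
    · have h1 := hd'.1
      rw [hQdef] at h1
      have := norm_cent_conj (g := g) h1
      rwa [e] at this
    · have h1 := hd'.2
      rw [hQ'def] at h1
      have := norm_cent_conj (g := g) h1
      rwa [e] at this
  have hcase1 : ∀ g ∈ Subgroup.normalizer (D : Set G), (∃ d ∈ D, d ≠ 1) →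
      Subgroup.centralizer ({g * z * g⁻¹} : Set G) = Q → g ∈ D := by
    intro g hg ⟨d, hd, hd1⟩ hc
    have hgNQ : g ∈ Subgroup.normalizer (Q : Set G) := by
      rw [hQdef] at hc ⊢
      exact mem_norm_of_cent_eq hc
    rcases hFix d hd hd1 _ (N.isB_conj hz' g) (hnormb g hg d hd).2 with e | e
    · exfalso
      have h1 : g * z' * g⁻¹ ∈ Q := by rw [← e, mem_cent]
      have h2 := (Subgroup.mem_set_normalizer_iff.mp (Subgroup.inv_mem _ hgNQ) _).mp h1
      have e2 : g⁻¹ * (g * z' * g⁻¹) * g⁻¹⁻¹ = z' := by group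
      rw [e2] at h2
      exact hz'1 (hQQ' z' h2 hz'Q')
    · rw [hDmem]
      refine ⟨hgNQ, ?_⟩
      rw [hQ'def] at e ⊢
      exact mem_norm_of_cent_eq e
  have hND : (∃ d ∈ D, d ≠ 1) → Subgroup.normalizer (D : Set G) ≤ D ⊔ Subgroup.zpowers t := by
    intro hex g hg
    obtain ⟨d, hd, hd1⟩ := hex
    rcases hFix d hd hd1 _ (N.isB_conj hz g) (hnormb g hg d hd).1 with e | e
    · exact Subgroup.mem_sup_left (hcase1 g hg ⟨d, hd, hd1⟩ e)
    · have hg' : t⁻¹ * g ∈ Subgroup.normalizer (D : Set G) :=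
        Subgroup.mul_mem _ (Subgroup.inv_mem _ htND) hg
      have hc' : Subgroup.centralizer ({(t⁻¹ * g) * z * (t⁻¹ * g)⁻¹} : Set G) = Q := by
        ext a
        have e1 : (t⁻¹ * g) * z * (t⁻¹ * g)⁻¹ = t⁻¹ * (g * z * g⁻¹) * t⁻¹⁻¹ := by group
        rw [e1, cent_conj, e, inv_inv]
        exact hkey a
      have hmem := hcase1 _ hg' ⟨d, hd, hd1⟩ hc'
      have e3 : g = t * (t⁻¹ * g) := by group
      rw [e3]
      exact Subgroup.mul_mem _ (Subgroup.mem_sup_right (Subgroup.mem_zpowers t))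
        (Subgroup.mem_sup_left hmem)
  refine ⟨Q, D, ?_, hQ, ⟨⟨fun a b => Subtype.ext (hDcomm a a.2 b b.2)⟩⟩, ?_, hQD0, hNsup, ?_⟩
  · rw [hGn, hQn]
    have : 2 * j + 3 - 1 = 2 * (j + 1) := by omega
    rw [this]; ring
  · rw [hDeq, hQn]; ring
  · intro Y hY hY1
    obtain ⟨x, hx1⟩ := Subgroup.ne_bot_iff_exists_ne_one.mp hY1
    have hx1' : (x : G) ≠ 1 := fun e => hx1 (Subtype.ext e)
    have hex : ∃ d ∈ D, d ≠ 1 := ⟨x, hY x.2, hx1'⟩
    have hNDeq : Subgroup.normalizer (D : Set G) = D ⊔ Subgroup.zpowers t := by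
      apply le_antisymm (hND hex)
      apply sup_le Subgroup.le_normalizer
      rw [Subgroup.zpowers_le]; exact htND
    refine ⟨?_, t, h.ot, ?_, ?_, hNDeq⟩
    · apply le_antisymm
      · intro g hg
        have h1 : g * x * g⁻¹ ∈ Y := (Subgroup.mem_set_normalizer_iff.mp hg x).mp x.2
        exact mem_normalizer_of_conj hDcent (hY x.2) hx1' (hY h1) rfl
      · rw [hNDeq]
        apply sup_le
        · intro d hd
          apply mem_norm_of_forall
          · intro a ha
            have : d * a * d⁻¹ = a := by rw [hDcomm d hd a (hY ha)]; group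
            rw [this]; exact ha
          · intro a ha
            have : d⁻¹ * a * d = a := by rw [mul_assoc, hDcomm a (hY ha) d hd]; group
            rw [this]; exact ha
        · rw [Subgroup.zpowers_le]
          apply mem_norm_of_forall
          · intro a ha
            rw [htinv, hDinv a (hY ha)]; exact Y.inv_mem ha
          · intro a ha
            rw [htinv, hDinv a (hY ha)]; exact Y.inv_mem ha
    · intro htD'
      exact (hDA t htD' h.t1).1 (h.invol_KT h.ot)
    · intro d hd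
      rw [htinv]; exact hDinv d hd

end NegLemmas

theorem W.end_minus (h : W t s K) {X Λ : G → ℂ} (D : Data K (-1) X Λ) : Concl G := by
  obtain ⟨Xi, N⟩ := h.exists_neg D
  exact N.final h

end Cfsg.Agent.H54.BSW
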