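import Mathlib
import Cfsg.Agent.H54.BSW11
import Cfsg.Agent.H60.V4Count

set_option autoImplicit false
set_option linter.unusedSectionVars false
set_option linter.unusedVariables false
set_option linter.style.haveILetI false
set_option linter.unnecessarySeqFocus false
set_option linter.unusedSimpArgs false

namespace Cfsg.Agent.H54.BSW

open Cfsg

universe u

variable {G : Type u} [Group G] [Fintype G] {t s : G} {K : Subgroup G}

theorem W.v4hyp (h : W t s K) (hk : Nat.card K = 2) : Cfsg.Agent.H60.V4Hyp G := by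
  have key : ∀ u : G, u ≠ 1 → u * u = 1 →
      ∃ c, W u (c * s * c⁻¹) (K.map (MulAut.conj c).toMonoidHom) := by
    intro u hu1 huu
    obtain ⟨c, hc⟩ := h.exists_conj_t (ord2_iff.mpr ⟨huu, hu1⟩)
    refine ⟨c, ?_⟩
    rw [hc]; exact h.conj' c
  have hKc : ∀ c : G, Nat.card (K.map (MulAut.conj c).toMonoidHom) = 2 := by
    intro c; rw [Subgroup.card_map_of_injective (MulAut.conj c).injective, hk]
  refine ⟨?_, ?_, ?_⟩
  · intro u hu1 huu
    obtain ⟨c, h'⟩ := key u hu1 huu
    rw [h'.card_cent, hKc]
  · intro u hu1 huu c hc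
    obtain ⟨c', h'⟩ := key u hu1 huu
    rcases (h'.cent c).mp hc.symm with hK | hK
    · have h2 : ((⟨c, hK⟩ : K.map (MulAut.conj c').toMonoidHom) ^
          Nat.card (K.map (MulAut.conj c').toMonoidHom)) = 1 := pow_card_eq_one'
      rw [hKc] at h2
      have h3 : c ^ 2 = 1 := by
        have e : c ^ 2 = ((⟨c, hK⟩ : K.map (MulAut.conj c').toMonoidHom) ^ 2 :
            K.map (MulAut.conj c').toMonoidHom).1 := by
          rw [Subgroup.coe_pow]
        rw [e, h2]; rfl
      rw [pow_two] at h3
      exact h3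
    · exact (ord2_iff.mp (h'.sK_ord hK)).1
  · intro u v hu1 huu hv1 hvv
    exact isConj_iff.mp (h.conj u v (ord2_iff.mpr ⟨huu, hu1⟩) (ord2_iff.mpr ⟨hvv, hv1⟩))

theorem W.case_two (h : W t s K) (hk : Nat.card K = 2) : Concl G := by
  classical
  have H := h.v4hyp hk
  have hG := Cfsg.Agent.H60.card_invs H t h.t1 h.tt
  have hinKT : ∀ x, inKT K x → x * x = 1 := by
    rintro x ⟨hx1, c, hc⟩
    have h2 : ((⟨c⁻¹ * x * c, hc⟩ : K) ^ Nat.card K) = 1 := pow_card_eq_one'
    rw [hk] at h2
    have h3 : (c⁻¹ * x * c) ^ 2 = 1 := by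
      have e : (c⁻¹ * x * c) ^ 2 = ((⟨c⁻¹ * x * c, hc⟩ : K) ^ 2 : K).1 := by
        rw [Subgroup.coe_pow]
      rw [e, h2]; rfl
    rw [pow_two] at h3
    calc x * x = c * ((c⁻¹ * x * c) * (c⁻¹ * x * c)) * c⁻¹ := by group
      _ = 1 := by rw [h3]; group
  have hdiv12 : Nat.divisors 12 = {1, 2, 3, 4, 6, 12} := by decide
  have hdiv60 : Nat.divisors 60 = {1, 2, 3, 4, 5, 6, 10, 12, 15, 20, 30, 60} := by decide
  rcases Cfsg.Agent.H60.card_invs_eq_three_or_fifteen H t h.t1 h.tt with h3 | h15
  · -- three involutions: order 12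
    have hcardG : Fintype.card G = 12 := by rw [← hG, h3]
    have hcardG' : Nat.card G = 12 := by rw [Nat.card_eq_fintype_card, hcardG]
    have hcomm : ∀ v w : G, orderOf v = 2 → orderOf w = 2 → v * w = w * v := by
      intro v w hv hw
      have hvI : v ∈ Cfsg.Agent.H60.invs G :=
        Cfsg.Agent.H60.mem_invs.mpr ⟨(ord2_iff.mp hv).2, (ord2_iff.mp hv).1⟩
      have hwI : w ∈ Cfsg.Agent.H60.invs G :=
        Cfsg.Agent.H60.mem_invs.mpr ⟨(ord2_iff.mp hw).2, (ord2_iff.mp hw).1⟩
      have hsub : (Cfsg.Agent.H60.invs G).filter (fun w => v * w = w * v) =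
          Cfsg.Agent.H60.invs G :=
        Finset.eq_of_subset_of_card_le (Finset.filter_subset _ _)
          (by rw [Cfsg.Agent.H60.card_comm_invs H v hvI, h3])
      rw [← hsub, Finset.mem_filter] at hwI
      exact hwI.2
    have hex : ∃ x : G, x ≠ 1 ∧ x * x ≠ 1 := by
      by_contra hcon
      push Not at hcon
      have e : (Cfsg.Agent.H60.invs G) = Finset.univ.erase 1 := by
        ext x
        rw [Cfsg.Agent.H60.mem_invs, Finset.mem_erase]
        exact ⟨fun hh => ⟨hh.1, Finset.mem_univ _⟩, fun hh => ⟨hh.1, hcon x hh.1⟩⟩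
      rw [e, Finset.card_erase_of_mem (Finset.mem_univ _), Finset.card_univ, hcardG] at h3
      omega
    obtain ⟨x, hx1, hxx⟩ := hex
    have hC3 : ∀ y : G, y ≠ 1 → y * y ≠ 1 →
        ¬ inKT K y ∧ Nat.card (Subgroup.centralizer ({y} : Set G)) = 3 := by
      intro y hy1 hyy
      have hyK : ¬ inKT K y := fun hK => hyy (hinKT y hK)
      refine ⟨hyK, ?_⟩
      have hodd := h.cent_odd hy1 hyK
      have hdvd : Nat.card (Subgroup.centralizer ({y} : Set G)) ∣ 12 := by
        rw [← hcardG']; exact Subgroup.card_subgroup_dvd_card _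
      have hne1 : Nat.card (Subgroup.centralizer ({y} : Set G)) ≠ 1 := by
        intro e
        have hb := Subgroup.card_eq_one.mp e
        have hy : y ∈ Subgroup.centralizer ({y} : Set G) := by rw [mem_cent]
        rw [hb, Subgroup.mem_bot] at hy
        exact hy1 hy
      have hmem : Nat.card (Subgroup.centralizer ({y} : Set G)) ∈ Nat.divisors 12 :=
        Nat.mem_divisors.mpr ⟨hdvd, by norm_num⟩
      rw [hdiv12] at hmem
      simp only [Finset.mem_insert, Finset.mem_singleton] at hmem
      obtain ⟨j, hj⟩ := hodd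
      omega
    obtain ⟨hxK, hQ3⟩ := hC3 x hx1 hxx
    have hQsq : ∀ y ∈ Subgroup.centralizer ({x} : Set G), y ≠ 1 → y * y ≠ 1 := by
      intro y hy hy1 hyy
      exact hxK (h.comm_invol_KT hx1 (ord2_iff.mpr ⟨hyy, hy1⟩) (mem_cent.mp hy))
    have hQcomm : ∀ a ∈ Subgroup.centralizer ({x} : Set G),
        ∀ b ∈ Subgroup.centralizer ({x} : Set G), a * b = b * a := by
      haveI : Fact (Nat.Prime 3) := ⟨Nat.prime_three⟩
      haveI := isCyclic_of_prime_card (α := Subgroup.centralizer ({x} : Set G)) (p := 3) hQ3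
      intro a ha b hb
      have := (IsCyclic.commGroup (α := Subgroup.centralizer ({x} : Set G))).mul_comm
        ⟨a, ha⟩ ⟨b, hb⟩
      exact congrArg Subtype.val this
    have hQcent : ∀ y ∈ Subgroup.centralizer ({x} : Set G), y ≠ 1 →
        Subgroup.centralizer ({y} : Set G) = Subgroup.centralizer ({x} : Set G) := by
      intro y hy hy1
      have h3y := (hC3 y hy1 (hQsq y hy hy1)).2
      have hle : Subgroup.centralizer ({x} : Set G) ≤ Subgroup.centralizer ({y} : Set G) :=
        fun a ha => mem_cent.mpr (hQcomm a ha y hy)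
      exact (Subgroup.eq_of_le_of_card_ge hle (by rw [h3y, hQ3])).symm
    have hNno : ∀ v ∈ Subgroup.normalizer (Subgroup.centralizer ({x} : Set G) : Set G),
        orderOf v ≠ 2 := by
      intro v hv hv2
      obtain ⟨hvv, hv1⟩ := ord2_iff.mp hv2
      have hvinv : v⁻¹ = v := inv_of_sq hvv
      have hn : ∀ a ∈ Subgroup.centralizer ({x} : Set G),
          v * a * v ∈ Subgroup.centralizer ({x} : Set G) := by
        intro a ha
        have := (Subgroup.mem_set_normalizer_iff.mp hv a).mp ha
        rwa [hvinv] at this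
      have hf : ∀ a ∈ Subgroup.centralizer ({x} : Set G), v * a = a * v → a = 1 := by
        intro a ha hva
        by_contra ha1
        exact (hC3 a ha1 (hQsq a ha ha1)).1 (h.comm_invol_KT ha1 hv2 hva)
      obtain ⟨r1, -⟩ := fpf_inv _ v hvv hn hf
      have hvx := r1 x (by rw [mem_cent])
      have hw : orderOf (v * x) = 2 := by
        rw [ord2_iff]
        constructor
        · calc v * x * (v * x) = (v * x * v) * x := by group
            _ = 1 := by rw [hvx, inv_mul_cancel]
        · intro e
          have e' : x = v⁻¹ := eq_inv_of_mul_eq_one_right e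
          apply hxx; rw [e', hvinv, hvv]
      have hc := hcomm v (v * x) hv2 hw
      apply hxx
      have e1 : x = v * x * v := by
        calc x = (v * v) * x := by rw [hvv, one_mul]
          _ = v * (v * x) := by group
          _ = v * x * v := hc
      calc x * x = (v * x * v) * x := by rw [← e1]
        _ = 1 := by rw [hvx, inv_mul_cancel]
    have hNodd := no_invol_odd _ hNno
    have hN3 : Nat.card (Subgroup.normalizer (Subgroup.centralizer ({x} : Set G) : Set G)) = 3 := by
      have hdvd : Nat.card (Subgroup.normalizer (Subgroup.centralizer ({x} : Set G) : Set G)) ∣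
          12 := by
        rw [← hcardG']; exact Subgroup.card_subgroup_dvd_card _
      have hge : 3 ≤ Nat.card
          (Subgroup.normalizer (Subgroup.centralizer ({x} : Set G) : Set G)) := by
        rw [← hQ3]
        exact Nat.le_of_dvd Nat.card_pos (Subgroup.card_dvd_of_le Subgroup.le_normalizer)
      have hmem : Nat.card (Subgroup.normalizer (Subgroup.centralizer ({x} : Set G) : Set G)) ∈
          Nat.divisors 12 := Nat.mem_divisors.mpr ⟨hdvd, by norm_num⟩
      rw [hdiv12] at hmem
      simp only [Finset.mem_insert, Finset.mem_singleton] at hmem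
      obtain ⟨j, hj⟩ := hNodd
      omega
    have hNQ : Subgroup.normalizer (Subgroup.centralizer ({x} : Set G) : Set G) =
        Subgroup.centralizer ({x} : Set G) :=
      (Subgroup.eq_of_le_of_card_ge Subgroup.le_normalizer (by rw [hN3, hQ3])).symm
    refine ⟨Subgroup.centralizer ({x} : Set G), ⊥, ?_, hQcent, ?_, ?_, ?_, ?_, ?_⟩
    · rw [hcardG', hQ3]
    · exact ⟨⟨fun a b => Subsingleton.elim _ _⟩⟩
    · rw [Subgroup.card_bot, hQ3]
    · exact inf_bot_eq _
    · rw [hNQ, sup_bot_eq]
    · intro Y hY hY1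
      exact absurd (le_bot_iff.mp hY) hY1
  · -- fifteen involutions: order 60
    have hcardG : Fintype.card G = 60 := by rw [← hG, h15]
    have hsum := Cfsg.Agent.H60.sum_cent H
    rw [h15] at hsum
    have hcent : ∀ d ∈ Cfsg.Agent.H60.srs G,
        (Cfsg.Agent.H60.cent d).card = 3 ∨ (Cfsg.Agent.H60.cent d).card = 5 := by
      intro d hd
      have hodd := Cfsg.Agent.H60.cent_odd H d hd
      have hdvd : (Cfsg.Agent.H60.cent d).card ∣ 60 := by
        rw [Cfsg.Agent.H60.card_cent, ← hcardG, ← Nat.card_eq_fintype_card]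
        exact Subgroup.card_subgroup_dvd_card _
      have hmem : (Cfsg.Agent.H60.cent d).card ∈ Nat.divisors 60 :=
        Nat.mem_divisors.mpr ⟨hdvd, by norm_num⟩
      rw [hdiv60] at hmem
      simp only [Finset.mem_insert, Finset.mem_singleton] at hmem
      have h3cases : (Cfsg.Agent.H60.cent d).card = 3 ∨ (Cfsg.Agent.H60.cent d).card = 5 ∨
          (Cfsg.Agent.H60.cent d).card = 15 := by
        obtain ⟨j, hj⟩ := hodd.2
        have h3le := hodd.1
        omega
      rcases h3cases with e | e | e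
      · left; exact e
      · right; exact e
      · exfalso
        have hb := Cfsg.Agent.H60.blk_card H d hd
        rw [e, hcardG] at hb
        have hb28 : (Cfsg.Agent.H60.blk d).card = 28 := by omega
        have hsub := Cfsg.Agent.H60.blk_subset H d hd
        have hle : ∑ b ∈ Cfsg.Agent.H60.blk d, (Cfsg.Agent.H60.cent b).card ≤
            ∑ b ∈ Cfsg.Agent.H60.srs G, (Cfsg.Agent.H60.cent b).card :=
          Finset.sum_le_sum_of_subset hsub
        have h2 : ∑ b ∈ Cfsg.Agent.H60.blk d, (Cfsg.Agent.H60.cent b).card = 28 * 15 := by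
          rw [Finset.sum_congr rfl
            (fun b hb => (Cfsg.Agent.H60.cent_card_blk H d hd b hb).trans e),
            Finset.sum_const, hb28, smul_eq_mul]
        omega
    have hex : ∃ d ∈ Cfsg.Agent.H60.srs G, (Cfsg.Agent.H60.cent d).card = 5 := by
      by_contra hcon
      push Not at hcon
      have hall : ∀ d ∈ Cfsg.Agent.H60.srs G, (Cfsg.Agent.H60.cent d).card = 3 := by
        intro d hd
        rcases hcent d hd with e | e
        · exact e
        · exact absurd e (hcon d hd)
      rw [Finset.sum_congr rfl hall, Finset.sum_const, smul_eq_mul] at hsum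
      have hle := Cfsg.Agent.H60.card_srs_le (G := G)
      rw [h15, hcardG] at hle
      omega
    obtain ⟨d, hd, hd5⟩ := hex
    obtain ⟨u, hu1, huu, hud, hdd⟩ := Cfsg.Agent.H60.mem_srs.mp hd
    have hu : orderOf u = 2 := ord2_iff.mpr ⟨huu, hu1⟩
    have hd1 : d ≠ 1 := fun e => hdd (by rw [e, mul_one])
    have hdK : ¬ inKT K d := fun hK => hdd (hinKT d hK)
    have huinv : u⁻¹ = u := inv_of_sq huu
    rw [huinv] at hud
    obtain ⟨r1, r2, r3⟩ := h.T3_struct hd1 hdK hu hud
    have hQcard : Nat.card (Subgroup.centralizer ({d} : Set G)) = 2 * Nat.card K + 1 := by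
      rw [← Cfsg.Agent.H60.card_cent, hd5, hk]
    have hmN : Nat.card {x : G // orderOf x = 2} = (2 * Nat.card K + 1) * (Nat.card K + 1) := by
      have hci := h.card_invol
      rw [hk, Nat.card_eq_fintype_card (α := G), hcardG] at hci
      rw [hk]; omega
    have hZcard : (Cfsg.Agent.H60.blk d).card = 4 * Nat.card K * (Nat.card K + 1) := by
      have hb := Cfsg.Agent.H60.blk_card H d hd
      rw [hd5, hcardG] at hb
      rw [hk]; omega
    exact h.plus_final rfl hu r1 (fun x hx hx1 => h.T3_cent hd1 hdK hu hud hx hx1) r3 hQcard hmN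
      (Cfsg.Agent.H60.blk d) hZcard
      (fun x hx hx1 g => Cfsg.Agent.H60.mem_blk.mpr ⟨g, x, (mem_cent.mp hx).symm, hx1, rfl⟩)

end Cfsg.Agent.H54.BSW
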