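import Mathlib
import Cfsg.Agent.H54.CharP2
import Cfsg.Agent.H38.PiCore

set_option autoImplicit false

namespace Cfsg.Agent.H54

section inversion

variable {G : Type*} [Group G]

/-- An element `z` with `z * z = 1` normalizing a finite subgroup `K` and having no nontrivial
fixed point on `K` inverts `K`. -/
theorem inverts_of_fixedPointFree (K : Subgroup G) [Finite K] (z : G) (hz2 : z * z = 1)
    (hzK : z ∈ Subgroup.normalizer (K : Set G)) (hfix : ∀ k ∈ K, k * z = z * k → k = 1) :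
    ∀ k ∈ K, z * k * z⁻¹ = k⁻¹ := by
  have hzinv : z⁻¹ = z := inv_eq_of_mul_eq_one_left hz2
  let f : K → K := fun k =>
    ⟨(k : G)⁻¹ * (z * k * z⁻¹), K.mul_mem (K.inv_mem k.2)
      ((Subgroup.mem_normalizer_iff.mp hzK _).mp k.2)⟩
  have hfinj : Function.Injective f := by
    intro k k' hkk
    have h1 : (k : G)⁻¹ * (z * k * z⁻¹) = (k' : G)⁻¹ * (z * k' * z⁻¹) := congrArg Subtype.val hkk
    have h2 : ((k' : G) * (k : G)⁻¹) * z = z * ((k' : G) * (k : G)⁻¹) := by
      calc ((k' : G) * (k : G)⁻¹) * z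
          = (k' : G) * ((k : G)⁻¹ * (z * k * z⁻¹)) * z * (k : G)⁻¹ := by group
        _ = (k' : G) * ((k' : G)⁻¹ * (z * k' * z⁻¹)) * z * (k : G)⁻¹ := by rw [h1]
        _ = z * ((k' : G) * (k : G)⁻¹) := by group
    have h3 := hfix _ (K.mul_mem k'.2 (K.inv_mem k.2)) h2
    apply Subtype.ext
    have : (k' : G) = (k : G) := by
      calc (k' : G) = ((k' : G) * (k : G)⁻¹) * k := by group
        _ = k := by rw [h3, one_mul]
    exact this.symm
  have hfsurj : Function.Surjective f := Finite.surjective_of_injective hfinj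
  intro k hk
  obtain ⟨k₀, hk₀⟩ := hfsurj ⟨k, hk⟩
  have h1 : (k₀ : G)⁻¹ * (z * k₀ * z⁻¹) = k := congrArg Subtype.val hk₀
  rw [← h1, hzinv]
  have e1 : z * ((k₀ : G)⁻¹ * (z * k₀ * z)) * z = z * (k₀ : G)⁻¹ * z * k₀ * (z * z) := by group
  have e2 : ((k₀ : G)⁻¹ * (z * k₀ * z))⁻¹ = z⁻¹ * (k₀ : G)⁻¹ * z⁻¹ * k₀ := by group
  rw [e1, e2, hz2, mul_one, hzinv]

/-- A subgroup inverted by some element is abelian. -/
theorem comm_of_inverted (K : Subgroup G) (z : G) (hinv : ∀ k ∈ K, z * k * z⁻¹ = k⁻¹) :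
    ∀ a ∈ K, ∀ b ∈ K, a * b = b * a := by
  intro a ha b hb
  have h1 := hinv (a * b) (K.mul_mem ha hb)
  have h2 : z * (a * b) * z⁻¹ = (z * a * z⁻¹) * (z * b * z⁻¹) := by group
  rw [h2, hinv a ha, hinv b hb, mul_inv_rev] at h1
  have h3 := congrArg (fun t => t⁻¹) h1
  simp only [mul_inv_rev, inv_inv] at h3
  exact h3.symm

/-- If `z` inverts both the subgroup `K` and the element `d`, and `d` normalizes `K`, then `d * d`
centralizes `K`. -/
theorem sq_comm_of_inverted (K : Subgroup G) (z d : G) (hinv : ∀ k ∈ K, z * k * z⁻¹ = k⁻¹)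
    (hd : z * d * z⁻¹ = d⁻¹) (hdK : d ∈ Subgroup.normalizer (K : Set G)) :
    ∀ k ∈ K, (d * d) * k = k * (d * d) := by
  intro k hk
  have h1 : d * k⁻¹ * d⁻¹ ∈ K := (Subgroup.mem_normalizer_iff.mp hdK _).mp (K.inv_mem hk)
  have h2 := hinv _ h1
  have h3 := hinv _ (K.inv_mem hk)
  have h5 : z * (d * k⁻¹ * d⁻¹) * z⁻¹ = (z * d * z⁻¹) * (z * k⁻¹ * z⁻¹) * (z * d * z⁻¹)⁻¹ := by
    group
  rw [h2, hd, h3] at h5
  have h6 : d * k * d⁻¹ = d⁻¹ * k * d := by
    have e : (d * k⁻¹ * d⁻¹)⁻¹ = d * k * d⁻¹ := by group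
    rw [← e, h5]; group
  calc (d * d) * k = d * (d * k * d⁻¹) * d := by group
    _ = d * (d⁻¹ * k * d) * d := by rw [h6]
    _ = k * (d * d) := by group

/-- An element of odd order commuting-squared with `k` commutes with `k`. -/
theorem comm_of_sq_comm {d k : G} (hodd : (orderOf d).Coprime 2) (h : (d * d) * k = k * (d * d)) :
    d * k = k * d := by
  have hodd' : Odd (orderOf d) := Nat.Coprime.odd_of_right hodd
  obtain ⟨j, hj⟩ := hodd'
  have h1 : (d * d) ^ (j + 1) = d := by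
    rw [← pow_two, ← pow_mul]
    have : 2 * (j + 1) = orderOf d + 1 := by omega
    rw [this, pow_succ, pow_orderOf_eq_one, one_mul]
  have hc : Commute (d * d) k := h
  have hc2 : Commute ((d * d) ^ (j + 1)) k := hc.pow_left (j + 1)
  rw [h1] at hc2
  exact hc2.eq

end inversion

section oddIn

variable {G : Type*} [Group G]

/-- `O(H)` of a subgroup, in the ambient group. -/
abbrev oddIn (H : Subgroup G) : Subgroup G := (Cfsg.oddCore ↥H).map H.subtype

theorem oddIn_le (H : Subgroup G) : oddIn H ≤ H := by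
  rintro _ ⟨x, -, rfl⟩
  exact x.2

theorem normalizer_le_normalizer_oddIn (H : Subgroup G) :
    Subgroup.normalizer (H : Set G) ≤ Subgroup.normalizer ((oddIn H : Subgroup G) : Set G) :=
  Cfsg.Agent.H27.normalizer_le_normalizer_radIn (Cfsg.Agent.H27.isoInv_coprime 2) H

theorem le_normalizer_oddIn (H : Subgroup G) :
    H ≤ Subgroup.normalizer ((oddIn H : Subgroup G) : Set G) :=
  Subgroup.le_normalizer.trans (normalizer_le_normalizer_oddIn H)

theorem oddIn_conj (H : Subgroup G) (g : G) :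
    oddIn (H.map (MulAut.conj g).toMonoidHom) = (oddIn H).map (MulAut.conj g).toMonoidHom :=
  Cfsg.Agent.H27.radIn_conj (Cfsg.Agent.H27.isoInv_coprime 2) H g

theorem orderOf_coprime_of_mem_oddIn [Finite G] (H : Subgroup G) {x : G} (hx : x ∈ oddIn H) :
    (orderOf x).Coprime 2 := by
  have : Fact (Nat.Prime 2) := ⟨Nat.prime_two⟩
  obtain ⟨y, hy, rfl⟩ := hx
  change (orderOf (y : G)).Coprime 2
  have h1 : (Nat.card (Cfsg.oddCore ↥H)).Coprime 2 := Cfsg.Agent.H38.coprime_card_pPrimeCore 2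
  have h2 : orderOf (⟨y, hy⟩ : Cfsg.oddCore ↥H) ∣ Nat.card (Cfsg.oddCore ↥H) := orderOf_dvd_natCard _
  have h3 : orderOf (y : G) = orderOf (⟨y, hy⟩ : Cfsg.oddCore ↥H) := by
    rw [Subgroup.orderOf_coe, ← Subgroup.orderOf_coe (⟨y, hy⟩ : Cfsg.oddCore ↥H)]
  rw [h3]
  exact Nat.Coprime.coprime_dvd_left h2 h1

theorem centralizer_singleton_map_conj (y g : G) :
    (Subgroup.centralizer ({y} : Set G)).map (MulAut.conj g).toMonoidHom =
      Subgroup.centralizer ({g * y * g⁻¹} : Set G) := by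
  ext x
  rw [Cfsg.Agent.H27.mem_map_conj_iff, Subgroup.mem_centralizer_iff, Subgroup.mem_centralizer_iff]
  constructor
  · intro h w hw
    rw [Set.mem_singleton_iff] at hw; subst hw
    have h1 := h y rfl
    calc g * y * g⁻¹ * x = g * (y * (g⁻¹ * x * g)) * g⁻¹ := by group
      _ = g * ((g⁻¹ * x * g) * y) * g⁻¹ := by rw [h1]
      _ = x * (g * y * g⁻¹) := by group
  · intro h w hw
    rw [Set.mem_singleton_iff] at hw; subst hw
    have h1 := h (g * w * g⁻¹) rfl
    calc w * (g⁻¹ * x * g) = g⁻¹ * ((g * w * g⁻¹) * x) * g := by group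
      _ = g⁻¹ * (x * (g * w * g⁻¹)) * g := by rw [h1]
      _ = g⁻¹ * x * g * w := by group

end oddIn

end Cfsg.Agent.H54
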