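import Mathlib
import Cfsg.Agent.H54.Odd
import Cfsg.Agent.H54.FStar
import Cfsg.Agent.H54.Basic

set_option autoImplicit false

namespace Cfsg.Agent.H54

/-- Balance lemma.  Let `H` be a finite group without components whose core `O(H)` is inverted by
an element `z`.  Let `y` be an involution (or `1`) and `D` a subgroup of odd-order elements of
`C_H(y)`, normalized by `C_H(y)` and inverted by `z`.  Then `D ≤ O(H)`. -/
theorem balance_aux {H : Type*} [Group H] [Finite H] (hE : Cfsg.layer H = ⊥) (z y : H)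
    (hzK : ∀ k ∈ Cfsg.oddCore H, z * k * z⁻¹ = k⁻¹) (hy2 : y * y = 1) (D : Subgroup H)
    (hDodd : ∀ d ∈ D, (orderOf d).Coprime 2) (hDy : ∀ d ∈ D, d * y = y * d)
    (hDn : ∀ h : H, h * y = y * h → ∀ d ∈ D, h * d * h⁻¹ ∈ D)
    (hzD : ∀ d ∈ D, z * d * z⁻¹ = d⁻¹) : D ≤ Cfsg.oddCore H := by
  have : Fact (Nat.Prime 2) := ⟨Nat.prime_two⟩
  have hKn : (Cfsg.oddCore H).Normal := inferInstance
  have hPn : (Cfsg.pCore 2 H).Normal := inferInstance
  have hPp : IsPGroup 2 (Cfsg.pCore 2 H) := pCore_isPGroup 2 H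
  have hKodd : ∀ k ∈ Cfsg.oddCore H, (orderOf k).Coprime 2 := by
    intro k hk
    have h1 : (Nat.card (Cfsg.oddCore H)).Coprime 2 := Cfsg.Agent.H38.coprime_card_pPrimeCore 2
    have h2 : orderOf k ∣ Nat.card (Cfsg.oddCore H) := by
      have := orderOf_dvd_natCard (⟨k, hk⟩ : Cfsg.oddCore H)
      rwa [← Subgroup.orderOf_coe] at this
    exact Nat.Coprime.coprime_dvd_left h2 h1
  have htop : ∀ (N : Subgroup H) [N.Normal] (g : H), g ∈ Subgroup.normalizer (N : Set H) := by
    intro N _ g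
    rw [Subgroup.normalizer_eq_top]
    trivial
  -- (1) D centralizes K
  have hDK : ∀ d ∈ D, ∀ k ∈ Cfsg.oddCore H, d * k = k * d := by
    intro d hd k hk
    exact comm_of_sq_comm (hDodd d hd)
      (sq_comm_of_inverted (Cfsg.oddCore H) z d hzK (hzD d hd) (htop _ d) k hk)
  -- (2) D centralizes P
  have hyp : IsPGroup 2 (Subgroup.zpowers y) := by
    rintro ⟨g, hg⟩
    refine ⟨1, Subtype.ext ?_⟩
    obtain ⟨n, rfl⟩ := Subgroup.mem_zpowers_iff.mp hg
    change (y ^ n) ^ 2 ^ 1 = 1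
    rw [pow_one, ← zpow_natCast, ← zpow_mul, mul_comm, zpow_mul, zpow_natCast, pow_two, hy2,
      one_zpow]
  have hDP : ∀ d ∈ D, ∀ x ∈ Cfsg.pCore 2 H, d * x = x * d := by
    intro d hd
    apply thompson_AxB_elt d (Subgroup.zpowers y) (Cfsg.pCore 2 H) hyp (hDodd d hd) _ hPp
      (htop _ d) (fun b _ => htop _ b)
    · intro x hxP hxy
      have hxy' : x * y = y * x := (hxy y (Subgroup.mem_zpowers y)).symm
      have h1 : x * d⁻¹ * x⁻¹ ∈ D := hDn x hxy' d⁻¹ (D.inv_mem hd)
      have h2 : d * x * d⁻¹ * x⁻¹ ∈ D := by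
        have := D.mul_mem hd h1
        convert this using 1; group
      have h3 : d * x * d⁻¹ * x⁻¹ ∈ Cfsg.pCore 2 H :=
        Subgroup.mul_mem _ (hPn.conj_mem x hxP d) (Subgroup.inv_mem _ hxP)
      have h4 := eq_one_of_mem_pgroup_of_coprime hPp h3 (hDodd _ h2)
      calc d * x = (d * x * d⁻¹ * x⁻¹) * (x * d) := by group
        _ = x * d := by rw [h4, one_mul]
    · intro b hb
      obtain ⟨n, rfl⟩ := Subgroup.mem_zpowers_iff.mp hb
      have hc : Commute d y := hDy d hd
      exact (hc.zpow_right n).eq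
  -- (3) F*(H) ≤ P ⊔ K
  have hF : Cfsg.generalizedFittingSubgroup H ≤ Cfsg.pCore 2 H ⊔ Cfsg.oddCore H := by
    unfold Cfsg.generalizedFittingSubgroup
    rw [hE, bot_sup_eq, Cfsg.Agent.H27.fitting_eq_pCoreJoin]
    apply iSup_le
    rintro ⟨q, hq⟩
    have hqp : q.Prime := Nat.prime_of_mem_primeFactors hq
    have : Fact q.Prime := ⟨hqp⟩
    by_cases hq2 : q = 2
    · subst hq2
      exact le_sup_left
    · refine le_trans ?_ le_sup_right
      apply Cfsg.Agent.H38.le_pPrimeCore _ inferInstance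
      obtain ⟨k, hk⟩ := IsPGroup.iff_card.mp (pCore_isPGroup q H)
      rw [hk]
      exact Nat.Coprime.pow_left k ((Nat.coprime_primes hqp Nat.prime_two).mpr hq2)
  -- (4) D ≤ C(F*) ≤ F* ≤ P ⊔ K
  intro d hd
  have hcent : Cfsg.pCore 2 H ⊔ Cfsg.oddCore H ≤ Subgroup.centralizer ({d} : Set H) := by
    apply sup_le
    · intro x hx
      rw [Subgroup.mem_centralizer_iff]
      intro w hw
      rw [Set.mem_singleton_iff] at hw; subst hw
      exact hDP w hd x hx
    · intro x hx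
      rw [Subgroup.mem_centralizer_iff]
      intro w hw
      rw [Set.mem_singleton_iff] at hw; subst hw
      exact hDK w hd x hx
  have hdF : d ∈ Cfsg.generalizedFittingSubgroup H := by
    apply Cfsg.Agent.H27.centralizer_genFitting_le
    rw [Subgroup.mem_centralizer_iff]
    intro g hg
    exact (Subgroup.mem_centralizer_iff.mp (hcent (hF hg)) d rfl).symm
  obtain ⟨u, hu, k, hk, hduk⟩ := exists_mul_of_mem_sup (Cfsg.pCore 2 H) (Cfsg.oddCore H)
    (fun g _ => htop _ g) (hF hdF)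
  have hdk : Commute d k := hDK d hd k hk
  have hu' : u = d * k⁻¹ := by rw [hduk]; group
  have hupow : u ^ (orderOf d * orderOf k) = 1 := by
    rw [hu', (hdk.inv_right).mul_pow, pow_mul, pow_orderOf_eq_one, one_pow, mul_comm (orderOf d),
      pow_mul, inv_pow, pow_orderOf_eq_one, inv_one, one_pow, one_mul]
  have hucop : (orderOf u).Coprime 2 :=
    Nat.Coprime.coprime_dvd_left (orderOf_dvd_of_pow_eq_one hupow)
      (Nat.Coprime.mul_left (hDodd d hd) (hKodd k hk))
  have hu1 : u = 1 := eq_one_of_mem_pgroup_of_coprime hPp hu hucop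
  rw [hduk, hu1, one_mul]
  exact hk

end Cfsg.Agent.H54
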