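import Mathlib
import Cfsg.Agent.H54.TransferZ
import Cfsg.Agent.H54.Stab

set_option autoImplicit false

namespace Cfsg.Agent.H54

/-- The group `C₂ × D₈`. -/
abbrev C2D8 := Multiplicative (ZMod 2) × DihedralGroup 4

/-- the generator of the `C₂` factor -/
def c2d8z : C2D8 := (Multiplicative.ofAdd 1, 1)

/-- the central involution of the `D₈` factor -/
def c2d8w : C2D8 := (1, DihedralGroup.r 2)

theorem c2d8z_central : ∀ x : C2D8, x * c2d8z = c2d8z * x := by decide

theorem c2d8z_sq : c2d8z * c2d8z = 1 := by decide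

theorem c2d8_sq : ∀ x : C2D8, x * x = 1 ∨ x * x = c2d8w := by decide

theorem c2d8_central_invol : ∀ c : C2D8, (∀ x : C2D8, x * c = c * x) → c * c = 1 → c ≠ 1 →
    c ≠ c2d8w → c = c2d8z ∨ c = c2d8z * c2d8w := by decide

theorem c2d8w_ne_one : c2d8w ≠ 1 := by decide

theorem c2d8w_sq : c2d8w * c2d8w = 1 := by decide

theorem c2d8w_eq_sq : c2d8w = ((1, DihedralGroup.r 1) : C2D8) * (1, DihedralGroup.r 1) := by
  decide

theorem c2d8z_ne_one : c2d8z ≠ 1 := by decide

theorem c2d8z_ne_w : c2d8z ≠ c2d8w := by decide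

theorem c2d8z_fst : c2d8z.1 ≠ 1 := by decide

theorem c2d8_aut_w (β : C2D8 ≃* C2D8) : β c2d8w = c2d8w := by
  have h1 : β c2d8w = β (1, DihedralGroup.r 1) * β (1, DihedralGroup.r 1) := by
    rw [← map_mul, ← c2d8w_eq_sq]
  rcases c2d8_sq (β (1, DihedralGroup.r 1)) with h | h
  · exfalso
    rw [h] at h1
    exact c2d8w_ne_one ((MulEquiv.map_eq_one_iff β).mp h1)
  · rw [h1, h]

theorem c2d8_aut_z (β : C2D8 ≃* C2D8) : β c2d8z = c2d8z ∨ β c2d8z = c2d8z * c2d8w := by
  apply c2d8_central_invol
  · intro x
    obtain ⟨y, rfl⟩ := β.surjective x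
    rw [← map_mul, ← map_mul, c2d8z_central]
  · rw [← map_mul, c2d8z_sq, map_one]
  · intro h
    exact c2d8z_ne_one ((MulEquiv.map_eq_one_iff β).mp h)
  · intro h
    rw [← c2d8_aut_w β] at h
    exact c2d8z_ne_w (β.injective h)

/-- A finite group with Sylow `2`-subgroups `C₂ × D₈` has a subgroup of index `2`. -/
theorem exists_index_two_of_sylow_c2d8 {G : Type*} [Group G] [Finite G] (S : Sylow 2 G)
    (e : ↥(S : Subgroup G) ≃* C2D8) : ∃ K : Subgroup G, K.Normal ∧ K.index = 2 := by
  have : Fact (Nat.Prime 2) := ⟨Nat.prime_two⟩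
  set z' : ↥(S : Subgroup G) := e.symm c2d8z with hz'
  set w' : ↥(S : Subgroup G) := e.symm c2d8w with hw'
  have hz'c : ∀ s : ↥(S : Subgroup G), s * z' = z' * s := by
    intro s
    apply e.injective
    rw [map_mul, map_mul, hz', e.apply_symm_apply]
    exact c2d8z_central (e s)
  have hz'2 : z' * z' = 1 := by
    apply e.injective
    rw [map_mul, map_one, hz', e.apply_symm_apply]
    exact c2d8z_sq
  have hw'2 : w' * w' = 1 := by
    apply e.injective
    rw [map_mul, map_one, hw', e.apply_symm_apply]
    exact c2d8w_sq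
  have hw'1 : w' ≠ 1 := by
    intro h
    apply c2d8w_ne_one
    have := congrArg e h
    rwa [hw', e.apply_symm_apply, map_one] at this
  -- `N_G(S)` fixes `z`
  have hN : ∀ g ∈ Subgroup.normalizer ((S : Subgroup G) : Set G),
      g * (z' : G) * g⁻¹ = (z' : G) := by
    intro g hg
    let α := conjEquiv (S : Subgroup G) g hg
    let β : C2D8 ≃* C2D8 := e.symm.trans (α.trans e)
    have hβw : α w' = w' := by
      apply e.injective
      have h := c2d8_aut_w β
      exact h.trans (by rw [hw', e.apply_symm_apply])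
    rcases c2d8_aut_z β with h | h
    · have h1 : α z' = z' := by
        apply e.injective
        exact h.trans (by rw [hz', e.apply_symm_apply])
      have h2 := congrArg Subtype.val h1
      rwa [conjEquiv_coe] at h2
    · exfalso
      have h1 : α z' = z' * w' := by
        apply e.injective
        rw [map_mul, hz', hw', e.apply_symm_apply, e.apply_symm_apply]
        exact h
      have hgz : g * (z' : G) * g⁻¹ = (z' : G) * (w' : G) := by
        have h2 := congrArg Subtype.val h1
        rwa [conjEquiv_coe] at h2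
      have hgw : g * (w' : G) * g⁻¹ = (w' : G) := by
        have h2 := congrArg Subtype.val hβw
        rwa [conjEquiv_coe] at h2
      have hpow : ∀ n : ℕ, g ^ n * (z' : G) * (g ^ n)⁻¹ = (z' : G) * (w' : G) ^ n := by
        intro n
        induction n with
        | zero => simp
        | succ n ih =>
          calc g ^ (n + 1) * (z' : G) * (g ^ (n + 1))⁻¹
              = g * (g ^ n * (z' : G) * (g ^ n)⁻¹) * g⁻¹ := by rw [pow_succ']; group
            _ = g * ((z' : G) * (w' : G) ^ n) * g⁻¹ := by rw [ih]
            _ = (g * (z' : G) * g⁻¹) * (g * (w' : G) * g⁻¹) ^ n := by rw [conj_pow]; group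
            _ = (z' : G) * (w' : G) ^ (n + 1) := by rw [hgz, hgw, pow_succ', mul_assoc]
      set N := Subgroup.normalizer ((S : Subgroup G) : Set G) with hNdef
      set k := ((S : Subgroup G).subgroupOf N).index with hk
      have hgk : g ^ k ∈ (S : Subgroup G) := by
        have h2 := Subgroup.pow_index_mem ((S : Subgroup G).subgroupOf N) ⟨g, hg⟩
        rwa [Subgroup.mem_subgroupOf] at h2
      have hkodd : ¬ 2 ∣ k := by
        intro hdvd
        have h2 : (S : Subgroup G).relIndex N * N.index = (S : Subgroup G).index :=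
          Subgroup.relIndex_mul_index Subgroup.le_normalizer
        apply S.not_dvd_index
        rw [← h2]
        exact Dvd.dvd.mul_right hdvd _
      have h3 := hpow k
      have h4 : g ^ k * (z' : G) * (g ^ k)⁻¹ = (z' : G) := by
        have h5 := congrArg Subtype.val (hz'c ⟨g ^ k, hgk⟩)
        have h6 : g ^ k * (z' : G) = (z' : G) * g ^ k := h5
        rw [h6]
        group
      rw [h4] at h3
      have h5 : (w' : G) ^ k = 1 := by
        have h6 : (z' : G) * (w' : G) ^ k = (z' : G) * 1 := by rw [mul_one]; exact h3.symm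
        exact mul_left_cancel h6
      have h6 : orderOf (w' : G) = 2 :=
        orderOf_eq_prime (by rw [pow_two]; exact congrArg Subtype.val hw'2)
          (fun h => hw'1 (Subtype.ext h))
      have h7 := orderOf_dvd_of_pow_eq_one h5
      rw [h6] at h7
      exact hkodd h7
  obtain ⟨K, hKn, hKi, -⟩ := exists_index_two_of_central_involution S
    (A := Multiplicative (ZMod 2)) (by rw [Nat.card_eq_fintype_card]; rfl)
    ((MonoidHom.fst _ _).comp e.toMonoidHom) (z' : G) z'.2 (congrArg Subtype.val hz'2)
    (fun s hs => congrArg Subtype.val (hz'c ⟨s, hs⟩)) hN (by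
      show (e z').1 ≠ 1
      rw [hz', e.apply_symm_apply]
      exact c2d8z_fst)
  exact ⟨K, hKn, hKi⟩

end Cfsg.Agent.H54
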