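/-
helper54 library (S0983-C, for helper2): the number of Sylow `p`-subgroups meeting a given
Sylow `p`-subgroup `P` trivially is divisible by `|P|`.
-/
import Mathlib
import Cfsg.Agent.H2.CensusStmts

set_option autoImplicit false

namespace Cfsg.Agent.H54.Census

open Cfsg Cfsg.Agent.H2.Census

universe u

/-- The conjugation action of a subgroup `K` on an invariant set of Sylow subgroups. -/
def invSet {G : Type u} [Group G] {p : ℕ} (K : Subgroup G) (T : Set (Sylow p G))
    (hT : ∀ k ∈ K, ∀ R ∈ T, k • R ∈ T) : SubMulAction ↥K (Sylow p G) where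
  carrier := T
  smul_mem' := fun k R hR => hT k.1 k.2 R hR

/-- Membership in a conjugate Sylow subgroup. -/
theorem mem_smul_sylow {G : Type u} [Group G] {p : ℕ} (k x : G) (R : Sylow p G) :
    x ∈ ((k • R : Sylow p G) : Subgroup G) ↔ k⁻¹ * x * k ∈ (R : Subgroup G) := by
  rw [Sylow.coe_subgroup_smul, Subgroup.mem_pointwise_smul_iff_inv_smul_mem]
  simp [MulAut.smul_def]

/-- **S0983-C**. -/
theorem disjointSylow : StmtDisjointSylow.{u} := by
  intro G _ _ p _ P
  have hT : ∀ k ∈ (P : Subgroup G),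
      ∀ R ∈ {R : Sylow p G | (P : Subgroup G) ⊓ (R : Subgroup G) = ⊥},
        k • R ∈ {R : Sylow p G | (P : Subgroup G) ⊓ (R : Subgroup G) = ⊥} := by
    intro k hk R hR
    change (P : Subgroup G) ⊓ (R : Subgroup G) = ⊥ at hR
    change (P : Subgroup G) ⊓ ((k • R : Sylow p G) : Subgroup G) = ⊥
    rw [eq_bot_iff]
    intro x hx
    rw [Subgroup.mem_bot]
    have hx1 : k⁻¹ * x * k ∈ (P : Subgroup G) := mul_mem (mul_mem (inv_mem hk) hx.1) hk
    have hx2 : k⁻¹ * x * k ∈ (R : Subgroup G) := (mem_smul_sylow k x R).mp hx.2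
    have h3 : k⁻¹ * x * k ∈ (P : Subgroup G) ⊓ (R : Subgroup G) := ⟨hx1, hx2⟩
    rw [hR, Subgroup.mem_bot] at h3
    calc x = k * (k⁻¹ * x * k) * k⁻¹ := by group
      _ = 1 := by rw [h3]; group
  have hfree : ∀ b : invSet (P : Subgroup G) _ hT,
      MulAction.stabilizer ↥(P : Subgroup G) b = ⊥ := by
    intro b
    rw [eq_bot_iff]
    intro g hg
    rw [MulAction.mem_stabilizer_iff] at hg
    have h1 : (g : G) • (b : Sylow p G) = (b : Sylow p G) := congrArg Subtype.val hg
    have h2 : (g : G) ∈ (P : Subgroup G) ⊓ Subgroup.normalizer ((b : Sylow p G) : Set G) :=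
      ⟨g.2, Sylow.smul_eq_iff_mem_normalizer.mp h1⟩
    have hb : (P : Subgroup G) ⊓ ((b : Sylow p G) : Subgroup G) = ⊥ := b.2
    rw [P.2.inf_normalizer_sylow, hb, Subgroup.mem_bot] at h2
    rw [Subgroup.mem_bot]
    exact Subtype.ext h2
  have hcard : Nat.card (invSet (P : Subgroup G) _ hT) =
      Nat.card (Quotient (MulAction.orbitRel ↥(P : Subgroup G) (invSet (P : Subgroup G) _ hT))) *
        Nat.card ↥(P : Subgroup G) := by
    rw [Nat.card_congr (MulAction.selfEquivOrbitsQuotientProd hfree), Nat.card_prod]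
  have hncard : Set.ncard {R : Sylow p G | (P : Subgroup G) ⊓ (R : Subgroup G) = ⊥} =
      Nat.card (invSet (P : Subgroup G) _ hT) := (Nat.card_coe_set_eq _).symm
  rw [hncard, hcard]
  exact dvd_mul_left _ _

end Cfsg.Agent.H54.Census

section Check

open Cfsg Cfsg.Agent.H2.Census

universe u

example : StmtDisjointSylow.{u} := Cfsg.Agent.H54.Census.disjointSylow

end Check
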