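/-
helper54 library (S0983-A, for helper2): the Sylow `p`-subgroups containing a subgroup `L` of an
abelian Sylow `p`-subgroup `P`; their number is `≡ 1 (mod p)` and equals `|C(L) : N(P) ∩ C(L)|`.
-/
import Mathlib
import Cfsg.Agent.H2.CensusStmts
import Cfsg.Agent.H54.CensusC

set_option autoImplicit false

namespace Cfsg.Agent.H54.Census

open Cfsg Cfsg.Agent.H2.Census

universe u

/-- **S0983-A**. -/
theorem sylowThrough : StmtSylowThrough.{u} := by
  intro G _ _ p _ P hPcomm L hLP
  have hp : p.Prime := Fact.out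
  -- `P ≤ C(L)`
  have hPC : (P : Subgroup G) ≤ Subgroup.centralizer (L : Set G) := by
    intro x hx
    rw [Subgroup.mem_centralizer_iff]
    intro l hl
    exact congrArg Subtype.val
      (hPcomm.is_comm.comm (⟨l, hLP hl⟩ : (P : Subgroup G)) ⟨x, hx⟩)
  -- every Sylow subgroup through `L` lies in `C(L)`
  have hRC : ∀ R : Sylow p G, L ≤ (R : Subgroup G) →
      (R : Subgroup G) ≤ Subgroup.centralizer (L : Set G) := by
    intro R hLR x hx
    obtain ⟨g, hg⟩ := MulAction.exists_smul_eq G P R
    rw [Subgroup.mem_centralizer_iff]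
    intro l hl
    have hl' : g⁻¹ * l * g ∈ (P : Subgroup G) :=
      (mem_smul_sylow g l P).mp (by rw [hg]; exact hLR hl)
    have hx' : g⁻¹ * x * g ∈ (P : Subgroup G) :=
      (mem_smul_sylow g x P).mp (by rw [hg]; exact hx)
    have hc : g⁻¹ * l * g * (g⁻¹ * x * g) = g⁻¹ * x * g * (g⁻¹ * l * g) :=
      congrArg Subtype.val
        (hPcomm.is_comm.comm (⟨_, hl'⟩ : (P : Subgroup G)) ⟨_, hx'⟩)
    have h3 : g⁻¹ * (l * x) * g = g⁻¹ * (x * l) * g := by
      calc g⁻¹ * (l * x) * g = g⁻¹ * l * g * (g⁻¹ * x * g) := by group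
        _ = g⁻¹ * x * g * (g⁻¹ * l * g) := hc
        _ = g⁻¹ * (x * l) * g := by group
    exact mul_left_cancel (mul_right_cancel h3)
  -- conjugation by `C(L)` fixes `L`
  have hfixL : ∀ k ∈ Subgroup.centralizer (L : Set G), ∀ l ∈ L, k⁻¹ * l * k = l := by
    intro k hk l hl
    rw [Subgroup.mem_centralizer_iff] at hk
    rw [mul_assoc, hk l hl, ← mul_assoc, inv_mul_cancel, one_mul]
  -- the orbit of `P` under `C(L)`
  have horb : MulAction.orbit ↥(Subgroup.centralizer (L : Set G)) P =
      {R : Sylow p G | L ≤ (R : Subgroup G)} := by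
    ext R
    constructor
    · rintro ⟨c, rfl⟩
      change L ≤ ((((c : G) • P : Sylow p G)) : Subgroup G)
      intro l hl
      rw [mem_smul_sylow, hfixL c c.2 l hl]
      exact hLP hl
    · intro hR
      change L ≤ (R : Subgroup G) at hR
      have hRle := hRC R hR
      obtain ⟨c, hc⟩ := MulAction.exists_smul_eq ↥(Subgroup.centralizer (L : Set G))
        (P.subtype hPC) (R.subtype hRle)
      refine ⟨c, ?_⟩
      rw [Sylow.smul_subtype hPC c] at hc
      have h1 : ((c • P : Sylow p G) : Subgroup G).subgroupOf (Subgroup.centralizer (L : Set G)) =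
          (R : Subgroup G).subgroupOf (Subgroup.centralizer (L : Set G)) := by
        have h0 := congrArg
          (fun Q : Sylow p ↥(Subgroup.centralizer (L : Set G)) => Q.toSubgroup) hc
        simpa only [Sylow.coe_subtype] using h0
      apply Sylow.ext
      have h2 := congrArg (Subgroup.map (Subgroup.centralizer (L : Set G)).subtype) h1
      rw [Subgroup.map_subgroupOf_eq_of_le (Sylow.smul_le hPC c),
        Subgroup.map_subgroupOf_eq_of_le hRle] at h2
      exact h2
  -- the stabilizer of `P` in `C(L)`
  have hstab : Nat.card (MulAction.stabilizer ↥(Subgroup.centralizer (L : Set G)) P) =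
      Nat.card ↥(Subgroup.normalizer ((P : Subgroup G) : Set G) ⊓
        Subgroup.centralizer (L : Set G)) := by
    apply Nat.card_congr
    exact
      { toFun := fun c => ⟨(c.1 : G),
          ⟨Sylow.smul_eq_iff_mem_normalizer.mp (MulAction.mem_stabilizer_iff.mp c.2), c.1.2⟩⟩
        invFun := fun x => ⟨⟨x.1, x.2.2⟩,
          MulAction.mem_stabilizer_iff.mpr (Sylow.smul_eq_iff_mem_normalizer.mpr x.2.1)⟩
        left_inv := fun c => rfl
        right_inv := fun x => rfl }
  have hos : Nat.card (MulAction.orbit ↥(Subgroup.centralizer (L : Set G)) P) *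
      Nat.card (MulAction.stabilizer ↥(Subgroup.centralizer (L : Set G)) P) =
      Nat.card ↥(Subgroup.centralizer (L : Set G)) := by
    classical
    have : Fintype ↥(Subgroup.centralizer (L : Set G)) := Fintype.ofFinite _
    have : Fintype (MulAction.orbit ↥(Subgroup.centralizer (L : Set G)) P) := Fintype.ofFinite _
    have : Fintype (MulAction.stabilizer ↥(Subgroup.centralizer (L : Set G)) P) :=
      Fintype.ofFinite _
    rw [Nat.card_eq_fintype_card, Nat.card_eq_fintype_card, Nat.card_eq_fintype_card]
    exact MulAction.card_orbit_mul_card_stabilizer_eq_card_group _ P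
  rw [hstab] at hos
  have hs : Set.ncard {R : Sylow p G | L ≤ (R : Subgroup G)} =
      Nat.card (MulAction.orbit ↥(Subgroup.centralizer (L : Set G)) P) := by
    rw [horb]
    exact (Nat.card_coe_set_eq _).symm
  refine ⟨?_, by rw [hs]; exact hos⟩
  -- the congruence: `P` acts on the set with the single fixed point `P`
  have hT : ∀ k ∈ (P : Subgroup G), ∀ R ∈ {R : Sylow p G | L ≤ (R : Subgroup G)},
      k • R ∈ {R : Sylow p G | L ≤ (R : Subgroup G)} := by
    intro k hk R hR
    change L ≤ (R : Subgroup G) at hR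
    change L ≤ ((k • R : Sylow p G) : Subgroup G)
    intro l hl
    rw [mem_smul_sylow, hfixL k (hPC hk) l hl]
    exact hR hl
  have hfix : MulAction.fixedPoints ↥(P : Subgroup G) (invSet (P : Subgroup G) _ hT) =
      {⟨P, hLP⟩} := by
    ext x
    rw [Set.mem_singleton_iff, MulAction.mem_fixedPoints]
    constructor
    · intro hx
      have h1 : (x : Sylow p G) ∈ MulAction.fixedPoints ↥(P : Subgroup G) (Sylow p G) := by
        rw [MulAction.mem_fixedPoints]
        intro g
        exact congrArg Subtype.val (hx g)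
      rw [P.2.sylow_mem_fixedPoints_iff] at h1
      apply Subtype.ext
      exact Sylow.ext (P.3 x.1.2 h1)
    · rintro rfl g
      apply Subtype.ext
      exact Sylow.smul_eq_iff_mem_normalizer.mpr (Subgroup.le_normalizer g.2)
  have hmod := P.2.card_modEq_card_fixedPoints (invSet (P : Subgroup G) _ hT)
  rw [hfix, Nat.card_coe_set_eq, Set.ncard_singleton] at hmod
  have hcard : Nat.card (invSet (P : Subgroup G) _ hT) =
      Set.ncard {R : Sylow p G | L ≤ (R : Subgroup G)} := Nat.card_coe_set_eq _
  rw [hcard] at hmod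
  have h1 : 1 % p = 1 := Nat.mod_eq_of_lt hp.one_lt
  rw [← h1]
  exact hmod

end Cfsg.Agent.H54.Census

section Check

open Cfsg Cfsg.Agent.H2.Census

universe u

example : StmtSylowThrough.{u} := Cfsg.Agent.H54.Census.sylowThrough

end Check
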