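import Mathlib
import Cfsg.Agent.H54.Stab

set_option autoImplicit false

namespace Cfsg.Agent.H54

universe u

section abstract

variable {E : Type u} [Group E]

/-- The central elements fixed by an automorphism. -/
def centralFixed (b : E ≃* E) : Subgroup E where
  carrier := {z | z ∈ Subgroup.center E ∧ b z = z}
  one_mem' := ⟨Subgroup.one_mem _, map_one b⟩
  mul_mem' := fun {x y} hx hy => ⟨Subgroup.mul_mem _ hx.1 hy.1, by rw [map_mul, hx.2, hy.2]⟩
  inv_mem' := fun {x} hx => ⟨Subgroup.inv_mem _ hx.1, by rw [map_inv, hx.2]⟩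

theorem mem_centralFixed {b : E ≃* E} {z : E} :
    z ∈ centralFixed b ↔ z ∈ Subgroup.center E ∧ b z = z := Iff.rfl

instance centralFixed_normal (b : E ≃* E) : (centralFixed b).Normal := ⟨fun z hz g => by
  have h1 : g * z * g⁻¹ = z := by
    have := Subgroup.mem_center_iff.mp hz.1 g
    rw [this]; group
  rw [h1]; exact hz⟩

theorem mulEquiv_pow_apply (a : MulAut E) (k : ℕ) (e : E) : (a ^ k) e = (⇑a)^[k] e := by
  induction k generalizing e with
  | zero => simp
  | succ k ih => rw [pow_succ, MulAut.mul_apply, Function.iterate_succ_apply, ih]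

theorem mulEquiv_iterate_mul (b : E ≃* E) (j : ℕ) (x y : E) :
    (⇑b)^[j] (x * y) = (⇑b)^[j] x * (⇑b)^[j] y := by
  induction j generalizing x y with
  | zero => rfl
  | succ j ih => rw [Function.iterate_succ_apply, Function.iterate_succ_apply,
      Function.iterate_succ_apply, map_mul, ih]

theorem mulEquiv_mem_center (a : E ≃* E) {z : E} (hz : z ∈ Subgroup.center E) :
    a z ∈ Subgroup.center E := by
  rw [Subgroup.mem_center_iff] at hz ⊢
  intro g
  have h1 := hz (a.symm g)
  have h2 := congrArg a h1
  rw [map_mul, map_mul, MulEquiv.apply_symm_apply] at h2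
  exact h2

theorem centralFixed_ne_bot {p : ℕ} [Fact p.Prime] [Finite E] [Nontrivial E] (hE : IsPGroup p E)
    (b : E ≃* E) (k : ℕ) (hb : ∀ x, (⇑b)^[p ^ k] x = x) : centralFixed b ≠ ⊥ := by
  have hb' : (b : MulAut E) ^ p ^ k = 1 := by
    ext x
    rw [mulEquiv_pow_apply]
    exact hb x
  let act : MulAction (Subgroup.zpowers (b : MulAut E)) (Subgroup.center E) :=
    { smul := fun g z => ⟨(g : MulAut E) z, mulEquiv_mem_center _ z.2⟩
      one_smul := fun z => Subtype.ext rfl
      mul_smul := fun g h z => Subtype.ext rfl }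
  have hP : IsPGroup p (Subgroup.zpowers (b : MulAut E)) := by
    rintro ⟨g, hg⟩
    refine ⟨k, Subtype.ext ?_⟩
    obtain ⟨j, rfl⟩ := Subgroup.mem_zpowers_iff.mp hg
    change (b ^ j) ^ p ^ k = 1
    rw [← zpow_natCast, ← zpow_mul, mul_comm, zpow_mul, zpow_natCast, hb', one_zpow]
  have hcard : p ∣ Nat.card (Subgroup.center E) := by
    have hc : Nontrivial (Subgroup.center E) := hE.center_nontrivial
    obtain ⟨n, hn⟩ := IsPGroup.iff_card.mp (hE.to_subgroup (Subgroup.center E))
    have hn0 : n ≠ 0 := by
      rintro rfl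
      rw [pow_zero] at hn
      exact (Finite.one_lt_card (α := Subgroup.center E)).ne' hn
    rw [hn]; exact dvd_pow_self p hn0
  have h1 : (1 : Subgroup.center E) ∈ MulAction.fixedPoints (Subgroup.zpowers (b : MulAut E))
      (Subgroup.center E) := by
    intro g
    exact Subtype.ext (map_one (g : MulAut E))
  obtain ⟨z, hz, hz1⟩ := hP.exists_fixed_point_of_prime_dvd_card_of_fixed_point
    (Subgroup.center E) hcard h1
  intro hbot
  have hmem : (z : E) ∈ centralFixed b :=
    ⟨z.2, congrArg Subtype.val (hz ⟨b, Subgroup.mem_zpowers (b : MulAut E)⟩)⟩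
  rw [hbot, Subgroup.mem_bot] at hmem
  exact hz1 (Subtype.ext hmem.symm)

end abstract

/-- **Dual `A × B` lemma** (abstract form): commuting automorphisms `a` (of order prime to `p`) and
`b` (of `p`-power order) of a finite `p`-group `E` with `[E, a] ≤ [E, b]` force `a = 1`. -/
theorem dual_AxB_aut {p : ℕ} [Fact p.Prime] : ∀ (n : ℕ) (E : Type u) [Group E] [Finite E],
    Nat.card E ≤ n → IsPGroup p E → ∀ (a b : E ≃* E) (m k : ℕ), (∀ x, a (b x) = b (a x)) →
    (∀ x, (⇑a)^[m] x = x) → m.Coprime p → (∀ x, (⇑b)^[p ^ k] x = x) →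
    (∀ e, a e * e⁻¹ ∈ Subgroup.closure {y | ∃ x, ∃ j : ℕ, y = (⇑b)^[j] x * x⁻¹}) →
    ∀ e, a e = e := by
  intro n
  induction n with
  | zero =>
    intro E _ _ hcard
    exact absurd hcard (by have := Nat.card_pos (α := E); omega)
  | succ n ih =>
    intro E _ _ hcard hE a b m k hab ham hm hb hH e
    by_cases htriv : Subsingleton E
    · exact Subsingleton.elim _ _
    rw [not_subsingleton_iff_nontrivial] at htriv
    have hZne := centralFixed_ne_bot hE b k hb
    have haZ : ∀ z ∈ centralFixed b, a z ∈ centralFixed b := by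
      intro z hz
      refine ⟨mulEquiv_mem_center a hz.1, ?_⟩
      rw [← hab, hz.2]
    have hbZ : ∀ z ∈ centralFixed b, b z ∈ centralFixed b := by
      intro z hz
      rw [hz.2]; exact hz
    have hmap : ∀ c : E ≃* E, (∀ z ∈ centralFixed b, c z ∈ centralFixed b) →
        (centralFixed b).map c.toMonoidHom = centralFixed b := by
      intro c hc
      have hle : (centralFixed b).map c.toMonoidHom ≤ centralFixed b := by
        rintro _ ⟨z, hz, rfl⟩
        exact hc z hz
      apply Subgroup.eq_of_le_of_card_ge hle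
      rw [Subgroup.card_map_of_injective c.injective]
    have hmapa := hmap a haZ
    have hmapb := hmap b hbZ
    have hcardq : Nat.card (E ⧸ centralFixed b) ≤ n := by
      have h1 := Subgroup.card_eq_card_quotient_mul_card_subgroup (centralFixed b)
      have h2 : 2 ≤ Nat.card (centralFixed b) := by
        by_contra hlt
        have h3 : Nat.card (centralFixed b) = 1 := by
          have := Nat.card_pos (α := centralFixed b)
          omega
        exact hZne (Subgroup.eq_bot_of_card_eq _ h3)
      have h4 : 0 < Nat.card (E ⧸ centralFixed b) := Nat.card_pos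
      nlinarith
    have hitera : ∀ (j : ℕ) (y : E),
        (⇑(QuotientGroup.congr (centralFixed b) (centralFixed b) a hmapa))^[j] (QuotientGroup.mk y) =
          QuotientGroup.mk ((⇑a)^[j] y) := by
      intro j
      induction j with
      | zero => intro y; rfl
      | succ j ihj =>
        intro y
        rw [Function.iterate_succ_apply', Function.iterate_succ_apply', ihj]
        rfl
    have hiterb : ∀ (j : ℕ) (y : E),
        (⇑(QuotientGroup.congr (centralFixed b) (centralFixed b) b hmapb))^[j] (QuotientGroup.mk y) =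
          QuotientGroup.mk ((⇑b)^[j] y) := by
      intro j
      induction j with
      | zero => intro y; rfl
      | succ j ihj =>
        intro y
        rw [Function.iterate_succ_apply', Function.iterate_succ_apply', ihj]
        rfl
    have key : ∀ x : E ⧸ centralFixed b,
        QuotientGroup.congr (centralFixed b) (centralFixed b) a hmapa x = x := by
      apply ih (E ⧸ centralFixed b) hcardq (hE.to_quotient _)
        (QuotientGroup.congr (centralFixed b) (centralFixed b) a hmapa)
        (QuotientGroup.congr (centralFixed b) (centralFixed b) b hmapb) m k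
      · intro x
        obtain ⟨x, rfl⟩ := QuotientGroup.mk_surjective x
        change (QuotientGroup.mk (a (b x)) : E ⧸ centralFixed b) = QuotientGroup.mk (b (a x))
        rw [hab]
      · intro x
        obtain ⟨x, rfl⟩ := QuotientGroup.mk_surjective x
        rw [hitera, ham]
      · exact hm
      · intro x
        obtain ⟨x, rfl⟩ := QuotientGroup.mk_surjective x
        rw [hiterb, hb]
      · intro x
        obtain ⟨x, rfl⟩ := QuotientGroup.mk_surjective x
        have h1 : (Subgroup.closure {y | ∃ x, ∃ j : ℕ, y = (⇑b)^[j] x * x⁻¹}).map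
            (QuotientGroup.mk' (centralFixed b)) ≤
            Subgroup.closure {y | ∃ x, ∃ j : ℕ,
              y = (⇑(QuotientGroup.congr (centralFixed b) (centralFixed b) b hmapb))^[j] x * x⁻¹} := by
          rw [Subgroup.map_le_iff_le_comap, Subgroup.closure_le]
          rintro _ ⟨y, j, rfl⟩
          apply Subgroup.subset_closure
          refine ⟨QuotientGroup.mk y, j, ?_⟩
          rw [hiterb]
          rfl
        exact h1 ⟨_, hH x, rfl⟩
    have hz : ∀ x : E, a x * x⁻¹ ∈ centralFixed b := by
      intro x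
      have h1 := key (QuotientGroup.mk x)
      have h2 : (QuotientGroup.mk (a x) : E ⧸ centralFixed b) = QuotientGroup.mk x := h1
      have h3 := (QuotientGroup.eq_iff_div_mem).mp h2
      rwa [div_eq_mul_inv] at h3
    have hcomm_iter : ∀ (j : ℕ) (x : E), a ((⇑b)^[j] x) = (⇑b)^[j] (a x) := by
      intro j
      induction j with
      | zero => intro x; rfl
      | succ j ihj =>
        intro x
        rw [Function.iterate_succ_apply, Function.iterate_succ_apply, ihj, hab]
    have hfixz : ∀ (j : ℕ) (z : E), z ∈ centralFixed b → (⇑b)^[j] z = z := by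
      intro j z hz'
      exact Function.iterate_fixed hz'.2 j
    have hgen : ∀ (x : E) (j : ℕ), a ((⇑b)^[j] x * x⁻¹) = (⇑b)^[j] x * x⁻¹ := by
      intro x j
      have hzx := hz x
      have hax : a x = (a x * x⁻¹) * x := by group
      have hcen := Subgroup.mem_center_iff.mp hzx.1
      rw [map_mul, map_inv, hcomm_iter, hax, mulEquiv_iterate_mul, hfixz j _ hzx]
      have h5 := hcen ((⇑b)^[j] x * x⁻¹)
      calc a x * x⁻¹ * (⇑b)^[j] x * (a x * x⁻¹ * x)⁻¹
          = (a x * x⁻¹) * ((⇑b)^[j] x * x⁻¹) * (a x * x⁻¹)⁻¹ := by group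
        _ = ((⇑b)^[j] x * x⁻¹) * (a x * x⁻¹) * (a x * x⁻¹)⁻¹ := by rw [h5]
        _ = (⇑b)^[j] x * x⁻¹ := by group
    have hfixK : ∀ y ∈ Subgroup.closure {y | ∃ x, ∃ j : ℕ, y = (⇑b)^[j] x * x⁻¹}, a y = y := by
      intro y hy
      induction hy using Subgroup.closure_induction with
      | mem y hy =>
        obtain ⟨x, j, rfl⟩ := hy
        exact hgen x j
      | one => exact map_one a
      | mul x y _ _ hx hy => rw [map_mul, hx, hy]
      | inv x _ hx => rw [map_inv, hx]
    have hcop : Nat.Coprime m (Nat.card E) := by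
      obtain ⟨j, hj⟩ := IsPGroup.iff_card.mp hE
      rw [hj]
      exact Nat.Coprime.pow_right j hm
    exact fixed_of_fixed_comm a e m (Nat.card E) hcop (ham e) pow_card_eq_one' (hfixK _ (hH e))

open scoped commutatorElement in
/-- **Dual `A × B` lemma** inside a finite group: if `a` (of order prime to `p`) commutes with the
`p`-element `u`, both normalize the `p`-subgroup `E`, and `[E, a] ⊆ [E, ⟨u⟩]`, then `a`
centralizes `E`. -/
theorem dual_AxB {G : Type u} [Group G] [Finite G] {p : ℕ} [Fact p.Prime] (E : Subgroup G)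
    (hE : IsPGroup p E) (a u : G) (haN : a ∈ Subgroup.normalizer (E : Set G))
    (huN : u ∈ Subgroup.normalizer (E : Set G)) (ha : (orderOf a).Coprime p) (k : ℕ)
    (hu : u ^ p ^ k = 1) (hau : a * u = u * a)
    (h : ∀ e ∈ E, a * e * a⁻¹ * e⁻¹ ∈ ⁅E, Subgroup.zpowers u⁆) : ∀ e ∈ E, a * e = e * a := by
  have hbridge : ⁅E, Subgroup.zpowers u⁆ ≤ (Subgroup.closure
      {y : E | ∃ x, ∃ j : ℕ, y = (⇑(conjEquiv E u huN))^[j] x * x⁻¹}).map E.subtype := by
    rw [Subgroup.commutator_le]
    intro e he w hw
    have hfin : IsOfFinOrder u := isOfFinOrder_of_finite u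
    obtain ⟨j, rfl⟩ := (hfin.mem_powers_iff_mem_zpowers.mpr hw)
    have h1 : ((⇑(conjEquiv E u huN))^[j] ⟨e, he⟩ * (⟨e, he⟩ : E)⁻¹) ∈ Subgroup.closure
        {y : E | ∃ x, ∃ j : ℕ, y = (⇑(conjEquiv E u huN))^[j] x * x⁻¹} :=
      Subgroup.subset_closure ⟨⟨e, he⟩, j, rfl⟩
    refine ⟨_, Subgroup.inv_mem _ h1, ?_⟩
    simp only [Subgroup.coe_subtype, Subgroup.coe_inv, Subgroup.coe_mul, conjEquiv_iterate]
    rw [commutatorElement_def]
    group
  have key := dual_AxB_aut (p := p) (Nat.card E) E le_rfl hE (conjEquiv E a haN)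
    (conjEquiv E u huN) (orderOf a) k
    (by
      intro x
      apply Subtype.ext
      simp only [conjEquiv_coe]
      have h2 : a⁻¹ * u⁻¹ = u⁻¹ * a⁻¹ := by
        rw [← mul_inv_rev, ← mul_inv_rev, hau]
      calc a * (u * x * u⁻¹) * a⁻¹ = (a * u) * x * (u⁻¹ * a⁻¹) := by group
        _ = (u * a) * x * (a⁻¹ * u⁻¹) := by rw [hau, h2]
        _ = u * (a * x * a⁻¹) * u⁻¹ := by group)
    (by
      intro x
      apply Subtype.ext
      rw [conjEquiv_iterate, pow_orderOf_eq_one]
      simp)
    ha
    (by
      intro x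
      apply Subtype.ext
      rw [conjEquiv_iterate, hu]
      simp)
    (by
      intro e
      obtain ⟨y, hy, hye⟩ := hbridge (h e e.2)
      have : y = conjEquiv E a haN e * e⁻¹ := by
        apply Subtype.ext
        rw [Subgroup.coe_subtype] at hye
        rw [hye]
        simp [conjEquiv_coe]
      rw [← this]
      exact hy)
  intro e he
  have h1 := congrArg Subtype.val (key ⟨e, he⟩)
  rw [conjEquiv_coe] at h1
  calc a * e = a * e * a⁻¹ * a := by group
    _ = e * a := by rw [h1]

end Cfsg.Agent.H54
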