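import Mathlib

/-!
# Extraspecial-like subgroups (helper54)

`ESL p E' z`: `E'` is a `p`-subgroup whose centre is `⟨z⟩` of order `p` and contains all
commutators of `E'`. This class contains extraspecial groups and is closed under passing to
`C_{E'}(x) ∩ C_{E'}(y)` for non-commuting `x, y ∈ E'`.
-/

set_option autoImplicit false
open scoped commutatorElement

namespace Cfsg.Agent.H54

section general

variable {G : Type*} [Group G]

theorem pow_mul_comm_of_central_comm (a b k : G) (hk : b * a = a * b * k) (hkb : Commute k b)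
    (n : ℕ) : b ^ n * a = a * b ^ n * k ^ n := by
  induction n with
  | zero => simp
  | succ n ih =>
    have h1 : Commute (k ^ n) b := hkb.pow_left n
    calc b ^ (n + 1) * a = b * (b ^ n * a) := by rw [pow_succ']; group
      _ = b * (a * b ^ n * k ^ n) := by rw [ih]
      _ = (b * a) * b ^ n * k ^ n := by group
      _ = a * b * k * b ^ n * k ^ n := by rw [hk]
      _ = a * b * (k * b ^ n) * k ^ n := by group
      _ = a * b * (b ^ n * k) * k ^ n := by rw [(hkb.pow_right n).eq]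
      _ = a * b ^ (n + 1) * k ^ (n + 1) := by rw [pow_succ' b n, pow_succ' k n]; group

theorem mul_pow_of_central_comm (a b k : G) (hk : b * a = a * b * k) (hka : Commute k a)
    (hkb : Commute k b) (n : ℕ) : (a * b) ^ n = a ^ n * b ^ n * k ^ (n.choose 2) := by
  induction n with
  | zero => simp
  | succ n ih =>
    have h1 := pow_mul_comm_of_central_comm a b k hk hkb n
    have h2 : Commute (k ^ (n.choose 2)) a := hka.pow_left _
    have h3 : Commute (k ^ (n.choose 2)) b := hkb.pow_left _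
    have h4 : (n + 1).choose 2 = n + n.choose 2 := by
      rw [Nat.choose_succ_succ' n 1, Nat.choose_one_right]
    calc (a * b) ^ (n + 1) = (a * b) ^ n * (a * b) := pow_succ _ _
      _ = a ^ n * b ^ n * k ^ (n.choose 2) * (a * b) := by rw [ih]
      _ = a ^ n * b ^ n * (k ^ (n.choose 2) * a) * b := by group
      _ = a ^ n * b ^ n * (a * k ^ (n.choose 2)) * b := by rw [h2.eq]
      _ = a ^ n * (b ^ n * a) * (k ^ (n.choose 2) * b) := by group
      _ = a ^ n * (a * b ^ n * k ^ n) * (b * k ^ (n.choose 2)) := by rw [h1, h3.eq]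
      _ = a ^ n * a * b ^ n * (k ^ n * b) * k ^ (n.choose 2) := by group
      _ = a ^ n * a * b ^ n * (b * k ^ n) * k ^ (n.choose 2) := by rw [(hkb.pow_left n).eq]
      _ = a ^ (n + 1) * b ^ (n + 1) * k ^ ((n + 1).choose 2) := by
        rw [h4, pow_succ a n, pow_succ b n, pow_add k n]; group

end general

variable {E : Type*} [Group E]

/-- An extraspecial-like subgroup. -/
structure ESL (p : ℕ) (E' : Subgroup E) (z : E) : Prop where
  mem : z ∈ E'
  order : orderOf z = p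
  central : ∀ e ∈ E', e * z = z * e
  comm : ∀ a ∈ E', ∀ b ∈ E', ⁅a, b⁆ ∈ Subgroup.zpowers z
  center : ∀ c ∈ E', (∀ e ∈ E', c * e = e * c) → c ∈ Subgroup.zpowers z
  pgroup : IsPGroup p ↥E'

namespace ESL

variable {p : ℕ} {E' : Subgroup E} {z : E}

theorem zpowers_le (h : ESL p E' z) : Subgroup.zpowers z ≤ E' :=
  (Subgroup.zpowers_le).mpr h.mem

theorem commute (h : ESL p E' z) {t e : E} (ht : t ∈ Subgroup.zpowers z) (he : e ∈ E') :
    Commute t e := by
  obtain ⟨k, rfl⟩ := Subgroup.mem_zpowers_iff.mp ht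
  have hc : Commute z e := (h.central e he).symm
  exact hc.zpow_left k

theorem pow_eq_one (h : ESL p E' z) {t : E} (ht : t ∈ Subgroup.zpowers z) : t ^ p = 1 := by
  obtain ⟨k, rfl⟩ := Subgroup.mem_zpowers_iff.mp ht
  rw [← zpow_natCast, ← zpow_mul, mul_comm, zpow_mul, zpow_natCast, ← h.order, pow_orderOf_eq_one,
    one_zpow]

theorem comm_mul_left (h : ESL p E' z) {a b c : E} (_ha : a ∈ E') (hb : b ∈ E') (hc : c ∈ E')
    (ha : a ∈ E') : ⁅a * b, c⁆ = ⁅a, c⁆ * ⁅b, c⁆ := by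
  have h1 : ⁅a * b, c⁆ = a * ⁅b, c⁆ * a⁻¹ * ⁅a, c⁆ := by
    simp only [commutatorElement_def]; group
  have h2 : Commute ⁅b, c⁆ a := h.commute (h.comm b hb c hc) ha
  have h3 : Commute ⁅b, c⁆ ⁅a, c⁆ := h.commute (h.comm b hb c hc) (h.zpowers_le (h.comm a ha c hc))
  rw [h1, ← h2.eq, mul_inv_cancel_right, h3.eq]

theorem comm_mul_right (h : ESL p E' z) {a b c : E} (ha : a ∈ E') (hb : b ∈ E') (hc : c ∈ E') :
    ⁅a, b * c⁆ = ⁅a, b⁆ * ⁅a, c⁆ := by
  have h1 : ⁅a, b * c⁆ = ⁅a, b⁆ * (b * ⁅a, c⁆ * b⁻¹) := by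
    simp only [commutatorElement_def]; group
  have h2 : Commute ⁅a, c⁆ b := h.commute (h.comm a ha c hc) hb
  rw [h1, ← h2.eq, mul_inv_cancel_right]

theorem comm_pow_left (h : ESL p E' z) {a c : E} (ha : a ∈ E') (hc : c ∈ E') (k : ℕ) :
    ⁅a ^ k, c⁆ = ⁅a, c⁆ ^ k := by
  induction k with
  | zero => simp
  | succ k ih =>
    rw [pow_succ, h.comm_mul_left (E'.pow_mem ha k) ha hc (E'.pow_mem ha k), ih, pow_succ]

theorem comm_pow_right (h : ESL p E' z) {a c : E} (ha : a ∈ E') (hc : c ∈ E') (k : ℕ) :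
    ⁅a, c ^ k⁆ = ⁅a, c⁆ ^ k := by
  induction k with
  | zero => simp
  | succ k ih =>
    rw [pow_succ, h.comm_mul_right ha (E'.pow_mem hc k) hc, ih, pow_succ]

theorem pow_p_mem (h : ESL p E' z) {a : E} (ha : a ∈ E') : a ^ p ∈ Subgroup.zpowers z := by
  apply h.center _ (E'.pow_mem ha p)
  intro e he
  rw [← commutatorElement_eq_one_iff_mul_comm, h.comm_pow_left ha he]
  exact h.pow_eq_one (h.comm a ha e he)

theorem exists_not_comm (h : ESL p E' z) {e : E} (he : e ∈ E') (hne : e ∉ Subgroup.zpowers z) :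
    ∃ f ∈ E', ⁅e, f⁆ ≠ 1 := by
  by_contra hcon
  push Not at hcon
  apply hne
  apply h.center e he
  intro f hf
  exact commutatorElement_eq_one_iff_mul_comm.mp (hcon f hf)

variable [Finite E]

theorem zpowers_eq (h : ESL p E' z) [Fact p.Prime] {g : E} (hg : g ∈ Subgroup.zpowers z)
    (hg1 : g ≠ 1) : Subgroup.zpowers g = Subgroup.zpowers z := by
  have hp : p.Prime := Fact.out
  have h1 : orderOf g ∣ p := orderOf_dvd_of_pow_eq_one (h.pow_eq_one hg)
  have h2 : orderOf g = p := by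
    rcases (Nat.dvd_prime hp).mp h1 with h3 | h3
    · exact absurd (orderOf_eq_one_iff.mp h3) hg1
    · exact h3
  apply Subgroup.eq_of_le_of_card_ge ((Subgroup.zpowers_le).mpr hg)
  rw [Nat.card_zpowers, Nat.card_zpowers, h2, h.order]

theorem orderOf_eq (h : ESL p E' z) [Fact p.Prime] {g : E} (hg : g ∈ Subgroup.zpowers z)
    (hg1 : g ≠ 1) : orderOf g = p := by
  have := h.zpowers_eq hg hg1
  have h2 := congrArg (fun H : Subgroup E => Nat.card H) this
  simp only [Nat.card_zpowers] at h2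
  rw [h2, h.order]

theorem exists_pow_eq (h : ESL p E' z) [Fact p.Prime] {g t : E} (hg : g ∈ Subgroup.zpowers z)
    (hg1 : g ≠ 1) (ht : t ∈ Subgroup.zpowers z) : ∃ j : ℕ, j < p ∧ g ^ j = t := by
  have hp : p.Prime := Fact.out
  have h1 : orderOf g = p := by
    have := h.zpowers_eq hg hg1
    have h2 := congrArg (fun H : Subgroup E => Nat.card H) this
    simp only [Nat.card_zpowers] at h2
    rw [h2, h.order]
  rw [← h.zpowers_eq hg hg1] at ht
  have h3 := (isOfFinOrder_of_finite g).mem_powers_iff_mem_zpowers.mpr ht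
  obtain ⟨j, hj⟩ := (Submonoid.mem_powers_iff _ _).mp h3
  refine ⟨j % p, Nat.mod_lt _ hp.pos, ?_⟩
  rw [← h1, pow_mod_orderOf, hj]

/-- Adjusting an element into the centralizer of a non-commuting pair. -/
theorem exists_mul_mem_centralizer (h : ESL p E' z) [Fact p.Prime] {x y : E} (hx : x ∈ E')
    (hy : y ∈ E') (hxy : ⁅x, y⁆ ≠ 1) {e : E} (he : e ∈ E') :
    ∃ j k : ℕ, j < p ∧ k < p ∧ e * y ^ j * x ^ k ∈ E' ⊓ Subgroup.centralizer {x, y} := by
  have hyx : ⁅y, x⁆ ≠ 1 := by
    intro h1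
    apply hxy
    rw [← commutatorElement_inv, h1, inv_one]
  obtain ⟨j, hj, hj'⟩ := h.exists_pow_eq (h.comm y hy x hx) hyx
    (Subgroup.inv_mem _ (h.comm e he x hx))
  have he1 : e * y ^ j ∈ E' := E'.mul_mem he (E'.pow_mem hy j)
  have hc1 : ⁅e * y ^ j, x⁆ = 1 := by
    rw [h.comm_mul_left he (E'.pow_mem hy j) hx he, h.comm_pow_left hy hx, hj', mul_inv_cancel]
  obtain ⟨k, hk, hk'⟩ := h.exists_pow_eq (h.comm x hx y hy) hxy
    (Subgroup.inv_mem _ (h.comm _ he1 y hy))
  have hc2 : ⁅e * y ^ j * x ^ k, y⁆ = 1 := by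
    rw [h.comm_mul_left he1 (E'.pow_mem hx k) hy he1, h.comm_pow_left hx hy, hk', mul_inv_cancel]
  have hc3 : ⁅e * y ^ j * x ^ k, x⁆ = 1 := by
    rw [h.comm_mul_left he1 (E'.pow_mem hx k) hx he1, h.comm_pow_left hx hx, hc1,
      commutatorElement_self, one_pow, one_mul]
  refine ⟨j, k, hj, hk, E'.mul_mem he1 (E'.pow_mem hx k), Subgroup.mem_centralizer_iff.mpr ?_⟩
  intro u hu
  rcases hu with rfl | rfl
  · exact (commutatorElement_eq_one_iff_mul_comm.mp hc3).symm
  · exact (commutatorElement_eq_one_iff_mul_comm.mp hc2).symm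

/-- The class is closed under `C(x) ∩ C(y)`. -/
theorem inf_centralizer (h : ESL p E' z) [Fact p.Prime] {x y : E} (hx : x ∈ E')
    (hy : y ∈ E') (hxy : ⁅x, y⁆ ≠ 1) : ESL p (E' ⊓ Subgroup.centralizer {x, y}) z := by
  refine ⟨⟨h.mem, Subgroup.mem_centralizer_iff.mpr ?_⟩, h.order, fun e he => h.central e he.1,
    fun a ha b hb => h.comm a ha.1 b hb.1, ?_, h.pgroup.to_le inf_le_left⟩
  · intro u hu
    rcases hu with rfl | rfl
    · exact h.central u hx
    · exact h.central u hy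
  · intro c hc hcomm
    apply h.center c hc.1
    intro e he
    obtain ⟨j, k, -, -, hjk⟩ := h.exists_mul_mem_centralizer hx hy hxy he
    have h1 := hcomm _ hjk
    have hcx : Commute c x := ((Subgroup.mem_centralizer_iff.mp hc.2) x (by simp)).symm
    have hcy : Commute c y := ((Subgroup.mem_centralizer_iff.mp hc.2) y (by simp)).symm
    have h2 : Commute c (e * y ^ j * x ^ k) := h1
    have h3 : Commute c (e * y ^ j) := by
      have := h2.mul_right (hcx.pow_right k).inv_right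
      simpa [mul_assoc] using this
    have h4 : Commute c e := by
      have := h3.mul_right (hcy.pow_right j).inv_right
      simpa [mul_assoc] using this
    exact h4.eq

theorem card_le (h : ESL p E' z) [Fact p.Prime] {x y : E} (hx : x ∈ E')
    (hy : y ∈ E') (hxy : ⁅x, y⁆ ≠ 1) :
    Nat.card E' ≤ Nat.card ↥(E' ⊓ Subgroup.centralizer {x, y}) * p * p := by
  have hp : p.Prime := Fact.out
  let f : (↥(E' ⊓ Subgroup.centralizer {x, y}) × Fin p) × Fin p → ↥E' := fun t =>
    ⟨(t.1.1 : E) * (x ^ (t.2 : ℕ))⁻¹ * (y ^ (t.1.2 : ℕ))⁻¹,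
      E'.mul_mem (E'.mul_mem t.1.1.2.1 (E'.inv_mem (E'.pow_mem hx _))) (E'.inv_mem (E'.pow_mem hy _))⟩
  have hf : Function.Surjective f := by
    intro e
    obtain ⟨j, k, hj, hk, hjk⟩ := h.exists_mul_mem_centralizer hx hy hxy e.2
    refine ⟨((⟨_, hjk⟩, ⟨j, hj⟩), ⟨k, hk⟩), ?_⟩
    apply Subtype.ext
    simp [f]
  have := Nat.card_le_card_of_surjective f hf
  rw [Nat.card_prod, Nat.card_prod, Nat.card_fin] at this
  exact this

omit [Finite E] in
theorem mul_pow_p (h : ESL p E' z) [Fact p.Prime] (hp2 : p ≠ 2) {a b : E} (ha : a ∈ E')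
    (hb : b ∈ E') : (a * b) ^ p = a ^ p * b ^ p := by
  have hp : p.Prime := Fact.out
  have hk : ⁅b⁻¹, a⁻¹⁆ ∈ Subgroup.zpowers z := h.comm _ (E'.inv_mem hb) _ (E'.inv_mem ha)
  have h1 : b * a = a * b * ⁅b⁻¹, a⁻¹⁆ := by
    simp only [commutatorElement_def]; group
  have h2 := mul_pow_of_central_comm a b ⁅b⁻¹, a⁻¹⁆ h1 (h.commute hk ha) (h.commute hk hb) p
  have h3 : p ∣ p.choose 2 := by
    apply hp.dvd_choose_self (by norm_num)
    have := hp.two_le
    omega
  obtain ⟨c, hc⟩ := h3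
  rw [h2, hc, pow_mul, h.pow_eq_one hk, one_pow, mul_one]

/-- For odd `p` and `|E'| ≥ p³` there is a non-central element of order dividing `p`. -/
theorem exists_order_p_odd (h : ESL p E' z) [Fact p.Prime] (hp2 : p ≠ 2)
    (hcard : p ^ 3 ≤ Nat.card E') : ∃ y ∈ E', y ∉ Subgroup.zpowers z ∧ y ^ p = 1 := by
  have hp : p.Prime := Fact.out
  have hzc : Nat.card (Subgroup.zpowers z) = p := by rw [Nat.card_zpowers, h.order]
  have hex : ∀ H : Subgroup E, Nat.card H < p ^ 3 → ∃ e ∈ E', e ∉ H := by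
    intro H hH
    by_contra hcon
    push Not at hcon
    exact absurd (Subgroup.card_le_of_le hcon) (by omega)
  have hlt1 : p < p ^ 3 := by
    calc p = p ^ 1 := (pow_one p).symm
      _ < p ^ 3 := Nat.pow_lt_pow_right hp.one_lt (by norm_num)
  obtain ⟨e, he, hez⟩ := hex (Subgroup.zpowers z) (by rw [hzc]; exact hlt1)
  by_cases hep : e ^ p = 1
  · exact ⟨e, he, hez, hep⟩
  · have hepz : e ^ p ∈ Subgroup.zpowers z := h.pow_p_mem he
    have hord : orderOf e ∣ p ^ 2 := by
      apply orderOf_dvd_of_pow_eq_one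
      rw [pow_two, pow_mul]
      exact h.pow_eq_one hepz
    have hcard_e : Nat.card (Subgroup.zpowers e) < p ^ 3 := by
      rw [Nat.card_zpowers]
      calc orderOf e ≤ p ^ 2 := Nat.le_of_dvd (pow_pos hp.pos 2) hord
        _ < p ^ 3 := Nat.pow_lt_pow_right hp.one_lt (by norm_num)
    obtain ⟨f, hf, hfe⟩ := hex (Subgroup.zpowers e) hcard_e
    obtain ⟨m, -, hm⟩ := h.exists_pow_eq hepz hep (h.pow_p_mem hf)
    have hzle : Subgroup.zpowers z ≤ Subgroup.zpowers e := by
      rw [← h.zpowers_eq hepz hep]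
      exact (Subgroup.zpowers_le).mpr (Subgroup.pow_mem _ (Subgroup.mem_zpowers e) p)
    refine ⟨f * (e ^ m)⁻¹, E'.mul_mem hf (E'.inv_mem (E'.pow_mem he m)), ?_, ?_⟩
    · intro hy
      apply hfe
      have h5 := (Subgroup.zpowers e).mul_mem (hzle hy)
        (Subgroup.pow_mem _ (Subgroup.mem_zpowers e) m)
      simpa using h5
    · rw [h.mul_pow_p hp2 hf (E'.inv_mem (E'.pow_mem he m)), inv_pow, ← pow_mul, mul_comm m p,
        pow_mul, hm, mul_inv_cancel]

/-- For `p = 2` and `|E'| ≥ 32` there is a non-central involution. -/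
theorem exists_involution (h : ESL 2 E' z) (hcard : 2 ^ 5 ≤ Nat.card E') :
    ∃ y ∈ E', y ∉ Subgroup.zpowers z ∧ y ^ 2 = 1 := by
  haveI : Fact (Nat.Prime 2) := ⟨Nat.prime_two⟩
  have hzc : Nat.card (Subgroup.zpowers z) = 2 := by rw [Nat.card_zpowers, h.order]
  have hz1 : z ≠ 1 := by
    intro h1
    have := h.order
    rw [h1, orderOf_one] at this
    omega
  have hz2 : z ^ 2 = 1 := by rw [← h.order]; exact pow_orderOf_eq_one z
  have htwo : ∀ t ∈ Subgroup.zpowers z, t ≠ 1 → t = z := by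
    intro t ht ht1
    obtain ⟨j, hj, hj'⟩ := h.exists_pow_eq (Subgroup.mem_zpowers z) hz1 ht
    interval_cases j
    · exact absurd (by simpa using hj'.symm) ht1
    · simpa using hj'.symm
  have hex : ∃ e ∈ E', e ∉ Subgroup.zpowers z := by
    by_contra hcon
    push Not at hcon
    have := Subgroup.card_le_of_le hcon
    omega
  obtain ⟨x₀, hx₀, hx₀z⟩ := hex
  obtain ⟨y₀, hy₀, hxy⟩ := h.exists_not_comm hx₀ hx₀z
  by_cases hx2 : x₀ ^ 2 = 1
  · exact ⟨x₀, hx₀, hx₀z, hx2⟩
  · have hc := h.card_le hx₀ hy₀ hxy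
    have hESL := h.inf_centralizer hx₀ hy₀ hxy
    have hex2 : ∃ u ∈ E' ⊓ Subgroup.centralizer {x₀, y₀}, u ∉ Subgroup.zpowers z := by
      by_contra hcon
      push Not at hcon
      have := Subgroup.card_le_of_le hcon
      omega
    obtain ⟨u, hu, huz⟩ := hex2
    by_cases hu2 : u ^ 2 = 1
    · exact ⟨u, hu.1, huz, hu2⟩
    · have e1 := htwo _ (h.pow_p_mem hx₀) hx2
      have e2 := htwo _ (h.pow_p_mem hu.1) hu2
      have hcomm : Commute x₀ u := (Subgroup.mem_centralizer_iff.mp hu.2) x₀ (by simp)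
      refine ⟨x₀ * u, E'.mul_mem hx₀ hu.1, ?_, ?_⟩
      · intro hy
        apply hxy
        have h5 : x₀ * u * u⁻¹ ∈ E' ⊓ Subgroup.centralizer {x₀, y₀} :=
          Subgroup.mul_mem _ (hESL.zpowers_le hy) (Subgroup.inv_mem _ hu)
        rw [mul_inv_cancel_right] at h5
        have h6 := (Subgroup.mem_centralizer_iff.mp h5.2) y₀ (by simp)
        exact commutatorElement_eq_one_iff_mul_comm.mpr h6.symm
      · rw [hcomm.mul_pow, e1, e2, ← pow_two, hz2]

end ESL

end Cfsg.Agent.H54
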