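import Mathlib
import Cfsg.Agent.H54.ESL

/-!
# Faithful modules of extraspecial-like groups (helper54)

An extraspecial-like `p`-group `E'` (see `ESL`) of order at least `p^(2w+1)` acting on an abelian
`r`-group `B` (`r ≠ p`) with its centre acting fixed-point-freely forces `|B| ≥ r^(n p^w)`,
where `n` is the order of `r` modulo `p`.
-/

set_option autoImplicit false
open scoped commutatorElement

namespace Cfsg.Agent.H54

variable {E A : Type*} [Group E] [CommGroup A] [MulDistribMulAction E A]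

/-- The norm map of `u`: the product of the first `m` translates. -/
def normHom (u : E) (m : ℕ) : A →* A :=
  ∏ k ∈ Finset.range m, MulDistribMulAction.toMonoidHom A (u ^ k)

theorem normHom_apply (u : E) (m : ℕ) (a : A) :
    normHom u m a = ∏ k ∈ Finset.range m, (u ^ k) • a := by
  simp [normHom]

theorem pow_smul_eq_of_fixed (u : E) (a : A) (h : u • a = a) (k : ℕ) : (u ^ k) • a = a := by
  induction k with
  | zero => simp
  | succ k ih => rw [pow_succ, mul_smul, h, ih]

theorem smul_normHom (u : E) (m : ℕ) (hu : u ^ m = 1) (a : A) :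
    u • normHom u m a = normHom u m a := by
  rw [normHom_apply]
  have h1 : u • ∏ k ∈ Finset.range m, (u ^ k) • a = ∏ k ∈ Finset.range m, (u ^ (k + 1)) • a := by
    rw [Finset.smul_prod']
    apply Finset.prod_congr rfl
    intro k _
    rw [← mul_smul, ← pow_succ']
  rw [h1]
  have h2 := Finset.prod_range_succ' (fun k => (u ^ k) • a) m
  have h3 := Finset.prod_range_succ (fun k => (u ^ k) • a) m
  rw [h2] at h3
  simp only [pow_zero, one_smul, hu] at h3
  exact mul_right_cancel h3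

theorem normHom_of_fixed (u : E) (m : ℕ) (a : A) (h : u • a = a) : normHom u m a = a ^ m := by
  rw [normHom_apply]
  simp [pow_smul_eq_of_fixed u a h]

theorem normHom_mem (B : Subgroup A) (u : E) (hB : ∀ b ∈ B, u • b ∈ B) (m : ℕ) {b : A}
    (hb : b ∈ B) : normHom u m b ∈ B := by
  rw [normHom_apply]
  have h1 : ∀ k : ℕ, (u ^ k) • b ∈ B := by
    intro k
    induction k with
    | zero => simpa using hb
    | succ k ih => rw [pow_succ', mul_smul]; exact hB _ ih
  exact Subgroup.prod_mem _ (fun k _ => h1 k)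

theorem eq_one_of_pow_eq_one_of_isPGroup {p r : ℕ} [Fact p.Prime] [Fact r.Prime] (hpr : p ≠ r)
    (B : Subgroup A) (hB : IsPGroup r B) {b : A} (hb : b ∈ B) (h : b ^ p = 1) : b = 1 := by
  obtain ⟨k, hk⟩ := hB ⟨b, hb⟩
  have hk' : b ^ r ^ k = 1 := by simpa using congrArg Subtype.val hk
  have h1 : orderOf b ∣ p := orderOf_dvd_of_pow_eq_one h
  have h2 : orderOf b ∣ r ^ k := orderOf_dvd_of_pow_eq_one hk'
  have h3 : Nat.Coprime p (r ^ k) :=
    Nat.Coprime.pow_right k ((Nat.coprime_primes Fact.out Fact.out).mpr hpr)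
  exact orderOf_eq_one_iff.mp (Nat.eq_one_of_dvd_coprimes h3 h1 h2)

section fin

variable [Finite E]

/-- Norms of nontrivial central elements kill `B` when `z` acts fixed-point-freely. -/
theorem normHom_kill {p : ℕ} [Fact p.Prime] {E' : Subgroup E} {z : E} (h : ESL p E' z)
    (B : Subgroup A) (hz : ∀ b ∈ B, z • b ∈ B) (hfpf : ∀ b ∈ B, z • b = b → b = 1) {t : E}
    (ht : t ∈ Subgroup.zpowers z) (ht1 : t ≠ 1) {b : A} (hb : b ∈ B) : normHom t p b = 1 := by
  have hz1 : z ≠ 1 := by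
    intro h1
    apply ht1
    rw [h1, Subgroup.zpowers_one_eq_bot, Subgroup.mem_bot] at ht
    exact ht
  obtain ⟨j, -, hj⟩ := h.exists_pow_eq (Subgroup.mem_zpowers z) hz1 ht
  obtain ⟨m, -, hm⟩ := h.exists_pow_eq ht ht1 (Subgroup.mem_zpowers z)
  have htB : ∀ b ∈ B, t • b ∈ B := by
    intro b hb
    rw [← hj]
    clear hj
    induction j with
    | zero => simpa using hb
    | succ j ih => rw [pow_succ', mul_smul]; exact hz _ ih
  apply hfpf _ (normHom_mem B t htB p hb)
  rw [← hm]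
  exact pow_smul_eq_of_fixed t _ (smul_normHom t p (h.pow_eq_one ht) b) m

variable [Finite A]

/-- Base case: a fixed-point-free element of order `p` on a nontrivial `r`-group. -/
theorem card_ge_of_fpf {p r n : ℕ} [Fact p.Prime] [Fact r.Prime]
    (hmin : ∀ k : ℕ, 1 ≤ k → p ∣ r ^ k - 1 → n ≤ k) (z : E) (hzp : z ^ p = 1) (B : Subgroup A)
    (hz : ∀ b ∈ B, z • b ∈ B) (hfpf : ∀ b ∈ B, z • b = b → b = 1) (hB : IsPGroup r B)
    (hne : B ≠ ⊥) : r ^ n ≤ Nat.card B := by
  classical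
  have hr : r.Prime := Fact.out
  have hp : p.Prime := Fact.out
  haveI := Fintype.ofFinite ↥B
  have hzinv : ∀ b ∈ B, z⁻¹ • b ∈ B := by
    intro b hb
    have h1 : z⁻¹ = z ^ (p - 1) := by
      rw [inv_eq_iff_mul_eq_one, ← pow_succ', Nat.sub_add_cancel hp.pos, hzp]
    rw [h1]
    generalize p - 1 = k
    induction k with
    | zero => simpa using hb
    | succ k ih => rw [pow_succ', mul_smul]; exact hz _ ih
  let σ : Equiv.Perm ↥B :=
    { toFun := fun b => ⟨z • (b : A), hz _ b.2⟩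
      invFun := fun b => ⟨z⁻¹ • (b : A), hzinv _ b.2⟩
      left_inv := fun b => by simp
      right_inv := fun b => by simp }
  have hpow : ∀ (k : ℕ) (b : ↥B), (((σ ^ k) b : ↥B) : A) = (z ^ k) • (b : A) := by
    intro k
    induction k with
    | zero => intro b; simp
    | succ k ih =>
      intro b
      rw [pow_succ', Equiv.Perm.mul_apply, pow_succ', mul_smul, ← ih b]
      rfl
  have hσ : σ ^ p ^ 1 = 1 := by
    ext b
    rw [pow_one, hpow p b, hzp, one_smul]
    rfl
  have h1 := Equiv.Perm.card_compl_support_modEq hσ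
  have h2 : σ.supportᶜ = {1} := by
    ext b
    rw [Finset.mem_compl, Equiv.Perm.mem_support, not_not, Finset.mem_singleton]
    constructor
    · intro hb
      have h3 : z • (b : A) = (b : A) := congrArg Subtype.val hb
      exact Subtype.ext (hfpf _ b.2 h3)
    · rintro rfl
      apply Subtype.ext
      show z • ((1 : ↥B) : A) = ((1 : ↥B) : A)
      simp
  rw [h2, Finset.card_singleton, ← Nat.card_eq_fintype_card] at h1
  obtain ⟨m, hm⟩ := IsPGroup.iff_card.mp hB
  have hm0 : m ≠ 0 := by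
    rintro rfl
    rw [pow_zero] at hm
    exact hne (Subgroup.card_eq_one.mp hm)
  rw [hm] at h1 ⊢
  have h3 : p ∣ r ^ m - 1 := (Nat.modEq_iff_dvd' (Nat.one_le_pow _ _ hr.pos)).mp h1
  exact Nat.pow_le_pow_right hr.pos (hmin m (Nat.one_le_iff_ne_zero.mpr hm0) h3)

/-- A non-abelian extraspecial-like group acting with `z` fixed-point-free forces `|B| ≥ r²`. -/
theorem card_ge_sq {p r : ℕ} [Fact p.Prime] [Fact r.Prime] {E' : Subgroup E} {z : E}
    (h : ESL p E' z) {x y : E} (hx : x ∈ E') (hy : y ∈ E') (hxy : ⁅x, y⁆ ≠ 1) (B : Subgroup A)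
    (hInv : ∀ e ∈ E', ∀ b ∈ B, e • b ∈ B) (hfpf : ∀ b ∈ B, z • b = b → b = 1)
    (hB : IsPGroup r B) (hne : B ≠ ⊥) : r ^ 2 ≤ Nat.card B := by
  have hr : r.Prime := Fact.out
  obtain ⟨m, hm⟩ := IsPGroup.iff_card.mp hB
  have hm0 : m ≠ 0 := by
    rintro rfl
    rw [pow_zero] at hm
    exact hne (Subgroup.card_eq_one.mp hm)
  by_cases hm1 : m = 1
  · exfalso
    have hcard : Nat.card B = r := by rw [hm, hm1, pow_one]
    haveI : IsCyclic ↥B := isCyclic_of_prime_card hcard
    obtain ⟨g, hg⟩ := IsCyclic.exists_generator (α := ↥B)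
    have hgen : ∀ b ∈ B, ∃ k : ℤ, (g : A) ^ k = b := by
      intro b hb
      obtain ⟨k, hk⟩ := Subgroup.mem_zpowers_iff.mp (hg ⟨b, hb⟩)
      exact ⟨k, by simpa using congrArg Subtype.val hk⟩
    have hcomm : ∀ e ∈ E', ∀ f ∈ E', ∀ b ∈ B, (e * f) • b = (f * e) • b := by
      intro e he f hf b hb
      obtain ⟨kb, rfl⟩ := hgen b hb
      obtain ⟨ke, hke⟩ := hgen _ (hInv e he _ g.2)
      obtain ⟨kf, hkf⟩ := hgen _ (hInv f hf _ g.2)
      have e1 : (e * f) • (g : A) ^ kb = (((g : A) ^ ke) ^ kf) ^ kb := by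
        rw [mul_smul, smul_zpow', ← hkf, smul_zpow', smul_zpow', ← hke]
      have e2 : (f * e) • (g : A) ^ kb = (((g : A) ^ kf) ^ ke) ^ kb := by
        rw [mul_smul, smul_zpow', ← hke, smul_zpow', smul_zpow', ← hkf]
      rw [e1, e2, ← zpow_mul (g : A) ke kf, ← zpow_mul (g : A) kf ke, mul_comm ke kf]
    have hfix : ∀ b ∈ B, ⁅x, y⁆ • b = b := by
      intro b hb
      have h1 := hcomm x⁻¹ (E'.inv_mem hx) y⁻¹ (E'.inv_mem hy) b hb
      calc ⁅x, y⁆ • b = (x * y) • ((x⁻¹ * y⁻¹) • b) := by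
            rw [← mul_smul, commutatorElement_def]; congr 1; group
        _ = (x * y) • ((y⁻¹ * x⁻¹) • b) := by rw [h1]
        _ = b := by rw [← mul_smul]; simp [mul_assoc]
    obtain ⟨j, -, hj⟩ := h.exists_pow_eq (h.comm x hx y hy) hxy (Subgroup.mem_zpowers z)
    apply hne
    rw [eq_bot_iff]
    intro b hb
    rw [Subgroup.mem_bot]
    apply hfpf b hb
    rw [← hj]
    exact pow_smul_eq_of_fixed _ _ (hfix b hb) j
  · rw [hm]
    exact Nat.pow_le_pow_right hr.pos (by omega)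

/-- If no element `y z^i` has a nontrivial fixed point on `B`, then `B` is trivial. -/
theorem eq_bot_of_fixed_trivial {p r : ℕ} [Fact p.Prime] [Fact r.Prime] (hpr : p ≠ r)
    {E' : Subgroup E} {z : E} (h : ESL p E' z) {y : E} (hy : y ∈ E') (hyp : y ^ p = 1)
    (B : Subgroup A) (hInv : ∀ e ∈ E', ∀ b ∈ B, e • b ∈ B) (hfpf : ∀ b ∈ B, z • b = b → b = 1)
    (hB : IsPGroup r B) (hall : ∀ i : ℕ, ∀ b ∈ B, (y * z ^ i) • b = b → b = 1) : B = ⊥ := by
  have hp : p.Prime := Fact.out
  have hzp : z ^ p = 1 := by rw [← h.order]; exact pow_orderOf_eq_one z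
  rw [eq_bot_iff]
  intro b hb
  rw [Subgroup.mem_bot]
  have hformula : ∏ i ∈ Finset.range p, normHom (y * z ^ i) p b = b ^ p := by
    simp only [normHom_apply]
    rw [Finset.prod_comm]
    have hj : ∀ j ∈ Finset.range p, ∏ i ∈ Finset.range p, ((y * z ^ i) ^ j) • b =
        y ^ j • normHom (z ^ j) p b := by
      intro j _
      rw [normHom_apply, Finset.smul_prod']
      apply Finset.prod_congr rfl
      intro i _
      have hc : Commute y (z ^ i) :=
        (h.commute (Subgroup.pow_mem _ (Subgroup.mem_zpowers z) i) hy).symm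
      rw [hc.mul_pow, mul_smul, ← pow_mul, ← pow_mul, mul_comm i j]
    rw [Finset.prod_congr rfl hj, Finset.prod_eq_single 0]
    · rw [pow_zero, pow_zero, one_smul]
      exact normHom_of_fixed 1 p b (one_smul _ _)
    · intro j hj hj0
      have hzj : z ^ j ≠ 1 := by
        intro h1
        have h2 := orderOf_dvd_of_pow_eq_one h1
        rw [h.order] at h2
        exact absurd (Nat.le_of_dvd (Nat.pos_of_ne_zero hj0) h2) (not_le.mpr (Finset.mem_range.mp hj))
      rw [normHom_kill h B (fun b hb => hInv z h.mem b hb) hfpf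
        (Subgroup.pow_mem _ (Subgroup.mem_zpowers z) j) hzj hb, smul_one]
    · intro h0
      exact absurd (Finset.mem_range.mpr hp.pos) h0
  have hone : ∀ i ∈ Finset.range p, normHom (y * z ^ i) p b = 1 := by
    intro i _
    apply hall i _ (normHom_mem B _
      (fun b hb => hInv _ (E'.mul_mem hy (E'.pow_mem h.mem i)) b hb) p hb)
    apply smul_normHom
    have hc : Commute y (z ^ i) :=
      (h.commute (Subgroup.pow_mem _ (Subgroup.mem_zpowers z) i) hy).symm
    rw [hc.mul_pow, hyp, one_mul, ← pow_mul, mul_comm, pow_mul, hzp, one_pow]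
  rw [Finset.prod_eq_one hone] at hformula
  exact eq_one_of_pow_eq_one_of_isPGroup hpr B hB hb hformula.symm

/-- The `x`-translates of the fixed points of `y` are independent. -/
theorem card_pow_le {p r : ℕ} [Fact p.Prime] [Fact r.Prime] (hpr : p ≠ r)
    {E' : Subgroup E} {z : E} (h : ESL p E' z) {x y : E} (hx : x ∈ E') (hy : y ∈ E')
    (hxy : ⁅x, y⁆ ≠ 1) (B : Subgroup A) (hInv : ∀ e ∈ E', ∀ b ∈ B, e • b ∈ B)
    (hfpf : ∀ b ∈ B, z • b = b → b = 1) (hB : IsPGroup r B) (B' : Subgroup A) (hB'B : B' ≤ B)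
    (hB'y : ∀ b ∈ B', y • b = b) : Nat.card B' ^ p ≤ Nat.card B := by
  classical
  have hgz : ⁅x, y⁆ ∈ Subgroup.zpowers z := h.comm x hx y hy
  have hgord : orderOf ⁅x, y⁆ = p := h.orderOf_eq hgz hxy
  let f : (Fin p → ↥B') → ↥B := fun c =>
    ⟨∏ k : Fin p, (x ^ (k : ℕ)) • (c k : A),
      Subgroup.prod_mem _ (fun k _ => hInv _ (E'.pow_mem hx _) _ (hB'B (c k).2))⟩
  have hu_eq : ∀ k : ℕ, x ^ k * y * (x ^ k)⁻¹ = ⁅x, y⁆ ^ k * y := by
    intro k
    rw [← h.comm_pow_left hx hy k, commutatorElement_def]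
    group
  have hf : Function.Injective f := by
    intro c c' hcc
    have h1 : ∏ k : Fin p, (x ^ (k : ℕ)) • (c k : A) = ∏ k : Fin p, (x ^ (k : ℕ)) • (c' k : A) :=
      congrArg Subtype.val hcc
    funext m
    have h2 : ∏ k : Fin p, (x ^ (k : ℕ)) • ((c k : A) * (c' k : A)⁻¹) = 1 := by
      simp only [smul_mul', smul_inv']
      rw [Finset.prod_mul_distrib, Finset.prod_inv_distrib, h1, mul_inv_cancel]
    have hd : ∀ k : Fin p, (c k : A) * (c' k : A)⁻¹ ∈ B' := fun k =>
      B'.mul_mem (c k).2 (B'.inv_mem (c' k).2)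
    have hfixk : ∀ k : Fin p, (x ^ (k : ℕ) * y * (x ^ (k : ℕ))⁻¹) •
        ((x ^ (k : ℕ)) • ((c k : A) * (c' k : A)⁻¹)) = (x ^ (k : ℕ)) • ((c k : A) * (c' k : A)⁻¹) := by
      intro k
      rw [← mul_smul, inv_mul_cancel_right, mul_smul, hB'y _ (hd k)]
    have heB : ∀ k : Fin p, (x ^ (k : ℕ)) • ((c k : A) * (c' k : A)⁻¹) ∈ B := fun k =>
      hInv _ (E'.pow_mem hx _) _ (hB'B (hd k))
    have h3 := congrArg (normHom (x ^ (m : ℕ) * y * (x ^ (m : ℕ))⁻¹) p) h2
    rw [map_prod, map_one] at h3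
    have hterm : ∀ k : Fin p, k ≠ m → normHom (x ^ (m : ℕ) * y * (x ^ (m : ℕ))⁻¹) p
        ((x ^ (k : ℕ)) • ((c k : A) * (c' k : A)⁻¹)) = 1 := by
      intro k hkm
      have ht : ⁅x, y⁆ ^ (m : ℕ) * (⁅x, y⁆ ^ (k : ℕ))⁻¹ ∈ Subgroup.zpowers z :=
        Subgroup.mul_mem _ (Subgroup.pow_mem _ hgz _) (Subgroup.inv_mem _ (Subgroup.pow_mem _ hgz _))
      have ht1 : ⁅x, y⁆ ^ (m : ℕ) * (⁅x, y⁆ ^ (k : ℕ))⁻¹ ≠ 1 := by
        intro h4
        rw [mul_inv_eq_one] at h4
        have h5 := pow_injOn_Iio_orderOf (x := ⁅x, y⁆) (by rw [hgord]; exact m.2)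
          (by rw [hgord]; exact k.2) h4
        exact hkm (Fin.ext h5.symm)
      have hum : x ^ (m : ℕ) * y * (x ^ (m : ℕ))⁻¹ =
          (⁅x, y⁆ ^ (m : ℕ) * (⁅x, y⁆ ^ (k : ℕ))⁻¹) * (x ^ (k : ℕ) * y * (x ^ (k : ℕ))⁻¹) := by
        rw [hu_eq, hu_eq]; group
      have hukE : x ^ (k : ℕ) * y * (x ^ (k : ℕ))⁻¹ ∈ E' :=
        E'.mul_mem (E'.mul_mem (E'.pow_mem hx _) hy) (E'.inv_mem (E'.pow_mem hx _))
      have hcm : Commute (⁅x, y⁆ ^ (m : ℕ) * (⁅x, y⁆ ^ (k : ℕ))⁻¹)
          (x ^ (k : ℕ) * y * (x ^ (k : ℕ))⁻¹) := h.commute ht hukE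
      rw [hum, normHom_apply]
      have h6 : ∀ j ∈ Finset.range p,
          ((⁅x, y⁆ ^ (m : ℕ) * (⁅x, y⁆ ^ (k : ℕ))⁻¹ * (x ^ (k : ℕ) * y * (x ^ (k : ℕ))⁻¹)) ^ j) •
            ((x ^ (k : ℕ)) • ((c k : A) * (c' k : A)⁻¹)) =
          ((⁅x, y⁆ ^ (m : ℕ) * (⁅x, y⁆ ^ (k : ℕ))⁻¹) ^ j) •
            ((x ^ (k : ℕ)) • ((c k : A) * (c' k : A)⁻¹)) := by
        intro j _
        rw [hcm.mul_pow, mul_smul, pow_smul_eq_of_fixed _ _ (hfixk k) j]
      rw [Finset.prod_congr rfl h6, ← normHom_apply]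
      exact normHom_kill h B (fun b hb => hInv z h.mem b hb) hfpf ht ht1 (heB k)
    rw [Finset.prod_eq_single m (fun k _ hk => hterm k hk) (by simp),
      normHom_of_fixed _ _ _ (hfixk m)] at h3
    have h4 := eq_one_of_pow_eq_one_of_isPGroup hpr B hB (heB m) h3
    have h5 : (c m : A) * (c' m : A)⁻¹ = 1 := by
      have := congrArg (fun a => (x ^ (m : ℕ))⁻¹ • a) h4
      simpa using this
    exact Subtype.ext (mul_inv_eq_one.mp h5)
  have := Nat.card_le_card_of_injective f hf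
  rwa [Nat.card_fun, Nat.card_fin] at this

/-- Main induction: the centre acts fixed-point-freely on `B ≠ 1`. -/
theorem es_bound_aux {p r n : ℕ} [Fact p.Prime] [Fact r.Prime] (hpr : p ≠ r)
    (hmin : ∀ k : ℕ, 1 ≤ k → p ∣ r ^ k - 1 → n ≤ k) (h2 : p = 2 → n = 1) :
    ∀ (w : ℕ) (E' : Subgroup E) (B : Subgroup A) (z : E), ESL p E' z →
      p ^ (2 * w + 1) ≤ Nat.card E' → (∀ e ∈ E', ∀ b ∈ B, e • b ∈ B) → IsPGroup r B → B ≠ ⊥ →
      (∀ b ∈ B, z • b = b → b = 1) → r ^ (n * p ^ w) ≤ Nat.card B := by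
  have hp : p.Prime := Fact.out
  have hr : r.Prime := Fact.out
  intro w
  induction w with
  | zero =>
    intro E' B z h _ hInv hB hne hfpf
    have hzp : z ^ p = 1 := by rw [← h.order]; exact pow_orderOf_eq_one z
    rw [pow_zero, mul_one]
    exact card_ge_of_fpf hmin z hzp B (fun b hb => hInv z h.mem b hb) hfpf hB hne
  | succ w ih =>
    intro E' B z h hcard hInv hB hne hfpf
    have hzc : Nat.card (Subgroup.zpowers z) = p := by rw [Nat.card_zpowers, h.order]
    have hp3 : p ^ 3 ≤ Nat.card E' :=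
      le_trans (Nat.pow_le_pow_right hp.pos (by omega)) hcard
    -- the step, given a non-central element of order dividing `p`
    have step : ∀ y ∈ E', y ∉ Subgroup.zpowers z → y ^ p = 1 →
        r ^ (n * p ^ (w + 1)) ≤ Nat.card B := by
      intro y hy hyz hyp
      obtain ⟨x, hx, hyx⟩ := h.exists_not_comm hy hyz
      have hxy : ⁅x, y⁆ ≠ 1 := by
        intro h1
        apply hyx
        rw [← commutatorElement_inv, h1, inv_one]
      have hESL := h.inf_centralizer hx hy hxy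
      have hc := h.card_le hx hy hxy
      have hcard' : p ^ (2 * w + 1) ≤ Nat.card ↥(E' ⊓ Subgroup.centralizer {x, y}) := by
        have h3 : p ^ (2 * (w + 1) + 1) = p ^ (2 * w + 1) * p * p := by ring
        rw [h3] at hcard
        have h4 := le_trans hcard hc
        have h5 := Nat.le_of_mul_le_mul_right h4 hp.pos
        exact Nat.le_of_mul_le_mul_right h5 hp.pos
      -- the fixed points of `y` in `B`
      have hB'inv : ∀ e ∈ E' ⊓ Subgroup.centralizer {x, y}, ∀ b ∈ B ⊓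
          (MulDistribMulAction.toMonoidHom A y).eqLocus (MonoidHom.id A),
          e • b ∈ B ⊓ (MulDistribMulAction.toMonoidHom A y).eqLocus (MonoidHom.id A) := by
        intro e he b hb
        refine ⟨hInv e he.1 b hb.1, ?_⟩
        have hey : y * e = e * y := (Subgroup.mem_centralizer_iff.mp he.2) y (by simp)
        have hb2 : y • b = b := hb.2
        show y • (e • b) = e • b
        rw [← mul_smul, hey, mul_smul, hb2]
      have hB'ne : B ⊓ (MulDistribMulAction.toMonoidHom A y).eqLocus (MonoidHom.id A) ≠ ⊥ := by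
        intro hbot
        apply hne
        apply eq_bot_of_fixed_trivial hpr h hy hyp B hInv hfpf hB
        intro i b hb hfix
        obtain ⟨k, -, hk⟩ := h.exists_pow_eq (h.comm x hx y hy) hxy
          (Subgroup.pow_mem _ (Subgroup.mem_zpowers z) i)
        have hconj : x ^ k * y * (x ^ k)⁻¹ = y * z ^ i := by
          have h6 : x ^ k * y * (x ^ k)⁻¹ = ⁅x, y⁆ ^ k * y := by
            rw [← h.comm_pow_left hx hy k, commutatorElement_def]; group
          rw [h6, hk]
          exact (h.commute (Subgroup.pow_mem _ (Subgroup.mem_zpowers z) i) hy).eq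
        have hb' : (x ^ k)⁻¹ • b ∈ B ⊓
            (MulDistribMulAction.toMonoidHom A y).eqLocus (MonoidHom.id A) := by
          refine ⟨hInv _ (E'.inv_mem (E'.pow_mem hx k)) b hb, ?_⟩
          show y • ((x ^ k)⁻¹ • b) = (x ^ k)⁻¹ • b
          have h7 : y * (x ^ k)⁻¹ = (x ^ k)⁻¹ * (x ^ k * y * (x ^ k)⁻¹) := by group
          rw [← mul_smul, h7, hconj, mul_smul, hfix]
        rw [hbot, Subgroup.mem_bot] at hb'
        have := congrArg (fun a => (x ^ k) • a) hb'
        simpa using this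
      have hih := ih (E' ⊓ Subgroup.centralizer {x, y})
        (B ⊓ (MulDistribMulAction.toMonoidHom A y).eqLocus (MonoidHom.id A)) z hESL hcard'
        hB'inv (hB.to_le inf_le_left) hB'ne (fun b hb => hfpf b hb.1)
      have hcount := card_pow_le hpr h hx hy hxy B hInv hfpf hB
        (B ⊓ (MulDistribMulAction.toMonoidHom A y).eqLocus (MonoidHom.id A)) inf_le_left
        (fun b hb => hb.2)
      calc r ^ (n * p ^ (w + 1)) = (r ^ (n * p ^ w)) ^ p := by rw [← pow_mul, pow_succ, mul_assoc]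
        _ ≤ Nat.card ↥(B ⊓ (MulDistribMulAction.toMonoidHom A y).eqLocus (MonoidHom.id A)) ^ p :=
          Nat.pow_le_pow_left hih p
        _ ≤ Nat.card B := hcount
    by_cases hp2 : p = 2
    · subst hp2
      by_cases hw : w = 0
      · subst hw
        rw [h2 rfl]
        have hex : ∃ e ∈ E', e ∉ Subgroup.zpowers z := by
          by_contra hcon
          push Not at hcon
          have := Subgroup.card_le_of_le hcon
          omega
        obtain ⟨e, he, hez⟩ := hex
        obtain ⟨f, hf, hef⟩ := h.exists_not_comm he hez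
        simpa using card_ge_sq h he hf hef B hInv hfpf hB hne
      · have h5 : 2 ^ 5 ≤ Nat.card E' :=
          le_trans (Nat.pow_le_pow_right (by norm_num) (by omega)) hcard
        obtain ⟨y, hy, hyz, hy2⟩ := h.exists_involution h5
        exact step y hy hyz hy2
    · obtain ⟨y, hy, hyz, hyp⟩ := h.exists_order_p_odd hp2 hp3
      exact step y hy hyz hyp

/-- The bound for an extraspecial-like group whose centre acts nontrivially. -/
theorem es_bound {p r n : ℕ} [Fact p.Prime] [Fact r.Prime] (hpr : p ≠ r)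
    (hmin : ∀ k : ℕ, 1 ≤ k → p ∣ r ^ k - 1 → n ≤ k) (h2 : p = 2 → n = 1)
    (w : ℕ) (E' : Subgroup E) (B : Subgroup A) (z : E) (h : ESL p E' z)
    (hcard : p ^ (2 * w + 1) ≤ Nat.card E') (hInv : ∀ e ∈ E', ∀ b ∈ B, e • b ∈ B)
    (hB : IsPGroup r B) (hz : ∃ b ∈ B, z • b ≠ b) : r ^ (n * p ^ w) ≤ Nat.card B := by
  have hzp : z ^ p = 1 := by rw [← h.order]; exact pow_orderOf_eq_one z
  have hequiv : ∀ e ∈ E', ∀ a : A, normHom z p (e • a) = e • normHom z p a := by
    intro e he a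
    rw [normHom_apply, normHom_apply, Finset.smul_prod']
    apply Finset.prod_congr rfl
    intro k _
    have hze : Commute z e := (h.central e he).symm
    have hc : Commute (z ^ k) e := hze.pow_left k
    rw [← mul_smul, ← mul_smul, hc.eq]
  have hInv1 : ∀ e ∈ E', ∀ b ∈ B ⊓ (normHom z p : A →* A).ker, e • b ∈ B ⊓ (normHom z p : A →* A).ker := by
    intro e he b hb
    refine ⟨hInv e he b hb.1, MonoidHom.mem_ker.mpr ?_⟩
    rw [hequiv e he, MonoidHom.mem_ker.mp hb.2, smul_one]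
  have hfpf : ∀ b ∈ B ⊓ (normHom z p : A →* A).ker, z • b = b → b = 1 := by
    intro b hb hfix
    have h1 := MonoidHom.mem_ker.mp hb.2
    rw [normHom_of_fixed z p b hfix] at h1
    exact eq_one_of_pow_eq_one_of_isPGroup hpr B hB hb.1 h1
  have hne : B ⊓ (normHom z p : A →* A).ker ≠ ⊥ := by
    obtain ⟨b, hb, hzb⟩ := hz
    intro hbot
    have h1 : b⁻¹ * z • b ∈ B ⊓ (normHom z p : A →* A).ker := by
      refine ⟨B.mul_mem (B.inv_mem hb) (hInv z h.mem b hb), MonoidHom.mem_ker.mpr ?_⟩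
      rw [map_mul, map_inv, hequiv z h.mem, smul_normHom z p hzp, inv_mul_cancel]
    rw [hbot, Subgroup.mem_bot, inv_mul_eq_one] at h1
    exact hzb h1.symm
  exact le_trans (es_bound_aux hpr hmin h2 w E' _ z h hcard hInv1 (hB.to_le inf_le_left) hne hfpf)
    (Subgroup.card_le_of_le inf_le_left)

end fin

end Cfsg.Agent.H54
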