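import Mathlib
import Cfsg.Prelude.Def_Transfer
import Cfsg.Agent.H54.ESMod

/-!
# Faithful modules of extraspecial groups inside an ambient group (helper54)
-/

set_option autoImplicit false
open scoped commutatorElement

namespace Cfsg.Agent.H54

/-- An extraspecial group is extraspecial-like. -/
theorem ESL.of_isExtraspecial {X : Type*} [Group X] [Finite X] {p : ℕ} [Fact p.Prime]
    (hE : Cfsg.IsExtraspecial p X) : ∃ z : X, z ≠ 1 ∧ ESL p (⊤ : Subgroup X) z := by
  have hp : p.Prime := Fact.out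
  obtain ⟨⟨hPG, -, hcomm⟩, hZ⟩ := hE
  have hne : Subgroup.center X ≠ ⊥ := by
    intro h
    rw [h, Subgroup.card_bot] at hZ
    exact hp.one_lt.ne hZ
  obtain ⟨z, hz1⟩ := (Subgroup.ne_bot_iff_exists_ne_one).mp hne
  have hz1' : (z : X) ≠ 1 := fun h => hz1 (Subtype.ext h)
  have hzc : (z : X) ∈ Subgroup.center X := z.2
  have hord : orderOf (z : X) = p := by
    have h1 : orderOf (z : X) ∣ p := by
      rw [← hZ, Subgroup.orderOf_coe]
      exact orderOf_dvd_natCard z
    rcases (Nat.dvd_prime hp).mp h1 with h2 | h2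
    · exact absurd (orderOf_eq_one_iff.mp h2) hz1'
    · exact h2
  have hzpow : Subgroup.zpowers (z : X) = Subgroup.center X := by
    apply Subgroup.eq_of_le_of_card_ge ((Subgroup.zpowers_le).mpr hzc)
    rw [Nat.card_zpowers, hord, hZ]
  refine ⟨(z : X), hz1', Subgroup.mem_top _, hord, ?_, ?_, ?_, hPG.to_subgroup _⟩
  · intro e _
    exact Subgroup.mem_center_iff.mp hzc e
  · intro a _ b _
    rw [hzpow, ← hcomm]
    exact Subgroup.commutator_mem_commutator (Subgroup.mem_top a) (Subgroup.mem_top b)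
  · intro c _ hc
    rw [hzpow, Subgroup.mem_center_iff]
    intro g
    exact (hc g (Subgroup.mem_top g)).symm

/-- An extraspecial subgroup `E` of order `p^(2w+1)` acting faithfully on an elementary abelian
`r`-subgroup `A` forces `|A| ≥ r^(n p^w)`, `n` the order of `r` modulo `p`. -/
theorem extraspecial_module_bound {G : Type*} [Group G] [Finite G] {p r : ℕ} [Fact p.Prime]
    [Fact r.Prime] (hpr : p ≠ r) (E A : Subgroup G) (w : ℕ) (hE : Cfsg.IsExtraspecial p ↥E)
    (hEcard : Nat.card ↥E = p ^ (2 * w + 1)) (hA : Cfsg.IsElementaryAbelian r A)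
    (hnorm : E ≤ Subgroup.normalizer (A : Set G))
    (hfaith : E ⊓ Subgroup.centralizer (A : Set G) = ⊥) (n : ℕ) (hn : 1 ≤ n)
    (hmin : ∀ k : ℕ, 1 ≤ k → p ∣ r ^ k - 1 → n ≤ k) : r ^ (n * p ^ w) ≤ Nat.card ↥A := by
  classical
  have hr : r.Prime := Fact.out
  let _ : CommGroup ↥A :=
    { (inferInstance : Group ↥A) with mul_comm := fun a b => hA.1.is_comm.comm a b }
  let _ : MulDistribMulAction ↥E ↥A := MulDistribMulAction.compHom ↥A (Subgroup.inclusion hnorm)
  have hsm : ∀ (e : ↥E) (a : ↥A), ((e • a : ↥A) : G) = (e : G) * (a : G) * (e : G)⁻¹ :=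
    fun e a => rfl
  obtain ⟨z, hz1, hESL⟩ := ESL.of_isExtraspecial hE
  have h2 : p = 2 → n = 1 := by
    intro hp2
    have hr2 : r ≠ 2 := fun h => hpr (hp2.trans h.symm)
    have hodd : Odd r := hr.odd_of_ne_two hr2
    obtain ⟨k, hk⟩ := hodd
    have h3 : p ∣ r ^ 1 - 1 := by
      rw [hp2, pow_one, hk]
      exact ⟨k, by omega⟩
    have := hmin 1 le_rfl h3
    omega
  have hBp : IsPGroup r ↥(⊤ : Subgroup ↥A) := by
    intro x
    refine ⟨1, ?_⟩
    apply Subtype.ext
    apply Subtype.ext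
    have := hA.2 (x : ↥A) (x : ↥A).2
    simpa using this
  have hz : ∃ b ∈ (⊤ : Subgroup ↥A), z • b ≠ b := by
    by_contra hcon
    push Not at hcon
    apply hz1
    have h3 : (z : G) ∈ E ⊓ Subgroup.centralizer (A : Set G) := by
      refine ⟨z.2, Subgroup.mem_centralizer_iff.mpr ?_⟩
      intro a ha
      have h4 := hcon ⟨a, ha⟩ (Subgroup.mem_top _)
      have h5 := congrArg Subtype.val h4
      rw [hsm] at h5
      have h6 : (z : G) * a * (z : G)⁻¹ = a := h5
      exact (mul_inv_eq_iff_eq_mul.mp h6).symm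
    rw [hfaith, Subgroup.mem_bot] at h3
    exact Subtype.ext h3
  have key := es_bound hpr hmin h2 w (⊤ : Subgroup ↥E) (⊤ : Subgroup ↥A) z hESL
    (by rw [Subgroup.card_top, hEcard]) (fun _ _ _ _ => Subgroup.mem_top _) hBp hz
  rwa [Subgroup.card_top] at key

end Cfsg.Agent.H54
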