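/-
helper54 library (S4563-SETUP, for helper59): a subgroup `S ≥ Z` with `S / Z` a Sylow
`p`-subgroup of `H / Z`, and the index facts about `S ⊓ K`.
-/
import Mathlib
import Cfsg.Agent.H59.FRDefs

set_option autoImplicit false

namespace Cfsg.Agent.H54.FR

open Cfsg Cfsg.Agent.Clifford Cfsg.Agent.H59.FR

universe u

/-- **S4563-SETUP**. -/
theorem setup : SetupStmt.{u} := by
  intro H _ _ Z K _ _ hZK p _
  have hp : p.Prime := Fact.out
  obtain ⟨P₀⟩ : Nonempty (Sylow p (H ⧸ Z)) := inferInstance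
  obtain ⟨S, hS⟩ : ∃ S : Subgroup H, S = (P₀ : Subgroup (H ⧸ Z)).comap (QuotientGroup.mk' Z) :=
    ⟨_, rfl⟩
  have hZS : Z ≤ S := by
    intro z hz
    rw [hS, Subgroup.mem_comap]
    have h1 : QuotientGroup.mk' Z z = 1 := (QuotientGroup.eq_one_iff z).mpr hz
    rw [h1]
    exact Subgroup.one_mem _
  have hSidx : S.index = (P₀ : Subgroup (H ⧸ Z)).index := by
    rw [hS]
    exact Subgroup.index_comap_of_surjective _ (QuotientGroup.mk'_surjective Z)
  have hpS : ¬ p ∣ S.index := by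
    rw [hSidx]
    exact P₀.not_dvd_index
  obtain ⟨a, ha⟩ := IsPGroup.iff_card.mp P₀.2
  have hZidx : Z.index = Nat.card (P₀ : Subgroup (H ⧸ Z)) * (P₀ : Subgroup (H ⧸ Z)).index := by
    rw [Subgroup.card_mul_index, Subgroup.index_eq_card]
  have h1 : Z.relIndex S * S.index = Z.index := Subgroup.relIndex_mul_index hZS
  have hSpos : 0 < S.index := Nat.pos_of_ne_zero Subgroup.index_ne_zero_of_finite
  have hZSrel : Z.relIndex S = p ^ a := by
    have h2 : Z.relIndex S * S.index = p ^ a * S.index := by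
      rw [h1, hZidx, hSidx]
      congr 1
    exact Nat.eq_of_mul_eq_mul_right hSpos h2
  -- `S ⊓ K` between `Z` and `S`
  have hZSK : Z ≤ S ⊓ K := le_inf hZS hZK
  have h3 : Z.relIndex (S ⊓ K) * (S ⊓ K).relIndex S = p ^ a := by
    rw [Subgroup.relIndex_mul_relIndex Z (S ⊓ K) S hZSK inf_le_left, hZSrel]
  obtain ⟨a', -, ha'⟩ := (Nat.dvd_prime_pow hp).mp (Dvd.intro _ h3)
  obtain ⟨k, -, hk⟩ := (Nat.dvd_prime_pow hp).mp (Dvd.intro_left _ h3)
  -- the indices of `S`, `K` and `S ⊔ K`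
  have hK1 : K.relIndex S * (S ⊔ K).index = K.index := by
    rw [← Subgroup.relIndex_sup_right S K]
    exact Subgroup.relIndex_mul_index le_sup_right
  have hinfS : (S ⊓ K).relIndex S = K.relIndex S := Subgroup.inf_relIndex_left S K
  have hinfK : (S ⊓ K).relIndex K = S.relIndex K := Subgroup.inf_relIndex_right S K
  have hA : K.relIndex S * S.index = (S ⊓ K).index := by
    rw [← hinfS]
    exact Subgroup.relIndex_mul_index inf_le_left
  have hB : S.relIndex K * K.index = (S ⊓ K).index := by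
    rw [← hinfK]
    exact Subgroup.relIndex_mul_index inf_le_right
  have hKSpos : 0 < K.relIndex S := by
    rw [← hinfS, hk]
    exact pow_pos hp.pos k
  have hC : S.index = S.relIndex K * (S ⊔ K).index := by
    have h4 : K.relIndex S * S.index = K.relIndex S * (S.relIndex K * (S ⊔ K).index) := by
      rw [hA, ← hB, ← hK1]
      ring
    exact Nat.eq_of_mul_eq_mul_left hKSpos h4
  have hp7 : ¬ p ∣ S.relIndex K := fun h => hpS (hC ▸ Dvd.dvd.mul_right h _)
  have hp12 : ¬ p ∣ (S ⊔ K).index := fun h => hpS (hC ▸ Dvd.dvd.mul_left h _)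
  refine ⟨S, a, a', k, (S ⊔ K).index, S.index, hZS, ?_, hZSrel, ?_, hpS, ha', ?_, hk, ?_, hp12,
    ?_, hp12⟩
  · rw [hZSrel]
    exact Nat.Coprime.pow_left a ((Nat.Prime.coprime_iff_not_dvd hp).mpr hpS)
  · rw [← h1, hZSrel]
  · rw [hinfK]
    exact hp7
  · rw [← hK1, ← hinfS, hk]
  · intro h
    apply hp7
    rw [← hinfK]
    have h5 : (S ⊓ K).relIndex (Subgroup.normalizer ((S ⊓ K : Subgroup H) : Set H) ⊓ K) *
        (Subgroup.normalizer ((S ⊓ K : Subgroup H) : Set H) ⊓ K).relIndex K =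
        (S ⊓ K).relIndex K :=
      Subgroup.relIndex_mul_relIndex _ _ _ (le_inf Subgroup.le_normalizer inf_le_right)
        inf_le_right
    rw [← h5]
    exact Dvd.dvd.mul_right h _

end Cfsg.Agent.H54.FR

section Check

open Cfsg Cfsg.Agent.Clifford Cfsg.Agent.H59.FR

universe u

example : SetupStmt.{u} := Cfsg.Agent.H54.FR.setup

end Check
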