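import Cfsg.Agent.H72.Fg7Defs

/-!
# S4118-Q3 (helper54, for helper72): the first two assertions of S4118 from Q1 and Q2.
-/

set_option autoImplicit false

namespace Cfsg.Agent.H54.Zas

open Cfsg.Agent.H72.Zas
open scoped Pointwise

universe u

theorem q3_card_le {G : Type*} [Group G] {A B : Subgroup G} (h : A ≤ B) :
    Nat.card A * A.relIndex B = Nat.card B := by
  rw [← Subgroup.relIndex_bot_left, ← Subgroup.relIndex_bot_left (H := B)]
  exact Subgroup.relIndex_mul_relIndex _ _ _ bot_le h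

theorem q3_prod {G : Type*} [Group G] (H K : Subgroup G) [K.Normal] :
    Nat.card (H ⊔ K : Subgroup G) * Nat.card (H ⊓ K : Subgroup G) = Nat.card H * Nat.card K := by
  have h1 := q3_card_le (le_sup_right : K ≤ H ⊔ K)
  have h2 := q3_card_le (inf_le_left : H ⊓ K ≤ H)
  rw [Subgroup.relIndex_sup_right] at h1
  rw [Subgroup.inf_relIndex_left] at h2
  rw [← h1, ← h2]; ring

theorem stQ3 (h1 : StQ1.{u}) (h2 : StQ2.{u}) : StQ3.{u} := by
  intro G _ _ H hTI hnn hHall hsep O hO
  obtain ⟨n, M, hM0, hMl, hMmono, hMn, hMf⟩ := hsep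
  have hHG := h1 G H hTI hHall
  obtain ⟨hOn, hOc⟩ := h2 G (Nat.card H) O hO
  have := hOn
  have hOmax : ∀ K : Subgroup G, K.Normal → (Nat.card K).Coprime (Nat.card H) → K ≤ O := by
    intro K hK hKc
    rw [hO]
    exact le_sSup ⟨hK, hKc⟩
  have hHbot : H ≠ ⊥ := by
    rintro rfl
    exact hnn Subgroup.normal_bot
  have hH1 : Nat.card H ≠ 1 := by
    intro h
    exact hHbot (Subgroup.card_eq_one.mp h)
  -- the first term of the series not inside `O`
  have hex : ∃ j : Fin n, M j.castSucc ≤ O ∧ ¬ M j.succ ≤ O := by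
    by_contra hcon
    push Not at hcon
    have hall : ∀ i : Fin (n + 1), M i ≤ O := by
      intro i
      induction i using Fin.induction with
      | zero => rw [hM0]; exact bot_le
      | succ j ih => exact hcon j ih
    have htop : O = ⊤ := top_le_iff.mp (hMl ▸ hall (Fin.last n))
    have hd : Nat.card H ∣ Nat.card O := by
      rw [htop, Subgroup.card_top]
      exact Subgroup.card_subgroup_dvd_card H
    exact hH1 (Nat.Coprime.eq_one_of_dvd hOc.symm hd)
  obtain ⟨j, hjO, hjn⟩ := hex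
  set A := M j.castSucc with hA
  set B := M j.succ with hB
  have hAB : A ≤ B := hMmono (Fin.castSucc_lt_succ (i := j)).le
  have hBn : B.Normal := hMn _
  have := hBn
  have hfac : ∀ q : ℕ, q.Prime → q ∣ A.relIndex B → q ∣ Nat.card H := by
    rcases hMf j with h | h
    · exact h
    · exfalso
      apply hjn
      apply hOmax B hBn
      rw [← q3_card_le hAB]
      exact Nat.Coprime.mul_left
        (Nat.Coprime.coprime_dvd_left (Subgroup.card_dvd_of_le hjO) hOc) h
  set K := B ⊔ O with hK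
  have hKn : K.Normal := Subgroup.sup_normal B O
  have := hKn
  have hOK : O ≤ K := le_sup_right
  set k := O.relIndex K with hk
  have hk1 : k ≠ 1 := by
    intro h
    rw [hk, Subgroup.relIndex_eq_one] at h
    exact hjn (le_sup_left.trans h)
  have hkr : k ∣ A.relIndex B := by
    have e1 : k = O.relIndex B := Subgroup.relIndex_sup_right B O
    have e2 : (B ⊓ O).relIndex B = O.relIndex B := Subgroup.inf_relIndex_left B O
    have e3 := Subgroup.relIndex_mul_relIndex A (B ⊓ O) B (le_inf hAB hjO) inf_le_left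
    rw [e1, ← e2, ← e3]; exact dvd_mul_left _ _
  have hkH : ∀ q : ℕ, q.Prime → q ∣ k → q ∣ Nat.card H :=
    fun q hq hqk => hfac q hq (hqk.trans hkr)
  obtain ⟨p, hp, hpk⟩ := Nat.exists_prime_and_dvd hk1
  have : Fact p.Prime := ⟨hp⟩
  have hpH : p ∣ Nat.card H := hkH p hp hpk
  have hpK : p ∣ Nat.card K := hpk.trans (Subgroup.relIndex_dvd_card O K)
  -- a Sylow `p`-subgroup of `G` inside `H`
  obtain ⟨S, hSH⟩ : ∃ S : Sylow p G, (S : Subgroup G) ≤ H := by
    let SH : Sylow p H := default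
    have hpi : ¬ p ∣ H.index :=
      (Nat.Prime.coprime_iff_not_dvd hp).mp (Nat.Coprime.coprime_dvd_left hpH hHG)
    have hc : Nat.card ((SH : Subgroup H).map H.subtype) = p ^ (Nat.card G).factorization p := by
      rw [Subgroup.card_map_of_injective H.subtype_injective, SH.card_eq_multiplicity]
      congr 1
      rw [← Subgroup.card_mul_index H, Nat.factorization_mul Nat.card_pos.ne'
        (Subgroup.index_ne_zero_of_finite), Finsupp.add_apply,
        Nat.factorization_eq_zero_of_not_dvd hpi, add_zero]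
    exact ⟨Sylow.ofCard _ hc, by rw [Sylow.coe_ofCard]; exact Subgroup.map_subtype_le _⟩
  let P0 : Sylow p K := default
  set Q : Subgroup G := (P0 : Subgroup K).map K.subtype with hQ
  have hfrat : Subgroup.normalizer (Q : Set G) ⊔ K = ⊤ := Sylow.normalizer_sup_eq_top P0
  have hQp : IsPGroup p Q := P0.isPGroup'.map K.subtype
  obtain ⟨R, hR⟩ := hQp.exists_le_sylow
  obtain ⟨g, hg⟩ := MulAction.exists_smul_eq G R S
  have hconj : ∀ y ∈ Q, g * y * g⁻¹ ∈ H := by
    intro y hy
    apply hSH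
    rw [← hg]
    have h3 : g * y * g⁻¹ ∈ MulAut.conj g • (R : Subgroup G) := by
      have h4 := Subgroup.smul_mem_pointwise_smul y (MulAut.conj g) (R : Subgroup G) (hR hy)
      simpa using h4
    exact h3
  have hQ1 : ∃ y ∈ Q, y ≠ 1 := by
    have hcard : Nat.card Q = p ^ (Nat.card K).factorization p := by
      rw [hQ, Subgroup.card_map_of_injective K.subtype_injective]
      exact P0.card_eq_multiplicity
    have hQb : Q ≠ ⊥ := by
      intro h
      rw [h, Subgroup.card_bot] at hcard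
      have hpos : 0 < (Nat.card K).factorization p :=
        hp.factorization_pos_of_dvd Nat.card_pos.ne' hpK
      have : 1 < p ^ (Nat.card K).factorization p := Nat.one_lt_pow hpos.ne' hp.one_lt
      omega
    obtain ⟨⟨y, hy⟩, hy1⟩ := (Subgroup.ne_bot_iff_exists_ne_one).mp hQb
    exact ⟨y, hy, fun h => hy1 (Subtype.ext h)⟩
  obtain ⟨y, hyQ, hy1⟩ := hQ1
  have hNQ : ∀ m ∈ Subgroup.normalizer (Q : Set G),
      g * m * g⁻¹ ∈ Subgroup.normalizer (H : Set G) := by
    intro m hm
    by_contra hcon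
    have hmy : m * y * m⁻¹ ∈ Q := (Subgroup.mem_normalizer_iff.mp hm y).mp hyQ
    have h5 := hTI (g * m * g⁻¹) hcon (g * y * g⁻¹) (hconj y hyQ) (by
      have e : g * m * g⁻¹ * (g * y * g⁻¹) * (g * m * g⁻¹)⁻¹ = g * (m * y * m⁻¹) * g⁻¹ := by
        group
      rw [e]; exact hconj _ hmy)
    apply hy1
    have h6 : y = g⁻¹ * (g * y * g⁻¹) * g := by group
    rw [h6, h5]; group
  have hNK : Subgroup.normalizer (H : Set G) ⊔ K = ⊤ := by
    rw [eq_top_iff]
    intro x _
    have hx : g⁻¹ * x * g ∈ Subgroup.normalizer (Q : Set G) ⊔ K := by rw [hfrat]; trivial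
    rw [← SetLike.mem_coe, Subgroup.mul_normal] at hx
    obtain ⟨m, hm, c, hc, hmc⟩ := hx
    have h7 : x = (g * m * g⁻¹) * (g * c * g⁻¹) := by
      have h8 : m * c = g⁻¹ * x * g := hmc
      calc x = g * (g⁻¹ * x * g) * g⁻¹ := by group
        _ = (g * m * g⁻¹) * (g * c * g⁻¹) := by rw [← h8]; group
    rw [h7]
    exact Subgroup.mul_mem_sup (hNQ m hm) (hKn.conj_mem c hc g)
  -- `K = O (K ∩ H)`
  have hKOH : K ≤ O ⊔ H := by
    have hrel : H.relIndex K ∣ H.index := by
      have e1 := q3_prod H K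
      have e2 := q3_card_le (inf_le_right : H ⊓ K ≤ K)
      rw [Subgroup.inf_relIndex_right] at e2
      have e3 := q3_card_le (le_sup_left : H ≤ H ⊔ K)
      have e4 := Subgroup.relIndex_mul_index (le_sup_left : H ≤ H ⊔ K)
      have e5 : H.relIndex (H ⊔ K) = H.relIndex K := by
        have hpos : 0 < Nat.card H * Nat.card (H ⊓ K : Subgroup G) :=
          Nat.mul_pos Nat.card_pos Nat.card_pos
        apply Nat.eq_of_mul_eq_mul_left hpos
        calc Nat.card H * Nat.card (H ⊓ K : Subgroup G) * H.relIndex (H ⊔ K)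
            = (Nat.card H * H.relIndex (H ⊔ K)) * Nat.card (H ⊓ K : Subgroup G) := by ring
          _ = Nat.card H * (Nat.card (H ⊓ K : Subgroup G) * H.relIndex K) := by
              rw [e3, e1, e2]
          _ = Nat.card H * Nat.card (H ⊓ K : Subgroup G) * H.relIndex K := by ring
      rw [← e5, ← e4]
      exact dvd_mul_right _ _
    have hc : (H.relIndex K).Coprime (Nat.card H) :=
      (Nat.Coprime.coprime_dvd_right hrel hHG).symm
    have hkc : k.Coprime (H.relIndex K) := by
      by_contra hcon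
      obtain ⟨q, hq, hqk, hqc⟩ := Nat.Prime.not_coprime_iff_dvd.mp hcon
      have h9 : q ∣ Nat.gcd (H.relIndex K) (Nat.card H) := Nat.dvd_gcd hqc (hkH q hq hqk)
      rw [hc] at h9
      exact hq.one_lt.ne' (Nat.dvd_one.mp h9)
    have hKcard : Nat.card K = Nat.card (H ⊓ K : Subgroup G) * H.relIndex K := by
      have e2 := q3_card_le (inf_le_right : H ⊓ K ≤ K)
      rw [Subgroup.inf_relIndex_right] at e2
      exact e2.symm
    have hkdvd : k ∣ Nat.card (H ⊓ K : Subgroup G) := by
      have h10 : k ∣ Nat.card (H ⊓ K : Subgroup G) * H.relIndex K :=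
        hKcard ▸ Subgroup.relIndex_dvd_card O K
      exact hkc.dvd_of_dvd_mul_right h10
    have hbot : (H ⊓ K) ⊓ O = ⊥ := by
      exact (Subgroup.disjoint_of_coprime_natCard
        (Nat.Coprime.coprime_dvd_left (Subgroup.card_dvd_of_le inf_le_left) hOc.symm)).eq_bot
    have hprod := q3_prod (H ⊓ K) O
    rw [hbot, Subgroup.card_bot, mul_one] at hprod
    have hle : (H ⊓ K) ⊔ O ≤ K := sup_le inf_le_right hOK
    have hge : Nat.card K ≤ Nat.card ((H ⊓ K) ⊔ O : Subgroup G) := by
      rw [hprod, ← q3_card_le hOK, mul_comm]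
      exact Nat.mul_le_mul_right _ (Nat.le_of_dvd Nat.card_pos hkdvd)
    have heq : (H ⊓ K) ⊔ O = K := Subgroup.eq_of_le_of_card_ge hle hge
    rw [← heq]
    exact sup_le (inf_le_left.trans le_sup_right) le_sup_left
  have hG1 : O ⊔ Subgroup.normalizer (H : Set G) = ⊤ := by
    rw [eq_top_iff, ← hNK]
    exact sup_le le_sup_right
      (hKOH.trans (sup_le le_sup_left (Subgroup.le_normalizer.trans le_sup_right)))
  refine ⟨hG1, ⟨?_⟩⟩
  intro x hx t
  have ht : t ∈ O ⊔ Subgroup.normalizer (H : Set G) := by rw [hG1]; trivial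
  rw [← SetLike.mem_coe, Subgroup.normal_mul] at ht
  obtain ⟨o', ho', m, hm, rfl⟩ := ht
  rw [← SetLike.mem_coe, Subgroup.normal_mul] at hx
  obtain ⟨o, ho, h, hh, rfl⟩ := hx
  have e : o' * m * (o * h) * (o' * m)⁻¹ = o' * (m * o * m⁻¹) * (m * h * m⁻¹) * o'⁻¹ := by
    group
  rw [e]
  have hmh : m * h * m⁻¹ ∈ H := (Subgroup.mem_normalizer_iff.mp hm h).mp hh
  exact (O ⊔ H).mul_mem ((O ⊔ H).mul_mem ((O ⊔ H).mul_mem (Subgroup.mem_sup_left ho')
    (Subgroup.mem_sup_left (hOn.conj_mem o ho m))) (Subgroup.mem_sup_right hmh))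
    (Subgroup.mem_sup_left (O.inv_mem ho'))

example (h1 : StQ1.{u}) (h2 : StQ2.{u}) : StQ3.{u} := stQ3 h1 h2

end Cfsg.Agent.H54.Zas
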