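import Mathlib
import Cfsg.Prelude.Def_CaseTheorems
import Cfsg.Agent.S0514
import Cfsg.Agent.S3282
import Cfsg.Agent.H14.Cores
import Cfsg.Agent.H54.GW1
import Cfsg.Agent.H54.GW2

/-!
# The dihedral Brauer–Suzuki–Wall set-up (helper54)

From a dihedral Sylow 2-subgroup `S`, a central involution `t`, the core `O` of `C(t)` and a cyclic
subgroup `S₀` of index 2 in `S` centralizing `O`, build `K = O S₀` and verify the hypotheses of the
abstract Brauer–Suzuki–Wall theorem (S3282).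
-/

set_option autoImplicit false
set_option linter.unusedSectionVars false
set_option linter.unusedVariables false
set_option linter.style.haveILetI false

namespace Cfsg.Agent.H54.GW

open Cfsg Cfsg.Agent.H54.BSW

theorem core_facts_aux {H : Type*} [Group H] [Finite H] (N : Subgroup H) (hNn : N.Normal)
    (hNodd : Odd (Nat.card N)) (k : ℕ) (hk : N.index = 2 ^ k) (S' : Subgroup H)
    (hS' : ∃ a, Nat.card S' = 2 ^ a) (hmax : ∀ j, 2 ^ j ∣ Nat.card H → 2 ^ j ∣ Nat.card S') :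
    Odd (Nat.card (Cfsg.oddCore H)) ∧ (∀ x : H, Odd (orderOf x) → x ∈ Cfsg.oddCore H) ∧
      (∀ h : H, ∃ y ∈ Cfsg.oddCore H, ∃ σ ∈ S', h = y * σ) := by
  have hNle : N ≤ Cfsg.oddCore H := Cfsg.Agent.H14.le_pPrimeCore hNn hNodd.coprime_two_right
  haveI hOn : (Cfsg.oddCore H).Normal := Cfsg.Agent.H14.pPrimeCore_normal 2 H
  have hOcop : (Nat.card (Cfsg.oddCore H)).Coprime 2 := Cfsg.Agent.H14.pPrimeCore_coprime 2 H
  have hdvd : (Cfsg.oddCore H).index ∣ 2 ^ k := by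
    rw [← hk]; exact Subgroup.index_dvd_of_le hNle
  obtain ⟨j, hjk, hj⟩ := (Nat.dvd_prime_pow Nat.prime_two).mp hdvd
  refine ⟨hOcop.odd_of_right, ?_, ?_⟩
  · intro x hx
    apply mem_of_coprime_index
    rw [hj]
    exact Nat.Coprime.pow_right j hx.coprime_two_right
  · obtain ⟨a, ha⟩ := hS'
    have hcH : 2 ^ j * Nat.card (Cfsg.oddCore H) = Nat.card H := by
      rw [← hj]; exact Subgroup.index_mul_card _
    have h1 : 2 ^ j ∣ Nat.card S' := hmax j (by rw [← hcH]; exact dvd_mul_right _ _)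
    rw [ha] at h1
    have h2 : 2 ^ a ∣ 2 ^ j := by
      have h3 : 2 ^ a ∣ 2 ^ j * Nat.card (Cfsg.oddCore H) := by
        rw [hcH, ← ha]; exact Subgroup.card_subgroup_dvd_card S'
      exact Nat.Coprime.dvd_of_dvd_mul_right (Nat.Coprime.pow_left a hOcop.symm) h3
    have haj : a = j := Nat.le_antisymm ((Nat.pow_dvd_pow_iff_le_right (by norm_num)).mp h2)
      ((Nat.pow_dvd_pow_iff_le_right (by norm_num)).mp h1)
    have hcompl : Subgroup.IsComplement' (Cfsg.oddCore H) S' := by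
      apply Subgroup.isComplement'_of_coprime
      · rw [ha, haj, mul_comm]; exact hcH
      · rw [ha]; exact Nat.Coprime.pow_right a hOcop
    intro h
    obtain ⟨⟨y, σ⟩, hyσ, -⟩ := (Subgroup.isComplement_iff_existsUnique.mp hcompl) h
    exact ⟨y.1, y.2, σ.1, σ.2, hyσ.symm⟩

/-- The core of the centralizer of the involution is a normal 2-complement. -/
theorem core_facts {G : Type*} [Group G] [Finite G] (S : Sylow 2 G) (n : ℕ) (hn : 2 ≤ n)
    (hS : Nonempty ((S : Subgroup G) ≃* DihedralGroup n)) (t : G) (ht : orderOf t = 2)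
    (hSle : (S : Subgroup G) ≤ Subgroup.centralizer ({t} : Set G)) (O : Subgroup G)
    (hO : O = (Cfsg.oddCore (Subgroup.centralizer ({t} : Set G))).map
      (Subgroup.centralizer ({t} : Set G)).subtype) :
    O ≤ Subgroup.centralizer ({t} : Set G) ∧ Odd (Nat.card O) ∧
    (∀ x ∈ Subgroup.centralizer ({t} : Set G), Odd (orderOf x) → x ∈ O) ∧
    (∀ h ∈ Subgroup.centralizer ({t} : Set G), ∃ y ∈ O, ∃ σ ∈ (S : Subgroup G), h = y * σ) := by
  haveI : Fact (Nat.Prime 2) := ⟨Nat.prime_two⟩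
  obtain ⟨N, hNn, hNodd, k, hk⟩ := Cfsg.Agent.S0514.result S n hn hS t ht
  have hcS' : Nat.card ((S : Subgroup G).subgroupOf (Subgroup.centralizer ({t} : Set G))) =
      Nat.card (S : Subgroup G) :=
    Nat.card_congr (Subgroup.subgroupOfEquivOfLe hSle).toEquiv
  obtain ⟨h1, h2, h3⟩ := core_facts_aux N hNn hNodd k hk
    ((S : Subgroup G).subgroupOf (Subgroup.centralizer ({t} : Set G)))
    (by rw [hcS']; exact IsPGroup.iff_card.mp S.isPGroup')
    (by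
      intro j hj
      rw [hcS']
      exact S.pow_dvd_card_of_pow_dvd_card (hj.trans (Subgroup.card_subgroup_dvd_card _)))
  subst hO
  refine ⟨Subgroup.map_subtype_le _, ?_, ?_, ?_⟩
  · rw [Subgroup.card_map_of_injective (Subgroup.subtype_injective _)]
    exact h1
  · intro x hx hodd
    have h4 := h2 ⟨x, hx⟩ (by rw [Subgroup.orderOf_mk]; exact hodd)
    exact ⟨⟨x, hx⟩, h4, rfl⟩
  · intro h hh
    obtain ⟨y, hy, σ, hσ, e⟩ := h3 ⟨h, hh⟩
    refine ⟨y, ⟨y, hy, rfl⟩, σ, Subgroup.mem_subgroupOf.mp hσ, ?_⟩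
    exact congrArg Subtype.val e

/-- The working package. -/
structure Pk {G : Type*} [Group G] (t : G) (S O S₀ : Subgroup G) : Prop where
  ot : orderOf t = 2
  S_le : S ≤ Subgroup.centralizer ({t} : Set G)
  O_le : O ≤ Subgroup.centralizer ({t} : Set G)
  O_odd : Odd (Nat.card O)
  O_mem : ∀ x ∈ Subgroup.centralizer ({t} : Set G), Odd (orderOf x) → x ∈ O
  dec : ∀ h ∈ Subgroup.centralizer ({t} : Set G), ∃ y ∈ O, ∃ σ ∈ S, h = y * σ
  S2 : IsPGroup 2 S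
  S₀_le : S₀ ≤ S
  tS₀ : t ∈ S₀
  S₀_comm : ∀ a ∈ S₀, ∀ b ∈ S₀, a * b = b * a
  S₀_inv : ∀ c ∈ S₀, c * c = 1 → c = 1 ∨ c = t
  S₀_O : ∀ c ∈ S₀, ∀ y ∈ O, c * y = y * c
  out_sq : ∀ s ∈ S, s ∉ S₀ → s * s = 1
  out_inv : ∀ s ∈ S, s ∉ S₀ → ∀ c ∈ S₀, s * c * s⁻¹ = c⁻¹
  out_O : ∀ s ∈ S, s ∉ S₀ → ∀ y ∈ O, s * y * s⁻¹ = y⁻¹
  out_mul : ∀ s ∈ S, s ∉ S₀ → ∀ s' ∈ S, s' ∉ S₀ → s' * s ∈ S₀
  hc : ∀ Y : Subgroup G, Y ≤ O → Y ≠ ⊥ →
    Subgroup.normalizer (Y : Set G) ≤ Subgroup.centralizer ({t} : Set G)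

/-- The product of two elementwise commuting subgroups. -/
def mkK {G : Type*} [Group G] (O S₀ : Subgroup G)
    (hcomm : ∀ c ∈ S₀, ∀ y ∈ O, c * y = y * c) : Subgroup G where
  carrier := {x | ∃ y ∈ O, ∃ c ∈ S₀, x = y * c}
  mul_mem' := by
    rintro _ _ ⟨y, hy, c, hc, rfl⟩ ⟨y', hy', c', hc', rfl⟩
    refine ⟨y * y', O.mul_mem hy hy', c * c', S₀.mul_mem hc hc', ?_⟩
    calc y * c * (y' * c') = y * (c * y') * c' := by group
      _ = y * (y' * c) * c' := by rw [hcomm c hc y' hy']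
      _ = y * y' * (c * c') := by group
  one_mem' := ⟨1, O.one_mem, 1, S₀.one_mem, (mul_one 1).symm⟩
  inv_mem' := by
    rintro _ ⟨y, hy, c, hc, rfl⟩
    refine ⟨y⁻¹, O.inv_mem hy, c⁻¹, S₀.inv_mem hc, ?_⟩
    rw [mul_inv_rev, hcomm c⁻¹ (S₀.inv_mem hc) y⁻¹ (O.inv_mem hy)]

theorem mem_norm_of_forall' {G : Type*} [Group G] {X : Subgroup G} {g : G}
    (h1 : ∀ a ∈ X, g * a * g⁻¹ ∈ X)
    (h2 : ∀ a ∈ X, g⁻¹ * a * g ∈ X) : g ∈ Subgroup.normalizer (X : Set G) := by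
  rw [Subgroup.mem_set_normalizer_iff]
  intro a
  constructor
  · exact h1 a
  · intro ha
    have h3 := h2 _ ha
    have e : g⁻¹ * (g * a * g⁻¹) * g = a := by group
    rwa [e] at h3

section

variable {G : Type*} [Group G] [Finite G] {t s : G} {S O S₀ : Subgroup G}

/-- The abelian subgroup `K = O S₀`. -/
def Pk.K (P : Pk t S O S₀) : Subgroup G := mkK O S₀ P.S₀_O

theorem Pk.mem_K (P : Pk t S O S₀) {x : G} : x ∈ P.K ↔ ∃ y ∈ O, ∃ c ∈ S₀, x = y * c := Iff.rfl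

theorem Pk.OS (P : Pk t S O S₀) {z : G} (hzO : z ∈ O) (hzS : z ∈ S) : z = 1 := by
  obtain ⟨k, hk⟩ := P.S2 ⟨z, hzS⟩
  have hk' : z ^ 2 ^ k = 1 := by
    have e : z ^ 2 ^ k = ((⟨z, hzS⟩ : S) ^ 2 ^ k : S).1 := by rw [Subgroup.coe_pow]
    rw [e, hk]; rfl
  have h1 : orderOf z ∣ 2 ^ k := orderOf_dvd_of_pow_eq_one hk'
  have h2 : orderOf z ∣ Nat.card O := Subgroup.orderOf_dvd_natCard O hzO
  have h3 : orderOf z ∣ Nat.gcd (Nat.card O) (2 ^ k) := Nat.dvd_gcd h2 h1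
  rw [Nat.Coprime.gcd_eq_one (Nat.Coprime.pow_right k P.O_odd.coprime_two_right)] at h3
  exact orderOf_eq_one_iff.mp (Nat.dvd_one.mp h3)

theorem Pk.O_comm (P : Pk t S O S₀) (hsS : s ∈ S) (hsS₀ : s ∉ S₀) {y y' : G} (hy : y ∈ O)
    (hy' : y' ∈ O) : y * y' = y' * y := by
  have h1 := P.out_O s hsS hsS₀ y hy
  have h2 := P.out_O s hsS hsS₀ y' hy'
  have h3 := P.out_O s hsS hsS₀ (y * y') (O.mul_mem hy hy')
  have h4 : s * (y * y') * s⁻¹ = (s * y * s⁻¹) * (s * y' * s⁻¹) := by group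
  rw [h4, h1, h2, mul_inv_rev] at h3
  have h5 : (y⁻¹ * y'⁻¹)⁻¹ = (y'⁻¹ * y⁻¹)⁻¹ := by rw [h3]
  rw [mul_inv_rev, mul_inv_rev, inv_inv, inv_inv] at h5
  exact h5.symm

theorem Pk.K_comm (P : Pk t S O S₀) (hsS : s ∈ S) (hsS₀ : s ∉ S₀) {a b : G} (ha : a ∈ P.K)
    (hb : b ∈ P.K) : a * b = b * a := by
  obtain ⟨y, hy, c, hc, rfl⟩ := ha
  obtain ⟨y', hy', c', hc', rfl⟩ := hb
  calc y * c * (y' * c') = y * (c * y') * c' := by group
    _ = y * (y' * c) * c' := by rw [P.S₀_O c hc y' hy']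
    _ = (y * y') * (c * c') := by group
    _ = (y' * y) * (c' * c) := by rw [P.O_comm hsS hsS₀ hy hy', P.S₀_comm c hc c' hc']
    _ = y' * (y * c') * c := by group
    _ = y' * (c' * y) * c := by rw [P.S₀_O c' hc' y hy]
    _ = y' * c' * (y * c) := by group

theorem Pk.K_le (P : Pk t S O S₀) : P.K ≤ Subgroup.centralizer ({t} : Set G) := by
  rintro _ ⟨y, hy, c, hc, rfl⟩
  exact Subgroup.mul_mem _ (P.O_le hy) (P.S_le (P.S₀_le hc))

theorem Pk.t_mem (P : Pk t S O S₀) : t ∈ P.K := ⟨1, O.one_mem, t, P.tS₀, (one_mul t).symm⟩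

theorem Pk.s_notin (P : Pk t S O S₀) (hsS : s ∈ S) (hsS₀ : s ∉ S₀) : s ∉ P.K := by
  rintro ⟨y, hy, c, hc, e⟩
  have h1 : y = s * c⁻¹ := by rw [e]; group
  have h2 : y = 1 :=
    P.OS hy (by rw [h1]; exact S.mul_mem hsS (S.inv_mem (P.S₀_le hc)))
  apply hsS₀
  rw [e, h2, one_mul]
  exact hc

theorem Pk.K_inv_s (P : Pk t S O S₀) (hsS : s ∈ S) (hsS₀ : s ∉ S₀) {x : G} (hx : x ∈ P.K) :
    s * x * s⁻¹ = x⁻¹ := by
  obtain ⟨y, hy, c, hc, rfl⟩ := hx
  have h1 := P.out_O s hsS hsS₀ y hy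
  have h2 := P.out_inv s hsS hsS₀ c hc
  calc s * (y * c) * s⁻¹ = (s * y * s⁻¹) * (s * c * s⁻¹) := by group
    _ = y⁻¹ * c⁻¹ := by rw [h1, h2]
    _ = (c * y)⁻¹ := by rw [mul_inv_rev]
    _ = (y * c)⁻¹ := by rw [P.S₀_O c hc y hy]

theorem Pk.sup_eq (P : Pk t S O S₀) (hsS : s ∈ S) (hsS₀ : s ∉ S₀) :
    P.K ⊔ Subgroup.zpowers s = Subgroup.centralizer ({t} : Set G) := by
  apply le_antisymm
  · apply sup_le P.K_le
    rw [Subgroup.zpowers_le]
    exact P.S_le hsS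
  · intro h hh
    obtain ⟨y, hy, σ, hσ, rfl⟩ := P.dec h hh
    by_cases hσ0 : σ ∈ S₀
    · exact Subgroup.mem_sup_left ⟨y, hy, σ, hσ0, rfl⟩
    · have h1 := P.out_mul s hsS hsS₀ σ hσ hσ0
      have e : y * σ = (y * (σ * s)) * s⁻¹ := by group
      rw [e]
      exact Subgroup.mul_mem_sup ⟨y, hy, σ * s, h1, rfl⟩
        (Subgroup.inv_mem _ (Subgroup.mem_zpowers s))

theorem Pk.invK (P : Pk t S O S₀) {u : G} (hu : u ∈ P.K) (huu : u * u = 1) : u = 1 ∨ u = t := by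
  obtain ⟨y, hy, c, hc, rfl⟩ := hu
  have h1 : (y * y) * (c * c) = 1 := by
    rw [← huu]
    calc y * y * (c * c) = y * (y * c) * c := by group
      _ = y * (c * y) * c := by rw [P.S₀_O c hc y hy]
      _ = y * c * (y * c) := by group
  have h2 : y * y = (c * c)⁻¹ := eq_inv_of_mul_eq_one_left h1
  have h3 : y * y = 1 := P.OS (O.mul_mem hy hy)
    (by rw [h2]; exact S.inv_mem (S.mul_mem (P.S₀_le hc) (P.S₀_le hc)))
  have h4 : y = 1 := odd_sq O P.O_odd hy h3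
  have h5 : c * c = 1 := by rw [h3, one_mul] at h1; exact h1
  rw [h4, one_mul]
  exact P.S₀_inv c hc h5

theorem Pk.cent_s (P : Pk t S O S₀) (hsS : s ∈ S) (hsS₀ : s ∉ S₀) :
    P.K ⊓ Subgroup.centralizer ({s} : Set G) = Subgroup.zpowers t := by
  apply le_antisymm
  · intro x hx
    obtain ⟨hxK, hxs⟩ := Subgroup.mem_inf.mp hx
    rw [mem_cent] at hxs
    have h1 := P.K_inv_s hsS hsS₀ hxK
    have h2 : x * x = 1 := by
      have h3 : s * x * s⁻¹ = x := by rw [← hxs]; group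
      rw [h3] at h1
      calc x * x = x * x⁻¹ := by rw [← h1]
        _ = 1 := mul_inv_cancel x
    rcases P.invK hxK h2 with h | h
    · rw [h]; exact Subgroup.one_mem _
    · rw [h]; exact Subgroup.mem_zpowers t
  · rw [Subgroup.zpowers_le, Subgroup.mem_inf]
    refine ⟨P.t_mem, ?_⟩
    rw [mem_cent]
    exact (mem_cent.mp (P.S_le hsS)).symm

theorem Pk.aux (P : Pk t S O S₀) (hsS : s ∈ S) (hsS₀ : s ∉ S₀) {g x : G} (hx : x ∈ O)
    (hx1 : x ≠ 1) (hx' : g⁻¹ * x * g ∈ O) : ∀ y ∈ O, g * y * g⁻¹ ∈ O := by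
  intro y hy
  have hcomm : (g * y * g⁻¹) * x = x * (g * y * g⁻¹) := by
    have h1 := P.O_comm hsS hsS₀ hy hx'
    calc g * y * g⁻¹ * x = g * (y * (g⁻¹ * x * g)) * g⁻¹ := by group
      _ = g * ((g⁻¹ * x * g) * y) * g⁻¹ := by rw [h1]
      _ = x * (g * y * g⁻¹) := by group
  have hN := P.hc (Subgroup.zpowers x) (Subgroup.zpowers_le.mpr hx)
    (Subgroup.zpowers_ne_bot.mpr hx1)
  have h2 : g * y * g⁻¹ ∈ Subgroup.centralizer ({t} : Set G) :=
    hN (mem_normalizer_zpowers hcomm)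
  apply P.O_mem _ h2
  rw [orderOf_conj']
  exact Odd.of_dvd_nat P.O_odd (Subgroup.orderOf_dvd_natCard O hy)

theorem Pk.TI (P : Pk t S O S₀) (hsS : s ∈ S) (hsS₀ : s ∉ S₀) (g : G)
    (hg : g ∉ Subgroup.centralizer ({t} : Set G)) :
    P.K ⊓ P.K.map (MulAut.conj g).toMonoidHom = ⊥ := by
  rw [eq_bot_iff]
  intro x hx
  rw [Subgroup.mem_bot]
  obtain ⟨hxK, hxg⟩ := Subgroup.mem_inf.mp hx
  rw [mem_conjK] at hxg
  by_contra hx1
  have hx0 : orderOf x ≠ 0 := (orderOf_pos x).ne'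
  by_cases h2 : 2 ∣ orderOf x
  · have hu := orderOf_pow_orderOf_div hx0 h2
    obtain ⟨huu, hu1⟩ := ord2_iff.mp hu
    have huK : x ^ (orderOf x / 2) ∈ P.K := P.K.pow_mem hxK _
    have hu'K : g⁻¹ * x ^ (orderOf x / 2) * g ∈ P.K := by
      have e : g⁻¹ * x ^ (orderOf x / 2) * g = (g⁻¹ * x * g) ^ (orderOf x / 2) := by
        have h3 := @conj_pow G _ (orderOf x / 2) g⁻¹ x
        rw [inv_inv] at h3
        exact h3.symm
      rw [e]
      exact P.K.pow_mem hxg _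
    have hut : x ^ (orderOf x / 2) = t := by
      rcases P.invK huK huu with h | h
      · exact absurd h hu1
      · exact h
    have hu't : g⁻¹ * x ^ (orderOf x / 2) * g = t := by
      have h3 : (g⁻¹ * x ^ (orderOf x / 2) * g) * (g⁻¹ * x ^ (orderOf x / 2) * g) = 1 := by
        calc (g⁻¹ * x ^ (orderOf x / 2) * g) * (g⁻¹ * x ^ (orderOf x / 2) * g)
            = g⁻¹ * (x ^ (orderOf x / 2) * x ^ (orderOf x / 2)) * g := by group
          _ = 1 := by rw [huu]; group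
      rcases P.invK hu'K h3 with h | h
      · exfalso
        apply hu1
        have e : x ^ (orderOf x / 2) = g * (g⁻¹ * x ^ (orderOf x / 2) * g) * g⁻¹ := by group
        rw [e, h]; group
      · exact h
    apply hg
    rw [mem_cent]
    rw [hut] at hu't
    calc g * t = g * (g⁻¹ * t * g) := by rw [hu't]
      _ = t * g := by group
  · have hodd : Odd (orderOf x) := by
      rw [← Nat.not_even_iff_odd, even_iff_two_dvd]; exact h2
    have hxO : x ∈ O := P.O_mem x (P.K_le hxK) hodd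
    have hx'O : g⁻¹ * x * g ∈ O := by
      apply P.O_mem _ (P.K_le hxg)
      have h3 := orderOf_conj' g⁻¹ x
      rw [inv_inv] at h3
      rw [h3]; exact hodd
    have hx'1 : g⁻¹ * x * g ≠ 1 := by
      intro h
      apply hx1
      have e : x = g * (g⁻¹ * x * g) * g⁻¹ := by group
      rw [e, h]; group
    have h3 := P.aux hsS hsS₀ hxO hx1 hx'O
    have h4 : ∀ y ∈ O, g⁻¹ * y * g ∈ O := by
      intro y hy
      have h5 := P.aux hsS hsS₀ (g := g⁻¹) hx'O hx'1 (by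
        rw [inv_inv]
        have e : g * (g⁻¹ * x * g) * g⁻¹ = x := by group
        rw [e]; exact hxO) y hy
      rwa [inv_inv] at h5
    have hgN : g ∈ Subgroup.normalizer (O : Set G) := mem_norm_of_forall' h3 h4
    have hO1 : O ≠ ⊥ := by
      intro h
      rw [h, Subgroup.mem_bot] at hxO
      exact hx1 hxO
    exact hg (P.hc O le_rfl hO1 hgN)

/-- The Brauer–Suzuki–Wall conclusion for the package. -/
theorem Pk.concl (P : Pk t S O S₀) (hsS : s ∈ S) (hsS₀ : s ∉ S₀)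
    (hconj : ∀ x y : G, orderOf x = 2 → orderOf y = 2 → IsConj x y) :
    ∃ Q D : Subgroup G, 2 * Nat.card G = Nat.card ↥Q * (Nat.card ↥Q + 1) * (Nat.card ↥Q - 1) ∧
      (∀ x ∈ Q, x ≠ 1 → Subgroup.centralizer ({x} : Set G) = Q) ∧
      2 * Nat.card ↥D + 1 = Nat.card ↥Q ∧ Q ⊓ D = ⊥ ∧
      Subgroup.normalizer (Q : Set G) = Q ⊔ D := by
  have hs : orderOf s = 2 :=
    ord2_iff.mpr ⟨P.out_sq s hsS hsS₀, fun h => hsS₀ (h ▸ S₀.one_mem)⟩
  obtain ⟨Q, D, h1, h2, h3, h4, h5, h6, h7⟩ := Cfsg.Agent.S3282.result t P.ot P.K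
    (IsMulCommutative.of_comm fun a b => Subtype.ext (P.K_comm hsS hsS₀ a.2 b.2)) P.K_le P.t_mem
    s hs (P.S_le hsS) (P.s_notin hsS hsS₀) (P.sup_eq hsS hsS₀) (P.cent_s hsS hsS₀)
    (fun x hx => P.K_inv_s hsS hsS₀ hx) (P.TI hsS hsS₀) hconj
  exact ⟨Q, D, h1, h2, h4, h5, h6⟩

end

end Cfsg.Agent.H54.GW
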