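import Mathlib
import Cfsg.Agent.H28.Coprime

set_option autoImplicit false

namespace Cfsg.Agent.H54

variable {G : Type*} [Group G]

/-- Elements whose commutators with `U` lie in the normal subgroup `C`. -/
def commSub (C U : Subgroup G) [hC : C.Normal] : Subgroup G where
  carrier := {g | ∀ v ∈ U, g * v * g⁻¹ * v⁻¹ ∈ C}
  one_mem' := by
    intro v _
    have : (1 : G) * v * 1⁻¹ * v⁻¹ = 1 := by group
    rw [this]; exact C.one_mem
  mul_mem' := by
    intro g h hg hh v hv
    have h1 := hC.conj_mem _ (hh v hv) g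
    have h2 := C.mul_mem h1 (hg v hv)
    convert h2 using 1; group
  inv_mem' := by
    intro g hg v hv
    have h1 := C.inv_mem (hg v hv)
    have h2 := hC.conj_mem _ h1 g⁻¹
    convert h2 using 1; group

theorem mem_commSub {C U : Subgroup G} [C.Normal] {g : G} :
    g ∈ commSub C U ↔ ∀ v ∈ U, g * v * g⁻¹ * v⁻¹ ∈ C := Iff.rfl

/-- Elements normalizing `F` and acting trivially on `E` modulo `F` (`E` normal). -/
def stabSub (E F : Subgroup G) [hE : E.Normal] : Subgroup G where
  carrier := {g | g ∈ Subgroup.normalizer (F : Set G) ∧ ∀ e ∈ E, g * e * g⁻¹ * e⁻¹ ∈ F}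
  one_mem' := by
    refine ⟨Subgroup.one_mem _, ?_⟩
    intro e _
    have : (1 : G) * e * 1⁻¹ * e⁻¹ = 1 := by group
    rw [this]; exact F.one_mem
  mul_mem' := by
    intro g h hg hh
    refine ⟨Subgroup.mul_mem _ hg.1 hh.1, ?_⟩
    intro e he
    have h1 := (Subgroup.mem_normalizer_iff.mp hg.1 _).mp (hh.2 e he)
    have h2 := F.mul_mem h1 (hg.2 e he)
    convert h2 using 1; group
  inv_mem' := by
    intro g hg
    refine ⟨Subgroup.inv_mem _ hg.1, ?_⟩
    intro e he
    have he' : g⁻¹ * e * g ∈ E := by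
      have := hE.conj_mem e he g⁻¹
      simpa using this
    have h1 := F.inv_mem (hg.2 _ he')
    convert h1 using 1; group

theorem mem_stabSub {E F : Subgroup G} [E.Normal] {g : G} :
    g ∈ stabSub E F ↔ g ∈ Subgroup.normalizer (F : Set G) ∧ ∀ e ∈ E, g * e * g⁻¹ * e⁻¹ ∈ F :=
  Iff.rfl

theorem conj_mem_stabSub {E F : Subgroup G} [hE : E.Normal] {g r : G} (hg : g ∈ stabSub E F)
    (hr : r ∈ Subgroup.normalizer (F : Set G)) : r * g * r⁻¹ ∈ stabSub E F := by
  refine ⟨Subgroup.mul_mem _ (Subgroup.mul_mem _ hr hg.1) (Subgroup.inv_mem _ hr), ?_⟩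
  intro e he
  have he' : r⁻¹ * e * r ∈ E := by
    have := hE.conj_mem e he r⁻¹
    simpa using this
  have h1 := (Subgroup.mem_normalizer_iff.mp hr _).mp (hg.2 _ he')
  convert h1 using 1; group

section finite

variable [Finite G] {p : ℕ} [Fact p.Prime]

/-- A non-cyclic elementary abelian `p`-group has order at least `p ^ 2`. -/
theorem sq_le_card_of_not_isCyclic (U : Subgroup G) (hU : Cfsg.IsElementaryAbelian p U)
    (hnc : ¬ IsCyclic ↥U) : p ^ 2 ≤ Nat.card U := by
  have hp : p.Prime := Fact.out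
  have hUp : IsPGroup p ↥U := Cfsg.Agent.H28.isPGroup_of_isElementaryAbelian p hU
  obtain ⟨k, hk⟩ := IsPGroup.iff_card.mp hUp
  rw [hk]
  apply Nat.pow_le_pow_right hp.pos
  by_contra hlt
  have hk1 : k = 0 ∨ k = 1 := by omega
  rcases hk1 with rfl | rfl
  · rw [pow_zero] at hk
    have : Subsingleton ↥U := (Nat.card_eq_one_iff_unique.mp hk).1
    exact hnc isCyclic_of_subsingleton
  · rw [pow_one] at hk
    exact hnc (isCyclic_of_prime_card hk)

/-- A subgroup of index `p` in a group of order at least `p ^ 2` is nontrivial. -/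
theorem exists_ne_one_of_relIndex_eq (U D : Subgroup G) (hU2 : p ^ 2 ≤ Nat.card U)
    (hD : D.relIndex U = p) : ∃ d ∈ D, d ≠ 1 := by
  have hp : p.Prime := Fact.out
  by_contra hcon
  push Not at hcon
  have hDbot : D = ⊥ := by
    rw [eq_bot_iff]
    intro d hd
    rw [Subgroup.mem_bot]
    exact hcon d hd
  rw [hDbot, Subgroup.relIndex_bot_left] at hD
  rw [hD] at hU2
  nlinarith [hp.one_lt]

/-- Generation by centralizers of nonidentity elements: if the non-cyclic elementary abelian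
`p`-group `U` normalizes the `p'`-group `X` and `C_X(u) ≤ T` for every `u ∈ U`, `u ≠ 1`, then
`X ≤ T`. -/
theorem le_of_centralizer_elt_le (U X T : Subgroup G) (hU : Cfsg.IsElementaryAbelian p U)
    (hU2 : p ^ 2 ≤ Nat.card U) (hX : ¬ p ∣ Nat.card ↥X)
    (hUX : U ≤ Subgroup.normalizer (X : Set G))
    (h : ∀ u ∈ U, u ≠ 1 → X ⊓ Subgroup.centralizer ({u} : Set G) ≤ T) : X ≤ T := by
  refine (Cfsg.Agent.H28.le_iSup_hyperplane_centralizers p U X hU hU2 hX hUX).trans ?_
  apply iSup_le
  rintro ⟨D, hDU, hDrel⟩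
  obtain ⟨d, hdD, hd1⟩ := exists_ne_one_of_relIndex_eq U D hU2 hDrel
  refine le_trans ?_ (h d (hDU hdD) hd1)
  apply inf_le_inf_left
  apply Subgroup.centralizer_le
  rw [Set.singleton_subset_iff]
  exact hdD

end finite

end Cfsg.Agent.H54
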