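import Mathlib
import Cfsg.Agent.H74.MCDefs
import Cfsg.Agent.H81.Reg
import Cfsg.Agent.H19.LinChar
import Cfsg.Agent.H4.Irr

/-!
# S4756-LIN (helper54, for helper74): linear characters are multiplicative
-/

set_option autoImplicit false

namespace Cfsg.Agent.H54.MC

open Cfsg Cfsg.Agent.H74.MC

universe u

/-- MC-LIN -/
theorem lin : StLin.{u} := by
  intro G _ _ χ hχ x y
  obtain ⟨h1, -⟩ := Cfsg.Agent.H81.irr_charDegree χ
  exact Cfsg.Agent.H19.linChar_mul (χ : G → ℂ)
    (Cfsg.Agent.H4.isCharacter_of_isIrrCharacter χ.2) (by rw [h1, hχ]; simp) x y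

example : Cfsg.Agent.H74.MC.StLin.{u} := lin

end Cfsg.Agent.H54.MC
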