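import Mathlib
import Cfsg.Agent.H74.MCDefs
import Cfsg.Agent.H82.Extra
import Cfsg.Agent.H4.Irr

/-!
# S4756-NONLIN (helper54, for helper74): a nonabelian group has a nonlinear irreducible character
-/

set_option autoImplicit false

namespace Cfsg.Agent.H54.MC

open Cfsg Cfsg.Agent.H74.MC

universe u

/-- MC-NONLIN -/
theorem nonlin : StNonlin.{u} := by
  intro G _ _ hab
  obtain ⟨a, b, hab⟩ := hab
  classical
  by_contra hall
  push Not at hall
  let _ := Cfsg.Agent.H4.fintypeIrr G
  have h := Cfsg.Agent.H82.index_add_sum_nonlinear (G := G)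
  have hempty : Finset.univ.filter (fun χ : IrrCharacter G => ¬ charDegree χ.1 = 1) = ∅ := by
    apply Finset.filter_eq_empty_iff.mpr
    intro χ _
    simp [hall χ]
  rw [hempty, Finset.sum_empty, add_zero] at h
  have h2 := Subgroup.card_mul_index (commutator G)
  rw [h] at h2
  have h3 : Nat.card (commutator G) = 1 := by
    have hpos : 0 < Nat.card G := Nat.card_pos
    exact Nat.eq_of_mul_eq_mul_right hpos (by rw [h2, one_mul])
  have hbot : commutator G = ⊥ := Subgroup.card_eq_one.mp h3
  apply hab
  have hmem : a * b * a⁻¹ * b⁻¹ ∈ commutator G := by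
    rw [commutator_def]
    exact Subgroup.commutator_mem_commutator (Subgroup.mem_top a) (Subgroup.mem_top b)
  rw [hbot, Subgroup.mem_bot] at hmem
  calc a * b = (a * b * a⁻¹ * b⁻¹) * (b * a) := by group
    _ = b * a := by rw [hmem, one_mul]

example : Cfsg.Agent.H74.MC.StNonlin.{u} := nonlin

end Cfsg.Agent.H54.MC
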