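import Mathlib
import Cfsg.Agent.H74.MCDefs
import Cfsg.Agent.H81.Reg
import Cfsg.Agent.H82.Extra
import Cfsg.Agent.H19.LinChar
import Cfsg.Agent.H4.Irr

/-!
# S4756-NOTCOMM (helper54, for helper74): an element `y ≠ 1` at which all nonlinear irreducible
characters vanish is not in the commutator subgroup
-/

set_option autoImplicit false

namespace Cfsg.Agent.H54.MC

open Cfsg Cfsg.Agent.H74.MC

universe u

/-- MC-NOTCOMM -/
theorem notComm : StNotComm.{u} := by
  intro G _ _ y hy hvan hmem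
  classical
  let _ := Cfsg.Agent.H4.fintypeIrr G
  have hreg := (Cfsg.Agent.H81.regIdentity G).2 y hy
  rw [Cfsg.Agent.H4.finsum_irr_eq_sum] at hreg
  have hlin : ∀ χ : IrrCharacter G, charDegree (χ : G → ℂ) = 1 → (χ : G → ℂ) y = 1 := by
    intro χ hχ
    obtain ⟨h1, -⟩ := Cfsg.Agent.H81.irr_charDegree χ
    have hone : (χ : G → ℂ) 1 = 1 := by rw [h1, hχ]; simp
    have hmul := Cfsg.Agent.H19.linChar_mul (χ : G → ℂ)
      (Cfsg.Agent.H4.isCharacter_of_isIrrCharacter χ.2) hone
    have hcl : ∀ g ∈ commutator G, (χ : G → ℂ) g = 1 := by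
      intro g hg
      rw [commutator_eq_closure] at hg
      induction hg using Subgroup.closure_induction with
      | mem g hg =>
        obtain ⟨a, b, rfl⟩ := hg
        rw [commutatorElement_def, hmul, hmul, hmul]
        have ha : (χ : G → ℂ) a * (χ : G → ℂ) a⁻¹ = 1 := by rw [← hmul, mul_inv_cancel, hone]
        have hb : (χ : G → ℂ) b * (χ : G → ℂ) b⁻¹ = 1 := by rw [← hmul, mul_inv_cancel, hone]
        calc (χ : G → ℂ) a * (χ : G → ℂ) b * (χ : G → ℂ) a⁻¹ * (χ : G → ℂ) b⁻¹
            = ((χ : G → ℂ) a * (χ : G → ℂ) a⁻¹) * ((χ : G → ℂ) b * (χ : G → ℂ) b⁻¹) := by ring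
          _ = 1 := by rw [ha, hb, one_mul]
      | one => exact hone
      | mul g h _ _ ihg ihh => rw [hmul, ihg, ihh, one_mul]
      | inv g _ ih =>
        have h : (χ : G → ℂ) g * (χ : G → ℂ) g⁻¹ = 1 := by rw [← hmul, mul_inv_cancel, hone]
        rw [ih, one_mul] at h
        exact h
    exact hcl y hmem
  have hterm : ∀ χ : IrrCharacter G, (χ : G → ℂ) 1 * (χ : G → ℂ) y =
      if charDegree χ.1 = 1 then 1 else 0 := by
    intro χ
    split_ifs with h
    · obtain ⟨h1, -⟩ := Cfsg.Agent.H81.irr_charDegree χ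
      rw [hlin χ h, h1, h]
      simp
    · rw [hvan χ h, mul_zero]
  rw [Finset.sum_congr rfl (fun χ _ => hterm χ), Finset.sum_boole] at hreg
  rw [Cfsg.Agent.H82.card_filter_linear] at hreg
  have hne : (commutator G).index ≠ 0 := Subgroup.index_ne_zero_of_finite
  exact hne (by exact_mod_cast hreg)

example : Cfsg.Agent.H74.MC.StNotComm.{u} := notComm

end Cfsg.Agent.H54.MC
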