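import Mathlib
import Cfsg.Agent.H74.MCDefs
import Cfsg.Agent.H81.Reg

/-!
# S4756-VAN1 (helper54, for helper74): a nonlinear irreducible character vanishes at `x` or `y`
-/

set_option autoImplicit false

namespace Cfsg.Agent.H54.MC

open Cfsg Cfsg.Agent.H74.MC

universe u

/-- MC-VAN1 -/
theorem van1 : StVan1.{u} := by
  intro G _ _ hM χ hχ x y hx hy hxy
  classical
  have hFG : Fintype G := Fintype.ofFinite G
  have hsum := Cfsg.Agent.H81.irr_sum_conj_mul χ x y
  have hterm : ∀ t : G, (χ : G → ℂ) (t * x * t⁻¹ * y) = (χ : G → ℂ) x * (χ : G → ℂ) y := by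
    intro t
    have hne : t * x * t⁻¹ ≠ 1 := by
      intro h
      apply hx
      have e : x = t⁻¹ * (t * x * t⁻¹) * t := by group
      rw [e, h]
      group
    have hord : orderOf (t * x * t⁻¹) = orderOf x := by
      have h := MulEquiv.orderOf_eq (MulAut.conj t) x
      rwa [MulAut.conj_apply] at h
    obtain ⟨p, q, a, b, hp, hq, hpq, hox, hoy⟩ := hxy
    rw [hM (t * x * t⁻¹) y χ hne hy ⟨p, q, a, b, hp, hq, hpq, hord.trans hox, hoy⟩,
      Cfsg.Agent.H81.irr_conj]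
  rw [Finset.sum_congr rfl (fun t _ => hterm t), Finset.sum_const, Finset.card_univ,
    nsmul_eq_mul] at hsum
  obtain ⟨h1, hpos⟩ := Cfsg.Agent.H81.irr_charDegree χ
  have hcard : (Fintype.card G : ℂ) = (Nat.card G : ℂ) := by rw [Nat.card_eq_fintype_card]
  have hG0 : (Nat.card G : ℂ) ≠ 0 := by exact_mod_cast Nat.card_pos.ne'
  have hd0 : ((χ : G → ℂ) 1) ≠ 0 := by rw [h1]; exact_mod_cast hpos.ne'
  have hd1 : ((χ : G → ℂ) 1) ≠ 1 := by rw [h1]; exact_mod_cast hχ
  rw [hcard] at hsum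
  have key : (χ : G → ℂ) x * (χ : G → ℂ) y * ((χ : G → ℂ) 1 - 1) = 0 := by
    have h2 : (Nat.card G : ℂ) * ((χ : G → ℂ) x * (χ : G → ℂ) y) * (χ : G → ℂ) 1 =
        (Nat.card G : ℂ) * (χ : G → ℂ) x * (χ : G → ℂ) y := by
      rw [hsum]
      field_simp
    have h3 : (Nat.card G : ℂ) * ((χ : G → ℂ) x * (χ : G → ℂ) y * ((χ : G → ℂ) 1 - 1)) = 0 := by
      linear_combination h2
    exact (mul_eq_zero.mp h3).resolve_left hG0
  rcases mul_eq_zero.mp key with h | h
  · exact mul_eq_zero.mp h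
  · exact absurd (sub_eq_zero.mp h) hd1

example : Cfsg.Agent.H74.MC.StVan1.{u} := van1

end Cfsg.Agent.H54.MC
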