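import Mathlib
import Cfsg.Agent.H54.Balance
import Cfsg.Agent.H28.Coprime

set_option autoImplicit false

namespace Cfsg.Agent.H54

section oddgen

variable {X : Type*} [Group X]

/-- `θ(y) = O(C_X(y))`. -/
abbrev theta (y : X) : Subgroup X := oddIn (Subgroup.centralizer ({y} : Set X))

theorem mem_centralizer_singleton {x y : X} :
    x ∈ Subgroup.centralizer ({y} : Set X) ↔ x * y = y * x := by
  rw [Subgroup.mem_centralizer_iff]
  constructor
  · intro h; exact (h y rfl).symm
  · intro h w hw; rw [Set.mem_singleton_iff] at hw; subst hw; exact h.symm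

theorem isPGroup_two_zpowers_of_mul_self {y : X} (hy2 : y * y = 1) :
    IsPGroup 2 (Subgroup.zpowers y) := by
  rintro ⟨g, hg⟩
  refine ⟨1, Subtype.ext ?_⟩
  obtain ⟨n, rfl⟩ := Subgroup.mem_zpowers_iff.mp hg
  change (y ^ n) ^ 2 ^ 1 = 1
  rw [pow_one, ← zpow_natCast, ← zpow_mul, mul_comm, zpow_mul, zpow_natCast, pow_two, hy2,
    one_zpow]

variable [Finite X]

theorem not_two_dvd_card_of_forall_coprime (K : Subgroup X)
    (h : ∀ k ∈ K, (orderOf k).Coprime 2) : ¬ 2 ∣ Nat.card ↥K := by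
  have : Fact (Nat.Prime 2) := ⟨Nat.prime_two⟩
  intro hdvd
  obtain ⟨k, hk⟩ := exists_prime_orderOf_dvd_card' 2 hdvd
  have h1 := h k k.2
  rw [Subgroup.orderOf_coe, hk] at h1
  exact absurd h1 (by decide)

/-- A join of pairwise commuting subgroups of odd-order elements consists of odd-order
elements. -/
theorem forall_coprime_two_of_iSup {ι : Sort*} (S : ι → Subgroup X)
    (hcomm : ∀ i j, S i ≤ Subgroup.centralizer ((S j : Subgroup X) : Set X))
    (hodd : ∀ i, ∀ a ∈ S i, (orderOf a).Coprime 2) :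
    ∀ w ∈ ⨆ i, S i, (orderOf w).Coprime 2 := by
  have hWab : (⨆ i, S i) ≤ Subgroup.centralizer ((⨆ i, S i : Subgroup X) : Set X) := by
    apply iSup_le
    intro i
    rw [Subgroup.le_centralizer_iff]
    apply iSup_le
    intro j
    exact hcomm j i
  obtain ⟨k, m, hm, hkm⟩ := Nat.exists_eq_two_pow_mul_odd (Nat.card_pos (α := X)).ne'
  have hpow : ∀ w ∈ ⨆ i, S i, w ^ m = 1 := by
    intro w hw
    have : w ∈ (⨆ i, S i) ∧ w ^ m = 1 := by
      refine Subgroup.iSup_induction (C := fun w => w ∈ (⨆ i, S i) ∧ w ^ m = 1) S hw ?_ ?_ ?_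
      · intro i a ha
        refine ⟨(le_iSup S i) ha, ?_⟩
        have h1 : orderOf a ∣ 2 ^ k * m := by
          rw [← hkm]; exact orderOf_dvd_natCard a
        have h2 : (orderOf a).Coprime (2 ^ k) := Nat.Coprime.pow_right k (hodd i a ha)
        exact orderOf_dvd_iff_pow_eq_one.mp (h2.dvd_of_dvd_mul_left h1)
      · exact ⟨Subgroup.one_mem _, one_pow m⟩
      · rintro a b ⟨ha, ham⟩ ⟨hb, hbm⟩
        refine ⟨Subgroup.mul_mem _ ha hb, ?_⟩
        have hc : Commute a b := Subgroup.mem_centralizer_iff.mp (hWab hb) a ha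
        rw [hc.mul_pow, ham, hbm, one_mul]
    exact this.2
  intro w hw
  have h1 : orderOf w ∣ m := orderOf_dvd_of_pow_eq_one (hpow w hw)
  exact Nat.Coprime.coprime_dvd_left h1 (Nat.coprime_two_right.mpr hm)

/-- If `C_X(z)` has characteristic `2` for an involution `z` of the elementary abelian `2`-group
`Y`, then `z` acts fixed-point-freely on `O(C_X(y))` for all `y ∈ Y`. -/
theorem theta_fixedPointFree (Y : Subgroup X) (hY : Cfsg.IsElementaryAbelian 2 Y)
    (z : X) (hzY : z ∈ Y) (hzF : CharP 2 ↥(Subgroup.centralizer ({z} : Set X)))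
    (y : X) (hy : y ∈ Y) (a : X) (ha : a ∈ theta y) (haz : a * z = z * a) : a = 1 := by
  have : Fact (Nat.Prime 2) := ⟨Nat.prime_two⟩
  have hcomm : ∀ u ∈ Y, ∀ v ∈ Y, u * v = v * u := fun u hu v hv =>
    congrArg Subtype.val (hY.1.is_comm.comm ⟨u, hu⟩ ⟨v, hv⟩)
  have hsq : ∀ u ∈ Y, u * u = 1 := fun u hu => by rw [← pow_two]; exact hY.2 u hu
  have haCy : a ∈ Subgroup.centralizer ({y} : Set X) := oddIn_le _ ha
  have haCz : a ∈ Subgroup.centralizer ({z} : Set X) := mem_centralizer_singleton.mpr haz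
  have hodd : (orderOf a).Coprime 2 := orderOf_coprime_of_mem_oddIn _ ha
  have hyCz : y ∈ Subgroup.centralizer ({z} : Set X) :=
    mem_centralizer_singleton.mpr (hcomm y hy z hzY)
  apply p'_trivial_of_charP (Subgroup.centralizer ({z} : Set X)) hzF a haCz hodd
  apply thompson_AxB_elt a (Subgroup.zpowers y)
    (Cfsg.pCoreOf 2 (Subgroup.centralizer ({z} : Set X)))
    (isPGroup_two_zpowers_of_mul_self (hsq y hy)) hodd _ (isPGroup_pCoreOf _)
    (le_normalizer_pCoreOf _ haCz)
    ((Subgroup.zpowers_le.mpr hyCz).trans (le_normalizer_pCoreOf _))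
  · intro x hxP hxy
    have hxy' : x * y = y * x := (hxy y (Subgroup.mem_zpowers y)).symm
    have hxCy : x ∈ Subgroup.centralizer ({y} : Set X) := mem_centralizer_singleton.mpr hxy'
    have h1 : x * a⁻¹ * x⁻¹ ∈ theta y :=
      conj_mem_of_le_normalizer (le_normalizer_oddIn _) hxCy ((theta y).inv_mem ha)
    have h2 : a * x * a⁻¹ * x⁻¹ ∈ theta y := by
      have := (theta y).mul_mem ha h1
      convert this using 1; group
    have h3 : a * x * a⁻¹ * x⁻¹ ∈ Cfsg.pCoreOf 2 (Subgroup.centralizer ({z} : Set X)) :=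
      Subgroup.mul_mem _ (conj_mem_of_le_normalizer (le_normalizer_pCoreOf _) haCz hxP)
        (Subgroup.inv_mem _ hxP)
    have h4 := eq_one_of_mem_pgroup_of_coprime (isPGroup_pCoreOf _) h3
      (orderOf_coprime_of_mem_oddIn _ h2)
    calc a * x = (a * x * a⁻¹ * x⁻¹) * (x * a) := by group
      _ = x * a := by rw [h4, one_mul]
  · intro b hb
    obtain ⟨n, rfl⟩ := Subgroup.mem_zpowers_iff.mp hb
    have hc : Commute a y := mem_centralizer_singleton.mp haCy
    exact (hc.zpow_right n).eq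

/-- Signalizer generation for an elementary abelian `2`-group `Y` of rank at least `3`, when
centralizers of involutions of `Y` have no components and one of them has characteristic `2`. -/
theorem oddgen_main (Y : Subgroup X) (hY : Cfsg.IsElementaryAbelian 2 Y) (h8 : 8 ≤ Nat.card ↥Y)
    (hE : ∀ x ∈ Y, x ≠ 1 → Cfsg.layer ↥(Subgroup.centralizer ({x} : Set X)) = ⊥)
    (z : X) (hzY : z ∈ Y) (hzF : CharP 2 ↥(Subgroup.centralizer ({z} : Set X))) :
    Odd (Nat.card ↥(⨆ y : {y : X // y ∈ Y ∧ y ≠ 1}, theta (y : X))) ∧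
    Subgroup.normalizer (Y : Set X) ≤
      Subgroup.normalizer ((⨆ y : {y : X // y ∈ Y ∧ y ≠ 1}, theta (y : X) : Subgroup X) : Set X) := by
  have : Fact (Nat.Prime 2) := ⟨Nat.prime_two⟩
  have hcomm : ∀ u ∈ Y, ∀ v ∈ Y, u * v = v * u := fun u hu v hv =>
    congrArg Subtype.val (hY.1.is_comm.comm ⟨u, hu⟩ ⟨v, hv⟩)
  have hsq : ∀ u ∈ Y, u * u = 1 := fun u hu => by rw [← pow_two]; exact hY.2 u hu
  have hYC : ∀ u ∈ Y, Y ≤ Subgroup.centralizer ({u} : Set X) := fun u hu v hv =>
    mem_centralizer_singleton.mpr (hcomm v hv u hu)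
  have hYN : ∀ u ∈ Y, Y ≤ Subgroup.normalizer ((theta u : Subgroup X) : Set X) := fun u hu =>
    (hYC u hu).trans (le_normalizer_oddIn _)
  -- `z` inverts every `θ(y)`
  have hinv : ∀ y ∈ Y, ∀ k ∈ theta y, z * k * z⁻¹ = k⁻¹ := by
    intro y hy
    exact inverts_of_fixedPointFree (theta y) z (hsq z hzY) (hYN y hy hzY)
      (fun k hk hkz => theta_fixedPointFree Y hY z hzY hzF y hy k hk hkz)
  have habel : ∀ y ∈ Y, ∀ a ∈ theta y, ∀ b ∈ theta y, a * b = b * a := fun y hy =>
    comm_of_inverted (theta y) z (hinv y hy)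
  -- balance
  have hbal : ∀ y ∈ Y, ∀ w ∈ Y, w ≠ 1 →
      theta y ⊓ Subgroup.centralizer ({w} : Set X) ≤ theta w := by
    rintro y hy w hw hw1 a ⟨ha, haw⟩
    have hzw : z ∈ Subgroup.centralizer ({w} : Set X) := hYC w hw hzY
    have hyw : y ∈ Subgroup.centralizer ({w} : Set X) := hYC w hw hy
    have key := balance_aux (H := ↥(Subgroup.centralizer ({w} : Set X))) (hE w hw hw1)
      ⟨z, hzw⟩ ⟨y, hyw⟩ ?_ ?_ ((theta y).subgroupOf (Subgroup.centralizer ({w} : Set X)))
      ?_ ?_ ?_ ?_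
    · exact ⟨⟨a, haw⟩, key (Subgroup.mem_subgroupOf.mpr ha), rfl⟩
    · intro k hk
      apply Subtype.ext
      have : (k : X) ∈ theta w := ⟨k, hk, rfl⟩
      exact hinv w hw _ this
    · exact Subtype.ext (hsq y hy)
    · intro d hd
      rw [← Subgroup.orderOf_coe]
      exact orderOf_coprime_of_mem_oddIn _ (Subgroup.mem_subgroupOf.mp hd)
    · intro d hd
      apply Subtype.ext
      exact mem_centralizer_singleton.mp (oddIn_le _ (Subgroup.mem_subgroupOf.mp hd))
    · intro h hhy d hd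
      rw [Subgroup.mem_subgroupOf] at hd ⊢
      have hh : (h : X) ∈ Subgroup.centralizer ({y} : Set X) :=
        mem_centralizer_singleton.mpr (congrArg Subtype.val hhy)
      exact conj_mem_of_le_normalizer (le_normalizer_oddIn _) hh hd
    · intro d hd
      apply Subtype.ext
      exact hinv y hy _ (Subgroup.mem_subgroupOf.mp hd)
  -- two hyperplanes of `Y` meet nontrivially
  have hhyp : ∀ D D' : Subgroup X, D.relIndex Y = 2 → D'.relIndex Y = 2 →
      ∃ u ∈ D ⊓ D', u ≠ 1 := by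
    intro D D' hDi hDi'
    by_contra hcon
    push Not at hcon
    have hbot : D ⊓ D' = ⊥ := by
      rw [Subgroup.eq_bot_iff_forall]; exact hcon
    have h1 := Subgroup.relIndex_inf_le (H := D) (K := D') (L := Y)
    rw [hbot, Subgroup.relIndex_bot_left, hDi, hDi'] at h1
    omega
  have hoddcard : ∀ u : X, ¬ 2 ∣ Nat.card ↥(theta u) := fun u =>
    not_two_dvd_card_of_forall_coprime _ (fun k hk => orderOf_coprime_of_mem_oddIn _ hk)
  -- the `θ(y)` commute pairwise
  have hpair : ∀ y ∈ Y, ∀ y' ∈ Y,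
      theta y ≤ Subgroup.centralizer ((theta y' : Subgroup X) : Set X) := by
    intro y hy y' hy'
    have hcard4 : 2 ^ 2 ≤ Nat.card ↥Y := by omega
    have h1 := Cfsg.Agent.H28.le_iSup_hyperplane_centralizers 2 Y (theta y) hY hcard4
      (hoddcard y) (hYN y hy)
    have h2 := Cfsg.Agent.H28.le_iSup_hyperplane_centralizers 2 Y (theta y') hY hcard4
      (hoddcard y') (hYN y' hy')
    refine h1.trans (iSup_le ?_)
    rintro ⟨D, hD, hDi⟩
    rw [Subgroup.le_centralizer_iff]
    refine h2.trans (iSup_le ?_)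
    rintro ⟨D', hD', hDi'⟩
    obtain ⟨u, ⟨huD, huD'⟩, hu1⟩ := hhyp D D' hDi hDi'
    have huY : u ∈ Y := hD huD
    rintro b ⟨hb, hbD'⟩
    rw [Subgroup.mem_centralizer_iff]
    rintro a ⟨ha, haD⟩
    have hau : a ∈ theta u := hbal y hy u huY hu1
      ⟨ha, mem_centralizer_singleton.mpr ((Subgroup.mem_centralizer_iff.mp haD u huD).symm)⟩
    have hbu : b ∈ theta u := hbal y' hy' u huY hu1
      ⟨hb, mem_centralizer_singleton.mpr ((Subgroup.mem_centralizer_iff.mp hbD' u huD').symm)⟩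
    exact habel u huY a hau b hbu
  have hpair' : ∀ i j : {y : X // y ∈ Y ∧ y ≠ 1},
      theta (i : X) ≤ Subgroup.centralizer ((theta (j : X) : Subgroup X) : Set X) :=
    fun i j => hpair i.1 i.2.1 j.1 j.2.1
  have hWodd := forall_coprime_two_of_iSup (fun y : {y : X // y ∈ Y ∧ y ≠ 1} => theta (y : X))
    hpair' (fun i a ha => orderOf_coprime_of_mem_oddIn _ ha)
  refine ⟨?_, ?_⟩
  · rw [← Nat.not_even_iff_odd, even_iff_two_dvd]
    exact not_two_dvd_card_of_forall_coprime _ hWodd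
  · apply le_normalizer_of_conj_mem
    intro g hg x hx
    have hmap : (⨆ y : {y : X // y ∈ Y ∧ y ≠ 1}, theta (y : X)).map (MulAut.conj g).toMonoidHom
        ≤ ⨆ y : {y : X // y ∈ Y ∧ y ≠ 1}, theta (y : X) := by
      rw [Subgroup.map_iSup]
      apply iSup_le
      rintro ⟨y, hy, hy1⟩
      have hgy : g * y * g⁻¹ ∈ Y := (Subgroup.mem_normalizer_iff.mp hg y).mp hy
      have hgy1 : g * y * g⁻¹ ≠ 1 := by
        intro h
        apply hy1
        have e : y = g⁻¹ * (g * y * g⁻¹) * g := by group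
        rw [e, h]; group
      have e : (theta y).map (MulAut.conj g).toMonoidHom = theta (g * y * g⁻¹) := by
        rw [← oddIn_conj, centralizer_singleton_map_conj]
      rw [e]
      exact le_iSup (fun y : {y : X // y ∈ Y ∧ y ≠ 1} => theta (y : X)) ⟨g * y * g⁻¹, hgy, hgy1⟩
    exact hmap ⟨x, hx, rfl⟩

end oddgen

end Cfsg.Agent.H54
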