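import Mathlib
import Cfsg.Prelude.Def_LocalEven
import Cfsg.Prelude.Def_Solvable
import Cfsg.Prelude.Def_Transfer
import Cfsg.Agent.H12.Subnormal
import Cfsg.Agent.H28.Coprime
import Cfsg.Agent.H2.Transfer
import Cfsg.Agent.H54.Parabolic
import Cfsg.Agent.H54.PCore
import Cfsg.Agent.H54.CharP2

/-!
# p-minimal groups (helper54)

Basic structure of a `p`-minimal group `P` with Sylow `p`-subgroup `S` and unique maximal
subgroup `M ≥ S`.
-/

set_option autoImplicit false
open Pointwise

namespace Cfsg.Agent.H54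

variable {P : Type*} [Group P] [Finite P] {p : ℕ} [Fact p.Prime]

/-- A proper subgroup containing `S` lies in `M`. -/
theorem pmin_le_of_sylow_le (hP : Cfsg.IsPMinimal p P) (S : Sylow p P) {M : Subgroup P}
    (hM : IsCoatom M) (hSM : (S : Subgroup P) ≤ M) {X : Subgroup P}
    (hSX : (S : Subgroup P) ≤ X) (hX : X ≠ ⊤) : X ≤ M := by
  obtain ⟨M', hM', hXM'⟩ := (eq_top_or_exists_le_coatom X).resolve_left hX
  obtain ⟨M₀, -, huniq⟩ := (hP S).2
  have h1 := huniq M' ⟨hM', hSX.trans hXM'⟩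
  have h2 := huniq M ⟨hM, hSM⟩
  rw [h2, ← h1]; exact hXM'

/-- `O^p(P)` is not contained in `M`. -/
theorem pmin_pResidual_not_le (S : Sylow p P) {M : Subgroup P}
    (hM : IsCoatom M) (hSM : (S : Subgroup P) ≤ M) : ¬ Cfsg.pResidual p P ≤ M := by
  intro h
  apply hM.1
  rw [eq_top_iff, ← Cfsg.Agent.H2.sylow_sup_pResidual_eq_top S]
  exact sup_le hSM h

/-- A normal subgroup of a `p`-minimal group contains `O^p(P)` or lies in the core of `M`. -/
theorem pmin_normal_dichotomy (hP : Cfsg.IsPMinimal p P) (S : Sylow p P) {M : Subgroup P}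
    (hM : IsCoatom M) (hSM : (S : Subgroup P) ≤ M) (N : Subgroup P) (hN : N.Normal) :
    Cfsg.pResidual p P ≤ N ∨ N ≤ M.normalCore := by
  haveI := hN
  by_cases hNM : N ≤ M
  · right; exact Subgroup.normal_le_normalCore.mpr hNM
  · left
    have htop : N ⊔ (S : Subgroup P) = ⊤ := by
      by_contra hne
      exact hNM (le_sup_left.trans (pmin_le_of_sylow_le hP S hM hSM le_sup_right hne))
    apply Cfsg.Agent.H2.pResidual_le_of_isPGroup_quotient p N
    have h1 : IsPGroup p ↥((S : Subgroup P).map (QuotientGroup.mk' N)) := S.isPGroup'.map _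
    have hmap : (S : Subgroup P).map (QuotientGroup.mk' N) = ⊤ := by
      have := congrArg (Subgroup.map (QuotientGroup.mk' N)) htop
      rw [Subgroup.map_sup, Subgroup.map_top_of_surjective _ (QuotientGroup.mk'_surjective N),
        QuotientGroup.map_mk'_self N, bot_sup_eq] at this
      exact this
    intro x
    obtain ⟨k, hk⟩ := h1 ⟨x, hmap ▸ Subgroup.mem_top x⟩
    exact ⟨k, by simpa [Subtype.ext_iff] using hk⟩

/-- For a normal subgroup `K ≤ M`, `K ∩ S ≤ O_p(P)`. -/
theorem pmin_normal_inf_sylow_le_pCore (hP : Cfsg.IsPMinimal p P) (S : Sylow p P)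
    {M : Subgroup P} (hM : IsCoatom M) (hSM : (S : Subgroup P) ≤ M) (K : Subgroup P)
    (hK : K.Normal) (hKM : K ≤ M) : K ⊓ (S : Subgroup P) ≤ Cfsg.pCore p P := by
  haveI := hK
  obtain ⟨T, hT⟩ := exists_sylow_map_subtype_eq_inf S K
  have hfr := Sylow.normalizer_sup_eq_top T
  rw [hT] at hfr
  have hSn : (S : Subgroup P) ≤ Subgroup.normalizer (((S : Subgroup P) ⊓ K : Subgroup P) : Set P) := by
    apply le_normalizer_of_conj_mem
    intro g hg x hx
    exact ⟨S.mul_mem (S.mul_mem hg hx.1) (S.inv_mem hg), hK.conj_mem x hx.2 g⟩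
  have htop : Subgroup.normalizer (((S : Subgroup P) ⊓ K : Subgroup P) : Set P) = ⊤ := by
    by_contra hne
    have h1 := pmin_le_of_sylow_le hP S hM hSM hSn hne
    apply hM.1
    rw [eq_top_iff, ← hfr]
    exact sup_le h1 hKM
  have hnorm : ((S : Subgroup P) ⊓ K).Normal := Subgroup.normalizer_eq_top_iff.mp htop
  rw [inf_comm]
  exact le_pCore hnorm (S.isPGroup'.to_le inf_le_left)

/-- A subnormal subgroup of a `p`-minimal group contained in `M` lies in the core of `M`. -/
theorem pmin_subnormal_le_normalCore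
    {M : Subgroup P} (hM : IsCoatom M) (N : Subgroup P)
    (hN : N.IsSubnormal) (hNM : N ≤ M) : N ≤ M.normalCore := by
  classical
  set T : Set (Subgroup P) := {X | Cfsg.Agent.H12.SubnIn X ⊤ ∧ X ≤ M} with hTdef
  set N₂ : Subgroup P := sSup T with hN₂def
  have hN₂ : Cfsg.Agent.H12.SubnIn N₂ ⊤ := Cfsg.Agent.H12.subnIn_sSup T (fun X hX => hX.1)
  have hN₂M : N₂ ≤ M := sSup_le (fun X hX => hX.2)
  have hMn : M ≤ Subgroup.normalizer (N₂ : Set P) := by
    intro m hm
    rw [← Cfsg.Agent.H12.conj_smul_eq_iff_mem_normalizer]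
    apply Cfsg.Agent.H12.conj_smul_eq_of_ge
    rw [Subgroup.pointwise_smul_subset_iff]
    apply sSup_le
    intro X hX
    rw [← Subgroup.pointwise_smul_subset_iff]
    apply le_sSup
    refine ⟨?_, ?_⟩
    · have h3 := hX.1.conj m
      have h4 : MulAut.conj m • (⊤ : Subgroup P) = ⊤ := by
        rw [eq_top_iff]
        intro x _
        rw [Cfsg.Agent.H12.mem_conj_smul_iff]
        exact Subgroup.mem_top _
      rwa [h4] at h3
    · intro x hx
      rw [Cfsg.Agent.H12.mem_conj_smul_iff] at hx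
      have h2 := hX.2 hx
      have : x = m * (m⁻¹ * x * m) * m⁻¹ := by group
      rw [this]
      exact M.mul_mem (M.mul_mem hm h2) (M.inv_mem hm)
  -- a minimal subnormal subgroup containing `N₂` and not inside `M`
  obtain ⟨X, ⟨hX1, hX2, hX3⟩, hXmin⟩ := (wellFounded_lt (α := Subgroup P)).has_min
    {X | Cfsg.Agent.H12.SubnIn X ⊤ ∧ N₂ ≤ X ∧ ¬ X ≤ M}
    ⟨⊤, Cfsg.Agent.H12.SubnIn.refl ⊤, le_top, fun h => hM.1 (top_le_iff.mp h)⟩
  have hne : N₂ ≠ X := fun h => hX3 (h ▸ hN₂M)
  obtain ⟨K', hK1, hK2, hK3, -⟩ := (hN₂.of_le hX2 le_top).exists_normal_lt hne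
  have hK'sub : Cfsg.Agent.H12.SubnIn K' ⊤ := Cfsg.Agent.H12.SubnIn.step K' X ⊤ hK2.le hK3 hX1
  have hK'M : K' ≤ M := by
    by_contra h
    exact hXmin K' ⟨hK'sub, hK1, h⟩ hK2
  have hK'eq : K' = N₂ := le_antisymm (le_sSup ⟨hK'sub, hK'M⟩) hK1
  rw [hK'eq] at hK3
  have htop : Subgroup.normalizer (N₂ : Set P) = ⊤ := by
    apply hM.2
    refine lt_of_le_of_ne hMn ?_
    intro h
    exact hX3 (h ▸ hK3)
  have hnorm : N₂.Normal := Subgroup.normalizer_eq_top_iff.mp htop
  have hNT : N ∈ T := ⟨Cfsg.Agent.H12.SubnIn.of_isSubnormal hN, hNM⟩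
  exact (le_sSup hNT).trans (Subgroup.normal_le_normalCore.mpr hN₂M)

/-- A prime dividing the order of a `p`-group is `p`. -/
theorem prime_eq_of_dvd_card_pgroup {X : Type*} [Group X] [Finite X] (hX : IsPGroup p X)
    {r : ℕ} (hr : r.Prime) (h : r ∣ Nat.card X) : r = p := by
  obtain ⟨k, hk⟩ := IsPGroup.iff_card.mp hX
  rw [hk] at h
  exact (Nat.prime_dvd_prime_iff_eq hr (Fact.out : p.Prime)).mp (hr.dvd_of_dvd_pow h)

/-- If `O^p(P)` has a normal Sylow `p`-subgroup then `|P|` has at most two prime divisors. -/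
theorem pmin_card_primeFactors_le_two (hP : Cfsg.IsPMinimal p P) (S : Sylow p P)
    {M : Subgroup P} (hM : IsCoatom M) (hSM : (S : Subgroup P) ≤ M)
    (hT : ∀ T : Sylow p ↥(Cfsg.pResidual p P), (T : Subgroup ↥(Cfsg.pResidual p P)).Normal) :
    (Nat.card P).primeFactors.card ≤ 2 := by
  classical
  have hRn : (Cfsg.pResidual p P).Normal := Cfsg.Agent.H2.pResidual_normal p
  obtain ⟨T, hTS⟩ := exists_sylow_map_subtype_eq_inf S (Cfsg.pResidual p P)
  have hTn := hT T
  have hTchar : (T : Subgroup ↥(Cfsg.pResidual p P)).Characteristic :=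
    Sylow.characteristic_of_normal T hTn
  have hT₁n : ((T : Subgroup ↥(Cfsg.pResidual p P)).map (Cfsg.pResidual p P).subtype).Normal :=
    ConjAct.normal_of_characteristic_of_normal
  have hT₁S : (T : Subgroup ↥(Cfsg.pResidual p P)).map (Cfsg.pResidual p P).subtype ≤ S :=
    hTS ▸ inf_le_left
  have hT₁M := hT₁S.trans hSM
  have hT₁p : IsPGroup p ↥((T : Subgroup ↥(Cfsg.pResidual p P)).map (Cfsg.pResidual p P).subtype) :=
    T.isPGroup'.map _
  generalize hT₁ : (T : Subgroup ↥(Cfsg.pResidual p P)).map (Cfsg.pResidual p P).subtype = T₁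
    at hT₁n hT₁S hT₁M hT₁p
  have hf : Function.Surjective (QuotientGroup.mk' T₁) := QuotientGroup.mk'_surjective T₁
  have hRb : ¬ p ∣ Nat.card ↥((Cfsg.pResidual p P).map (QuotientGroup.mk' T₁)) := by
    have h2 : ((QuotientGroup.mk' T₁).comp (Cfsg.pResidual p P).subtype).ker =
        (T : Subgroup ↥(Cfsg.pResidual p P)) := by
      ext x
      rw [MonoidHom.mem_ker, MonoidHom.comp_apply, QuotientGroup.mk'_apply,
        QuotientGroup.eq_one_iff, ← hT₁]
      constructor
      · rintro ⟨y, hy, hyx⟩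
        have : y = x := Subtype.ext hyx
        rwa [← this]
      · intro hx
        exact ⟨x, hx, rfl⟩
    have h3 : ((QuotientGroup.mk' T₁).comp (Cfsg.pResidual p P).subtype).range =
        (Cfsg.pResidual p P).map (QuotientGroup.mk' T₁) := by
      rw [MonoidHom.range_comp, Subgroup.range_subtype]
    rw [← h3, ← Subgroup.index_ker, h2]
    exact T.not_dvd_index
  have hSb : IsPGroup p ↥((S : Subgroup P).map (QuotientGroup.mk' T₁)) := S.isPGroup'.map _
  have hRbn : ((Cfsg.pResidual p P).map (QuotientGroup.mk' T₁)).Normal := hRn.map _ hf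
  have hSbR : (S : Subgroup P).map (QuotientGroup.mk' T₁) ≤
      Subgroup.normalizer (((Cfsg.pResidual p P).map (QuotientGroup.mk' T₁) :
        Subgroup (P ⧸ T₁)) : Set (P ⧸ T₁)) := by
    rw [Subgroup.normalizer_eq_top_iff.mpr hRbn]; exact le_top
  have hRM : ¬ Cfsg.pResidual p P ≤ M := pmin_pResidual_not_le S hM hSM
  have key : ∀ q : ℕ, q.Prime → q ≠ p → (Nat.card P).primeFactors ⊆ {p, q} ∨
      ∃ Q : Subgroup (P ⧸ T₁), Q ≤ (Cfsg.pResidual p P).map (QuotientGroup.mk' T₁) ∧
        ¬ q ∣ Q.relIndex ((Cfsg.pResidual p P).map (QuotientGroup.mk' T₁)) ∧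
        Q ≤ M.map (QuotientGroup.mk' T₁) := by
    intro q hq hqp
    haveI : Fact q.Prime := ⟨hq⟩
    obtain ⟨Q, hQR, hSQ, hQq, hQi⟩ := Cfsg.Agent.H28.exists_invariant_sylow p _ _ hSb hRb hSbR q
    by_cases hX : ((S : Subgroup P).map (QuotientGroup.mk' T₁) ⊔ Q).comap (QuotientGroup.mk' T₁) = ⊤
    · left
      have hXb : (S : Subgroup P).map (QuotientGroup.mk' T₁) ⊔ Q = ⊤ := by
        have := congrArg (Subgroup.map (QuotientGroup.mk' T₁)) hX
        rwa [Subgroup.map_comap_eq_self_of_surjective hf, Subgroup.map_top_of_surjective _ hf]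
          at this
      have hQn : Q.Normal := by
        rw [← Subgroup.normalizer_eq_top_iff, eq_top_iff, ← hXb]
        exact sup_le hSQ Subgroup.le_normalizer
      have hquot : IsPGroup p ((P ⧸ T₁) ⧸ Q) := by
        have hmap : ((S : Subgroup P).map (QuotientGroup.mk' T₁)).map (QuotientGroup.mk' Q) = ⊤ := by
          have := congrArg (Subgroup.map (QuotientGroup.mk' Q)) hXb
          rw [Subgroup.map_sup, Subgroup.map_top_of_surjective _ (QuotientGroup.mk'_surjective Q),
            QuotientGroup.map_mk'_self Q, sup_bot_eq] at this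
          exact this
        have h1 : IsPGroup p ↥(((S : Subgroup P).map (QuotientGroup.mk' T₁)).map
            (QuotientGroup.mk' Q)) := hSb.map _
        intro x
        obtain ⟨k, hk⟩ := h1 ⟨x, hmap ▸ Subgroup.mem_top x⟩
        exact ⟨k, by simpa [Subtype.ext_iff] using hk⟩
      intro r hr
      rw [Nat.mem_primeFactors] at hr
      obtain ⟨hrp, hrd, -⟩ := hr
      rw [Subgroup.card_eq_card_quotient_mul_card_subgroup T₁,
        Subgroup.card_eq_card_quotient_mul_card_subgroup Q] at hrd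
      rw [Finset.mem_insert, Finset.mem_singleton]
      rcases (Nat.Prime.dvd_mul hrp).mp hrd with h | h
      · rcases (Nat.Prime.dvd_mul hrp).mp h with h | h
        · left; exact prime_eq_of_dvd_card_pgroup hquot hrp h
        · right
          obtain ⟨k, hk⟩ := IsPGroup.iff_card.mp hQq
          rw [hk] at h
          exact (Nat.prime_dvd_prime_iff_eq hrp hq).mp (hrp.dvd_of_dvd_pow h)
      · left; exact prime_eq_of_dvd_card_pgroup hT₁p hrp h
    · right
      refine ⟨Q, hQR, hQi, ?_⟩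
      have h0 : (S : Subgroup P) ≤
          ((S : Subgroup P).map (QuotientGroup.mk' T₁) ⊔ Q).comap (QuotientGroup.mk' T₁) :=
        (Subgroup.le_comap_map _ _).trans (Subgroup.comap_mono le_sup_left)
      have h1 := pmin_le_of_sylow_le hP S hM hSM h0 hX
      calc Q ≤ (S : Subgroup P).map (QuotientGroup.mk' T₁) ⊔ Q := le_sup_right
        _ = (((S : Subgroup P).map (QuotientGroup.mk' T₁) ⊔ Q).comap (QuotientGroup.mk' T₁)).map
              (QuotientGroup.mk' T₁) := (Subgroup.map_comap_eq_self_of_surjective hf _).symm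
        _ ≤ M.map (QuotientGroup.mk' T₁) := Subgroup.map_mono h1
  by_cases hex : ∃ q : ℕ, q.Prime ∧ q ≠ p ∧ (Nat.card P).primeFactors ⊆ {p, q}
  · obtain ⟨q, -, -, hsub⟩ := hex
    exact (Finset.card_le_card hsub).trans Finset.card_le_two
  · exfalso
    push Not at hex
    have hrel : (M.map (QuotientGroup.mk' T₁) ⊓
        (Cfsg.pResidual p P).map (QuotientGroup.mk' T₁)).relIndex
        ((Cfsg.pResidual p P).map (QuotientGroup.mk' T₁)) = 1 := by
      by_contra hne
      obtain ⟨q, hq, hqd⟩ := Nat.exists_prime_and_dvd hne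
      by_cases hqp : q = p
      · subst hqp
        exact hRb (hqd.trans (Subgroup.relIndex_dvd_card _ _))
      · obtain ⟨Q, hQR, hQi, hQM⟩ := (key q hq hqp).resolve_left (hex q hq hqp)
        apply hQi
        rw [← Subgroup.relIndex_mul_relIndex Q (M.map (QuotientGroup.mk' T₁) ⊓
          (Cfsg.pResidual p P).map (QuotientGroup.mk' T₁)) _ (le_inf hQM hQR) inf_le_right]
        exact Dvd.dvd.mul_left hqd _
    have hle : (Cfsg.pResidual p P).map (QuotientGroup.mk' T₁) ≤ M.map (QuotientGroup.mk' T₁) :=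
      (Subgroup.relIndex_eq_one.mp hrel).trans inf_le_left
    apply hRM
    calc Cfsg.pResidual p P
        ≤ ((Cfsg.pResidual p P).map (QuotientGroup.mk' T₁)).comap (QuotientGroup.mk' T₁) :=
          Subgroup.le_comap_map _ _
      _ ≤ (M.map (QuotientGroup.mk' T₁)).comap (QuotientGroup.mk' T₁) := Subgroup.comap_mono hle
      _ = M ⊔ (QuotientGroup.mk' T₁).ker := Subgroup.comap_map_eq _ M
      _ = M := by rw [QuotientGroup.ker_mk', sup_eq_left]; exact hT₁M

end Cfsg.Agent.H54
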