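import Mathlib
import Cfsg.Prelude.Def_Local
import Cfsg.Prelude.Def_LocalEven
import Cfsg.Agent.H54.PMin
import Cfsg.Agent.H54.Basic
import Cfsg.Agent.H27.Comp
import Cfsg.Agent.H27.Layer
import Cfsg.Agent.H66.Layer
import Cfsg.Agent.H52.FStar
import Cfsg.Agent.H52.FStarAct2

/-!
# p-minimal groups with a component (helper54)
-/

set_option autoImplicit false
open Pointwise
open scoped commutatorElement

namespace Cfsg.Agent.H54

section general

variable {G : Type*} [Group G]

/-- `S` normalizes the join of the `S`-conjugates of `B`. -/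
theorem le_normalizer_iSup_conj [Finite G] (S B : Subgroup G) :
    S ≤ Subgroup.normalizer
      ((⨆ s : ↥S, B.map (MulAut.conj (s : G)).toMonoidHom : Subgroup G) : Set G) := by
  apply le_normalizer_of_conj_mem
  intro t ht x hx
  have key : (⨆ s : ↥S, B.map (MulAut.conj (s : G)).toMonoidHom : Subgroup G) ≤
      (⨆ s : ↥S, B.map (MulAut.conj (s : G)).toMonoidHom : Subgroup G).comap
        (MulAut.conj t).toMonoidHom := by
    apply iSup_le
    intro s y hy
    obtain ⟨b, hb, rfl⟩ := hy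
    rw [Subgroup.mem_comap]
    have h1 : (MulAut.conj t).toMonoidHom ((MulAut.conj (s : G)).toMonoidHom b) =
        (MulAut.conj ((⟨t * s, S.mul_mem ht s.2⟩ : ↥S) : G)).toMonoidHom b := by
      simp [MulAut.conj_apply, mul_assoc]
    rw [h1]
    exact Subgroup.mem_iSup_of_mem (⟨t * s, S.mul_mem ht s.2⟩ : ↥S) (Subgroup.mem_map_of_mem _ hb)
  have := key hx
  rw [Subgroup.mem_comap] at this
  simpa [MulAut.conj_apply] using this

/-- A single Sylow `p`-subgroup suffices to test `p`-minimality. -/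
theorem isPMinimal_of_sylow [Finite G] {p : ℕ} [Fact p.Prime] (S : Sylow p G)
    (h1 : ¬ (S : Subgroup G).Normal)
    (h2 : ∃! M : Subgroup G, IsCoatom M ∧ (S : Subgroup G) ≤ M) : Cfsg.IsPMinimal p G := by
  intro S'
  obtain ⟨g, rfl⟩ := MulAction.exists_smul_eq G S S'
  have hcoe : ((g • S : Sylow p G) : Subgroup G) = MulAut.conj g • (S : Subgroup G) := by
    rw [Sylow.smul_def, Sylow.pointwise_smul_def]
  constructor
  · intro hn
    apply h1
    have h3 : g⁻¹ • (g • S) = g • S := Sylow.smul_eq_of_normal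
    rw [inv_smul_smul] at h3
    rw [h3]; exact hn
  · obtain ⟨M, ⟨hM, hSM⟩, huniq⟩ := h2
    have hco : ∀ (N : Subgroup G) (x : G), IsCoatom N → IsCoatom (MulAut.conj x • N) := by
      intro N x hN
      refine ⟨?_, ?_⟩
      · intro h
        apply hN.1
        have h4 := Cfsg.Agent.H12.conj_inv_smul_conj_smul N x
        rw [h] at h4
        rw [← h4, eq_top_iff]
        intro y _
        rw [Cfsg.Agent.H12.mem_conj_smul_iff]
        exact Subgroup.mem_top _
      · intro b hb
        have h5 : N < MulAut.conj x⁻¹ • b := by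
          have h6 := Cfsg.Agent.H12.conj_inv_smul_conj_smul N x
          refine lt_of_le_of_ne ?_ ?_
          · rw [← h6]
            exact Subgroup.pointwise_smul_le_pointwise_smul_iff.mpr hb.le
          · intro h
            apply hb.ne
            rw [h, Cfsg.Agent.H12.conj_smul_conj_inv_smul]
        have h7 := hN.2 _ h5
        have h8 := Cfsg.Agent.H12.conj_smul_conj_inv_smul b x
        rw [h7] at h8
        rw [← h8, eq_top_iff]
        intro y _
        rw [Cfsg.Agent.H12.mem_conj_smul_iff]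
        exact Subgroup.mem_top _
    refine ⟨MulAut.conj g • M, ⟨hco M g hM, ?_⟩, ?_⟩
    · rw [hcoe]
      exact Subgroup.pointwise_smul_le_pointwise_smul_iff.mpr hSM
    · rintro M' ⟨hM', hSM'⟩
      have h9 : MulAut.conj g⁻¹ • M' = M := by
        apply huniq
        refine ⟨hco M' g⁻¹ hM', ?_⟩
        have h10 := Cfsg.Agent.H12.conj_inv_smul_conj_smul (S : Subgroup G) g
        rw [← h10, ← hcoe]
        exact Subgroup.pointwise_smul_le_pointwise_smul_iff.mpr hSM'
      rw [← h9, Cfsg.Agent.H12.conj_smul_conj_inv_smul]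

end general

variable {P : Type*} [Group P] [Finite P] {p : ℕ} [Fact p.Prime]

/-- A normal `p'`-subgroup of a `p`-minimal group lying in `M` is nilpotent. -/
theorem pmin_nilpotent_of_normal_coprime (hP : Cfsg.IsPMinimal p P) (S : Sylow p P)
    {M : Subgroup P} (hM : IsCoatom M) (hSM : (S : Subgroup P) ≤ M) (N : Subgroup P)
    (hN : N.Normal) (hNM : N ≤ M) (hNp : ¬ p ∣ Nat.card ↥N) : Group.IsNilpotent ↥N := by
  refine ((Group.isNilpotent_of_finite_tfae (G := ↥N)).out 0 3).mpr ?_
  intro q hq U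
  obtain ⟨Q, hQN, hSQ, hQq, hQi⟩ := Cfsg.Agent.H28.exists_invariant_sylow p (S : Subgroup P) N
    S.isPGroup' hNp (by rw [Subgroup.normalizer_eq_top_iff.mpr hN]; exact le_top) q
  have hQ'p : IsPGroup q ↥(Q.subgroupOf N) := hQq.comap_subtype
  set Q' : Sylow q ↥N := IsPGroup.toSylow hQ'p hQi with hQ'def
  have hQ'coe : (Q' : Subgroup ↥N) = Q.subgroupOf N := IsPGroup.toSylow_coe hQ'p hQi
  have hQ'map : (Q' : Subgroup ↥N).map N.subtype = Q := by
    rw [hQ'coe]; exact Subgroup.map_subgroupOf_eq_of_le hQN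
  have hfr := Sylow.normalizer_sup_eq_top Q'
  rw [hQ'map] at hfr
  have htop : Subgroup.normalizer (Q : Set P) = ⊤ := by
    by_contra hne
    have h1 := pmin_le_of_sylow_le hP S hM hSM hSQ hne
    apply hM.1
    rw [eq_top_iff, ← hfr]
    exact sup_le h1 hNM
  have hQn : Q.Normal := Subgroup.normalizer_eq_top_iff.mp htop
  have hQ'n : (Q' : Subgroup ↥N).Normal := by
    rw [hQ'coe]; exact hQn.subgroupOf N
  obtain ⟨g, hg⟩ := MulAction.exists_smul_eq ↥N Q' U
  have h2 : g • Q' = Q' := Sylow.smul_eq_of_normal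
  rw [← hg, h2]
  exact hQ'n

/-- A component of a `p`-minimal group with `O_p(P) = 1` does not lie in `M`. -/
theorem pmin_component_not_le (hP : Cfsg.IsPMinimal p P) (hOp : Cfsg.pCore p P = ⊥)
    (S : Sylow p P) {M : Subgroup P} (hM : IsCoatom M) (hSM : (S : Subgroup P) ≤ M)
    (K : Subgroup P) (hK : Cfsg.IsComponent K) : ¬ K ≤ M := by
  intro hKM
  have hKF := pmin_subnormal_le_normalCore hM K hK.1 hKM
  have hFn : M.normalCore.Normal := Subgroup.normalCore_normal M
  have h1 := pmin_normal_inf_sylow_le_pCore hP S hM hSM M.normalCore hFn (Subgroup.normalCore_le M)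
  rw [hOp] at h1
  have hFp : ¬ p ∣ Nat.card ↥M.normalCore := by
    obtain ⟨T, hT⟩ := exists_sylow_map_subtype_eq_inf S M.normalCore
    intro hdvd
    have hTne : (T : Subgroup ↥M.normalCore) ≠ ⊥ := T.ne_bot_of_dvd_card hdvd
    apply hTne
    rw [eq_bot_iff]
    intro x hx
    have h2 : (x : P) ∈ (S : Subgroup P) ⊓ M.normalCore := hT ▸ Subgroup.mem_map_of_mem _ hx
    rw [inf_comm] at h2
    have h3 := h1 h2
    rw [Subgroup.mem_bot] at h3 ⊢
    exact Subtype.ext h3
  have hnil := pmin_nilpotent_of_normal_coprime hP S hM hSM M.normalCore hFn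
    (Subgroup.normalCore_le M) hFp
  apply Cfsg.Agent.H27.isComponent_not_solvable hK
  haveI := hnil
  exact Group.isSolvable_of_isSolvable_injective (Subgroup.inclusion_injective hKF)

/-- `O^p(P)` lies in the normal closure of a component. -/
theorem pmin_pResidual_le_normalClosure (hP : Cfsg.IsPMinimal p P) (hOp : Cfsg.pCore p P = ⊥)
    (S : Sylow p P) {M : Subgroup P} (hM : IsCoatom M) (hSM : (S : Subgroup P) ≤ M)
    (K : Subgroup P) (hK : Cfsg.IsComponent K) :
    Cfsg.pResidual p P ≤ Subgroup.normalClosure (K : Set P) := by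
  rcases pmin_normal_dichotomy hP S hM hSM _ (Subgroup.normalClosure_normal (s := (K : Set P)))
    with h | h
  · exact h
  · exact absurd ((Subgroup.le_normalClosure).trans (h.trans (Subgroup.normalCore_le M)))
      (pmin_component_not_le hP hOp S hM hSM K hK)

/-- `F*(P) ≤ O^p(P)` when `O_p(P) = 1`. -/
theorem genFitting_le_pResidual (hOp : Cfsg.pCore p P = ⊥) :
    Cfsg.generalizedFittingSubgroup P ≤ Cfsg.pResidual p P := by
  unfold Cfsg.generalizedFittingSubgroup
  apply sup_le
  · unfold Cfsg.layer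
    apply sSup_le
    intro L hL
    exact Cfsg.Agent.H52.perfect_le_pResidual L (Cfsg.Agent.H27.isComponent_perfect hL)
  · exact Cfsg.Agent.H52.le_pResidual_of_coprime _ (Cfsg.Agent.H52.fitting_coprime hOp)

/-- `O^p(P) = F*(P) = E(P)` in a `p`-minimal group with `O_p(P) = 1` having a component. -/
theorem pmin_pResidual_eq (hP : Cfsg.IsPMinimal p P) (hOp : Cfsg.pCore p P = ⊥)
    (S : Sylow p P) {M : Subgroup P} (hM : IsCoatom M) (hSM : (S : Subgroup P) ≤ M)
    (K : Subgroup P) (hK : Cfsg.IsComponent K) :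
    Cfsg.pResidual p P = Cfsg.generalizedFittingSubgroup P ∧
    Cfsg.generalizedFittingSubgroup P = Cfsg.layer P := by
  have h1 := pmin_pResidual_le_normalClosure hP hOp S hM hSM K hK
  haveI : (Cfsg.layer P).Normal := Cfsg.Agent.H66.layer_normal
  have h2 : Subgroup.normalClosure (K : Set P) ≤ Cfsg.layer P :=
    Subgroup.normalClosure_le_normal (Cfsg.Agent.H27.isComponent_le_layer hK)
  have h3 : Cfsg.layer P ≤ Cfsg.generalizedFittingSubgroup P := Cfsg.Agent.H27.layer_le_genFitting
  have h4 := genFitting_le_pResidual (P := P) hOp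
  exact ⟨le_antisymm (h1.trans (h2.trans h3)) h4, le_antisymm (h4.trans (h1.trans h2)) h3⟩

/-- A component normalizes every component. -/
theorem component_le_normalizer_component {G : Type*} [Group G] {L L' : Subgroup G}
    (hL : Cfsg.IsComponent L) (hL' : Cfsg.IsComponent L') :
    L ≤ Subgroup.normalizer (L' : Set G) := by
  by_cases h : L = L'
  · rw [h]; exact Subgroup.le_normalizer
  · have h1 := Cfsg.Agent.H27.components_commute hL hL' h
    rw [Subgroup.commutator_eq_bot_iff_le_centralizer] at h1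
    exact h1.trans (Subgroup.centralizer_le_normalizer _)

/-- `E(P)` is generated by the `S`-conjugates of a component. -/
theorem pmin_layer_eq_iSup (hP : Cfsg.IsPMinimal p P) (hOp : Cfsg.pCore p P = ⊥)
    (S : Sylow p P) {M : Subgroup P} (hM : IsCoatom M) (hSM : (S : Subgroup P) ≤ M)
    (K : Subgroup P) (hK : Cfsg.IsComponent K) :
    Cfsg.layer P = ⨆ s : ↥(S : Subgroup P), K.map (MulAut.conj (s : P)).toMonoidHom := by
  obtain ⟨e1, e2⟩ := pmin_pResidual_eq hP hOp S hM hSM K hK
  have hcomp : ∀ s : ↥(S : Subgroup P), Cfsg.IsComponent (K.map (MulAut.conj (s : P)).toMonoidHom) :=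
    fun s => Cfsg.Agent.H27.isComponent_map_equiv (MulAut.conj (s : P)) hK
  apply le_antisymm
  · -- the join is normal
    have hS := le_normalizer_iSup_conj (S : Subgroup P) K
    have hR : Cfsg.layer P ≤ Subgroup.normalizer
        ((⨆ s : ↥(S : Subgroup P), K.map (MulAut.conj (s : P)).toMonoidHom : Subgroup P) : Set P) := by
      unfold Cfsg.layer
      apply sSup_le
      intro L hL
      apply le_normalizer_of_conj_mem
      intro g hg x hx
      have key : (⨆ s : ↥(S : Subgroup P), K.map (MulAut.conj (s : P)).toMonoidHom : Subgroup P) ≤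
          (⨆ s : ↥(S : Subgroup P), K.map (MulAut.conj (s : P)).toMonoidHom : Subgroup P).comap
            (MulAut.conj g).toMonoidHom := by
        apply iSup_le
        intro s y hy
        rw [Subgroup.mem_comap]
        apply Subgroup.mem_iSup_of_mem s
        have h5 := component_le_normalizer_component hL (hcomp s) hg
        have h6 := (Subgroup.mem_normalizer_iff.mp h5 y).mp hy
        simpa [MulAut.conj_apply] using h6
      have := key hx
      rw [Subgroup.mem_comap] at this
      simpa [MulAut.conj_apply] using this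
    have htop : Subgroup.normalizer
        ((⨆ s : ↥(S : Subgroup P), K.map (MulAut.conj (s : P)).toMonoidHom : Subgroup P) : Set P)
        = ⊤ := by
      rw [eq_top_iff, ← Cfsg.Agent.H2.sylow_sup_pResidual_eq_top S, e1, e2]
      exact sup_le hS hR
    haveI hn : (⨆ s : ↥(S : Subgroup P), K.map (MulAut.conj (s : P)).toMonoidHom : Subgroup P).Normal :=
      Subgroup.normalizer_eq_top_iff.mp htop
    have hK1 : K ≤ ⨆ s : ↥(S : Subgroup P), K.map (MulAut.conj (s : P)).toMonoidHom := by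
      refine le_trans ?_ (le_iSup _ (1 : ↥(S : Subgroup P)))
      intro x hx
      exact ⟨x, hx, by simp⟩
    rw [← e2, ← e1]
    exact (pmin_pResidual_le_normalClosure hP hOp S hM hSM K hK).trans
      (Subgroup.normalClosure_le_normal hK1)
  · apply iSup_le
    intro s
    exact Cfsg.Agent.H27.isComponent_le_layer (hcomp s)

/-- Proper subgroups of `K N_S(K)` containing `N_S(K)` lie in `M`. -/
theorem pmin_component_sub_le (hP : Cfsg.IsPMinimal p P)
    (S : Sylow p P) {M : Subgroup P} (hM : IsCoatom M) (hSM : (S : Subgroup P) ≤ M)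
    (K : Subgroup P) (hK : Cfsg.IsComponent K) (Y : Subgroup P)
    (hYX : Y ≤ K ⊔ ((S : Subgroup P) ⊓ Subgroup.normalizer (K : Set P)))
    (hSY : (S : Subgroup P) ⊓ Subgroup.normalizer (K : Set P) ≤ Y)
    (hne : Y ≠ K ⊔ ((S : Subgroup P) ⊓ Subgroup.normalizer (K : Set P))) : Y ≤ M := by
  have hKY : ¬ K ≤ Y := fun h => hne (le_antisymm hYX (sup_le h hSY))
  have hBS := le_normalizer_iSup_conj (S : Subgroup P) (Y ⊓ K)
  have hB1 : Y ⊓ K ≤ ⨆ s : ↥(S : Subgroup P), (Y ⊓ K).map (MulAut.conj (s : P)).toMonoidHom := by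
    refine le_trans ?_ (le_iSup _ (1 : ↥(S : Subgroup P)))
    intro x hx
    exact ⟨x, hx, by simp⟩
  by_cases htop : (⨆ s : ↥(S : Subgroup P), (Y ⊓ K).map (MulAut.conj (s : P)).toMonoidHom) ⊔
      (S : Subgroup P) = ⊤
  · exfalso
    have hn : (⨆ s : ↥(S : Subgroup P), (Y ⊓ K).map (MulAut.conj (s : P)).toMonoidHom :
        Subgroup P).Normal := by
      rw [← Subgroup.normalizer_eq_top_iff, eq_top_iff, ← htop]
      exact sup_le Subgroup.le_normalizer hBS
    have hR : Cfsg.pResidual p P ≤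
        ⨆ s : ↥(S : Subgroup P), (Y ⊓ K).map (MulAut.conj (s : P)).toMonoidHom := by
      rcases pmin_normal_dichotomy hP S hM hSM _ hn with h | h
      · exact h
      · exfalso
        apply hM.1
        rw [eq_top_iff, ← htop]
        exact sup_le (h.trans (Subgroup.normalCore_le M)) hSM
    have hKR : K ≤ Cfsg.pResidual p P :=
      Cfsg.Agent.H52.perfect_le_pResidual K (Cfsg.Agent.H27.isComponent_perfect hK)
    have hgam : (⨆ s : ↥(S : Subgroup P), (Y ⊓ K).map (MulAut.conj (s : P)).toMonoidHom) ≤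
        (Y ⊓ K) ⊔ Subgroup.centralizer (K : Set P) := by
      apply iSup_le
      intro s
      by_cases hs : (s : P) ∈ Subgroup.normalizer (K : Set P)
      · refine le_trans ?_ le_sup_left
        rintro _ ⟨b, hb, rfl⟩
        have hsY : (s : P) ∈ Y := hSY ⟨s.2, hs⟩
        refine ⟨?_, ?_⟩
        · simpa [MulAut.conj_apply] using Y.mul_mem (Y.mul_mem hsY hb.1) (Y.inv_mem hsY)
        · simpa [MulAut.conj_apply] using (Subgroup.mem_normalizer_iff.mp hs b).mp hb.2
      · refine le_trans ?_ le_sup_right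
        have hne' : K.map (MulAut.conj (s : P)).toMonoidHom ≠ K := fun h =>
          hs (Cfsg.Agent.H27.mem_normalizer_iff_map_conj_eq.mpr h)
        have hcomm := Cfsg.Agent.H27.components_commute
          (Cfsg.Agent.H27.isComponent_map_equiv (MulAut.conj (s : P)) hK) hK hne'
        rw [Subgroup.commutator_eq_bot_iff_le_centralizer] at hcomm
        exact (Subgroup.map_mono inf_le_right).trans hcomm
    have hKle : K ≤ (Y ⊓ K) ⊔ Subgroup.centralizer (K : Set P) := hKR.trans (hR.trans hgam)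
    have hCn : Subgroup.centralizer (K : Set P) ≤ Subgroup.normalizer ((Y ⊓ K : Subgroup P) : Set P) :=
      (Subgroup.centralizer_le (show ((Y ⊓ K : Subgroup P) : Set P) ⊆ (K : Set P) from
        fun x hx => hx.2)).trans (Subgroup.centralizer_le_normalizer _)
    have hcomm : ⁅K, K⁆ ≤ Y ⊓ K := by
      rw [Subgroup.commutator_le]
      intro k₁ hk₁ k₂ hk₂
      obtain ⟨b₁, hb₁, c₁, hc₁, rfl⟩ := exists_mul_of_mem_sup _ _ hCn (hKle hk₁)
      obtain ⟨b₂, hb₂, c₂, hc₂, rfl⟩ := exists_mul_of_mem_sup _ _ hCn (hKle hk₂)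
      have e1 : ⁅b₁ * c₁, b₂ * c₂⁆ = ⁅b₁, b₂ * c₂⁆ := by
        apply Cfsg.Agent.H27.commElem_mul_left_of_comm
        exact (Subgroup.mem_centralizer_iff.mp hc₁ _ hk₂).symm
      have e2 : ⁅b₁, b₂ * c₂⁆ = ⁅b₁, b₂⁆ := by
        apply Cfsg.Agent.H27.commElem_mul_right_of_comm
        exact (Subgroup.mem_centralizer_iff.mp hc₂ _ hb₁.2).symm
      rw [e1, e2]
      exact (Y ⊓ K).mul_mem ((Y ⊓ K).mul_mem ((Y ⊓ K).mul_mem hb₁ hb₂) ((Y ⊓ K).inv_mem hb₁))
        ((Y ⊓ K).inv_mem hb₂)
    rw [Cfsg.Agent.H27.isComponent_perfect hK] at hcomm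
    exact hKY (hcomm.trans inf_le_left)
  · have h1 := pmin_le_of_sylow_le hP S hM hSM le_sup_right htop
    have hBM : Y ⊓ K ≤ M := hB1.trans (le_sup_left.trans h1)
    intro y hy
    obtain ⟨k, hk, a, ha, rfl⟩ := exists_mul_of_mem_sup K _ inf_le_right (hYX hy)
    have hkY : k ∈ Y := by
      have := Y.mul_mem hy (Y.inv_mem (hSY ha))
      simpa using this
    exact M.mul_mem (hBM ⟨hkY, hk⟩) (hSM ha.1)

/-- A commutator identity used below. -/
theorem commElem_mem_of_zpow {G : Type*} [Group G] (N : Subgroup G) (k s₁ s₂ : G) (i j : ℤ)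
    (hk : k ∈ Subgroup.normalizer (N : Set G)) (h₁ : s₁ ∈ N) (h₂ : s₂ ∈ N) :
    ⁅s₁ * k ^ i, s₂ * k ^ j⁆ ∈ N := by
  have hki : k ^ i ∈ Subgroup.normalizer (N : Set G) := Subgroup.zpow_mem _ hk i
  have hkj : k ^ j ∈ Subgroup.normalizer (N : Set G) := Subgroup.zpow_mem _ hk j
  have e : ⁅s₁ * k ^ i, s₂ * k ^ j⁆ =
      s₁ * (k ^ i * s₂ * (k ^ i)⁻¹) * (k ^ j * s₁⁻¹ * (k ^ j)⁻¹) * s₂⁻¹ := by
    rw [commutatorElement_def]
    group
  rw [e]
  exact N.mul_mem (N.mul_mem (N.mul_mem h₁ ((Subgroup.mem_normalizer_iff.mp hki s₂).mp h₂))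
    ((Subgroup.mem_normalizer_iff.mp hkj s₁⁻¹).mp (N.inv_mem h₁))) (N.inv_mem h₂)

/-- `K N_S(K)` is `p`-minimal. -/
theorem pmin_component_sub_isPMinimal (hP : Cfsg.IsPMinimal p P) (hOp : Cfsg.pCore p P = ⊥)
    (S : Sylow p P) (K : Subgroup P) (hK : Cfsg.IsComponent K) :
    Cfsg.IsPMinimal p ↥(K ⊔ ((S : Subgroup P) ⊓ Subgroup.normalizer (K : Set P))) := by
  obtain ⟨M, ⟨hM, hSM⟩, -⟩ := (hP S).2
  have hKM := pmin_component_not_le hP hOp S hM hSM K hK
  have hsub := pmin_component_sub_le hP S hM hSM K hK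
  have hKsolv := Cfsg.Agent.H27.isComponent_not_solvable hK
  generalize hX : K ⊔ ((S : Subgroup P) ⊓ Subgroup.normalizer (K : Set P)) = X at hsub ⊢
  have hKX : K ≤ X := hX ▸ le_sup_left
  have hS₀X : (S : Subgroup P) ⊓ Subgroup.normalizer (K : Set P) ≤ X := hX ▸ le_sup_right
  have hS₀p : IsPGroup p ↥(((S : Subgroup P) ⊓ Subgroup.normalizer (K : Set P)).subgroupOf X) :=
    (S.isPGroup'.to_le inf_le_left).comap_subtype
  obtain ⟨S', hS'⟩ := hS₀p.exists_le_sylow
  -- a `p`-subgroup cannot contain `K`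
  have hKp : ∀ Z : Subgroup P, IsPGroup p ↥Z → ¬ K ≤ Z := by
    intro Z hZ hKZ
    apply hKsolv
    haveI : Group.IsNilpotent ↥K := (hZ.to_le hKZ).isNilpotent
    infer_instance
  -- proper subgroups of `X` above `N_S(K)` lie in `M`
  have key : ∀ Y' : Subgroup ↥X,
      ((S : Subgroup P) ⊓ Subgroup.normalizer (K : Set P)).subgroupOf X ≤ Y' → Y' ≠ ⊤ →
      Y'.map X.subtype ≤ M := by
    intro Y' hY' hne
    apply hsub _ (Subgroup.map_subtype_le Y')
    · rw [← Subgroup.map_subgroupOf_eq_of_le hS₀X]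
      exact Subgroup.map_mono hY'
    · intro h
      apply hne
      apply Subgroup.map_injective X.subtype_injective
      rw [h, ← MonoidHom.range_eq_map, Subgroup.range_subtype]
  have hS'top : (S' : Subgroup ↥X) ≠ ⊤ := by
    intro h
    apply hKp (((S' : Subgroup ↥X)).map X.subtype) (S'.isPGroup'.map _)
    rw [h, ← MonoidHom.range_eq_map, Subgroup.range_subtype]
    exact hKX
  have hMX : M.subgroupOf X ≠ ⊤ := by
    rw [Ne, Subgroup.subgroupOf_eq_top]
    exact fun h => hKM (hKX.trans h)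
  have key' : ∀ Y' : Subgroup ↥X,
      ((S : Subgroup P) ⊓ Subgroup.normalizer (K : Set P)).subgroupOf X ≤ Y' → Y' ≠ ⊤ →
      Y' ≤ M.subgroupOf X := by
    intro Y' hY' hne y hy
    rw [Subgroup.mem_subgroupOf]
    exact key Y' hY' hne (Subgroup.mem_map_of_mem _ hy)
  apply isPMinimal_of_sylow S'
  · intro hn
    have hKn : K ≤ Subgroup.normalizer (((S' : Subgroup ↥X).map X.subtype : Subgroup P) : Set P) := by
      apply le_normalizer_of_conj_mem
      rintro g hg _ ⟨x, hx, rfl⟩
      exact ⟨(⟨g, hKX hg⟩ : ↥X) * x * (⟨g, hKX hg⟩ : ↥X)⁻¹, hn.conj_mem x hx _, rfl⟩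
    have hS₀S' : (S : Subgroup P) ⊓ Subgroup.normalizer (K : Set P) ≤
        (S' : Subgroup ↥X).map X.subtype := by
      rw [← Subgroup.map_subgroupOf_eq_of_le hS₀X]
      exact Subgroup.map_mono hS'
    by_cases hex : ∃ k ∈ K, Subgroup.zpowers k ⊔ (S' : Subgroup ↥X).map X.subtype = X
    · obtain ⟨k, hk, hkX⟩ := hex
      have hkn : Subgroup.zpowers k ≤
          Subgroup.normalizer (((S' : Subgroup ↥X).map X.subtype : Subgroup P) : Set P) := by
        rw [Subgroup.zpowers_le]; exact hKn hk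
      have hcomm : ⁅K, K⁆ ≤ (S' : Subgroup ↥X).map X.subtype := by
        rw [Subgroup.commutator_le]
        intro a ha b hb
        have ha' : a ∈ (S' : Subgroup ↥X).map X.subtype ⊔ Subgroup.zpowers k := by
          rw [sup_comm, hkX]; exact hKX ha
        have hb' : b ∈ (S' : Subgroup ↥X).map X.subtype ⊔ Subgroup.zpowers k := by
          rw [sup_comm, hkX]; exact hKX hb
        obtain ⟨s₁, hs₁, u, hu, rfl⟩ := exists_mul_of_mem_sup _ _ hkn ha'
        obtain ⟨s₂, hs₂, v, hv, rfl⟩ := exists_mul_of_mem_sup _ _ hkn hb'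
        obtain ⟨i, rfl⟩ := Subgroup.mem_zpowers_iff.mp hu
        obtain ⟨j, rfl⟩ := Subgroup.mem_zpowers_iff.mp hv
        exact commElem_mem_of_zpow _ k s₁ s₂ i j (hKn hk) hs₁ hs₂
      rw [Cfsg.Agent.H27.isComponent_perfect hK] at hcomm
      exact hKp _ (S'.isPGroup'.map _) hcomm
    · push Not at hex
      apply hKM
      intro k hk
      have h1 : Subgroup.zpowers k ⊔ (S' : Subgroup ↥X).map X.subtype ≤ X :=
        sup_le ((Subgroup.zpowers_le).mpr (hKX hk)) (Subgroup.map_subtype_le _)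
      have h2 := hsub _ h1 (hS₀S'.trans le_sup_right) (hex k hk)
      exact h2 (le_sup_left (a := Subgroup.zpowers k) (Subgroup.mem_zpowers k))
  · refine ⟨M.subgroupOf X, ⟨⟨hMX, ?_⟩, key' _ hS' hS'top⟩, ?_⟩
    · intro b hb
      by_contra hbt
      exact absurd (key' b ((hS'.trans (key' _ hS' hS'top)).trans hb.le) hbt) (not_le_of_gt hb)
    · rintro M' ⟨hM', hSM'⟩
      have h1 := key' M' (hS'.trans hSM') hM'.1
      rcases eq_or_lt_of_le h1 with h | h
      · exact h
      · exact absurd (hM'.2 _ h) hMX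

end Cfsg.Agent.H54
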