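import Mathlib
import Cfsg.Agent.H54.SylowSubnormal

set_option autoImplicit false

namespace Cfsg.Agent.H54

/-- Transport of characteristic `p` from `C_G(z)` to the centralizer computed inside a subnormal
subgroup `N`. -/
theorem charP_centralizer_subtype_of_isSubnormal {G : Type*} [Group G] [Finite G] {p : ℕ}
    [Fact p.Prime] (N : Subgroup G) (hN : N.IsSubnormal) (z : N)
    (hC : CharP p ↥(Subgroup.centralizer ({(z : G)} : Set G))) :
    CharP p ↥(Subgroup.centralizer ({z} : Set ↥N)) := by
  have heq : (Subgroup.centralizer ({z} : Set ↥N)).map N.subtype =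
      N ⊓ Subgroup.centralizer ({(z : G)} : Set G) := by
    ext x
    constructor
    · rintro ⟨y, hy, rfl⟩
      refine ⟨y.2, Subgroup.mem_centralizer_iff.mpr ?_⟩
      intro w hw
      rw [Set.mem_singleton_iff] at hw; subst hw
      exact congrArg Subtype.val (Subgroup.mem_centralizer_iff.mp hy z rfl)
    · rintro ⟨hx2, hx1⟩
      refine ⟨⟨x, hx2⟩, Subgroup.mem_centralizer_iff.mpr ?_, rfl⟩
      intro w hw
      rw [Set.mem_singleton_iff] at hw; subst hw
      exact Subtype.ext (Subgroup.mem_centralizer_iff.mp hx1 (w : G) rfl)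
  have h1 : CharP p ↥(N.subgroupOf (Subgroup.centralizer ({(z : G)} : Set G))) :=
    charP_subnormal (X := ↥(Subgroup.centralizer ({(z : G)} : Set G))) hC _ hN.subgroupOf
  have h2 : CharP p ↥((N.subgroupOf (Subgroup.centralizer ({(z : G)} : Set G))).map
      (Subgroup.centralizer ({(z : G)} : Set G)).subtype) :=
    charP_of_equiv ((N.subgroupOf (Subgroup.centralizer ({(z : G)} : Set G))).equivMapOfInjective
      (Subgroup.centralizer ({(z : G)} : Set G)).subtype (Subgroup.subtype_injective _)) h1
  rw [Subgroup.subgroupOf_map_subtype, ← heq] at h2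
  exact charP_of_equiv
    ((Subgroup.centralizer ({z} : Set ↥N)).equivMapOfInjective N.subtype N.subtype_injective).symm h2

end Cfsg.Agent.H54
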