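import Mathlib

/-!
# Embeddings of `SL₂(5)` into `Sp₄(3)` (helper54)

Linear-algebra tools: a matrix of order dividing five on `F₃⁴` with a non-zero fixed vector is
trivial; a subspace invariant under `Y` with `Y² = -1` over `F₃` has even dimension; an element
of order three of `SL₂(5)` is inverted by an element whose square is `-1`.
-/

set_option autoImplicit false
set_option linter.unusedSimpArgs false
set_option linter.unusedSectionVars false

namespace Cfsg.Agent.H54

open Matrix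

section Field3

variable {F : Type*} [Field F] [Fintype F]

theorem three_eq_zero_of_card (hF : Fintype.card F = 3) : (3 : F) = 0 := by
  have h := Nat.cast_card_eq_zero F
  rw [hF] at h
  exact_mod_cast h

theorem sq_ne_neg_one_of_card (hF : Fintype.card F = 3) (a : F) : a * a ≠ -1 := by
  intro h
  have h3 := three_eq_zero_of_card hF
  have h1 : a ^ 3 = a := by
    have := FiniteField.pow_card a
    rwa [hF] at this
  have h2 : a ^ 3 = -a := by
    rw [pow_succ, pow_two, h]; ring
  have h4 : a = 0 := by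
    have h5 : a + a = 0 := by
      nth_rewrite 1 [← h1]
      rw [h2]; ring
    have h6 : a = (3 : F) * a - (a + a) := by ring
    rw [h6, h5, h3]; ring
  rw [h4] at h
  have h7 : (1 : F) = 0 := by
    have : (0 : F) = -1 := by simp at h
    linear_combination this
  exact one_ne_zero h7

end Field3

section Field5

theorem exists_inverting_zmod5 : ∀ a b c : ZMod 5, a * (-1 - a) - b * c = 1 →
    ∃ p q r : ZMod 5, p * (a - (-1 - a)) + q * c + r * b = 0 ∧ p * p + q * r = -1 := by
  decide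

variable {K : Type*} [Field K] [Fintype K]

theorem five_eq_zero_of_card (hK : Fintype.card K = 5) : (5 : K) = 0 := by
  have h := Nat.cast_card_eq_zero K
  rw [hK] at h
  exact_mod_cast h

theorem exists_inverting (hK : Fintype.card K = 5) (a b c d : K) (hdet : a * d - b * c = 1)
    (htr : a + d = -1) :
    ∃ p q r : K, p * (a - d) + q * c + r * b = 0 ∧ p * p + q * r = -1 := by
  let e : ZMod 5 ≃+* K := ZMod.ringEquivOfPrime K (by norm_num) hK
  have hd : d = -1 - a := by linear_combination htr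
  subst hd
  have h1 : e.symm a * (-1 - e.symm a) - e.symm b * e.symm c = 1 := by
    apply e.injective
    simp only [map_sub, map_mul, map_neg, map_one, RingEquiv.apply_symm_apply]
    exact hdet
  obtain ⟨p, q, r, h2, h3⟩ := exists_inverting_zmod5 _ _ _ h1
  refine ⟨e p, e q, e r, ?_, ?_⟩
  · have := congrArg e h2
    simpa only [map_add, map_sub, map_mul, map_neg, map_one, map_zero,
      RingEquiv.apply_symm_apply] using this
  · have := congrArg e h3
    simpa only [map_add, map_sub, map_mul, map_neg, map_one, map_zero,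
      RingEquiv.apply_symm_apply] using this

end Field5

section Five

variable {F : Type*} [Field F] [Fintype F]

theorem matrix_eq_of_mulVec {n : Type*} [Fintype n] [DecidableEq n] {A B : Matrix n n F}
    (h : ∀ w : n → F, A *ᵥ w = B *ᵥ w) : A = B := by
  apply Matrix.toLin'.injective
  apply LinearMap.ext
  intro w
  rw [Matrix.toLin'_apply, Matrix.toLin'_apply, h]

/-- A `4 × 4` matrix over the field with three elements whose fifth power is one and which fixes
a non-zero vector is the identity. -/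
theorem eq_one_of_pow_five (hF : Fintype.card F = 3)
    (M : Matrix (Fin 2 ⊕ Fin 2) (Fin 2 ⊕ Fin 2) F) (hM : M ^ 5 = 1)
    (v : Fin 2 ⊕ Fin 2 → F) (hv : v ≠ 0) (hMv : M *ᵥ v = v) : M = 1 := by
  classical
  have h41 : M ^ 4 * M = 1 := by rw [← pow_succ]; exact hM
  have h14 : M * M ^ 4 = 1 := by rw [← pow_succ']; exact hM
  let σ : Equiv.Perm (Fin 2 ⊕ Fin 2 → F) :=
    { toFun := fun w => M *ᵥ w
      invFun := fun w => (M ^ 4) *ᵥ w
      left_inv := fun w => by
        change (M ^ 4) *ᵥ (M *ᵥ w) = w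
        rw [Matrix.mulVec_mulVec, h41, Matrix.one_mulVec]
      right_inv := fun w => by
        change M *ᵥ ((M ^ 4) *ᵥ w) = w
        rw [Matrix.mulVec_mulVec, h14, Matrix.one_mulVec] }
  have hσ : ∀ w, σ w = M *ᵥ w := fun w => rfl
  have hσpow : ∀ (k : ℕ) w, (σ ^ k) w = (M ^ k) *ᵥ w := by
    intro k
    induction k with
    | zero => intro w; simp
    | succ k ih =>
      intro w
      rw [pow_succ, Equiv.Perm.mul_apply, ih, hσ, Matrix.mulVec_mulVec, ← pow_succ]
  have hσ5 : σ ^ 5 = 1 := by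
    ext w
    rw [hσpow, hM, Matrix.one_mulVec]
    rfl
  have : Fact (Nat.Prime 5) := ⟨by norm_num⟩
  have hP : IsPGroup 5 ↥(Subgroup.zpowers σ) := by
    have hd : orderOf σ ∣ 5 := orderOf_dvd_of_pow_eq_one hσ5
    have hc : Nat.card ↥(Subgroup.zpowers σ) = orderOf σ := Nat.card_zpowers σ
    rcases (Nat.dvd_prime (by norm_num : Nat.Prime 5)).mp hd with h | h
    · exact IsPGroup.of_card (n := 0) (by rw [hc, h, pow_zero])
    · exact IsPGroup.of_card (n := 1) (by rw [hc, h, pow_one])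
  have hmod := hP.card_modEq_card_fixedPoints (Fin 2 ⊕ Fin 2 → F)
  have hcardV : Nat.card (Fin 2 ⊕ Fin 2 → F) = 81 := by
    rw [Nat.card_eq_fintype_card, Fintype.card_fun, hF]
    rfl
  let U : Submodule F (Fin 2 ⊕ Fin 2 → F) := LinearMap.ker (Matrix.toLin' M - LinearMap.id)
  have hU : ∀ w, w ∈ U ↔ M *ᵥ w = w := by
    intro w
    rw [LinearMap.mem_ker, LinearMap.sub_apply, Matrix.toLin'_apply, LinearMap.id_apply,
      sub_eq_zero]
  have hfix : (MulAction.fixedPoints ↥(Subgroup.zpowers σ) (Fin 2 ⊕ Fin 2 → F)) = (U : Set _) := by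
    ext w
    rw [MulAction.mem_fixedPoints, SetLike.mem_coe, hU]
    constructor
    · intro h
      exact h ⟨σ, Subgroup.mem_zpowers σ⟩
    · intro h g
      obtain ⟨g, hg⟩ := g
      obtain ⟨k, rfl⟩ := Subgroup.mem_zpowers_iff.mp hg
      change (σ ^ k) w = w
      exact Equiv.Perm.zpow_apply_eq_self_of_apply_eq_self h k
  have hcardU : Nat.card (MulAction.fixedPoints ↥(Subgroup.zpowers σ) (Fin 2 ⊕ Fin 2 → F))
      = 3 ^ Module.finrank F U := by
    rw [hfix]
    change Nat.card ↥U = _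
    rw [Module.natCard_eq_pow_finrank (K := F), Nat.card_eq_fintype_card, hF]
  rw [hcardV, hcardU] at hmod
  have hle : Module.finrank F U ≤ 4 := by
    have h1 := Submodule.finrank_le U
    have h2 : Module.finrank F (Fin 2 ⊕ Fin 2 → F) = 4 := by
      rw [Module.finrank_fintype_fun_eq_card]; rfl
    omega
  have hpos : Module.finrank F U ≠ 0 := by
    intro h0
    have : U = ⊥ := Submodule.finrank_eq_zero.mp h0
    have hvU : v ∈ U := (hU v).mpr hMv
    rw [this, Submodule.mem_bot] at hvU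
    exact hv hvU
  have h4 : Module.finrank F U = 4 := by
    unfold Nat.ModEq at hmod
    interval_cases h : Module.finrank F U <;> simp_all
  have htop : U = ⊤ := by
    apply Submodule.eq_top_of_finrank_eq
    rw [h4, Module.finrank_fintype_fun_eq_card]; rfl
  have hall : ∀ w, M *ᵥ w = w := fun w => (hU w).mp (by rw [htop]; exact Submodule.mem_top)
  apply matrix_eq_of_mulVec
  intro w
  rw [hall, Matrix.one_mulVec]

/-- powers of `Z E + (1 - E)` for an idempotent `E` commuting with `Z` -/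
theorem pow_idem_mix {R : Type*} [Ring R] (Z E : R) (hZE : Z * E = E * Z) (hE : E * E = E)
    (k : ℕ) : (Z * E + (1 - E)) ^ k = Z ^ k * E + (1 - E) := by
  have h1 : E * (1 - E) = 0 := by rw [mul_sub, mul_one, hE, sub_self]
  have h2 : (1 - E) * E = 0 := by rw [sub_mul, one_mul, hE, sub_self]
  have h3 : (1 - E) * (1 - E) = 1 - E := by rw [mul_sub, mul_one, h2, sub_zero]
  induction k with
  | zero => rw [pow_zero, pow_zero, one_mul]; abel
  | succ k ih =>
    rw [pow_succ, ih, add_mul, mul_add, mul_add]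
    have e1 : Z ^ k * E * (Z * E) = Z ^ (k + 1) * E := by
      rw [mul_assoc, ← mul_assoc E Z E, ← hZE, mul_assoc Z E E, hE, ← mul_assoc, ← pow_succ]
    have e2 : Z ^ k * E * (1 - E) = 0 := by rw [mul_assoc, h1, mul_zero]
    have e3 : (1 - E) * (Z * E) = 0 := by rw [hZE, ← mul_assoc, h2, zero_mul]
    rw [e1, e2, e3, h3, add_zero, zero_add]

/-- An involution of `F₃⁴` commuting with a non-trivial matrix of order five is `-1` or `1`. -/
theorem eq_neg_one_of_commute (hF : Fintype.card F = 3)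
    (T Z : Matrix (Fin 2 ⊕ Fin 2) (Fin 2 ⊕ Fin 2) F) (hTT : T * T = 1) (hT1 : T ≠ 1)
    (hZ5 : Z ^ 5 = 1) (hZ1 : Z ≠ 1) (hTZ : T * Z = Z * T) : T = -1 := by
  classical
  by_contra hTm
  have h3 : (3 : F) = 0 := three_eq_zero_of_card hF
  -- the idempotent `E = -(1 + T)`
  obtain ⟨E, hEdef⟩ : ∃ E : Matrix (Fin 2 ⊕ Fin 2) (Fin 2 ⊕ Fin 2) F, E = -(1 + T) := ⟨_, rfl⟩
  have h3M : ∀ A : Matrix (Fin 2 ⊕ Fin 2) (Fin 2 ⊕ Fin 2) F, A + A + A = 0 := by
    intro A
    ext i j
    simp only [Matrix.add_apply, Matrix.zero_apply]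
    linear_combination (A i j) * h3
  have hEE : E * E = E := by
    rw [hEdef, neg_mul_neg, mul_add, add_mul, add_mul, one_mul, mul_one, one_mul, hTT]
    have := h3M (1 + T)
    have e : (1 : Matrix (Fin 2 ⊕ Fin 2) (Fin 2 ⊕ Fin 2) F) + T + (T + 1) = -(1 + T) + ((1 + T) + (1 + T) + (1 + T)) := by abel
    rw [e, this, add_zero]
  have hZE : Z * E = E * Z := by
    rw [hEdef, mul_neg, neg_mul, mul_add, add_mul, mul_one, one_mul, hTZ]
  have hET : E * T = E := by
    rw [hEdef, neg_mul, add_mul, one_mul, hTT, add_comm]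
  -- vectors
  have hex1 : ∃ w : Fin 2 ⊕ Fin 2 → F, (1 - E) *ᵥ w ≠ 0 := by
    by_contra hcon
    push Not at hcon
    apply hT1
    have : (1 - E) = 0 := by
      apply matrix_eq_of_mulVec
      intro w
      rw [hcon, Matrix.zero_mulVec]
    -- 1 - E = 1 + 1 + T = 0, so T = -2 = 1
    have h2 : (1 : Matrix (Fin 2 ⊕ Fin 2) (Fin 2 ⊕ Fin 2) F) + (1 + T) = 0 := by
      rw [hEdef, sub_neg_eq_add] at this; exact this
    have := h3M (1 : Matrix (Fin 2 ⊕ Fin 2) (Fin 2 ⊕ Fin 2) F)
    have e : T = (1 + (1 + T)) - (1 + 1 + 1) + 1 := by abel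
    rw [e, h2, this]; abel
  have hex2 : ∃ w : Fin 2 ⊕ Fin 2 → F, E *ᵥ w ≠ 0 := by
    by_contra hcon
    push Not at hcon
    apply hTm
    have : E = 0 := by
      apply matrix_eq_of_mulVec
      intro w
      rw [hcon, Matrix.zero_mulVec]
    rw [hEdef, neg_eq_zero] at this
    exact eq_neg_of_add_eq_zero_right this
  have hE1 : E * (1 - E) = 0 := by rw [mul_sub, mul_one, hEE, sub_self]
  have hE2 : (1 - E) * E = 0 := by rw [sub_mul, one_mul, hEE, sub_self]
  have hE3 : (1 - E) * (1 - E) = 1 - E := by rw [mul_sub, mul_one, hE2, sub_zero]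
  -- first matrix
  have hM1 : Z * E + (1 - E) = 1 := by
    obtain ⟨w, hw⟩ := hex1
    apply eq_one_of_pow_five hF _ _ _ hw
    · rw [Matrix.mulVec_mulVec, add_mul, mul_assoc, hE1, mul_zero, zero_add, hE3]
    · rw [pow_idem_mix Z E hZE hEE, hZ5, one_mul]; abel
  have hM2 : Z * (1 - E) + (1 - (1 - E)) = 1 := by
    obtain ⟨w, hw⟩ := hex2
    have hid : (1 - (1 - E)) = E := by abel
    apply eq_one_of_pow_five hF _ _ _ hw
    · rw [Matrix.mulVec_mulVec, add_mul, mul_assoc, hE2, mul_zero, zero_add, hid, hEE]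
    · rw [pow_idem_mix Z (1 - E) (by rw [mul_sub, sub_mul, mul_one, one_mul, hZE]) hE3, hZ5,
        one_mul]; abel
  apply hZ1
  have e : Z = (Z * E + (1 - E)) + (Z * (1 - E) + (1 - (1 - E))) - 1 := by
    rw [mul_sub, mul_one]; abel
  rw [e, hM1, hM2]; abel

end Five

section Parity

variable {F : Type*} [Field F] [Fintype F]

/-- Over the field with three elements, a subspace invariant under a map `g` with `g² = -1` has
even dimension. -/
theorem even_finrank_of_sq_neg_one (hF : Fintype.card F = 3) {V : Type*} [AddCommGroup V]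
    [Module F V] [FiniteDimensional F V] (g : V →ₗ[F] V) (hg : ∀ v, g (g v) = -v)
    (W : Submodule F V) (hW : ∀ v ∈ W, g v ∈ W) : Even (Module.finrank F ↥W) := by
  rw [← Nat.not_odd_iff_even]
  intro hodd
  let g' : ↥W →ₗ[F] ↥W := g.restrict hW
  have hcomp : g'.comp g' = (-1 : F) • LinearMap.id := by
    ext w
    simp only [LinearMap.comp_apply, LinearMap.smul_apply, LinearMap.id_apply, neg_smul, one_smul]
    change g (g (w : V)) = _
    rw [hg]
    rfl
  have hdet := congrArg LinearMap.det hcomp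
  rw [LinearMap.det_comp, LinearMap.det_smul, LinearMap.det_id, mul_one, hodd.neg_one_pow] at hdet
  exact sq_ne_neg_one_of_card hF _ hdet

end Parity

section SLTwo

variable {K : Type*} [Field K]

/-- An element of order three of `SL₂` has trace `-1`. -/
theorem trace_of_cube_eq_one (a b c d : K) (hdet : a * d - b * c = 1)
    (h3 : (!![a, b; c, d] : Matrix (Fin 2) (Fin 2) K) * !![a, b; c, d] * !![a, b; c, d] = 1)
    (h1 : (!![a, b; c, d] : Matrix (Fin 2) (Fin 2) K) ≠ 1) : a + d = -1 := by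
  rw [Matrix.mul_fin_two, Matrix.mul_fin_two, Matrix.one_fin_two] at h3
  have h11 := congrFun (congrFun h3 0) 0
  have h12 := congrFun (congrFun h3 0) 1
  have h21 := congrFun (congrFun h3 1) 0
  have h22 := congrFun (congrFun h3 1) 1
  simp only [Matrix.of_apply, Matrix.cons_val_zero, Matrix.cons_val_one, Matrix.cons_val',
    Matrix.cons_val_fin_one] at h11 h12 h21 h22
  by_contra hne
  have ht : a + d + 1 ≠ 0 := fun h => hne (by linear_combination h)
  have e1 : ((a + d) ^ 2 - 1) * a = a + d + 1 := by linear_combination h11 + (2 * a + d) * hdet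
  have e2 : ((a + d) ^ 2 - 1) * b = 0 := by linear_combination h12 + b * hdet
  have e3 : ((a + d) ^ 2 - 1) * c = 0 := by linear_combination h21 + c * hdet
  have e4 : ((a + d) ^ 2 - 1) * d = a + d + 1 := by linear_combination h22 + (2 * d + a) * hdet
  have hs : (a + d) ^ 2 - 1 ≠ 0 := by
    intro h
    rw [h, zero_mul] at e1
    exact ht e1.symm
  have hb : b = 0 := (mul_eq_zero.mp e2).resolve_left hs
  have hc : c = 0 := (mul_eq_zero.mp e3).resolve_left hs
  have f1 : (a + d - 1) * a = 1 := by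
    apply mul_left_cancel₀ ht
    linear_combination e1
  have f2 : (a + d - 1) * d = 1 := by
    apply mul_left_cancel₀ ht
    linear_combination e4
  have hm : a + d - 1 ≠ 0 := by
    intro h
    rw [h, zero_mul] at f1
    exact zero_ne_one f1
  have had : a = d := by
    apply mul_left_cancel₀ hm
    rw [f1, f2]
  subst had
  subst hb
  subst hc
  have ha2 : a * a = 1 := by linear_combination hdet
  have ha : a = 1 := by linear_combination 2 * ha2 - f1
  subst ha
  exact h1 (Matrix.one_fin_two).symm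

theorem conj_fin_two (a b c d p q r : K) (hdet : a * d - b * c = 1)
    (hlin : p * (a - d) + q * c + r * b = 0) :
    (!![a, b; c, d] : Matrix (Fin 2) (Fin 2) K) * !![p, q; r, -p] * !![a, b; c, d]
      = !![p, q; r, -p] := by
  rw [Matrix.mul_fin_two, Matrix.mul_fin_two]
  ext i j
  fin_cases i <;> fin_cases j
  · simp only [Matrix.of_apply, Matrix.cons_val_zero, Matrix.cons_val_one, Matrix.cons_val',
      Matrix.cons_val_fin_one, Fin.zero_eta, Fin.mk_one]
    linear_combination p * hdet + a * hlin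
  · simp only [Matrix.of_apply, Matrix.cons_val_zero, Matrix.cons_val_one, Matrix.cons_val',
      Matrix.cons_val_fin_one, Fin.zero_eta, Fin.mk_one]
    linear_combination q * hdet + b * hlin
  · simp only [Matrix.of_apply, Matrix.cons_val_zero, Matrix.cons_val_one, Matrix.cons_val',
      Matrix.cons_val_fin_one, Fin.zero_eta, Fin.mk_one]
    linear_combination r * hdet + c * hlin
  · simp only [Matrix.of_apply, Matrix.cons_val_zero, Matrix.cons_val_one, Matrix.cons_val',
      Matrix.cons_val_fin_one, Fin.zero_eta, Fin.mk_one]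
    linear_combination (-p) * hdet + d * hlin

theorem sq_fin_two (p q r : K) (hquad : p * p + q * r = -1) :
    (!![p, q; r, -p] : Matrix (Fin 2) (Fin 2) K) * !![p, q; r, -p] = !![-1, 0; 0, -1] := by
  rw [Matrix.mul_fin_two]
  ext i j
  fin_cases i <;> fin_cases j
  · simp only [Matrix.of_apply, Matrix.cons_val_zero, Matrix.cons_val_one, Matrix.cons_val',
      Matrix.cons_val_fin_one, Fin.zero_eta, Fin.mk_one]
    linear_combination hquad
  · simp only [Matrix.of_apply, Matrix.cons_val_zero, Matrix.cons_val_one, Matrix.cons_val',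
      Matrix.cons_val_fin_one, Fin.zero_eta, Fin.mk_one]
    ring
  · simp only [Matrix.of_apply, Matrix.cons_val_zero, Matrix.cons_val_one, Matrix.cons_val',
      Matrix.cons_val_fin_one, Fin.zero_eta, Fin.mk_one]
    ring
  · simp only [Matrix.of_apply, Matrix.cons_val_zero, Matrix.cons_val_one, Matrix.cons_val',
      Matrix.cons_val_fin_one, Fin.zero_eta, Fin.mk_one]
    linear_combination hquad

theorem upper_pow (n : ℕ) :
    (!![1, 1; 0, 1] : Matrix (Fin 2) (Fin 2) K) ^ n = !![1, (n : K); 0, 1] := by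
  induction n with
  | zero => rw [pow_zero, Matrix.one_fin_two]; simp
  | succ n ih =>
    rw [pow_succ, ih, Matrix.mul_fin_two]
    simp [add_comm]

end SLTwo

section Main

variable {F : Type*} [Field F] [Fintype F]

theorem add_add_self_eq_zero (hF : Fintype.card F = 3) {n : Type*}
    (A : Matrix n n F) : A + A + A = 0 := by
  have h3 : (3 : F) = 0 := three_eq_zero_of_card hF
  ext i j
  simp only [Matrix.add_apply, Matrix.zero_apply]
  linear_combination (A i j) * h3

/-- The linear algebra core: `X` of order three inverted by `Y` with `Y² = -1` on `F₃⁴`,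
`X` symplectic. -/
theorem fixed_space_core (hF : Fintype.card F = 3)
    (X Y : Matrix (Fin 2 ⊕ Fin 2) (Fin 2 ⊕ Fin 2) F) (hX3 : X * X * X = 1) (hX1 : X ≠ 1)
    (hYY : Y * Y = -1) (hXYX : X * Y * X = Y)
    (hJ : Xᵀ * Matrix.J (Fin 2) F * X = Matrix.J (Fin 2) F) :
    Module.finrank F ↥(LinearMap.ker (Matrix.toLin' X - LinearMap.id)) = 2 ∧
      ∀ v w : Fin 2 ⊕ Fin 2 → F, X *ᵥ v = v → X *ᵥ w = w →
        dotProduct v (Matrix.J (Fin 2) F *ᵥ w) = 0 := by
  classical
  obtain ⟨N, hN⟩ : ∃ N : Matrix (Fin 2 ⊕ Fin 2) (Fin 2 ⊕ Fin 2) F, N = X - 1 := ⟨_, rfl⟩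
  have hNNN : N * N * N = 0 := by
    have e : N * N * N = (X * X * X - 1) - ((X * X - X) + (X * X - X) + (X * X - X)) := by
      rw [hN]; noncomm_ring
    rw [e, hX3, sub_self, add_add_self_eq_zero hF, sub_zero]
  have hNY : N * Y = -(X * Y * N) := by
    rw [hN, sub_mul, one_mul, mul_sub, mul_one, hXYX, neg_sub]
  have hNX : N * X = X * N := by
    rw [hN, sub_mul, mul_sub, one_mul, mul_one]
  have hNNY : N * N * Y = X * X * Y * (N * N) := by
    calc N * N * Y = N * (N * Y) := mul_assoc _ _ _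
      _ = -(N * X * (Y * N)) := by rw [hNY, mul_neg]; simp only [mul_assoc]
      _ = -(X * (N * Y) * N) := by rw [hNX]; simp only [mul_assoc]
      _ = X * X * Y * (N * N) := by
        rw [hNY]; simp only [mul_neg, neg_mul, neg_neg, mul_assoc]
  obtain ⟨f, hfdef⟩ : ∃ f : (Fin 2 ⊕ Fin 2 → F) →ₗ[F] (Fin 2 ⊕ Fin 2 → F),
      f = Matrix.toLin' X - LinearMap.id := ⟨_, rfl⟩
  have hf : ∀ v, f v = N *ᵥ v := by
    intro v
    rw [hfdef, hN, LinearMap.sub_apply, Matrix.toLin'_apply, LinearMap.id_apply,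
      Matrix.sub_mulVec, Matrix.one_mulVec]
  have hf' : ∀ v, f v = 0 ↔ X *ᵥ v = v := by
    intro v
    rw [hfdef, LinearMap.sub_apply, Matrix.toLin'_apply, LinearMap.id_apply, sub_eq_zero]
  let g : (Fin 2 ⊕ Fin 2 → F) →ₗ[F] (Fin 2 ⊕ Fin 2 → F) := Matrix.toLin' Y
  have hg : ∀ v, g (g v) = -v := by
    intro v
    change Matrix.toLin' Y (Matrix.toLin' Y v) = -v
    rw [Matrix.toLin'_apply, Matrix.toLin'_apply, Matrix.mulVec_mulVec, hYY, Matrix.neg_mulVec,
      Matrix.one_mulVec]
  have hgv : ∀ v, g v = Y *ᵥ v := fun v => Matrix.toLin'_apply Y v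
  have hfff : ∀ v, f (f (f v)) = 0 := by
    intro v
    rw [hf, hf, hf, Matrix.mulVec_mulVec, Matrix.mulVec_mulVec, hNNN,
      Matrix.zero_mulVec]
  have hW1 : ∀ v, v ∈ LinearMap.ker f ↔ X *ᵥ v = v := fun v => by
    rw [LinearMap.mem_ker, hf']
  have hW2 : ∀ v, v ∈ LinearMap.ker (f.comp f) ↔ (N * N) *ᵥ v = 0 := fun v => by
    rw [LinearMap.mem_ker, LinearMap.comp_apply, hf, hf, Matrix.mulVec_mulVec]
  have inv1 : ∀ v ∈ LinearMap.ker f, g v ∈ LinearMap.ker f := by
    intro v hv
    rw [hW1] at hv ⊢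
    rw [hgv]
    calc X *ᵥ (Y *ᵥ v) = X *ᵥ (Y *ᵥ (X *ᵥ v)) := by rw [hv]
      _ = (X * Y * X) *ᵥ v := by simp only [Matrix.mulVec_mulVec, mul_assoc]
      _ = Y *ᵥ v := by rw [hXYX]
  have inv2 : ∀ v ∈ LinearMap.ker (f.comp f), g v ∈ LinearMap.ker (f.comp f) := by
    intro v hv
    rw [hW2] at hv ⊢
    rw [hgv, Matrix.mulVec_mulVec, hNNY, ← Matrix.mulVec_mulVec, hv, Matrix.mulVec_zero]
  have even1 := even_finrank_of_sq_neg_one hF g hg _ inv1
  have even2 := even_finrank_of_sq_neg_one hF g hg _ inv2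
  have hV : Module.finrank F (Fin 2 ⊕ Fin 2 → F) = 4 := by
    rw [Module.finrank_fintype_fun_eq_card]; rfl
  have hle1 : Module.finrank F ↥(LinearMap.ker f) ≤ 4 := by
    have := Submodule.finrank_le (LinearMap.ker f); omega
  have hle2 : Module.finrank F ↥(LinearMap.ker (f.comp f)) ≤ 4 := by
    have := Submodule.finrank_le (LinearMap.ker (f.comp f)); omega
  have hXne : ¬ ∀ v : Fin 2 ⊕ Fin 2 → F, X *ᵥ v = v := by
    intro h
    apply hX1
    apply matrix_eq_of_mulVec
    intro w
    rw [h, Matrix.one_mulVec]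
  have hne0 : Module.finrank F ↥(LinearMap.ker f) ≠ 0 := by
    intro h0
    have hbot : LinearMap.ker f = ⊥ := Submodule.finrank_eq_zero.mp h0
    have hinj : Function.Injective f := LinearMap.ker_eq_bot.mp hbot
    apply hXne
    intro v
    have h1 : f (f (f v)) = f (f (f 0)) := by rw [hfff, hfff]
    have h2 : v = 0 := hinj (hinj (hinj h1))
    rw [h2, Matrix.mulVec_zero]
  have hne4 : Module.finrank F ↥(LinearMap.ker f) ≠ 4 := by
    intro h4
    have htop : LinearMap.ker f = ⊤ := Submodule.eq_top_of_finrank_eq (by rw [h4, hV])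
    apply hXne
    intro v
    exact (hW1 v).mp (by rw [htop]; exact Submodule.mem_top)
  have hfin1 : Module.finrank F ↥(LinearMap.ker f) = 2 := by
    obtain ⟨k, hk⟩ := even1
    omega
  have hle12 : LinearMap.ker f ≤ LinearMap.ker (f.comp f) := by
    intro v hv
    rw [LinearMap.mem_ker] at hv
    rw [LinearMap.mem_ker, LinearMap.comp_apply, hv, map_zero]
  have hfin2 : Module.finrank F ↥(LinearMap.ker (f.comp f)) = 4 := by
    have hmono := Submodule.finrank_mono hle12
    obtain ⟨k, hk⟩ := even2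
    by_contra hcon
    have h2 : Module.finrank F ↥(LinearMap.ker (f.comp f)) = 2 := by omega
    have heq : LinearMap.ker f = LinearMap.ker (f.comp f) :=
      Submodule.eq_of_le_of_finrank_eq hle12 (by rw [hfin1, h2])
    apply hXne
    intro v
    rw [← hW1]
    have h3 : f v ∈ LinearMap.ker (f.comp f) := by
      rw [LinearMap.mem_ker, LinearMap.comp_apply, hfff]
    rw [← heq, LinearMap.mem_ker] at h3
    have h4 : v ∈ LinearMap.ker (f.comp f) := by
      rw [LinearMap.mem_ker, LinearMap.comp_apply, h3]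
    rw [← heq] at h4
    exact h4
  have hff : ∀ v, f (f v) = 0 := by
    intro v
    have htop : LinearMap.ker (f.comp f) = ⊤ := Submodule.eq_top_of_finrank_eq (by rw [hfin2, hV])
    have : v ∈ LinearMap.ker (f.comp f) := by rw [htop]; exact Submodule.mem_top
    rwa [LinearMap.mem_ker, LinearMap.comp_apply] at this
  have hrange_le : LinearMap.range f ≤ LinearMap.ker f := by
    rintro _ ⟨u, rfl⟩
    rw [LinearMap.mem_ker, hff]
  have hrk := LinearMap.finrank_range_add_finrank_ker f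
  have hrange : LinearMap.range f = LinearMap.ker f :=
    Submodule.eq_of_le_of_finrank_eq hrange_le (by omega)
  refine ⟨by rw [← hfdef]; exact hfin1, ?_⟩
  intro v w hv hw
  have hwk : w ∈ LinearMap.ker f := (hW1 w).mpr hw
  rw [← hrange] at hwk
  obtain ⟨u, hu⟩ := hwk
  have hu' : w = X *ᵥ u - u := by
    rw [← hu, hfdef, LinearMap.sub_apply, Matrix.toLin'_apply, LinearMap.id_apply]
  have key : dotProduct (X *ᵥ v) (Matrix.J (Fin 2) F *ᵥ (X *ᵥ u))
      = dotProduct v ((Xᵀ * Matrix.J (Fin 2) F * X) *ᵥ u) := by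
    rw [← Matrix.vecMul_transpose, ← Matrix.dotProduct_mulVec, Matrix.mulVec_mulVec,
      Matrix.mulVec_mulVec]
  rw [hv, hJ] at key
  rw [hu', Matrix.mulVec_sub, dotProduct_sub, key, sub_self]

variable {K : Type*} [Field K] [Fintype K]

/-- In any embedding of `SL₂(5)` into `Sp₄(3)`, the fixed space of an element of order three is
a totally isotropic plane. -/
theorem sl25_sp4_fixed (hF : Fintype.card F = 3) (hK : Fintype.card K = 5)
    (φ : Matrix.SpecialLinearGroup (Fin 2) K →* ↥(Matrix.symplecticGroup (Fin 2) F))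
    (hφ : Function.Injective φ) (x : Matrix.SpecialLinearGroup (Fin 2) K) (hx : orderOf x = 3) :
    Module.finrank F ↥(LinearMap.ker (Matrix.toLin'
        ((φ x : Matrix (Fin 2 ⊕ Fin 2) (Fin 2 ⊕ Fin 2) F)) - LinearMap.id)) = 2 ∧
      ∀ v w : Fin 2 ⊕ Fin 2 → F,
        (φ x : Matrix (Fin 2 ⊕ Fin 2) (Fin 2 ⊕ Fin 2) F).mulVec v = v →
        (φ x : Matrix (Fin 2 ⊕ Fin 2) (Fin 2 ⊕ Fin 2) F).mulVec w = w →
          dotProduct v ((Matrix.J (Fin 2) F).mulVec w) = 0 := by
  classical
  have h5 : (5 : K) = 0 := five_eq_zero_of_card hK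
  have hΦmul : ∀ g h : Matrix.SpecialLinearGroup (Fin 2) K,
      ((φ (g * h) : ↥(Matrix.symplecticGroup (Fin 2) F)) : Matrix (Fin 2 ⊕ Fin 2) (Fin 2 ⊕ Fin 2) F)
        = (φ g : Matrix (Fin 2 ⊕ Fin 2) (Fin 2 ⊕ Fin 2) F) * (φ h : Matrix _ _ F) := by
    intro g h
    rw [map_mul]
    rfl
  have hΦone : ((φ 1 : ↥(Matrix.symplecticGroup (Fin 2) F)) :
      Matrix (Fin 2 ⊕ Fin 2) (Fin 2 ⊕ Fin 2) F) = 1 := by
    rw [map_one]
    rfl
  have hΦinj : ∀ g h : Matrix.SpecialLinearGroup (Fin 2) K,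
      (φ g : Matrix (Fin 2 ⊕ Fin 2) (Fin 2 ⊕ Fin 2) F) = (φ h : Matrix _ _ F) → g = h :=
    fun g h e => hφ (Subtype.ext e)
  obtain ⟨a, b, c, d, hxm⟩ : ∃ a b c d : K,
      (x : Matrix (Fin 2) (Fin 2) K) = !![a, b; c, d] := ⟨_, _, _, _, Matrix.eta_fin_two _⟩
  have hdet : a * d - b * c = 1 := by
    have := x.2
    rw [hxm, Matrix.det_fin_two_of] at this
    exact this
  have hx3 : x * x * x = 1 := by
    have := pow_orderOf_eq_one x
    rw [hx, pow_succ, pow_succ, pow_one] at this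
    exact this
  have hx1 : x ≠ 1 := by
    intro h
    rw [h, orderOf_one] at hx
    norm_num at hx
  have htr : a + d = -1 := by
    apply trace_of_cube_eq_one a b c d hdet
    · have := congrArg (fun g : Matrix.SpecialLinearGroup (Fin 2) K =>
        (g : Matrix (Fin 2) (Fin 2) K)) hx3
      simp only [Matrix.SpecialLinearGroup.coe_mul, Matrix.SpecialLinearGroup.coe_one, hxm]
        at this
      exact this
    · intro h
      apply hx1
      apply Subtype.ext
      rw [hxm, h]
      rfl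
  obtain ⟨p, q, r, hlin, hquad⟩ := exists_inverting hK a b c d hdet htr
  obtain ⟨y, hy⟩ : ∃ y : Matrix.SpecialLinearGroup (Fin 2) K,
      (y : Matrix (Fin 2) (Fin 2) K) = !![p, q; r, -p] :=
    ⟨⟨!![p, q; r, -p], by rw [Matrix.det_fin_two_of]; linear_combination (-1 : K) * hquad⟩, rfl⟩
  obtain ⟨m, hm⟩ : ∃ m : Matrix.SpecialLinearGroup (Fin 2) K,
      (m : Matrix (Fin 2) (Fin 2) K) = !![-1, 0; 0, -1] :=
    ⟨⟨!![-1, 0; 0, -1], by rw [Matrix.det_fin_two_of]; ring⟩, rfl⟩
  obtain ⟨z, hz⟩ : ∃ z : Matrix.SpecialLinearGroup (Fin 2) K,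
      (z : Matrix (Fin 2) (Fin 2) K) = !![1, 1; 0, 1] :=
    ⟨⟨!![1, 1; 0, 1], by rw [Matrix.det_fin_two_of]; ring⟩, rfl⟩
  have hxyx : x * y * x = y := by
    apply Subtype.ext
    rw [Matrix.SpecialLinearGroup.coe_mul, Matrix.SpecialLinearGroup.coe_mul, hxm, hy]
    exact conj_fin_two a b c d p q r hdet hlin
  have hyy : y * y = m := by
    apply Subtype.ext
    rw [Matrix.SpecialLinearGroup.coe_mul, hy, hm]
    exact sq_fin_two p q r hquad
  have hmm : m * m = 1 := by
    apply Subtype.ext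
    rw [Matrix.SpecialLinearGroup.coe_mul, hm, Matrix.SpecialLinearGroup.coe_one,
      Matrix.mul_fin_two, Matrix.one_fin_two]
    simp
  have h2 : (2 : K) ≠ 0 := by
    intro h
    have : (1 : K) = 0 := by linear_combination h5 - 2 * h
    exact one_ne_zero this
  have hm1 : m ≠ 1 := by
    intro h
    have := congrArg (fun g : Matrix.SpecialLinearGroup (Fin 2) K =>
      (g : Matrix (Fin 2) (Fin 2) K) 0 0) h
    simp only [hm, Matrix.SpecialLinearGroup.coe_one, Matrix.of_apply, Matrix.cons_val_zero,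
      Matrix.cons_val', Matrix.cons_val_fin_one, Matrix.one_apply_eq] at this
    apply h2
    linear_combination (-1 : K) * this
  have hmz : m * z = z * m := by
    apply Subtype.ext
    rw [Matrix.SpecialLinearGroup.coe_mul, Matrix.SpecialLinearGroup.coe_mul, hm, hz,
      Matrix.mul_fin_two, Matrix.mul_fin_two]
    simp
  have hz5 : z ^ 5 = 1 := by
    apply Subtype.ext
    rw [Matrix.SpecialLinearGroup.coe_pow, hz, upper_pow, Matrix.SpecialLinearGroup.coe_one,
      Matrix.one_fin_two]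
    simp [h5]
  have hz1 : z ≠ 1 := by
    intro h
    have := congrArg (fun g : Matrix.SpecialLinearGroup (Fin 2) K =>
      (g : Matrix (Fin 2) (Fin 2) K) 0 1) h
    simp only [hz, Matrix.SpecialLinearGroup.coe_one, Matrix.of_apply, Matrix.cons_val_zero,
      Matrix.cons_val_one, Matrix.cons_val', Matrix.cons_val_fin_one] at this
    simp at this
  -- images
  have hTT : (φ m : Matrix (Fin 2 ⊕ Fin 2) (Fin 2 ⊕ Fin 2) F) * (φ m : Matrix _ _ F) = 1 := by
    rw [← hΦmul, hmm, hΦone]
  have hT1 : (φ m : Matrix (Fin 2 ⊕ Fin 2) (Fin 2 ⊕ Fin 2) F) ≠ 1 := by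
    intro h
    rw [← hΦone] at h
    exact hm1 (hΦinj _ _ h)
  have hZ5 : (φ z : Matrix (Fin 2 ⊕ Fin 2) (Fin 2 ⊕ Fin 2) F) ^ 5 = 1 := by
    have : ((φ (z ^ 5) : ↥(Matrix.symplecticGroup (Fin 2) F)) :
        Matrix (Fin 2 ⊕ Fin 2) (Fin 2 ⊕ Fin 2) F) = (φ z : Matrix _ _ F) ^ 5 := by
      rw [map_pow]
      rfl
    rw [← this, hz5, hΦone]
  have hZ1 : (φ z : Matrix (Fin 2 ⊕ Fin 2) (Fin 2 ⊕ Fin 2) F) ≠ 1 := by
    intro h
    rw [← hΦone] at h
    exact hz1 (hΦinj _ _ h)
  have hTZ : (φ m : Matrix (Fin 2 ⊕ Fin 2) (Fin 2 ⊕ Fin 2) F) * (φ z : Matrix _ _ F)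
      = (φ z : Matrix _ _ F) * (φ m : Matrix _ _ F) := by
    rw [← hΦmul, ← hΦmul, hmz]
  have hT := eq_neg_one_of_commute hF _ _ hTT hT1 hZ5 hZ1 hTZ
  have hYY : (φ y : Matrix (Fin 2 ⊕ Fin 2) (Fin 2 ⊕ Fin 2) F) * (φ y : Matrix _ _ F) = -1 := by
    rw [← hΦmul, hyy, hT]
  have hXYX : (φ x : Matrix (Fin 2 ⊕ Fin 2) (Fin 2 ⊕ Fin 2) F) * (φ y : Matrix _ _ F)
      * (φ x : Matrix _ _ F) = (φ y : Matrix _ _ F) := by
    rw [← hΦmul, ← hΦmul, hxyx]
  have hX3 : (φ x : Matrix (Fin 2 ⊕ Fin 2) (Fin 2 ⊕ Fin 2) F) * (φ x : Matrix _ _ F)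
      * (φ x : Matrix _ _ F) = 1 := by
    rw [← hΦmul, ← hΦmul, hx3, hΦone]
  have hX1 : (φ x : Matrix (Fin 2 ⊕ Fin 2) (Fin 2 ⊕ Fin 2) F) ≠ 1 := by
    intro h
    rw [← hΦone] at h
    exact hx1 (hΦinj _ _ h)
  have hJ := SymplecticGroup.mem_iff'.mp (φ x).2
  exact fixed_space_core hF _ _ hX3 hX1 hYY hXYX hJ

end Main

end Cfsg.Agent.H54
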