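import Mathlib
import Cfsg.Agent.H97.SuRDefs
import Cfsg.Agent.H54.SuRCohA

set_option autoImplicit false

/-!
# S2282-COHB (team piece for helper97): a cocycle `SL_k(F) → F^k` vanishing on the diagonal
elements vanishes on the transvections (`k ≥ 3`, `|F| ≥ 4`)
-/

namespace Cfsg.Agent.H54.SuR

open Matrix Cfsg.Agent.H45.U Cfsg.Agent.H97.SuR

variable {F : Type*} [Field F]

/-- A diagonal with three prescribed entries of product `1` (and `1` elsewhere). -/
theorem exists_diag3 {k : ℕ} (p q r : Fin k) (hpq : p ≠ q) (hpr : p ≠ r) (hqr : q ≠ r)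
    (x y z : F) (h : x * y * z = 1) :
    ∃ (d : Fin k → F) (_ : ∏ n, d n = 1), d p = x ∧ d q = y ∧ d r = z := by
  classical
  refine ⟨fun n => (if n = p then x else 1) * (if n = q then y else 1) *
    (if n = r then z else 1), ?_, ?_, ?_, ?_⟩
  · rw [Finset.prod_mul_distrib, Finset.prod_mul_distrib, Finset.prod_ite_eq',
      Finset.prod_ite_eq', Finset.prod_ite_eq']
    simpa using h
  · simp [hpq, hpr]
  · simp [hpq.symm, hqr]
  · simp [hpr.symm, hqr.symm]

/-- S2282-COHB. -/
theorem coh_root [Fintype F] {k : ℕ} (hk : 3 ≤ k) (hF : 4 ≤ Fintype.card F)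
    (s : Matrix.SpecialLinearGroup (Fin k) F → Matrix (Fin k) (Fin 1) F) (hs : Coc s)
    (hdiag : ∀ g : Matrix.SpecialLinearGroup (Fin k) F, IsDiag g → s g = 0) :
    ∀ (i j : Fin k) (hij : i ≠ j) (a : F),
      s (Matrix.SpecialLinearGroup.transvection hij a) = 0 := by
  classical
  intro i j hij a
  obtain ⟨l, hl⟩ := exists_notMem_of_card ({0, 1, -1} : Finset F)
    (lt_of_le_of_lt Finset.card_le_three (by omega))
  have hl0 : l ≠ 0 := fun h => hl (by simp [h])
  have hl1 : l ≠ 1 := fun h => hl (by simp [h])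
  have hlm : l ≠ -1 := fun h => hl (by simp [h])
  have hll : l * l ≠ 1 := by
    intro h
    have h' : (l - 1) * (l + 1) = 0 := by linear_combination h
    rcases mul_eq_zero.1 h' with h'' | h''
    · exact hl1 (sub_eq_zero.1 h'')
    · exact hlm (eq_neg_of_add_eq_zero_left h'')
  have key : ∀ (d : Fin k → F) (hd : ∏ n, d n = 1), d i = d j → ∀ m : Fin k,
      ((((diagSL d hd)⁻¹ : Matrix.SpecialLinearGroup (Fin k) F) :
        Matrix (Fin k) (Fin k) F) m m - 1) *
        s (Matrix.SpecialLinearGroup.transvection hij a) m 0 = 0 := by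
    intro d hd hdij m
    have hcomm : diagSL d hd * Matrix.SpecialLinearGroup.transvection hij a =
        Matrix.SpecialLinearGroup.transvection hij a * diagSL d hd := by
      apply Subtype.ext
      rw [Matrix.SpecialLinearGroup.coe_mul, Matrix.SpecialLinearGroup.coe_mul]
      ext p q
      show (Matrix.diagonal d * Matrix.transvection i j a) p q =
        (Matrix.transvection i j a * Matrix.diagonal d) p q
      rw [Matrix.diagonal_mul, Matrix.mul_diagonal, Matrix.transvection, Matrix.add_apply,
        Matrix.single_apply]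
      by_cases hpq : p = q
      · subst hpq
        ring
      · rw [Matrix.one_apply_ne hpq]
        by_cases h : i = p ∧ j = q
        · obtain ⟨rfl, rfl⟩ := h
          rw [if_pos ⟨rfl, rfl⟩, hdij]
          ring
        · rw [if_neg h]
          ring
    have h1 := hs (diagSL d hd) (Matrix.SpecialLinearGroup.transvection hij a)
    have h2 := hs (Matrix.SpecialLinearGroup.transvection hij a) (diagSL d hd)
    rw [hcomm, h2, hdiag _ (diagSL_isDiag d hd), Matrix.mul_zero, zero_add, add_zero] at h1
    have h3 := congrFun (congrFun h1 m) 0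
    rw [diag_mul_col _ (inv_of_isDiag _ (diagSL_isDiag d hd)).1] at h3
    linear_combination h3
  ext m z
  have hz : z = 0 := Subsingleton.elim z 0
  subst hz
  rw [Matrix.zero_apply]
  by_cases hm : m = i ∨ m = j
  · obtain ⟨n, hn⟩ := exists_notMem_of_card ({i, j} : Finset (Fin k))
      (lt_of_le_of_lt Finset.card_le_two (by rw [Fintype.card_fin]; omega))
    have hni : n ≠ i := fun h => hn (by simp [h])
    have hnj : n ≠ j := fun h => hn (by simp [h])
    obtain ⟨d, hd, hdi, hdj, -⟩ := exists_diag3 i j n hij hni.symm hnj.symm l l (l * l)⁻¹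
      (by field_simp)
    have hk' := key d hd (hdi.trans hdj.symm) m
    have h1 := (inv_of_isDiag _ (diagSL_isDiag d hd)).2 m
    rw [diagSL_apply] at h1
    have hdm : d m = l := by
      rcases hm with rfl | rfl
      · exact hdi
      · exact hdj
    rw [hdm] at h1
    rcases mul_eq_zero.1 hk' with h0 | h0
    · exfalso
      rw [sub_eq_zero.1 h0, one_mul] at h1
      exact hl1 h1
    · exact h0
  · push Not at hm
    obtain ⟨d, hd, hdm, hdi, hdj⟩ := exists_diag3 m i j hm.1 hm.2 hij (l * l) l⁻¹ l⁻¹
      (by field_simp)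
    have hk' := key d hd (hdi.trans hdj.symm) m
    have h1 := (inv_of_isDiag _ (diagSL_isDiag d hd)).2 m
    rw [diagSL_apply, hdm] at h1
    rcases mul_eq_zero.1 hk' with h0 | h0
    · exfalso
      rw [sub_eq_zero.1 h0, one_mul] at h1
      exact hll h1
    · exact h0

end Cfsg.Agent.H54.SuR

example {F : Type*} [Field F] [Fintype F] {k : ℕ} (hk : 3 ≤ k) (hF : 4 ≤ Fintype.card F)
    (s : Matrix.SpecialLinearGroup (Fin k) F → Matrix (Fin k) (Fin 1) F)
    (hs : Cfsg.Agent.H97.SuR.Coc s)
    (hdiag : ∀ g : Matrix.SpecialLinearGroup (Fin k) F, Cfsg.Agent.H97.SuR.IsDiag g → s g = 0) :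
    ∀ (i j : Fin k) (hij : i ≠ j) (a : F),
      s (Matrix.SpecialLinearGroup.transvection hij a) = 0 :=
  Cfsg.Agent.H54.SuR.coh_root hk hF s hs hdiag
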