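import Mathlib
import Cfsg.Agent.H17.TgDefs

/-!
# TG-Q0C (helper54, for helper17's S1904): if `Q₀ ≠ B` then `B = {q² : q ∈ Q₀} · ℧¹(B)`
-/

set_option autoImplicit false

universe u

namespace Cfsg.Agent.H54.Tg

open Cfsg Cfsg.Agent.H17.Tg

/-- the exponent of `B` is `2 ^ (m + 1)` -/
theorem exists_exp {X : Type u} [Group X] [Finite X] (hp : IsPGroup 2 X) (B : Subgroup X)
    (hex : ∃ b ∈ B, b ^ 4 ≠ 1) :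
    ∃ m : ℕ, (∀ b ∈ B, b ^ 2 ^ (m + 1) = 1) ∧ ∃ b₀ ∈ B, b₀ ^ 2 ^ m ≠ 1 := by
  classical
  have hP : ∃ n : ℕ, ∀ b ∈ B, b ^ 2 ^ n = 1 := by
    obtain ⟨n, hn⟩ := IsPGroup.iff_card.mp hp
    refine ⟨n, fun b _ => ?_⟩
    rw [← hn]
    exact pow_card_eq_one'
  have hmin : ∀ m : ℕ, m < Nat.find hP → ¬ ∀ b ∈ B, b ^ 2 ^ m = 1 := fun m hm => Nat.find_min hP hm
  have hspec := Nat.find_spec hP
  have hne : Nat.find hP ≠ 0 := by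
    intro h0
    rw [h0] at hspec
    obtain ⟨b, hb, hb4⟩ := hex
    apply hb4
    have := hspec b hb
    rw [pow_zero, pow_one] at this
    rw [this, one_pow]
  obtain ⟨m, hm⟩ := Nat.exists_eq_succ_of_ne_zero hne
  refine ⟨m, ?_, ?_⟩
  · rw [hm] at hspec
    exact hspec
  · have h1 := hmin m (by omega)
    push Not at h1
    exact h1

/-- the homomorphism `q ↦ (q²)^(2^m)` from `Q₀` onto `V_B` with kernel `B` -/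
theorem q0_core (hQ0a : StQ0a.{u}) (hQ0b : StQ0b.{u}) (hVB : StVB.{u}) (hSq : StSq.{u})
    (hQ0grp : StQ0grp.{u}) (X : Type u) [Group X] [Finite X] (A : Subgroup (MulAut X))
    (hyp : Hyp X A) (B : Subgroup X) (hB : MaxNAI A B) (hnc : ¬ B ≤ Subgroup.center X)
    (hex : ∃ b ∈ B, b ^ 4 ≠ 1) (k : X) (hk : InQ0 B k) (hkB : k ∉ B) :
    ∃ m : ℕ, (∀ b ∈ B, b ^ 2 ^ (m + 1) = 1) ∧ (∃ b₀ ∈ B, b₀ ^ 2 ^ m ≠ 1) ∧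
      (∀ q : X, InQ0 B q → (q ^ 2) ^ 2 ^ m ∈ B ∧ ((q ^ 2) ^ 2 ^ m) ^ 2 = 1) ∧
      (∀ q q' : X, InQ0 B q → InQ0 B q' →
        ((q * q') ^ 2) ^ 2 ^ m = (q ^ 2) ^ 2 ^ m * (q' ^ 2) ^ 2 ^ m) ∧
      (∀ q : X, InQ0 B q → (q ^ 2) ^ 2 ^ m = 1 → q ∈ B) ∧
      (∀ v ∈ B, v ^ 2 = 1 → ∃ q : X, InQ0 B q ∧ (q ^ 2) ^ 2 ^ m = v) := by
  classical
  obtain ⟨m, hm, b₀, hb₀, hb₀ne⟩ := exists_exp hyp.pgrp B hex
  have hNAI : NAI A B := hB.1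
  have hab : ∀ a ∈ B, ∀ b ∈ B, a * b = b * a := hNAI.2.2
  obtain ⟨hg1, hg2, hg3, hg4⟩ := hQ0grp X A B hNAI
  obtain ⟨-, -, -, -, -, hv6⟩ := hVB X A hyp B hNAI hnc
  have H1 : ∀ q : X, InQ0 B q → (q ^ 2) ^ 2 ^ m ∈ B ∧ ((q ^ 2) ^ 2 ^ m) ^ 2 = 1 := by
    intro q hq
    refine ⟨B.pow_mem hq.2.1 _, ?_⟩
    rw [← pow_mul, ← pow_succ]
    exact hm _ hq.2.1
  have H2 : ∀ q q' : X, InQ0 B q → InQ0 B q' →
      ((q * q') ^ 2) ^ 2 ^ m = (q ^ 2) ^ 2 ^ m * (q' ^ 2) ^ 2 ^ m := by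
    intro q q' hq hq'
    obtain ⟨e, he, heq⟩ := hQ0b X A hyp B hB hnc hex q q' hq hq'
    have c1 : Commute (q ^ 2) (q' ^ 2) := hab _ hq.2.1 _ hq'.2.1
    have c2 : Commute (q ^ 2 * q' ^ 2) (e ^ 2) :=
      hab _ (B.mul_mem hq.2.1 hq'.2.1) _ (B.pow_mem he 2)
    rw [heq, c2.mul_pow, c1.mul_pow]
    have : (e ^ 2) ^ 2 ^ m = 1 := by
      rw [← pow_mul, ← pow_succ']
      exact hm e he
    rw [this, mul_one]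
  have H3 : ∀ q : X, InQ0 B q → (q ^ 2) ^ 2 ^ m = 1 → q ∈ B := by
    intro q hq h1
    obtain ⟨d, hd, hdq⟩ := hSq X A hyp B hNAI hnc m b₀ hb₀ hb₀ne (q ^ 2) hq.2.1 h1
    exact hQ0a X A hyp B hB hnc hex q hq ⟨d, hd, hdq.symm⟩
  refine ⟨m, hm, ⟨b₀, hb₀, hb₀ne⟩, H1, H2, H3, ?_⟩
  let W : Subgroup X :=
    { carrier := {w | ∃ q : X, InQ0 B q ∧ (q ^ 2) ^ 2 ^ m = w}
      mul_mem' := by
        rintro w w' ⟨q, hq, rfl⟩ ⟨q', hq', rfl⟩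
        exact ⟨q * q', hg2 q q' hq hq', H2 q q' hq hq'⟩
      one_mem' := ⟨1, hg1 1 B.one_mem, by simp⟩
      inv_mem' := by
        rintro w ⟨q, hq, rfl⟩
        refine ⟨q, hq, ?_⟩
        have := (H1 q hq).2
        rw [pow_two] at this
        exact (inv_eq_of_mul_eq_one_left this).symm }
  have hWinv : AInv A W := by
    rintro φ hφ w ⟨q, hq, rfl⟩
    exact ⟨φ q, hg4 φ hφ q hq, by rw [map_pow, map_pow]⟩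
  have hWB : ∀ w ∈ W, w ∈ B ∧ w ^ 2 = 1 := by
    rintro w ⟨q, hq, rfl⟩
    exact H1 q hq
  rcases hv6 W hWinv hWB with h | h
  · exfalso
    apply hkB
    apply H3 k hk
    have : (k ^ 2) ^ 2 ^ m ∈ W := ⟨k, hk, rfl⟩
    rw [h, Subgroup.mem_bot] at this
    exact this
  · intro v hv hv2
    exact h v hv hv2

/-- TG-Q0C -/
theorem q0c (hQ0a : StQ0a.{u}) (hQ0b : StQ0b.{u}) (hVB : StVB.{u}) (hSq : StSq.{u})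
    (hQ0grp : StQ0grp.{u}) : StQ0c.{u} := by
  intro X _ _ A hyp B hB hnc hex hk b hb
  obtain ⟨k, hk, hkB⟩ := hk
  obtain ⟨m, hm, ⟨b₀, hb₀, hb₀ne⟩, H1, H2, H3, H5⟩ :=
    q0_core hQ0a hQ0b hVB hSq hQ0grp X A hyp B hB hnc hex k hk hkB
  have hNAI : NAI A B := hB.1
  have hab : ∀ a ∈ B, ∀ b ∈ B, a * b = b * a := hNAI.2.2
  have hv2 : (b ^ 2 ^ m) ^ 2 = 1 := by
    rw [← pow_mul, ← pow_succ]
    exact hm b hb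
  obtain ⟨q, hq, hqv⟩ := H5 (b ^ 2 ^ m) (B.pow_mem hb _) hv2
  have hc : b * (q ^ 2)⁻¹ ∈ B := B.mul_mem hb (B.inv_mem hq.2.1)
  have hcomm : Commute b (q ^ 2)⁻¹ := hab _ hb _ (B.inv_mem hq.2.1)
  have hcp : (b * (q ^ 2)⁻¹) ^ 2 ^ m = 1 := by
    rw [hcomm.mul_pow, inv_pow, hqv, mul_inv_cancel]
  obtain ⟨d, hd, hdc⟩ := hSq X A hyp B hNAI hnc m b₀ hb₀ hb₀ne _ hc hcp
  refine ⟨q, hq, d, hd, ?_⟩
  rw [hdc, hab _ hq.2.1 _ hc]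
  group

example (hQ0a : Cfsg.Agent.H17.Tg.StQ0a.{u}) (hQ0b : Cfsg.Agent.H17.Tg.StQ0b.{u})
    (hVB : Cfsg.Agent.H17.Tg.StVB.{u}) (hSq : Cfsg.Agent.H17.Tg.StSq.{u})
    (hQ0grp : Cfsg.Agent.H17.Tg.StQ0grp.{u}) : Cfsg.Agent.H17.Tg.StQ0c.{u} :=
  q0c hQ0a hQ0b hVB hSq hQ0grp

end Cfsg.Agent.H54.Tg
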