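import Mathlib
import Cfsg.Agent.H17.TgDefs
import Cfsg.Agent.H54.TgQ0C

/-!
# TG-Q0D (helper54, for helper17's S1904): (exponent of `B` at least 8) `Q₀ = B`
-/

set_option autoImplicit false

universe u

namespace Cfsg.Agent.H54.Tg

open Cfsg Cfsg.Agent.H17.Tg

/-- enumeration of a 4-element set containing `1, a, c, a * c` -/
theorem four_enum {X : Type u} [Group X] (S : Set X) (hS : S.ncard = 4) (a c : X)
    (h1 : (1 : X) ∈ S) (ha : a ∈ S) (hc : c ∈ S) (hac : a * c ∈ S)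
    (ha1 : a ≠ 1) (hc1 : c ≠ 1) (hne : a ≠ c) (hac1 : a * c ≠ 1) :
    ∀ x ∈ S, x = 1 ∨ x = a ∨ x = c ∨ x = a * c := by
  classical
  have hfin : S.Finite := Set.finite_of_ncard_ne_zero (by rw [hS]; norm_num)
  have hT : ({1, a, c, a * c} : Finset X).card = 4 := by
    have h1 : (1 : X) ∉ ({a, c, a * c} : Finset X) := by
      simp only [Finset.mem_insert, Finset.mem_singleton, not_or]
      exact ⟨fun h => ha1 h.symm, fun h => hc1 h.symm, fun h => hac1 h.symm⟩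
    have h2 : a ∉ ({c, a * c} : Finset X) := by
      simp only [Finset.mem_insert, Finset.mem_singleton, not_or]
      refine ⟨hne, fun h => hc1 ?_⟩
      have : a * 1 = a * c := by rw [mul_one]; exact h
      exact (mul_left_cancel this).symm
    have h3 : c ∉ ({a * c} : Finset X) := by
      simp only [Finset.mem_singleton]
      intro h
      apply ha1
      have : 1 * c = a * c := by rw [one_mul]; exact h
      exact (mul_right_cancel this).symm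
    rw [Finset.card_insert_of_notMem h1, Finset.card_insert_of_notMem h2,
      Finset.card_insert_of_notMem h3, Finset.card_singleton]
  have hsub : ((({1, a, c, a * c} : Finset X)) : Set X) ⊆ S := by
    intro x hx
    simp only [Finset.coe_insert, Finset.coe_singleton, Set.mem_insert_iff,
      Set.mem_singleton_iff] at hx
    rcases hx with rfl | rfl | rfl | rfl <;> assumption
  have heq : ((({1, a, c, a * c} : Finset X)) : Set X) = S :=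
    Set.eq_of_subset_of_ncard_le hsub (by rw [hS, Set.ncard_coe_finset, hT]) hfin
  intro x hx
  rw [← heq] at hx
  simpa using hx

/-- TG-Q0D -/
theorem q0d (hQ0a : StQ0a.{u}) (hQ0b : StQ0b.{u}) (hVB : StVB.{u}) (hSq : StSq.{u})
    (hSelf : StSelf.{u}) (hQ0grp : StQ0grp.{u}) : StQ0d.{u} := by
  intro X _ _ A hyp B hB hnc hex q₀ hq₀
  classical
  by_contra hq₀B
  obtain ⟨m, hm, -, H1, H2, H3, -⟩ :=
    q0_core hQ0a hQ0b hVB hSq hQ0grp X A hyp B hB hnc hex q₀ hq₀ hq₀B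
  have hQ0c := q0c hQ0a hQ0b hVB hSq hQ0grp X A hyp B hB hnc hex ⟨q₀, hq₀, hq₀B⟩
  have hNAI : NAI A B := hB.1
  have hnorm : B.Normal := hNAI.1
  have hab : ∀ a ∈ B, ∀ b ∈ B, a * b = b * a := hNAI.2.2
  obtain ⟨hg1, hg2, hg3, hg4⟩ := hQ0grp X A B hNAI
  obtain ⟨hv1, hv2, hv3, hv4, -, -⟩ := hVB X A hyp B hNAI hnc
  have hcen : ∀ v ∈ B, v ^ 2 = 1 → ∀ g : X, g * v = v * g := by
    intro v hv hv2 g
    exact Subgroup.mem_center_iff.mp (hv1 v hv hv2) g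
  -- the commutator map `b ↦ [b, q]`
  have G0 : ∀ b ∈ B, ∀ q : X, InQ0 B q →
      b * q * b⁻¹ * q⁻¹ ∈ B ∧ (b * q * b⁻¹ * q⁻¹) ^ 2 = 1 := by
    intro b hb q hq
    have hmem : q * b⁻¹ * q⁻¹ ∈ B := hnorm.conj_mem b⁻¹ (B.inv_mem hb) q
    have e1 : b * q * b⁻¹ * q⁻¹ = b * (q * b⁻¹ * q⁻¹) := by group
    refine ⟨by rw [e1]; exact B.mul_mem hb hmem, ?_⟩
    have hc : Commute b (q * b⁻¹ * q⁻¹) := hab _ hb _ hmem
    rw [e1, hc.mul_pow]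
    have e2 : (q * b⁻¹ * q⁻¹) ^ 2 = q * (b ^ 2)⁻¹ * q⁻¹ := by
      rw [pow_two, pow_two]; group
    have e3 : q * (b ^ 2)⁻¹ = (b ^ 2)⁻¹ * q := by
      have h := hq.1 b hb
      calc q * (b ^ 2)⁻¹ = (b ^ 2)⁻¹ * (b ^ 2 * q) * (b ^ 2)⁻¹ := by group
        _ = (b ^ 2)⁻¹ * (q * b ^ 2) * (b ^ 2)⁻¹ := by rw [h]
        _ = (b ^ 2)⁻¹ * q := by group
    rw [e2, e3]
    group
  have G2a : ∀ b ∈ B, ∀ b' ∈ B, ∀ q : X, InQ0 B q →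
      (b * b') * q * (b * b')⁻¹ * q⁻¹ = (b * q * b⁻¹ * q⁻¹) * (b' * q * b'⁻¹ * q⁻¹) := by
    intro b hb b' hb' q hq
    have hz := hcen _ (G0 b' hb' q hq).1 (G0 b' hb' q hq).2
    calc (b * b') * q * (b * b')⁻¹ * q⁻¹
        = b * ((b' * q * b'⁻¹ * q⁻¹) * (q * b⁻¹ * q⁻¹)) := by group
      _ = b * ((q * b⁻¹ * q⁻¹) * (b' * q * b'⁻¹ * q⁻¹)) := by rw [hz (q * b⁻¹ * q⁻¹)]
      _ = (b * q * b⁻¹ * q⁻¹) * (b' * q * b'⁻¹ * q⁻¹) := by group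
  have G2b : ∀ b ∈ B, ∀ q q'' : X, InQ0 B q → InQ0 B q'' →
      b * (q * q'') * b⁻¹ * (q * q'')⁻¹ = (b * q * b⁻¹ * q⁻¹) * (b * q'' * b⁻¹ * q''⁻¹) := by
    intro b hb q q'' hq hq''
    have hz := hcen _ (G0 b hb q'' hq'').1 (G0 b hb q'' hq'').2
    calc b * (q * q'') * b⁻¹ * (q * q'')⁻¹
        = b * q * b⁻¹ * ((b * q'' * b⁻¹ * q''⁻¹) * q⁻¹) := by group
      _ = b * q * b⁻¹ * (q⁻¹ * (b * q'' * b⁻¹ * q''⁻¹)) := by rw [hz q⁻¹]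
      _ = (b * q * b⁻¹ * q⁻¹) * (b * q'' * b⁻¹ * q''⁻¹) := by group
  -- the pairing `γ(q, q') = [q'², q]`
  have G3 : ∀ q q' q'' : X, InQ0 B q → InQ0 B q' → InQ0 B q'' →
      (q' * q'') ^ 2 * q * ((q' * q'') ^ 2)⁻¹ * q⁻¹ =
        (q' ^ 2 * q * (q' ^ 2)⁻¹ * q⁻¹) * (q'' ^ 2 * q * (q'' ^ 2)⁻¹ * q⁻¹) := by
    intro q q' q'' hq hq' hq''
    obtain ⟨e, he, heq⟩ := hQ0b X A hyp B hB hnc hex q' q'' hq' hq''
    rw [heq, G2a _ (B.mul_mem hq'.2.1 hq''.2.1) _ (B.pow_mem he 2) q hq,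
      G2a _ hq'.2.1 _ hq''.2.1 q hq]
    have h := hq.1 e he
    have : e ^ 2 * q * (e ^ 2)⁻¹ * q⁻¹ = 1 := by
      rw [← h]; group
    rw [this, mul_one]
  have G4 : ∀ q q' q'' : X, InQ0 B q → InQ0 B q' → InQ0 B q'' →
      q' ^ 2 * (q * q'') * (q' ^ 2)⁻¹ * (q * q'')⁻¹ =
        (q' ^ 2 * q * (q' ^ 2)⁻¹ * q⁻¹) * (q' ^ 2 * q'' * (q' ^ 2)⁻¹ * q''⁻¹) := by
    intro q q' q'' hq hq' hq''
    exact G2b _ hq'.2.1 q q'' hq hq''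
  have G5a : ∀ b ∈ B, ∀ q' : X, InQ0 B q' → q' ^ 2 * b * (q' ^ 2)⁻¹ * b⁻¹ = 1 := by
    intro b hb q' hq'
    rw [hab _ hq'.2.1 _ hb]
    group
  have G5b : ∀ q : X, InQ0 B q → ∀ b ∈ B, b ^ 2 * q * (b ^ 2)⁻¹ * q⁻¹ = 1 := by
    intro q hq b hb
    rw [← hq.1 b hb]
    group
  have G6 : ∀ q : X, q ^ 2 * q * (q ^ 2)⁻¹ * q⁻¹ = 1 := by
    intro q
    group
  have G7 : ∀ q q' : X, InQ0 B q → InQ0 B q' →
      q ^ 2 * q' * (q ^ 2)⁻¹ * q'⁻¹ = q' ^ 2 * q * (q' ^ 2)⁻¹ * q⁻¹ := by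
    intro q q' hq hq'
    have h1 := G6 (q * q')
    rw [G4 q (q * q') q' hq (hg2 q q' hq hq') hq', G3 q q q' hq hq hq', G3 q' q q' hq' hq hq',
      G6 q, G6 q', one_mul, mul_one] at h1
    have h2 := (G0 _ hq.2.1 q' hq').2
    rw [pow_two] at h2
    exact (mul_right_cancel (h1.trans h2.symm)).symm
  -- `γ` only depends on the classes modulo `B`
  have hinv : ∀ q : X, ((q⁻¹) ^ 2) ^ 2 ^ m = ((q ^ 2) ^ 2 ^ m)⁻¹ := by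
    intro q
    rw [inv_pow, inv_pow]
  have G8a : ∀ q q'' q' : X, InQ0 B q → InQ0 B q'' → InQ0 B q' →
      (q ^ 2) ^ 2 ^ m = (q'' ^ 2) ^ 2 ^ m →
      q' ^ 2 * q * (q' ^ 2)⁻¹ * q⁻¹ = q' ^ 2 * q'' * (q' ^ 2)⁻¹ * q''⁻¹ := by
    intro q q'' q' hq hq'' hq' hh
    have hb : q⁻¹ * q'' ∈ B := by
      apply H3 _ (hg2 _ _ (hg3 q hq) hq'')
      rw [H2 _ _ (hg3 q hq) hq'', hinv, hh, inv_mul_cancel]
    have key := G4 q q' (q⁻¹ * q'') hq hq' (hg1 _ hb)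
    rw [G5a _ hb q' hq', mul_one] at key
    have e : q * (q⁻¹ * q'') = q'' := by group
    rw [e] at key
    exact key.symm
  have G8b : ∀ q q'' q' : X, InQ0 B q → InQ0 B q'' → InQ0 B q' →
      (q ^ 2) ^ 2 ^ m = (q'' ^ 2) ^ 2 ^ m →
      q ^ 2 * q' * (q ^ 2)⁻¹ * q'⁻¹ = q'' ^ 2 * q' * (q'' ^ 2)⁻¹ * q'⁻¹ := by
    intro q q'' q' hq hq'' hq' hh
    rw [G7 q q' hq hq', G7 q'' q' hq'' hq']
    exact G8a q q'' q' hq hq'' hq' hh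
  have main : ∀ q1 q2 : X, InQ0 B q1 → InQ0 B q2 → q2 ^ 2 * q1 * (q2 ^ 2)⁻¹ * q1⁻¹ = 1 := by
    intro q1 q2 h1 h2
    obtain ⟨a, ha⟩ : ∃ a : X, (q1 ^ 2) ^ 2 ^ m = a := ⟨_, rfl⟩
    obtain ⟨c, hc⟩ : ∃ c : X, (q2 ^ 2) ^ 2 ^ m = c := ⟨_, rfl⟩
    by_cases ha1 : a = 1
    · exact G5a q1 (H3 q1 h1 (ha.trans ha1)) q2 h2
    by_cases hc1 : c = 1
    · exact G5b q1 h1 q2 (H3 q2 h2 (hc.trans hc1))
    by_cases hac : a = c
    · rw [G8a q1 q2 q2 h1 h2 h2 (ha.trans (hac.trans hc.symm))]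
      exact G6 q2
    by_contra hv
    obtain ⟨haB, ha2⟩ := H1 q1 h1
    obtain ⟨hcB, hc2⟩ := H1 q2 h2
    have h12 := hg2 q1 q2 h1 h2
    obtain ⟨hacB, hac2⟩ := H1 (q1 * q2) h12
    have hh12 : ((q1 * q2) ^ 2) ^ 2 ^ m = a * c := by rw [H2 q1 q2 h1 h2, ha, hc]
    rw [hh12] at hacB hac2
    rw [ha] at haB ha2
    rw [hc] at hcB hc2
    have hac1 : a * c ≠ 1 := by
      intro h
      apply hac
      rw [pow_two] at hc2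
      exact mul_right_cancel (h.trans hc2.symm)
    have hS : Set.ncard {v : X | v ∈ B ∧ v ^ 2 = 1} = 4 := by
      rw [← Nat.card_coe_set_eq]
      exact hv2
    have henum := four_enum {v : X | v ∈ B ∧ v ^ 2 = 1} hS a c ⟨B.one_mem, one_pow 2⟩
      ⟨haB, ha2⟩ ⟨hcB, hc2⟩ ⟨hacB, hac2⟩ ha1 hc1 hac hac1
    obtain ⟨φ, hφ, hφa⟩ := hv4 a haB ha2 ha1
    have hfpf : ∀ v ∈ B, v ^ 2 = 1 → v ≠ 1 → φ v ≠ v :=
      (hv3 φ hφ).resolve_left (fun h => hφa (h a haB ha2))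
    have hφV : ∀ x ∈ B, x ^ 2 = 1 → φ x ∈ B ∧ (φ x) ^ 2 = 1 := by
      intro x hx hx2
      exact ⟨hNAI.2.1 φ hφ x hx, by rw [← map_pow, hx2, map_one]⟩
    have hφ1 : ∀ x : X, x ≠ 1 → φ x ≠ 1 := by
      intro x hx h
      exact hx ((MulEquiv.map_eq_one_iff φ).mp h)
    have hvB := G0 _ h2.2.1 q1 h1
    have hφv : φ (q2 ^ 2 * q1 * (q2 ^ 2)⁻¹ * q1⁻¹) =
        (φ q2) ^ 2 * φ q1 * ((φ q2) ^ 2)⁻¹ * (φ q1)⁻¹ := by
      simp only [map_mul, map_pow, map_inv]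
    have hφh : ∀ q : X, ((φ q) ^ 2) ^ 2 ^ m = φ ((q ^ 2) ^ 2 ^ m) := by
      intro q
      rw [map_pow, map_pow]
    have hφq1 := hg4 φ hφ q1 h1
    have hφq2 := hg4 φ hφ q2 h2
    have hfix : φ (q2 ^ 2 * q1 * (q2 ^ 2)⁻¹ * q1⁻¹) = q2 ^ 2 * q1 * (q2 ^ 2)⁻¹ * q1⁻¹ → False :=
      fun h => hfpf _ hvB.1 hvB.2 hv h
    have ea := henum (φ a) (hφV a haB ha2)
    have ec := henum (φ c) (hφV c hcB hc2)
    rcases ea with ea | ea | ea | ea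
    · exact hφ1 a ha1 ea
    · exact hφa ea
    · rcases ec with ec | ec | ec | ec
      · exact hφ1 c hc1 ec
      · apply hfpf (a * c) hacB hac2 hac1
        rw [map_mul, ea, ec]
        exact hab c hcB a haB
      · exact hfpf c hcB hc2 hc1 ec
      · apply hfix
        rw [hφv]
        have s1 : (φ q2) ^ 2 * φ q1 * ((φ q2) ^ 2)⁻¹ * (φ q1)⁻¹ =
            (φ q2) ^ 2 * q2 * ((φ q2) ^ 2)⁻¹ * q2⁻¹ :=
          G8a (φ q1) q2 (φ q2) hφq1 h2 hφq2 (by rw [hφh, ha, ea, hc])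
        have s2 : (φ q2) ^ 2 * q2 * ((φ q2) ^ 2)⁻¹ * q2⁻¹ =
            (q1 * q2) ^ 2 * q2 * ((q1 * q2) ^ 2)⁻¹ * q2⁻¹ :=
          G8b (φ q2) (q1 * q2) q2 hφq2 h12 h2 (by rw [hφh, hc, ec, hh12])
        rw [s1, s2, G3 q2 q1 q2 h2 h1 h2, G6 q2, mul_one, G7 q1 q2 h1 h2]
    · rcases ec with ec | ec | ec | ec
      · exact hφ1 c hc1 ec
      · apply hfix
        rw [hφv]
        have s1 : (φ q2) ^ 2 * φ q1 * ((φ q2) ^ 2)⁻¹ * (φ q1)⁻¹ =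
            (φ q2) ^ 2 * (q1 * q2) * ((φ q2) ^ 2)⁻¹ * (q1 * q2)⁻¹ :=
          G8a (φ q1) (q1 * q2) (φ q2) hφq1 h12 hφq2 (by rw [hφh, ha, ea, hh12])
        have s2 : (φ q2) ^ 2 * (q1 * q2) * ((φ q2) ^ 2)⁻¹ * (q1 * q2)⁻¹ =
            q1 ^ 2 * (q1 * q2) * (q1 ^ 2)⁻¹ * (q1 * q2)⁻¹ :=
          G8b (φ q2) q1 (q1 * q2) hφq2 h1 h12 (by rw [hφh, hc, ec, ha])
        rw [s1, s2, G4 q1 q1 q2 h1 h1 h2, G6 q1, one_mul, G7 q1 q2 h1 h2]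
      · exact hfpf c hcB hc2 hc1 ec
      · apply hac
        exact φ.injective (ea.trans ec.symm)
  apply hq₀B
  apply hSelf X A hyp B hB hnc q₀
  intro b hb
  obtain ⟨q', hq', d, hd, rfl⟩ := hQ0c b hb
  have g := main q₀ q' hq₀ hq'
  have g' : q' ^ 2 * q₀ = q₀ * q' ^ 2 := by
    have h := mul_inv_eq_one.mp g
    exact mul_inv_eq_iff_eq_mul.mp h
  have g2 := hq₀.1 d hd
  calc q₀ * (q' ^ 2 * d ^ 2) = (q₀ * q' ^ 2) * d ^ 2 := by rw [mul_assoc]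
    _ = (q' ^ 2 * q₀) * d ^ 2 := by rw [g']
    _ = q' ^ 2 * (q₀ * d ^ 2) := by rw [mul_assoc]
    _ = q' ^ 2 * (d ^ 2 * q₀) := by rw [g2]
    _ = q' ^ 2 * d ^ 2 * q₀ := by rw [mul_assoc]

example (hQ0a : Cfsg.Agent.H17.Tg.StQ0a.{u}) (hQ0b : Cfsg.Agent.H17.Tg.StQ0b.{u})
    (hVB : Cfsg.Agent.H17.Tg.StVB.{u}) (hSq : Cfsg.Agent.H17.Tg.StSq.{u})
    (hSelf : Cfsg.Agent.H17.Tg.StSelf.{u}) (hQ0grp : Cfsg.Agent.H17.Tg.StQ0grp.{u}) :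
    Cfsg.Agent.H17.Tg.StQ0d.{u} :=
  q0d hQ0a hQ0b hVB hSq hSelf hQ0grp

end Cfsg.Agent.H54.Tg
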