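import Mathlib
import Cfsg.Agent.H67.UmDefs
import Cfsg.Agent.H45.SingerU

/-!
# UM-SD: a self-dual irreducible polynomial over the field with `q²` elements has odd degree
`a` and divides `X ^ (q ^ a + 1) - 1`
-/

set_option autoImplicit false

namespace Cfsg.Agent.H54.Um

open Polynomial

universe u

/-- **UM-SD** -/
theorem sd : Cfsg.Agent.H67.Um.StSD.{u} := by
  intro F _ _ q σ hF hσq h hh hhm hh0 hsd
  classical
  obtain ⟨j, hjodd, hj⟩ := Cfsg.Agent.H45.usd_dvd hF σ hσq h hh hhm hh0 hsd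
  have hfact : Fact (Irreducible h) := ⟨hh⟩
  have hfinM : Module.Finite F (AdjoinRoot h) := (AdjoinRoot.powerBasis hhm.ne_zero).finite
  have hfinK : Finite (AdjoinRoot h) := Module.finite_of_finite F
  have hrank : Module.finrank F (AdjoinRoot h) = h.natDegree := by
    rw [(AdjoinRoot.powerBasis hhm.ne_zero).finrank, AdjoinRoot.powerBasis_dim]
  obtain ⟨α, hα⟩ : ∃ α : AdjoinRoot h, α = AdjoinRoot.root h := ⟨_, rfl⟩
  have hαj : α ^ (q ^ j + 1) = 1 := by
    have e := (AdjoinRoot.mk_eq_zero (f := h)).mpr hj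
    rw [map_sub, map_pow, AdjoinRoot.mk_X, map_one, ← hα, sub_eq_zero] at e
    exact e
  have hα0 : α ≠ 0 := by
    intro h0
    rw [h0, zero_pow (by omega)] at hαj
    exact zero_ne_one hαj
  have h1 : α ^ (q ^ j) = α⁻¹ := by
    rw [pow_succ] at hαj
    exact eq_inv_of_mul_eq_one_left hαj
  have h2 : α ^ ((q ^ 2) ^ j) = α := by
    have e : (q ^ 2) ^ j = q ^ j * q ^ j := by ring
    rw [e, pow_mul, h1, inv_pow, h1, inv_inv]
  have hfrob : ∀ (m : ℕ) (x : AdjoinRoot h),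
      (FiniteField.frobeniusAlgHom F (AdjoinRoot h) ^ m) x = x ^ ((q ^ 2) ^ m) := by
    intro m x
    rw [AlgHom.coe_pow, FiniteField.coe_frobeniusAlgHom, pow_iterate, hF]
  have h3 : FiniteField.frobeniusAlgHom F (AdjoinRoot h) ^ j = 1 := by
    apply AdjoinRoot.algHom_ext
    rw [hfrob, ← hα, h2]
    rfl
  have hdvd : h.natDegree ∣ j := by
    rw [← hrank, ← FiniteField.orderOf_frobeniusAlgHom F (AdjoinRoot h)]
    exact orderOf_dvd_of_pow_eq_one h3
  have hodd : Odd h.natDegree := hjodd.of_dvd_nat hdvd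
  refine ⟨hodd, ?_⟩
  obtain ⟨m, rfl⟩ := hdvd
  have hmodd : Odd m := hjodd.of_dvd_nat (Dvd.intro_left _ rfl)
  obtain ⟨s, rfl⟩ := hmodd
  have h4 : ∀ x : AdjoinRoot h, x ^ ((q ^ 2) ^ h.natDegree) = x := by
    intro x
    have e := pow_orderOf_eq_one (FiniteField.frobeniusAlgHom F (AdjoinRoot h))
    rw [FiniteField.orderOf_frobeniusAlgHom, hrank] at e
    have e2 := hfrob h.natDegree x
    rw [e] at e2
    exact e2.symm
  have h5 : ∀ (s : ℕ) (x : AdjoinRoot h), x ^ (((q ^ 2) ^ h.natDegree) ^ s) = x := by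
    intro s
    induction s with
    | zero => intro x; rw [pow_zero, pow_one]
    | succ s ih => intro x; rw [pow_succ, pow_mul, ih, h4]
  have h6 : α ^ (q ^ h.natDegree) = α⁻¹ := by
    rw [← h1]
    have e : q ^ (h.natDegree * (2 * s + 1)) =
        ((q ^ 2) ^ h.natDegree) ^ s * q ^ h.natDegree := by ring
    rw [e, pow_mul, h5]
  rw [← AdjoinRoot.mk_eq_zero, map_sub, map_pow, AdjoinRoot.mk_X, map_one, ← hα, pow_succ, h6,
    inv_mul_cancel₀ hα0, sub_self]

universe v in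
example : Cfsg.Agent.H67.Um.StSD.{v} := sd

end Cfsg.Agent.H54.Um
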